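import Mathlib

/-! A Bertrand type theorem for primes congruent to `2` modulo `3`. -/

set_option autoImplicit false

namespace Cfsg.Agent.H3

open Finset Nat

theorem card_dvd_le (n : ℕ) {d : ℕ} (hd : Nat.Coprime d 3) : #{k ∈ range n | d ∣ 3 * k + 2} ≤ n / d + 1 := by
  have h0 : 0 < d := Nat.pos_of_ne_zero (by rintro rfl; simp at hd)
  rw [← card_range (n / d + 1)]
  refine card_le_card_of_injOn (· / d) (fun k hk => ?_) fun a ha b hb (h : a / d = b / d) => ?_
  · simp only [coe_filter, mem_range, Set.mem_setOf_eq, coe_range, Set.mem_Iio] at hk ⊢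
    exact Nat.lt_succ_of_le (Nat.div_le_div_right hk.1.le)
  · simp only [coe_filter, mem_range, Set.mem_setOf_eq] at ha hb
    have : a ≡ b [MOD d] := by
      apply Nat.ModEq.cancel_left_of_coprime (c := 3) hd
      apply Nat.ModEq.add_right_cancel' 2
      exact ((Nat.modEq_zero_iff_dvd).2 ha.2).trans ((Nat.modEq_zero_iff_dvd).2 hb.2).symm
    rw [← Nat.div_add_mod a d, ← Nat.div_add_mod b d, h, this]

theorem fact_prod {p : ℕ} (hp : p.Prime) (n b : ℕ) (hb : 3 * n ≤ p ^ b) :
    (∏ k ∈ range n, (3 * k + 2)).factorization p = ∑ i ∈ Ico 1 b, #{k ∈ range n | p ^ i ∣ 3 * k + 2} := by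
  rw [factorization_prod_apply (fun _ _ => by omega)]
  simp only [card_filter]
  rw [sum_comm]
  refine sum_congr rfl fun k hk => ?_
  rw [factorization_eq_card_pow_dvd_of_lt hp (by omega) (b := b) (by have := mem_range.1 hk; omega), card_filter]

theorem prod_lower (n : ℕ) : 3 ^ n * n ! ≤ (∏ k ∈ range n, (3 * k + 2)) * (n + 1) := by
  induction n with
  | zero => simp
  | succ n ih =>
    rw [prod_range_succ, pow_succ, factorial_succ]
    generalize ∏ k ∈ range n, (3 * k + 2) = A at *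
    refine Nat.le_of_mul_le_mul_right (c := n + 1) ?_ (by omega)
    calc 3 ^ n * 3 * ((n + 1) * n !) * (n + 1) = (3 ^ n * n !) * (3 * (n + 1) * (n + 1)) := by ring
      _ ≤ (A * (n + 1)) * ((3 * n + 2) * (n + 1 + 1)) := Nat.mul_le_mul ih (by nlinarith)
      _ = _ := by ring

theorem choose_three_le (m : ℕ) : (3 * m).choose m * 4 ^ m ≤ 27 ^ m := by
  have h := add_pow (1 : ℕ) 2 (3 * m)
  have h2 : 1 ^ m * 2 ^ (3 * m - m) * (3 * m).choose m ≤ ∑ i ∈ range (3 * m + 1), 1 ^ i * 2 ^ (3 * m - i) * (3 * m).choose i :=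
    single_le_sum (f := fun i => 1 ^ i * 2 ^ (3 * m - i) * (3 * m).choose i) (fun _ _ => Nat.zero_le _)
      (mem_range.2 (by omega))
  simp only [Nat.cast_id] at h
  rw [← h, show 3 * m - m = 2 * m by omega, pow_mul, pow_mul] at h2
  simpa [mul_comm] using h2

theorem main_dvd (m : ℕ) (hm : 0 < m) (h : ∀ p, p.Prime → p % 3 = 2 → p < 6 * m → p < 3 * m + 5) :
    (∏ k ∈ range (2 * m), (3 * k + 2)) * 3 ^ ((2 * m)!.factorization 3) * m ! ∣
      (3 * m)! * primorial (6 * m / 7) * (3 * m + 2) * ∏ p ∈ Icc 1 (sqrt (6 * m)), p ^ log p (6 * m) := by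
  have hA : ∏ k ∈ range (2 * m), (3 * k + 2) ≠ 0 := prod_ne_zero_iff.2 fun _ _ => by omega
  have hS : ∏ p ∈ Icc 1 (sqrt (6 * m)), p ^ log p (6 * m) ≠ 0 :=
    prod_ne_zero_iff.2 fun p hp => pow_ne_zero _ (by have := (mem_Icc.1 hp).1; omega)
  have hP := (primorial_pos (6 * m / 7)).ne'
  have f1 := factorial_ne_zero m
  have f2 := factorial_ne_zero (2 * m)
  have f3 := factorial_ne_zero (3 * m)
  rw [← factorization_prime_le_iff_dvd (by positivity) (by positivity)]
  intro p hp
  rw [Nat.factorization_mul (by positivity) f1, Nat.factorization_mul hA (by positivity),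
    Nat.factorization_mul (by positivity) hS, Nat.factorization_mul (by positivity) (by omega), Nat.factorization_mul f3 hP]
  simp only [Finsupp.add_apply]
  have hm3 : (2 * m)!.factorization p + (m)!.factorization p ≤ (3 * m)!.factorization p := by
    have : (2 * m)! * m ! ∣ (3 * m)! := by
      rw [show 3 * m = 2 * m + m by ring]; exact factorial_mul_factorial_dvd_factorial_add _ _
    have := (factorization_le_iff_dvd (by positivity) f3).2 this p
    rwa [Nat.factorization_mul f2 f1] at this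
  by_cases h3 : p = 3
  · subst h3
    have : (∏ k ∈ range (2 * m), (3 * k + 2)).factorization 3 = 0 := by
      rw [factorization_prod_apply (fun _ _ => by omega)]
      exact sum_eq_zero fun k _ => factorization_eq_zero_of_not_dvd (by omega)
    rw [this, factorization_pow_self hp]; omega
  have h30 : (3 ^ (2 * m)!.factorization 3).factorization p = 0 := by
    rw [Nat.prime_three.factorization_pow, Finsupp.single_eq_of_ne h3]
  have hc : ∀ i, Nat.Coprime (p ^ i) 3 := fun i =>
    ((Nat.coprime_primes hp Nat.prime_three).2 h3).pow_left i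
  rw [h30, add_zero]
  have gen : ∀ b, 6 * m < p ^ (b + 1) →
      (∏ k ∈ range (2 * m), (3 * k + 2)).factorization p ≤ (2 * m)!.factorization p + b := fun b hb => by
    rw [fact_prod hp _ (b + 1) (by omega), factorization_factorial hp (b := b + 1)
      (log_lt_of_lt_pow (by omega) (by omega))]
    refine (sum_le_sum fun i _ => card_dvd_le _ (hc i)).trans ?_
    rw [sum_add_distrib]; simp
  by_cases hs : p ≤ sqrt (6 * m)
  · have h1 := gen (log p (6 * m)) (lt_pow_succ_log_self hp.one_lt _)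
    have h2 : log p (6 * m) ≤ (∏ p ∈ Icc 1 (sqrt (6 * m)), p ^ log p (6 * m)).factorization p :=
      (hp.pow_dvd_iff_le_factorization hS).1 (dvd_prod_of_mem (fun p => p ^ log p (6 * m)) (mem_Icc.2 ⟨hp.one_le, hs⟩))
    omega
  have hs' : 6 * m < p ^ 2 := sqrt_lt'.1 (not_le.1 hs)
  by_cases h7 : p ≤ 6 * m / 7
  · have h1 := gen 1 hs'
    have h2 := hp.factorization_pos_of_dvd hP (hp.dvd_primorial_iff.2 h7)
    omega
  have ff : ∀ n ≤ 6 * m, (n)!.factorization p = n / p := fun n hn => by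
    rcases Nat.eq_zero_or_pos n with rfl | h0
    · simp
    rw [factorization_factorial hp (b := 2) (log_lt_of_lt_pow (by omega) (by omega))]; simp
  have p0 := hp.pos
  have p3 : p % 3 = 1 ∨ p % 3 = 2 := by
    have : ¬ 3 ∣ p := fun h => h3 ((Nat.prime_dvd_prime_iff_eq Nat.prime_three hp).1 h).symm
    omega
  have hcnt : (∏ k ∈ range (2 * m), (3 * k + 2)).factorization p ≤
      #{c ∈ ({3 - p % 3, 6 - p % 3} : Finset ℕ) | c * p < 6 * m} := by
    rw [fact_prod hp _ 2 (by omega)]
    simp only [Nat.Ico_succ_singleton, sum_singleton, pow_one]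
    refine card_le_card_of_injOn (fun k => (3 * k + 2) / p) (fun k hk => ?_) fun a ha b hb hab => ?_
    · simp only [coe_filter, mem_range, Set.mem_setOf_eq, mem_insert, mem_singleton] at hk ⊢
      obtain ⟨hk, c, hc⟩ := hk
      rw [hc, Nat.mul_div_cancel_left _ p0]
      have c7 : c < 7 := by by_contra h; have := Nat.mul_le_mul_left p (not_lt.1 h); omega
      refine ⟨?_, by rw [mul_comm]; omega⟩
      interval_cases c <;> omega
    · simp only [coe_filter, mem_range, Set.mem_setOf_eq] at ha hb hab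
      have := (Nat.div_left_inj ha.2 hb.2).1 hab
      omega
  rw [ff m (by omega), ff (3 * m) (by omega)]
  refine le_trans ?_ (Nat.le_add_right _ _)
  rw [add_right_comm]
  refine le_trans ?_ (Nat.le_add_right _ _)
  generalize (∏ k ∈ range (2 * m), (3 * k + 2)).factorization p = a at hcnt
  clear gen hm3 h30 ff
  rw [card_filter, sum_pair (by omega)] at hcnt
  by_cases c1 : p ≤ m
  · have : m / p < 2 := (Nat.div_lt_iff_lt_mul p0).2 (by omega)
    have : 3 ≤ 3 * m / p := (Nat.le_div_iff_mul_le p0).2 (by omega)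
    split_ifs at hcnt <;> omega
  rw [Nat.div_eq_of_lt (show m < p by omega), add_zero]
  by_cases c2 : 2 * p ≤ 3 * m
  · have : 2 ≤ 3 * m / p := (Nat.le_div_iff_mul_le p0).2 (by omega)
    split_ifs at hcnt <;> omega
  have c4 : ¬ (6 - p % 3) * p < 6 * m := by rcases p3 with e | e <;> rw [e] <;> omega
  rw [if_neg c4] at hcnt
  by_cases c3 : p ≤ 3 * m
  · have : 1 ≤ 3 * m / p := (Nat.le_div_iff_mul_le p0).2 (by omega)
    split_ifs at hcnt <;> omega
  split_ifs at hcnt with c5
  · rcases p3 with e | e <;> rw [e] at c5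
    · omega
    · have := h p hp e (by omega)
      have e' : p = 3 * m + 2 := by omega
      have := hp.factorization_pos_of_dvd (n := 3 * m + 2) (by omega) (e' ▸ dvd_rfl)
      exact hcnt.trans (le_trans this (Nat.le_add_left _ _))
  · simp_all

theorem exists_prime_large (m : ℕ) (hm : 2 ^ 20 ≤ 6 * m) : ∃ p, p.Prime ∧ p % 3 = 2 ∧ p < 6 * m ∧ 3 * m + 5 ≤ p := by
  by_contra hcon
  have h : ∀ p, p.Prime → p % 3 = 2 → p < 6 * m → p < 3 * m + 5 := fun p h1 h2 h3 => by
    by_contra h4; exact hcon ⟨p, h1, h2, h3, by omega⟩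
  have m0 : 0 < m := by omega
  have h1 := Nat.le_of_dvd (by
    have := primorial_pos (6 * m / 7)
    have : 0 < ∏ p ∈ Icc 1 (sqrt (6 * m)), p ^ log p (6 * m) :=
      prod_pos fun p hp => pow_pos (mem_Icc.1 hp).1 _
    positivity) (main_dvd m m0 h)
  set s := sqrt (6 * m)
  set k := log 2 (6 * m)
  set v := 2 * m / 3 + 2 * m / 9 + 2 * m / 27 with hv
  set r := 6 * m / 7 with hr
  have hv1 : v ≤ (2 * m)!.factorization 3 := by
    rw [factorization_factorial Nat.prime_three (b := log 3 (2 * m) + 4) (by omega)]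
    refine le_trans ?_ (sum_le_sum_of_subset (s := {1, 2, 3}) fun i hi => by
      simp only [mem_insert, mem_singleton] at hi; rw [mem_Ico]; omega)
    simp [hv, add_assoc]
  have hS : ∏ p ∈ Icc 1 s, p ^ log p (6 * m) ≤ (6 * m) ^ s := by
    have := prod_le_pow_card (Icc 1 s) (fun p => p ^ log p (6 * m)) (6 * m) fun p _ => pow_log_le_self p (by omega)
    simpa using this
  have h2 := prod_lower (2 * m)
  have h3 := choose_three_le m
  have h4 : (3 * m)! = (3 * m).choose m * m ! * (2 * m)! := by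
    rw [← choose_mul_factorial_mul_factorial (show m ≤ 3 * m by omega), show 3 * m - m = 2 * m by omega]
  have h5 := primorial_le_four_pow r
  generalize ∏ k ∈ range (2 * m), (3 * k + 2) = A at *
  have h6 : A * 3 ^ v * m ! ≤ (3 * m).choose m * m ! * (2 * m)! * 4 ^ r * (3 * m + 2) * (6 * m) ^ s := by
    refine le_trans (by gcongr; omega) (h1.trans ?_)
    rw [h4]; gcongr
  have h7 : 3 ^ (2 * m) * 3 ^ v * 4 ^ m ≤ 27 ^ m * 4 ^ r * (6 * m) ^ (s + 2) := by
    refine Nat.le_of_mul_le_mul_right (c := (2 * m)! * m !) ?_ (by positivity)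
    calc 3 ^ (2 * m) * 3 ^ v * 4 ^ m * ((2 * m)! * m !) = (3 ^ (2 * m) * (2 * m)!) * (3 ^ v * m !) * 4 ^ m := by ring
      _ ≤ (A * (2 * m + 1)) * (3 ^ v * m !) * 4 ^ m := by gcongr
      _ = (A * 3 ^ v * m !) * (2 * m + 1) * 4 ^ m := by ring
      _ ≤ ((3 * m).choose m * m ! * (2 * m)! * 4 ^ r * (3 * m + 2) * (6 * m) ^ s) * (2 * m + 1) * 4 ^ m := by gcongr
      _ = ((3 * m).choose m * 4 ^ m) * 4 ^ r * ((6 * m) ^ s * (3 * m + 2) * (2 * m + 1)) * ((2 * m)! * m !) := by ring
      _ ≤ 27 ^ m * 4 ^ r * ((6 * m) ^ s * (6 * m) * (6 * m)) * ((2 * m)! * m !) := by gcongr <;> omega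
      _ = _ := by ring
  have hvm : v ≤ m := by omega
  have hrv : r ≤ v := by omega
  have h8 : 4 ^ (v - r) ≤ (6 * m) ^ (s + 2) := by
    refine Nat.le_of_mul_le_mul_left (c := 3 ^ (2 * m) * 3 ^ v * 4 ^ (m - v) * 4 ^ r) ?_ (by positivity)
    calc 3 ^ (2 * m) * 3 ^ v * 4 ^ (m - v) * 4 ^ r * 4 ^ (v - r) = 3 ^ (2 * m) * 3 ^ v * 4 ^ (m - v + r + (v - r)) := by
          ring
      _ = 3 ^ (2 * m) * 3 ^ v * 4 ^ m := by congr 2; omega
      _ ≤ _ := h7
      _ = 3 ^ (2 * m) * 3 ^ v * 3 ^ (m - v) * 4 ^ r * (6 * m) ^ (s + 2) := by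
          rw [show (27 : ℕ) = 3 ^ 3 by norm_num, ← pow_mul, ← pow_add, ← pow_add]; congr 3; omega
      _ ≤ _ := by gcongr; norm_num
  have h9 : 2 * (v - r) ≤ (k + 1) * (s + 2) := by
    rw [← Nat.pow_le_pow_iff_right (show 1 < 2 by norm_num), pow_mul, pow_mul]
    exact h8.trans (Nat.pow_le_pow_left (lt_pow_succ_log_self (by norm_num) _).le _)
  have hk : 20 ≤ k := le_log_of_pow_le (by norm_num) hm
  have hk2 : ∀ k, 20 ≤ k → (30 * (k + 1) + 1) ^ 2 ≤ 2 ^ k := fun k hk => by
    induction k, hk using Nat.le_induction with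
    | base => norm_num
    | succ k hk ih => rw [pow_succ 2 k]; nlinarith
  have hks : 30 * (k + 1) < s + 1 := by
    have := (hk2 k hk).trans_lt ((pow_log_le_self 2 (by omega)).trans_lt (lt_succ_sqrt' (6 * m)))
    have := lt_of_pow_lt_pow_left₀ 2 (by omega) this
    omega
  have hs2 : s ^ 2 ≤ 6 * m := sqrt_le' _
  have : 40 * m ≤ 189 * (2 * (v - r)) + 1134 := by omega
  nlinarith

theorem exists_prime_two_mod_three (N : ℕ) (hN : 15 ≤ N) : ∃ p, p.Prime ∧ p % 3 = 2 ∧ p + 4 ≤ N ∧ N + 2 ≤ 2 * p := by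
  by_cases h : 2 ^ 20 + 9 ≤ N
  · obtain ⟨p, h1, h2, h3, h4⟩ := exists_prime_large ((N - 3) / 6) (by omega)
    exact ⟨p, h1, h2, by omega, by omega⟩
  have step : ∀ p, p.Prime → p % 3 = 2 → ∀ q, q ≤ 2 * p - 5 → (p + 4 ≤ N) →
      (q + 4 ≤ N → ∃ p, p.Prime ∧ p % 3 = 2 ∧ p + 4 ≤ N ∧ N + 2 ≤ 2 * p) →
      ∃ p, p.Prime ∧ p % 3 = 2 ∧ p + 4 ≤ N ∧ N + 2 ≤ 2 * p := fun p h1 h2 q h3 h4 h5 => by
    by_cases h6 : q + 4 ≤ N
    · exact h5 h6
    · exact ⟨p, h1, h2, h4, by omega⟩
  have h0 : 11 + 4 ≤ N := hN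
  refine step 11 (by norm_num) (by norm_num) 17 (by norm_num) h0 fun h0 => ?_
  refine step 17 (by norm_num) (by norm_num) 29 (by norm_num) h0 fun h0 => ?_
  refine step 29 (by norm_num) (by norm_num) 53 (by norm_num) h0 fun h0 => ?_
  refine step 53 (by norm_num) (by norm_num) 101 (by norm_num) h0 fun h0 => ?_
  refine step 101 (by norm_num) (by norm_num) 197 (by norm_num) h0 fun h0 => ?_
  refine step 197 (by norm_num) (by norm_num) 389 (by norm_num) h0 fun h0 => ?_
  refine step 389 (by norm_num) (by norm_num) 773 (by norm_num) h0 fun h0 => ?_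
  refine step 773 (by norm_num) (by norm_num) 1523 (by norm_num) h0 fun h0 => ?_
  refine step 1523 (by norm_num) (by norm_num) 3041 (by norm_num) h0 fun h0 => ?_
  refine step 3041 (by norm_num) (by norm_num) 6053 (by norm_num) h0 fun h0 => ?_
  refine step 6053 (by norm_num) (by norm_num) 12101 (by norm_num) h0 fun h0 => ?_
  refine step 12101 (by norm_num) (by norm_num) 24197 (by norm_num) h0 fun h0 => ?_
  refine step 24197 (by norm_num) (by norm_num) 48383 (by norm_num) h0 fun h0 => ?_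
  refine step 48383 (by norm_num) (by norm_num) 96749 (by norm_num) h0 fun h0 => ?_
  refine step 96749 (by norm_num) (by norm_num) 193493 (by norm_num) h0 fun h0 => ?_
  refine step 193493 (by norm_num) (by norm_num) 386963 (by norm_num) h0 fun h0 => ?_
  refine step 386963 (by norm_num) (by norm_num) 773909 (by norm_num) h0 fun h0 => ?_
  exact ⟨773909, by norm_num, by norm_num, h0, by omega⟩

end Cfsg.Agent.H3
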