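import Cfsg.Agent.H38.StRG
import Cfsg.Agent.H38.Simple
import Cfsg.Agent.H39.CTA2

/-! The Gauss decomposition with prescribed semisimple part (Ellers–Gordeev). -/

set_option autoImplicit false

namespace Cfsg.Agent.H3

open H38 H39

variable {ι R : Type} [Fintype ι] [DecidableEq ι] {P : RS ι R} {F : Type*} [Field F] {G : Type*} [Group G]
  {X : RG P F G} {n h g : G} {w : Equiv.Perm R}

/-- `U n` meets `V h U`. -/
def TG (X : RG P F G) (n h : G) : Prop := ∃ y ∈ X.U, ∃ v ∈ X.V, ∃ u ∈ X.U, y * n = v * h * u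

theorem WJ_mono {I J : Set ι} (h : I ⊆ J) : P.WJ I ≤ P.WJ J := Subgroup.closure_mono (Set.image_mono h)

theorem PJ_mono {I J : Set ι} (h : I ⊆ J) : X.PJ I ≤ X.PJ J :=
  sup_le_sup_left (Subgroup.closure_mono (Set.image_mono h)) _

theorem mem_center_of_comm (hG : X.grp = ⊤) (h : ∀ r t, g * X.x r t * g⁻¹ = X.x r t) : g ∈ Subgroup.center G :=
  Subgroup.mem_center_iff.2 fun y => Subgroup.mem_centralizer_singleton_iff.1
    ((show X.grp ≤ _ from X.US_le.2 fun r _ t => Subgroup.mem_centralizer_singleton_iff.2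
      (mul_inv_eq_iff_eq_mul.1 (h r t)).symm) (hG ▸ Subgroup.mem_top y))

variable [Fintype R] (hX : X.Faithful)
include hX

theorem TG.step (hn : X.Rep n w) (hh : h ∈ X.H) {i : ι} (hi : P.Pos (w (P.sp i))) (T : TG X n h) {s : F}
    (hs : s ≠ 0) : TG X (n * X.ns i) (h * (X.n (P.sp i) s * X.ns i)) := by
  obtain ⟨y, hy, v, hv, u, hu, e⟩ := T
  obtain ⟨a, ha, b, hb, rfl⟩ := X.exists_mul_of_mem_US P.cl_pos (S₁ := {r | P.Pos r ∧ ¬ P.InJ {i} r})
    (S₂ := {P.sp i}) (by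
      ext r
      refine ⟨fun h => (em (P.InJ {i} r)).elim (fun h' => .inr ?_) fun h' => .inl ⟨h, h'⟩, ?_⟩
      · exact (P.reduced r i h').resolve_right fun e => P.not_pos_neg_sp i (e ▸ h)
      · rintro (h | rfl)
        exacts [h.1, P.pos_sp i]) hu
  obtain ⟨c, rfl⟩ := X.mem_US_singleton.1 hb
  obtain ⟨d, -, hd⟩ := hn.acts.exists_conj (P.sp i)
  obtain ⟨d', -, hd'⟩ := ((X.acts_ns i).inv (P.σ_mem_W i)).exists_conj (P.neg (P.sp i))
  have e1 := n_neg_sp hX i (t := -s⁻¹) (by simpa)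
  simp only [RG0.n.eq_1 _ (P.neg _), P.neg_neg, inv_neg, neg_neg, inv_inv, X.x_neg] at e1
  have m := (Subgroup.mem_normalizer_iff''.1 (X.PJ_le_normalizer {i} (mul_mem (X.B_le_PJ _ (X.x_mem_B (P.pos_sp i) s))
    (X.ns_mem_PJ rfl))) a).1 ha
  refine ⟨y * (n * X.x (P.sp i) (-c + s) * n⁻¹), mul_mem hy (hd _ ▸ X.x_mem_U hi _),
    v * (h * X.x (P.neg (P.sp i)) s⁻¹ * h⁻¹), mul_mem hv (X.H_conj_mem_US hh (X.x_mem_V (P.not_pos_neg_sp i) _)),
    (X.ns i)⁻¹ * X.x (P.neg (P.sp i)) s⁻¹ * (X.ns i)⁻¹⁻¹ * _, mul_mem (hd' _ ▸ X.x_mem_U ?_ _) (X.UJ_le_U _ m), ?_⟩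
  · rw [P.σ_inv, P.σ_neg_sp]; exact P.pos_sp i
  · rw [eq_mul_inv_of_mul_eq e, ← e1, X.add, X.x_neg]; group

theorem exists_TG (hM : HMul X) (hn : X.Rep n w) : ∃ J, w ∈ P.WJ J ∧ ∃ h ∈ X.H, ∀ c : ι → Fˣ,
    (∀ j, j ∉ J → c j = 1) → TG X n (h * hM.tor c) := by
  induction e : P.inv w generalizing n w with
  | zero =>
    obtain rfl := P.eq_one_of_pos' hn.mem_W fun i => by_contra fun h => by have := P.inv_mul_σ' hn.mem_W h; omega
    exact ⟨∅, one_mem _, n, hn.mem_H, fun c hc => ⟨1, one_mem _, 1, one_mem _, 1, one_mem _, by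
      simp [show c = 1 from funext fun j => hc j id]⟩⟩
  | succ k ih =>
    obtain ⟨i, hi⟩ : ∃ i, ¬ P.Pos (w (P.sp i)) := by
      by_contra! h
      obtain rfl := P.eq_one_of_pos' hn.mem_W h
      simp [RS.inv, show P.invSet 1 = ∅ from Finset.eq_empty_of_forall_notMem fun r h => by simp [P.mem_invSet] at h] at e
    have h1 := hn.mul (X.rep_ns i).inv
    rw [P.σ_inv] at h1
    obtain ⟨J, hJ, h, hh, H⟩ := ih h1 (by have := P.inv_mul_σ' hn.mem_W hi; omega)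
    have m : ∀ c, hM.tor c ∈ X.H := fun c => hM.tor_range ▸ ⟨c, rfl⟩
    refine ⟨insert i J, ?_, h * (X.h (P.sp i) (-1))⁻¹, mul_mem hh (inv_mem (X.h_mem_H _ (by simp))), fun c hc => ?_⟩
    · simpa [mul_assoc, P.σ_mul_self] using mul_mem (WJ_mono (Set.subset_insert i J) hJ) (P.σ_mem_WJ (Set.mem_insert i J))
    · have := (H (Function.update c i 1) fun j hj => by
        by_cases e : j = i
        · simp [e]
        · simp [e, hc j (by simp [e, hj])]).step hX h1 (mul_mem hh (m _)) (i := i)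
          (by simpa [P.σ_sp, P.W_neg hn.mem_W, P.pos_neg_iff] using hi) (c i).ne_zero
      rw [inv_mul_cancel_right, RG.ns, X.n_mul_n, ← hM.tor_mulSingle, mul_assoc h, ← mul_assoc (hM.tor _), ← map_mul,
        (hM.comm (m _) (inv_mem (X.h_mem_H _ (by simp)))).eq, ← mul_assoc] at this
      convert this
      funext j
      by_cases e : j = i <;> simp [e]

variable (hG : X.grp = ⊤)
include hG

theorem mem_center_of_conj (h : ∀ x, x * g * x⁻¹ ∈ X.B) : g ∈ Subgroup.center G := by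
  obtain ⟨n, w, hn, hw⟩ := X.exists_rep_w0
  have h1 : ∀ x, x * g * x⁻¹ ∈ X.H := fun x => by
    obtain ⟨u, hu, a, ha, e⟩ := X.mem_B_iff.1 (h (n⁻¹ * x))
    refine hX.B_inf_VH.le ⟨h x, ?_⟩
    rw [show x * g * x⁻¹ = n * (n⁻¹ * x * g * (n⁻¹ * x)⁻¹) * n⁻¹ by group, e,
      show n * (u * a) * n⁻¹ = n * u * n⁻¹ * (n * a * n⁻¹) by group]
    exact Subgroup.mul_mem_sup (hn.acts.conj_mem (T := {r | ¬ P.Pos r}) (fun s hs h => (hw s).1 h hs) hu)
      (hn.conj_mem_H ha)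
  have h2 : g ∈ X.H := by simpa using h1 1
  refine mem_center_of_comm hG fun r t => ?_
  obtain ⟨c, -, e⟩ := (X.acts_of_mem_H h2).exists_conj r
  have := mul_mem (h1 (X.x r t)) (inv_mem h2)
  rw [show X.x r t * g * (X.x r t)⁻¹ * g⁻¹ = X.x r t * (g * X.x r t * g⁻¹)⁻¹ by group, e, ← X.x_neg,
    Equiv.Perm.one_apply, ← X.add] at this
  rw [e, ← add_neg_eq_zero.1 (hX.eq_zero_of_x_mem_H this), Equiv.Perm.one_apply]

theorem exists_conj_not_mem (hP : P.Conn) (hg : g ∉ Subgroup.center G) :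
    ∃ x, ∀ i, x * g * x⁻¹ ∉ X.PJ {i}ᶜ := by
  classical
  let S : G → Finset ι := fun x => Finset.univ.filter fun i => x * g * x⁻¹ ∉ X.PJ {i}ᶜ
  obtain ⟨x, hx⟩ : ∃ x, ∀ y, (S y).card ≤ (S x).card := by
    obtain ⟨_, ⟨x, rfl⟩, h⟩ := Set.exists_max_image (Set.range S) Finset.card (Set.toFinite _) ⟨_, 1, rfl⟩
    exact ⟨x, fun y => h _ ⟨y, rfl⟩⟩
  by_contra! hc
  by_cases h0 : S x = ∅
  · refine hg (mem_center_of_conj hX hG fun y => ?_)
    have := hx y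
    rw [h0, Finset.card_empty, Nat.le_zero, Finset.card_eq_zero, Finset.filter_eq_empty_iff] at this
    obtain ⟨w, -, hw⟩ := RG.mem_PJ_iff_inC.1 (X.PJ_univ.ge (hG ▸ Subgroup.mem_top (y * g * y⁻¹)))
    obtain rfl : w = 1 := Equiv.ext fun r => P.cf_inj (funext fun i => by
      obtain ⟨w', h1, h2⟩ := RG.mem_PJ_iff_inC.1 (not_not.1 (this (Finset.mem_univ i)))
      exact P.WJ_cf (hX.inC_unique hw h2 ▸ h1) r (by simp))
    exact hw.mem_B
  obtain ⟨b, hb⟩ := hc x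
  obtain ⟨a, ha⟩ := Finset.nonempty_iff_ne_empty.2 h0
  obtain ⟨i, hi, j, hj, hC⟩ := hP (S x : Set ι)ᶜ ⟨b, by simpa [S] using hb⟩ ⟨a, by simpa using ha⟩
  simp only [S, Set.mem_compl_iff, Finset.mem_coe, Finset.mem_filter, Finset.mem_univ, true_and, not_not] at hi hj
  have r1 : P.Red (P.σ i) {i}ᶜ := fun k hk => P.pos_σ (P.pos_sp k) (P.sp_inj.ne hk)
  refine (Finset.card_lt_card (s := S x) (t := S ((X.ns i)⁻¹ * x)) ⟨fun k hk => ?_, fun h => ?_⟩).not_ge (hx _)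
  · simp only [S, Finset.mem_filter, Finset.mem_univ, true_and] at hk ⊢
    by_cases e : k = i
    · exact absurd hi (e ▸ hk)
    have m := X.ns_mem_PJ (J := {k}ᶜ) (Ne.symm e)
    exact fun h => hk (by simpa [mul_assoc] using mul_mem (mul_mem m h) (inv_mem m))
  · have : (X.ns i)⁻¹ * x * g * ((X.ns i)⁻¹ * x)⁻¹ ∈ X.PJ {i}ᶜ := by
      by_contra h'
      simpa [S, hi] using h (x := i) (by simpa [S] using h')
    refine hj (PJ_mono ?_ (hX.inf_cj_le (by rwa [P.σ_inv]) r1 (X.rep_ns i)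
      ⟨hi, mem_cj.2 (by simpa [mul_assoc] using this)⟩))
    rintro k ⟨-, l, hl, e⟩ rfl
    have := congrFun (congrArg P.cf e) i
    rw [P.σ_inv, P.cf_σ_self, P.A_sp, P.cf_sp, P.cf_sp, Pi.single_eq_of_ne (Ne.symm hl),
      Pi.single_eq_of_ne (by rintro rfl; exact hj hi)] at this
    exact hC (by simpa using this)

theorem gauss (hM : HMul X) (hP : P.Conn) (hg : g ∉ Subgroup.center G) (hh : h ∈ X.H) :
    ∃ x, ∃ v ∈ X.V, ∃ u ∈ X.U, x * g * x⁻¹ = v * h * u := by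
  obtain ⟨x, hx⟩ := exists_conj_not_mem hX hG hP hg
  obtain ⟨a, ha, n, w, hn, b, hb, e⟩ := X.exists_bruhat' (hG ▸ Subgroup.mem_top (x * g * x⁻¹))
  obtain ⟨J, hJ, k, hk, H⟩ := exists_TG hX hM hn
  obtain ⟨c, hc⟩ := hM.tor_range.ge (mul_mem (inv_mem hk) hh)
  obtain ⟨y, hy, v, hv, u, hu, e'⟩ := H c fun j hj => (hx j (X.mem_PJ_iff.2 ⟨a, X.U_le_B ha, n, w, hn,
    WJ_mono (fun i hi (e : i = j) => hj (e ▸ hi)) hJ, b, X.U_le_B (X.Um_le w hb), e⟩)).elim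
  rw [hc, mul_inv_cancel_left] at e'
  refine ⟨y * a⁻¹ * x, v, hv, u * b * a * y⁻¹, mul_mem (mul_mem (mul_mem hu (X.Um_le w hb)) ha) (inv_mem hy), ?_⟩
  rw [show y * a⁻¹ * x * g * (y * a⁻¹ * x)⁻¹ = y * a⁻¹ * (x * g * x⁻¹) * a * y⁻¹ by group, e, eq_mul_inv_of_mul_eq e']
  group

end Cfsg.Agent.H3
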