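import Cfsg.Agent.H3.Lev2
import Cfsg.Agent.H38.ClA
import Cfsg.Agent.H64.Root

/-! The class of `J(1) ⊕ s` in terms of the special linear group. -/

set_option autoImplicit false

namespace Cfsg.Agent.H3.Lev

open Module Matrix H38
open scoped MatrixGroups

variable {F : Type*} [Field F] {m : ℕ} {s : F}

theorem mul_val {n : ℕ} (A B : SL(n, F)) : (A * B).1 = A.1 * B.1 := rfl

theorem one_val {n : ℕ} : (1 : SL(n, F)).1 = 1 := rfl

theorem pow_val {n : ℕ} (A : SL(n, F)) (k : ℕ) : (A ^ k).1 = A.1 ^ k := rfl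

/-- The diagonal matrix `diag(1, …, 1, s)`. -/
def dg (m : ℕ) (s : F) : Matrix (Fin (m + 2)) (Fin (m + 2)) F := diagonal fun i => if i = Fin.last _ then s else 1

theorem dg_mul (hs : s ≠ 0) : dg m s * dg m s⁻¹ = 1 := by
  rw [dg, dg, diagonal_mul_diagonal, ← diagonal_one]; congr; funext i; split_ifs <;> simp [hs]

theorem dg_mul' (hs : s ≠ 0) : dg m s⁻¹ * dg m s = 1 := mul_eq_one_comm.1 (dg_mul hs)

theorem det_dg : (dg m s).det = s := by simp [dg]

theorem dg_mulVec (x : Fin (m + 2) → F) (i) : (dg m s *ᵥ x) i = (if i = Fin.last _ then s else 1) * x i :=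
  mulVec_diagonal ..

/-- Conjugation by the diagonal matrix. -/
def ep (m : ℕ) (hs : s ≠ 0) : SL(m + 2, F) →* SL(m + 2, F) where
  toFun A := ⟨dg m s⁻¹ * A.1 * dg m s, by simp [det_dg, hs]⟩
  map_one' := Subtype.ext (by simp [dg_mul' hs])
  map_mul' A B := Subtype.ext (by
    change dg m s⁻¹ * (A.1 * B.1) * dg m s = dg m s⁻¹ * A.1 * dg m s * (dg m s⁻¹ * B.1 * dg m s)
    simp only [Matrix.mul_assoc]; rw [← Matrix.mul_assoc (dg m s), dg_mul hs, Matrix.one_mul])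

theorem ep_x (hs : s ≠ 0) (r : ClA.Rt (m + 1)) (t : F) : ep m hs (ClA.x F r t) =
    ClA.x F r ((if r.1.1 = Fin.last _ then s⁻¹ else 1) * t * if r.1.2 = Fin.last _ then s else 1) := by
  apply Subtype.ext
  change dg m s⁻¹ * _ * dg m s = _
  rw [ClA.x_val, ClA.x_val, Matrix.mul_add, Matrix.add_mul, Matrix.mul_one, dg_mul' hs, dg, dg]
  congr 1
  ext i j
  simp only [mul_diagonal, diagonal_mul, single_apply]
  split_ifs <;> simp_all

/-- The class. -/
def TyM (s : F) (A : SL(m + 2, F)) : Prop := Ty s (toLin' (dg m s * A.1))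

theorem TyM.conj (hs : s ≠ 0) (h1 : s ≠ 1) {A B : SL(m + 2, F)} (h : TyM s A) (h' : TyM s B) :
    ∃ y, B = ep m hs y * A * y⁻¹ := by
  obtain ⟨y, y1, y2⟩ := Ty.conj h h' h1 (k := m) (by simp)
  obtain ⟨y, rfl⟩ := toLin'.surjective y
  refine ⟨⟨y, by simpa using y1⟩, eq_mul_inv_of_mul_eq (Subtype.ext ?_)⟩
  rw [End.mul_eq_comp, End.mul_eq_comp, ← toLin'_mul, ← toLin'_mul, toLin'.injective.eq_iff] at y2
  change B.1 * y = dg m s⁻¹ * y * dg m s * A.1
  rw [Matrix.mul_assoc, Matrix.mul_assoc, y2, ← Matrix.mul_assoc, ← Matrix.mul_assoc, dg_mul' hs, Matrix.one_mul]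

theorem twoM (hs : s ≠ 0) (h1 : s ^ 2 ≠ 1) {v u : SL(m + 2, F)} (hv : v ∈ (ClA.rg (m + 1) F).V)
    (hu : u ∈ (ClA.rg (m + 1) F).U) : ∃ A B, TyM s A ∧ TyM s B ∧ v * u = ep m hs A * B := by
  have a1 : u.1 *ᵥ Pi.single 0 1 = Pi.single 0 1 := by
    induction hu using RG0.US_induction with
    | h1 => exact one_mulVec _
    | hm g _ r hr t ih =>
      have : r.1.2 ≠ 0 := ((ClA.pos_rt r.2).1 hr).ne_zero
      rw [mul_val, ← mulVec_mulVec, ClA.rg_x, ClA.x_mulVec]; simp [this, ih]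
  have a2 : ∀ y, (v.1 *ᵥ y) 0 = y 0 := by
    induction hv using RG0.US_induction with
    | h1 => simp
    | hm g _ r hr t ih =>
      have : r.1.1 ≠ 0 := fun e => hr ((ClA.pos_rt r.2).2 (e ▸ Fin.pos_iff_ne_zero.2 (e ▸ r.2.symm)))
      intro y
      rw [mul_val, ← mulVec_mulVec, ih, ClA.rg_x, ClA.x_mulVec]; simp [this.symm]
  have a3 : (dg m s * dg m s * (v * u).1).det = s ^ 2 := by simp [det_dg, sq]
  obtain ⟨A, B, hA, hB, e⟩ := two (g := toLin' (dg m s * dg m s * (v * u).1)) (fun c e => h1 (by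
    have b1 := congrFun (LinearMap.congr_fun e (Pi.single 0 1)) 0
    simp only [toLin'_apply, mul_val, ← mulVec_mulVec, a1, dg_mulVec, a2] at b1
    have b2 := congrArg LinearMap.det e
    rw [LinearMap.det_toLin', a3, show c = 1 by simpa [Fin.ext_iff] using b1.symm] at b2
    simpa using b2)) hs (by rw [LinearMap.det_toLin', a3])
  obtain ⟨A, rfl⟩ := toLin'.surjective A
  obtain ⟨B, rfl⟩ := toLin'.surjective B
  have dA := hA.det hs
  have dB := hB.det hs
  rw [LinearMap.det_toLin'] at dA dB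
  rw [End.mul_eq_comp, ← toLin'_mul, toLin'.injective.eq_iff] at e
  have k : ∀ A, dg m s * (dg m s⁻¹ * A) = A := fun A => by rw [← Matrix.mul_assoc, dg_mul hs, Matrix.one_mul]
  have k' : ∀ A, dg m s⁻¹ * (dg m s * A) = A := fun A => by rw [← Matrix.mul_assoc, dg_mul' hs, Matrix.one_mul]
  refine ⟨⟨dg m s⁻¹ * A, by simp [det_dg, dA, hs]⟩, ⟨dg m s⁻¹ * B, by simp [det_dg, dB, hs]⟩, by
    unfold TyM; rwa [k], by unfold TyM; rwa [k], Subtype.ext ?_⟩
  change _ = dg m s⁻¹ * (dg m s⁻¹ * A) * dg m s * (dg m s⁻¹ * B)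
  simp only [Matrix.mul_assoc, k, ← e, k']

/-- Regular unipotent elements of the block `SL_{m+1}`. -/
def Reg (u : SL(m + 2, F)) : Prop := (∀ x, (u.1 *ᵥ x) (Fin.last _) = x (Fin.last _)) ∧
  RegN (LinearMap.ker (LinearMap.proj (Fin.last _) : Dual F (Fin (m + 2) → F))) (toLin' u.1 - 1)

theorem Reg.inv {u : SL(m + 2, F)} (h : Reg u) : Reg u⁻¹ := by
  have := h.2.inv (s := 1) (B := toLin' (u⁻¹).1) (by simpa using h.1) one_ne_zero
    (by rw [End.mul_eq_comp, ← toLin'_mul, ← mul_val, inv_mul_cancel]; simp [End.one_eq_id])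
    (by rw [End.mul_eq_comp, ← toLin'_mul, ← mul_val, mul_inv_cancel]; simp [End.one_eq_id])
  exact ⟨by simpa [-SpecialLinearGroup.coe_inv] using this.1, this.2⟩

theorem Reg.ty {u : SL(m + 2, F)} (h : Reg u) : TyM s u := by
  obtain ⟨h1, h2, f, h3⟩ := h
  have : ∀ x ∈ LinearMap.ker (LinearMap.proj (Fin.last _) : Dual F (Fin (m + 2) → F)),
      (toLin' (dg m s * u.1) - 1) x = (toLin' u.1 - 1) x := fun x hx => by
    funext i
    simp only [LinearMap.sub_apply, toLin'_apply, ← mulVec_mulVec, Pi.sub_apply, dg_mulVec]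
    split_ifs with h
    · rw [h, h1, show x _ = 0 from hx, mul_zero]
    · rw [one_mul]
  exact ⟨LinearMap.proj (Fin.last _), fun e => by simpa using LinearMap.congr_fun e 1,
    fun x => by simp [-mulVec_mulVec, dg_mulVec, h1],
    h2.ext le_rfl this fun x hx => this x hx ▸ h2.1 x hx, f, fun x hx e => h3 x hx (this x hx ▸ e)⟩

theorem prod_row {n : ℕ} (L : List (ClA.Rt n × F)) {i : Fin (n + 1)} (h : ∀ p ∈ L, p.1.1.1 ≠ i) (y : Fin (n + 1) → F) :
    ((L.map fun p => ClA.x F p.1 p.2).prod.1 *ᵥ y) i = y i := by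
  induction L with
  | nil => simp
  | cons p L ih =>
    rw [List.map_cons, List.prod_cons, mul_val, ← mulVec_mulVec, ClA.x_mulVec, Pi.add_apply,
      ih fun q hq => h q (by simp [hq]), Pi.single_eq_of_ne (h p (by simp)).symm, add_zero]

theorem prod_fix {n : ℕ} (L : List (ClA.Rt n × F)) (h : (L.map fun p => p.1.1.1).Nodup) (h0 : ∀ p ∈ L, p.2 ≠ 0)
    {y : Fin (n + 1) → F} (e : (L.map fun p => ClA.x F p.1 p.2).prod.1 *ᵥ y = y) : ∀ p ∈ L, y p.1.1.2 = 0 := by
  induction L with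
  | nil => simp
  | cons p L ih =>
    rw [List.map_cons, List.nodup_cons] at h
    rw [List.map_cons, List.prod_cons, mul_val, ← mulVec_mulVec, ClA.x_mulVec] at e
    have e1 := congrFun e p.1.1.1
    rw [Pi.add_apply, prod_row L (fun q hq e => h.1 (List.mem_map.2 ⟨q, hq, e⟩)), Pi.single_eq_same, add_eq_left] at e1
    rw [e1, Pi.single_zero, add_zero] at e
    rw [e, mul_eq_zero, or_iff_right (h0 p (by simp))] at e1
    simpa [e1] using ih h.2 (fun q hq => h0 q (by simp [hq])) e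

theorem reg_prod (p : ℕ) [Fact p.Prime] [CharP F p] (L : List (ClA.Rt (m + 1) × F))
    (h : (L.map fun p => p.1.1.1).Nodup) (h0 : ∀ p ∈ L, p.2 ≠ 0 ∧ p.1.1.1 ≠ Fin.last _) {i0 : Fin (m + 2)}
    (h1 : ∀ i, i ≠ i0 → i ≠ Fin.last _ → ∃ p ∈ L, p.1.1.2 = i) {k : ℕ}
    (h2 : (L.map fun p => ClA.x F p.1 p.2).prod ^ p ^ k = 1) : Reg (L.map fun p => ClA.x F p.1 p.2).prod := by
  have a1 := prod_row L fun p hp => (h0 p hp).2
  refine ⟨a1, ⟨fun x hx => by simp [a1], p ^ k, fun x _ => ?_⟩, Pi.single i0 1, fun x hx e => ⟨x i0, ?_⟩⟩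
  · set u := (L.map fun p => ClA.x F p.1 p.2).prod
    have : (u.1 - 1) ^ p ^ k = 0 := by
      rw [sub_pow_char_pow_of_commute _ _ (Commute.one_right _), ← pow_val, h2]; simp
    rw [End.one_eq_id, ← toLin'_one, ← map_sub, ← toLin'_pow, this]; simp
  · funext i
    by_cases e1 : i = i0
    · simp [e1]
    by_cases e2 : i = Fin.last _
    · subst e2; simpa [e1] using hx
    obtain ⟨q, hq, rfl⟩ := h1 i e1 e2
    simpa [e1] using prod_fix L h (fun p hp => (h0 p hp).1) (sub_eq_zero.1 e) q hq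

end Cfsg.Agent.H3.Lev
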