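import Cfsg.Agent.H3.PresFam

/-! Root elements of type `A` from few relations. -/

set_option autoImplicit false

namespace Cfsg.Agent.H3

open Function

variable {J W I F : Type*} [Group J] [Group W] [MulAction W I] [Field F]

/-- Torus elements and root elements indexed by independent pairs. -/
structure ACore (D : I → I → Prop) (ω : W →* J) (ζ : F) (g : I → I → J) (x : I → I → F → J) : Prop where
  ad : ∀ {i j}, D i j → Ad (x i j)
  eqx : ∀ (w : W) {i j}, D i j → ∀ t, ω w * x i j t * (ω w)⁻¹ = x (w • i) (w • j) t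
  gi : ∀ {i j}, D i j → g j i = (g i j)⁻¹
  g1 : ∀ {i j k}, D i j → D i k → D j k → g i j * g j k = g i k
  m1 : ∀ {i j k}, D i j → D i k → D j k → Act (g i k) (x i j) ζ
  m2 : ∀ {i j k}, D i j → D i k → D j k → Act (g k j) (x i j) ζ
  m3 : ∀ {i j k l}, D i j → D i k → D j k → D i l → D j l → D k l → Act (g k l) (x i j) 1
  m0 : ∀ {i j}, D i j → Act (g i j) (x i j) (ζ ^ 2)

variable {D : I → I → Prop} {ω : W →* J} {ζ : F} {g : I → I → J} {x : I → I → F → J}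

theorem exists_acore [Finite F] (hζ : ∀ t, t ≠ 0 → ∃ k : ℕ, ζ ^ k = t) (hD : ∀ {i j}, D i j → D j i)
    (hDW : ∀ (w : W) {i j}, D i j → D (w • i) (w • j)) {a b c : I} (hab : D a b) (hac : D a c) (hbc : D b c)
    (h2 : ∀ {i j}, D i j → ∃ w : W, w • (a, b) = (i, j))
    (conn : ∀ k, D a k → D b k → k = c ∨ D c k ∨ ∃ m, D a m ∧ D b m ∧ D c m ∧ D m k) {u : J}
    (hsu : ∀ s : W, s • (a, b) = (a, b) → Commute (ω s) u)
    (eqg : ∀ (w : W) {i j}, D i j → ω w * g i j * (ω w)⁻¹ = g (w • i) (w • j))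
    (G1 : ∀ {i j k}, D i j → D i k → D j k → g i j * g j k = g i k)
    (G2 : ∀ {i j k}, D i j → D i k → D j k → Commute (g i j) (g i k))
    (K1 : Commute (g a c * g b c) u)
    (K2 : ∀ {k l}, D a k → D b k → D a l → D b l → D k l → Commute (g k l) u)
    {y : F → J} (hy : Ad y) (y1 : y 1 = u) (yd : Act (g a c) y ζ) :
    ∃ x : I → I → F → J, ACore D ω ζ g x ∧ ∀ i j, x i j 1 = fam (a, b) ω u (i, j) := by
  subst y1
  have gi : ∀ {i j}, D i j → g j i = (g i j)⁻¹ := by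
    intro i j h
    obtain ⟨w, hw⟩ := h2 h
    obtain ⟨rfl, rfl⟩ := Prod.ext_iff.1 hw
    have k1 := hDW w hac
    have k2 := hDW w hbc
    have := G1 (hD k2) (hD k1) (hD h)
    rw [← G1 (hD k1) (hD k2) h, mul_assoc, mul_eq_left] at this
    exact eq_inv_of_mul_eq_one_right this
  have b0 : Act (g c b) y ζ := by
    have c1 : Commute (g b c) (g a c) := by
      rw [gi (hD hbc), gi (hD hac)]; exact (G2 (hD hbc) (hD hac) (hD hab)).inv_inv
    have := (((gn_of_prim hζ).act_one hy yd ((Commute.refl _).mul_left c1) K1).inv one_ne_zero).mul yd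
    rw [gi hbc]
    simpa using this
  have b1 : Act (g a b) y (ζ ^ 2) := by rw [← G1 hac hab (hD hbc), sq]; exact yd.mul b0
  have b2 : ∀ {k l}, D a k → D b k → D a l → D b l → D k l → Act (g k l) y 1 := by
    intro k l h1 h2 h3 h4 h5
    refine (gn_sq hζ).act_one hy b1 ?_ (K2 h1 h2 h3 h4 h5)
    rw [← G1 (hD h1) h5 h3, gi h1]
    exact (G2 h1 hab (hD h2)).inv_left.mul_left (G2 h3 hab (hD h4))
  have b3 : ∀ {k l}, D a k → D b k → D a l → D b l → D k l → Act (g a k) y ζ ∧ Act (g k b) y ζ →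
      Act (g a l) y ζ ∧ Act (g l b) y ζ := by
    intro k l h1 h2 h3 h4 h5 h6
    rw [← G1 h1 h3 h5, ← G1 (hD h5) (hD h4) (hD h2)]
    exact ⟨(h6.1.mul (b2 h1 h2 h3 h4 h5)).cast (mul_one _), ((b2 h3 h4 h1 h2 (hD h5)).mul h6.2).cast (one_mul _)⟩
  have b4 : ∀ {k}, D a k → D b k → Act (g a k) y ζ ∧ Act (g k b) y ζ := by
    intro k h1 h2
    rcases conn k h1 h2 with rfl | h | ⟨m, k1, k2, k3, k4⟩
    · exact ⟨yd, b0⟩
    · exact b3 hac hbc h1 h2 h ⟨yd, b0⟩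
    · exact b3 k1 k2 h1 h2 k4 (b3 hac hbc k1 k2 k3 ⟨yd, b0⟩)
  have hs : ∀ t (s : W), s • (a, b) = (a, b) → Commute (ω s) (y t) := by
    intro t s hs
    refine ((gn_sq hζ).act_one hy b1 ?_ (hsu s hs)).comm t
    have := eqg s hab
    obtain ⟨e1, e2⟩ := Prod.ext_iff.1 hs
    dsimp only [Prod.smul_mk] at e1 e2
    rwa [e1, e2, mul_inv_eq_iff_eq_mul] at this
  have ex : ∀ w : W, (fun t => fam (a, b) ω (y t) (w • a, w • b)) = fun t => ω w * y t * (ω w)⁻¹ :=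
    fun w => funext fun t => fam_eq (hs t) w
  have key : ∀ {i j}, D i j → ∃ w : W, w • a = i ∧ w • b = j := fun h => (h2 h).imp fun _ => Prod.ext_iff.1
  have hD' : ∀ (w : W) {i j}, D (w • i) (w • j) → D i j := fun w i j h => by simpa using hDW w⁻¹ h
  refine ⟨fun i j t => fam (a, b) ω (y t) (i, j), ⟨fun h => ?_, fun w i j h t => fam_conj (hs t) (h2 h) w, gi, G1,
    fun {i j k} h h1 h2 => ?_, fun {i j k} h h1 h2 => ?_, fun {i j k l} h h1 h2 h3 h4 h5 => ?_, fun h => ?_⟩,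
    fun _ _ => rfl⟩
  · obtain ⟨w, rfl, rfl⟩ := key h
    rw [ex]; exact hy.conj _
  · obtain ⟨w, rfl, rfl⟩ := key h
    obtain ⟨k, rfl⟩ := MulAction.surjective w k
    rw [ex, ← eqg w (hD' w h1)]; exact (b4 (hD' w h1) (hD' w h2)).1.conj _
  · obtain ⟨w, rfl, rfl⟩ := key h
    obtain ⟨k, rfl⟩ := MulAction.surjective w k
    rw [ex, ← eqg w (hD (hD' w h2))]; exact (b4 (hD' w h1) (hD' w h2)).2.conj _
  · obtain ⟨w, rfl, rfl⟩ := key h
    obtain ⟨k, rfl⟩ := MulAction.surjective w k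
    obtain ⟨l, rfl⟩ := MulAction.surjective w l
    rw [ex, ← eqg w (hD' w h5)]; exact (b2 (hD' w h1) (hD' w h2) (hD' w h3) (hD' w h4) (hD' w h5)).conj _
  · obtain ⟨w, rfl, rfl⟩ := key h
    rw [ex, ← eqg w hab]; exact b1.conj _

namespace ACore

variable (C : ACore D ω ζ g x) (h0 : ζ ≠ 0) (hD : ∀ {i j}, D i j → D j i) {i j k l : I}
include C

include h0 in
theorem m1' (h : D i j) (h1 : D i k) (h2 : D j k) : Act (g k i) (x i j) ζ⁻¹ := C.gi h1 ▸ (C.m1 h h1 h2).inv h0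

include h0 hD in
theorem m2' (h : D i j) (h1 : D i k) (h2 : D j k) : Act (g j k) (x i j) ζ⁻¹ :=
  C.gi (hD h2) ▸ (C.m2 h h1 h2).inv h0

include h0 hD in
theorem cm_all (hζ : ∀ t, t ≠ 0 → ∃ k : ℕ, ζ ^ k = t) (h : D i j) (h1 : D i k) (h2 : D j k)
    (H : ∀ e : ℕ, Cm (x i j) (x j k) (x i k) (ζ ^ e) 1) (s t : F) : Cm (x i j) (x j k) (x i k) s t :=
  Cm.all hζ (C.ad h) (C.ad h2) (C.ad h1) (C.m1 h h1 h2) h0 (C.m2 h2 (hD h) (hD h1)) ((C.m0 h1).cast (sq _)) H s t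

include h0 hD in
theorem cm3 (h : D i j) (h1 : D i k) (h2 : D j k) (H : ∀ e < 3, Cm (x i j) (x j k) (x i k) (ζ ^ e) 1) (e : ℕ) :
    Cm (x i j) (x j k) (x i k) (ζ ^ e) 1 := by
  have := (H (e % 3) (Nat.mod_lt _ (by norm_num))).step (((C.m0 h).mul (C.m1 h h1 h2)).pow (e / 3))
    (((C.m1' h0 h2 (hD h) (hD h1)).mul (C.m2 h2 (hD h) (hD h1))).pow (e / 3))
    ((((C.m1 h1 h (hD h2)).mul (C.m0 h1)).pow (e / 3)).cast (by rw [inv_mul_cancel₀ h0]; ring))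
  rwa [inv_mul_cancel₀ h0, one_pow, mul_one, ← pow_succ, ← pow_mul, ← pow_add, Nat.div_add_mod] at this

include hD in
theorem cm4 (h : D i j) (h1 : D i k) (h2 : D j k) (h3 : D i l) (h4 : D j l) (h5 : D k l)
    (H : Cm (x i j) (x j k) (x i k) 1 1) (e : ℕ) : Cm (x i j) (x j k) (x i k) (ζ ^ e) 1 := by
  simpa using H.step ((C.m1 h h3 h4).pow e) ((C.m3 h2 (hD h) (hD h1) h4 h5 h3).pow e)
    (((C.m1 h1 h3 h5).pow e).cast (by simp))

include hD in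
theorem comm4 [Finite F] (hζ : ∀ t, t ≠ 0 → ∃ k : ℕ, ζ ^ k = t) (h : D i j) (h1 : D i k) (h2 : D j k) (h3 : D i l)
    (h4 : D j l) (h5 : D k l) (H : Commute (x i j 1) (x k l 1)) (s t : F) : Commute (x i j s) (x k l t) :=
  (gn_sq hζ).comm_all (gn_sq hζ) (C.ad h) (C.ad h5) (C.m0 h) (C.m3 h5 (hD h1) (hD h3) (hD h2) (hD h4) h)
    ((C.m3 h h1 h2 h3 h4 h5).comm 1) (C.m0 h5) H s t

theorem cm_conj (w : W) (h : D i j) (h1 : D i k) (h2 : D j k) {s t : F} (H : Cm (x i j) (x j k) (x i k) s t) :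
    Cm (x (w • i) (w • j)) (x (w • j) (w • k)) (x (w • i) (w • k)) s t := by
  simpa only [C.eqx w h, C.eqx w h1, C.eqx w h2] using H.conj (ω w)

theorem comm_conj (w : W) (h : D i j) (h1 : D k l) {s t : F} (H : Commute (x i j s) (x k l t)) :
    Commute (x (w • i) (w • j) s) (x (w • k) (w • l) t) := by
  simpa only [C.eqx w h, C.eqx w h1] using Commute.cj H (ω w)

end ACore

/-- All relations of type `A`. -/
structure AFull (D : I → I → Prop) (ω : W →* J) (ζ : F) (g : I → I → J) (x : I → I → F → J) : Prop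
    extends ACore D ω ζ g x where
  eqg : ∀ (w : W) {i j}, D i j → ω w * g i j * (ω w)⁻¹ = g (w • i) (w • j)
  g2 : ∀ {i j k}, D i j → D i k → D j k → Commute (g i j) (g i k)
  cm : ∀ {i j k}, D i j → D i k → D j k → ∀ s t, Cm (x i j) (x j k) (x i k) s t
  c4 : ∀ {i j k l}, D i j → D i k → D j k → D i l → D j l → D k l → ∀ s t, Commute (x i j s) (x k l t)

universe v

theorem Pk.afull [Finite F] {G : Type*} [Group G] {Γ : Type v} [Group Γ] {ψ : Γ →* G} (ι : W →* Γ) {u d : Γ}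
    (h0 : ζ ≠ 0) (hζ : ∀ t, t ≠ 0 → ∃ k : ℕ, ζ ^ k = t) (hD : ∀ {i j}, D i j → D j i)
    (hDW : ∀ (w : W) {i j}, D i j → D (w • i) (w • j)) {a b c : I} (hab : D a b) (hac : D a c) (hbc : D b c)
    (h2 : ∀ {i j}, D i j → ∃ w : W, w • (a, b) = (i, j))
    (conn : ∀ k, D a k → D b k → k = c ∨ D c k ∨ ∃ m, D a m ∧ D b m ∧ D c m ∧ D m k)
    {g₀ : I → I → G} {x₀ : I → I → F → G} (C : AFull D (ψ.comp ι) ζ g₀ x₀) (hu : ψ u = x₀ a b 1) (hd : ψ d = g₀ a b)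
    (LS : List W) (hS : ∀ s : W, s • (a, b) = (a, b) ↔ s ∈ Subgroup.closure {s | s ∈ LS})
    (h3 : ∀ {i j k}, D i j → D i k → D j k → ∃ w : W, w • (a, b, c) = (i, j, k) ∨ w • (a, b, c) = (i, k, j))
    (T : List (I × I × I)) (hT : ∀ τ ∈ T, D τ.1 τ.2.1 ∧ D τ.1 τ.2.2 ∧ D τ.2.1 τ.2.2)
    (hT' : ∀ {i j k}, D i j → D i k → D j k → ∃ τ ∈ T, ∃ w : W, w • τ = (i, j, k))
    (E : List ℕ) (hE : (∀ e < 3, e ∈ E) ∨ (0 ∈ E ∧ ∀ {i j k}, D i j → D i k → D j k → ∃ l, D i l ∧ D j l ∧ D k l))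
    (Q Q' : List (I × I)) (hQ : ∀ τ ∈ Q ++ Q', D a τ.1 ∧ D b τ.1 ∧ D a τ.2 ∧ D b τ.2 ∧ D τ.1 τ.2)
    (hQ1 : ∀ {i j k l}, D i j → D i k → D j k → D i l → D j l → D k l →
      ∃ τ ∈ Q, ∃ w : W, w • (a, b, τ) = (i, j, k, l))
    (hQ2 : ∀ {k l}, D a k → D b k → D a l → D b l → D k l →
      ∃ τ ∈ Q', ∃ w : W, w • (a, b, τ) = (a, b, k, l) ∨ w • (a, b, τ) = (a, b, l, k)) :
    Pk ψ (LS.length * 2 + T.length * (1 + E.length) + Q.length + Q'.length + 6) fun J _ f =>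
      ∃ x : I → I → F → J, AFull D (f.comp ι) ζ (fun i j => f (fam (a, b) ι d (i, j))) x ∧
        (∀ i j, x i j 1 = f (fam (a, b) ι u (i, j))) ∧ x a b 1 = f u ∧ f (fam (a, b) ι d (a, b)) = f d ∧
        ∀ θ : J →* G, θ.comp f = ψ → ∀ i j, D i j → ∀ t, θ (x i j t) = x₀ i j t := by
  let g : I → I → Γ := fun i j => fam (a, b) ι d (i, j)
  let v : I → I → Γ := fun i j => fam (a, b) ι u (i, j)
  have hg : ∀ {i j}, D i j → ψ (g i j) = g₀ i j := fun h => by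
    rw [map_fam, hd]; exact fam_val (Z := fun r => g₀ r.1 r.2) (fun w => C.eqg w hab) (h2 h)
  have hv : ∀ {i j}, D i j → ψ (v i j) = x₀ i j 1 := fun h => by
    rw [map_fam, hu]; exact fam_val (Z := fun r => x₀ r.1 r.2 1) (fun w => C.eqx w hab 1) (h2 h)
  have P1 : Pk ψ (LS.length * 2) fun _ _ f => ∀ s ∈ LS, Commute (f (ι s)) (f u) ∧ Commute (f (ι s)) (f d) := by
    refine Pk.list LS fun s hs => ?_
    obtain ⟨e1, e2⟩ := Prod.ext_iff.1 ((hS s).2 (Subgroup.subset_closure hs))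
    dsimp only [Prod.smul_mk] at e1 e2
    have k1 := C.eqx s hab 1
    have k2 := C.eqg s hab
    rw [e1, e2, mul_inv_eq_iff_eq_mul] at k1 k2
    exact (Pk.comm _ _ (hu ▸ k1)).and (Pk.comm _ _ (hd ▸ k2))
  have P2 : Pk ψ (T.length * (1 + E.length)) fun _ _ f => ∀ τ ∈ T,
      f (g τ.1 τ.2.1 * g τ.2.1 τ.2.2) = f (g τ.1 τ.2.2) ∧ ∀ e ∈ E,
        f (cjp (g τ.1 τ.2.2) (v τ.1 τ.2.1) e * v τ.2.1 τ.2.2 * (cjp (g τ.1 τ.2.2) (v τ.1 τ.2.1) e)⁻¹ *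
          (v τ.2.1 τ.2.2)⁻¹) = f (cjp (g τ.1 τ.2.1) (v τ.1 τ.2.2) e) := by
    refine Pk.list T fun τ hτ => ?_
    obtain ⟨k1, k2, k3⟩ := hT τ hτ
    refine (Pk.eq _ _ (by rw [map_mul, hg k1, hg k2, hg k3, C.g1 k1 k2 k3])).and ?_
    refine (Pk.list E fun e _ => Pk.eq _ _ ?_).mono (mul_one _).le
    simp only [map_mul, map_inv, map_cjp, hg k1, hg k2, hv k1, hv k2, hv k3, cjp_x (C.m1 k1 k2 k3),
      cjp_x (C.m1 k2 k1 (hD k3))]
    simpa [Cm] using C.cm k1 k2 k3 (ζ ^ e) 1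
  have P3 : Pk ψ Q.length fun _ _ f => ∀ τ ∈ Q, Commute (f (v a b)) (f (v τ.1 τ.2)) := by
    refine (Pk.list Q fun τ hτ => Pk.comm _ _ ?_).mono (mul_one _).le
    obtain ⟨k1, k2, k3, k4, k5⟩ := hQ τ (List.mem_append_left _ hτ)
    rw [hv hab, hv k5]; exact C.c4 hab k1 k2 k3 k4 k5 1 1
  have P4 : Pk ψ Q'.length fun _ _ f => ∀ τ ∈ Q', Commute (f (g τ.1 τ.2)) (f u) := by
    refine (Pk.list Q' fun τ hτ => Pk.comm _ _ ?_).mono (mul_one _).le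
    obtain ⟨k1, k2, k3, k4, k5⟩ := hQ τ (List.mem_append_right _ hτ)
    rw [hu, hg k5]; exact (C.m3 hab k1 k2 k3 k4 k5).comm 1
  have P5 := Pk.comm (ψ := ψ) (g a b) (g a c) (by rw [hg hab, hg hac]; exact C.g2 hab hac hbc)
  have P6 := Pk.comm (ψ := ψ) (g a c * g b c) u (by
    rw [map_mul, hg hac, hg hbc, hu]
    exact (((C.m1 hab hac hbc).mul (C.m2' h0 hD hab hac hbc)).cast (mul_inv_cancel₀ h0)).comm 1)
  have P7 := Pk.mod1 (d := g a c) (C.ad hab) hu (by rw [hg hac]; exact C.m1 hab hac hbc) hζ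
  refine (((((((P1.and P2).and P3).and P4).and P5).and P6).and P7).imp fun J _ f hf => ?_).mono (by omega)
  obtain ⟨⟨⟨⟨⟨⟨p1, p2⟩, p3⟩, p4⟩, p5⟩, p6⟩, y, hy, y1, yd⟩ := hf
  have hsu : ∀ s : W, s • (a, b) = (a, b) → Commute (f.comp ι s) (f u) := fun s hs =>
    comm_of_gens (fun s hs => (p1 s hs).1) ((hS s).1 hs)
  have hsd : ∀ s : W, s • (a, b) = (a, b) → Commute (f.comp ι s) (f d) := fun s hs =>
    comm_of_gens (fun s hs => (p1 s hs).2) ((hS s).1 hs)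
  have eqg : ∀ (w : W) {i j}, D i j → f.comp ι w * f (g i j) * (f.comp ι w)⁻¹ = f (g (w • i) (w • j)) :=
    fun w i j h => by simp only [g, map_fam]; exact fam_conj hsd (h2 h) w
  have G1 : ∀ {i j k}, D i j → D i k → D j k → f (g i j) * f (g j k) = f (g i k) := by
    intro i j k k1 k2 k3
    obtain ⟨τ, hτ, w, e⟩ := hT' k1 k2 k3
    clear k1 k2 k3
    obtain ⟨⟩ := e
    obtain ⟨k1, k2, k3⟩ := hT τ hτ
    rw [← eqg w k1, ← eqg w k2, ← eqg w k3, ← conj_mul', ← map_mul, (p2 τ hτ).1]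
  have G2 : ∀ {i j k}, D i j → D i k → D j k → Commute (f (g i j)) (f (g i k)) := by
    intro i j k k1 k2 k3
    obtain ⟨w, e | e⟩ := h3 k1 k2 k3 <;> obtain ⟨⟩ := e
    · rw [← eqg w hab, ← eqg w hac]; exact Commute.cj p5 _
    · rw [← eqg w hab, ← eqg w hac]; exact Commute.cj p5.symm _
  have K2 : ∀ {k l}, D a k → D b k → D a l → D b l → D k l → Commute (f (g k l)) (f u) := by
    have kk : ∀ τ ∈ Q', ∀ (w : W) k l, w • (a, b, τ) = (a, b, k, l) → Commute (f (g k l)) (f u) := by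
      intro τ hτ w k l e
      simp only [Prod.ext_iff, Prod.smul_fst, Prod.smul_snd] at e
      have := Commute.cj (p4 τ hτ) (f.comp ι w)
      rwa [eqg w (hQ τ (List.mem_append_right _ hτ)).2.2.2.2, (hsu w (Prod.ext e.1 e.2.1)).eq, mul_inv_cancel_right,
        e.2.2.1, e.2.2.2] at this
    intro k l k1 k2 k3 k4 k5
    obtain ⟨τ, hτ, w, e | e⟩ := hQ2 k1 k2 k3 k4 k5
    · exact kk τ hτ w _ _ e
    · have e1 := G1 k1 k3 k5
      have e2 := G1 k3 k1 (hD k5)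
      rw [← e1, mul_assoc, mul_eq_left] at e2
      rw [eq_inv_of_mul_eq_one_left e2]
      exact (kk τ hτ w _ _ e).inv_left
  obtain ⟨x, Cx, x1⟩ := exists_acore (g := fun i j => f (g i j)) hζ hD hDW hab hac hbc h2 conn hsu eqg G1 G2
    (by simpa using p6) K2 hy y1 yd
  simp only [← map_fam] at x1
  refine ⟨x, ⟨Cx, eqg, G2, fun {i j k} k1 k2 k3 s t => ?_, fun {i j k l} k1 k2 k3 k4 k5 k6 => ?_⟩, x1,
    by rw [x1, map_fam, fam_self hsu], by rw [map_fam, fam_self hsd], fun θ hθ i j h => ?_⟩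
  · obtain ⟨τ, hτ, w, e⟩ := hT' k1 k2 k3
    clear k1 k2 k3
    obtain ⟨⟩ := e
    obtain ⟨k1, k2, k3⟩ := hT τ hτ
    have H : ∀ e ∈ E, Cm (x τ.1 τ.2.1) (x τ.2.1 τ.2.2) (x τ.1 τ.2.2) (ζ ^ e) 1 := fun e he => by
      have := (p2 τ hτ).2 e he
      simp only [map_mul, map_inv, map_cjp, v, ← x1, cjp_x (Cx.m1 k1 k2 k3), cjp_x (Cx.m1 k2 k1 (hD k3))] at this
      simpa [Cm] using this
    refine Cx.cm_conj w k1 k2 k3 (Cx.cm_all h0 hD hζ k1 k2 k3 ?_ s t)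
    rcases hE with hE | ⟨hE, hE'⟩
    · exact Cx.cm3 h0 hD k1 k2 k3 fun e he => H e (hE e he)
    · obtain ⟨l, k4, k5, k6⟩ := hE' k1 k2 k3
      exact Cx.cm4 hD k1 k2 k3 k4 k5 k6 (by simpa using H 0 hE)
  · obtain ⟨τ, hτ, w, e⟩ := hQ1 k1 k2 k3 k4 k5 k6
    refine Cx.comm4 hD hζ k1 k2 k3 k4 k5 k6 ?_
    obtain ⟨⟩ := e
    exact Cx.comm_conj w hab (hQ τ (List.mem_append_left _ hτ)).2.2.2.2 (by rw [x1, x1]; exact p3 τ hτ)
  · have hθ' : ∀ g, θ (f g) = ψ g := fun g => DFunLike.congr_fun hθ g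
    exact (gn_sq hζ).map_eq (Cx.ad h) (C.ad h) θ (Cx.m0 h) (by rw [hθ', hg h]; exact C.m0 h)
      (by rw [x1, hθ', hv h])

end Cfsg.Agent.H3
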