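import Cfsg.Agent.H3.PresAlt

/-! Presentations of alternating and symmetric groups with three generators and seven relators: the gluing step. -/

set_option autoImplicit false

namespace Cfsg.Agent.H3

open Function Equiv

theorem HP.intro_sub {X : Type} {P : Type*} [Group P] (π : X → P) {K : Subgroup P}
    (hK : Subgroup.closure (Set.range π) = K) (R : List (FreeGroup X)) (hR : ∀ w ∈ R, FreeGroup.lift π w = 1)
    (h : ∀ (J : Type) [Group J] (j : X → J) (θ : J →* P), Subgroup.closure (Set.range j) = ⊤ →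
      (∀ x, θ (j x) = π x) → (∀ w ∈ R, FreeGroup.lift j w = 1) → Injective θ) :
    ∃ g : X → K, (∀ x, (g x : P) = π x) ∧ HP g R.length := by
  subst hK
  let g : X → Subgroup.closure (Set.range π) := fun x => ⟨π x, Subgroup.subset_closure ⟨x, rfl⟩⟩
  refine ⟨g, fun _ => rfl, HP.intro g ?_ R (fun w hw => ?_) fun J _ j θ hj hθ hw => ?_⟩
  · rw [surj_lift_iff]
    apply Subgroup.map_injective (Subgroup.subtype_injective _)
    rw [MonoidHom.map_closure, ← MonoidHom.range_eq_map, Subgroup.range_subtype, ← Set.range_comp]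
    rfl
  · apply Subtype.ext
    have := lift_comp_apply (Subgroup.subtype _) g w
    exact this.symm.trans (hR w hw)
  · exact Injective.of_comp (f := Subgroup.subtype _)
      (h J j ((Subgroup.subtype _).comp θ) hj (fun x => congrArg Subtype.val (hθ x)) hw)

theorem le_of_index_two {J : Type*} [Group J] {M : Subgroup J} {t : J} (ht : ∀ g ∈ M, t * g * t⁻¹ ∈ M)
    (htt : t * t ∈ M) {S : Set J} (h : ∀ s ∈ S, s ∈ M ∨ s * t⁻¹ ∈ M) :
    ∀ g ∈ Subgroup.closure S, g ∈ M ∨ g * t⁻¹ ∈ M := by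
  have ht' : ∀ g ∈ M, t⁻¹ * g * t ∈ M := fun g hg => by
    have := ht _ (mul_mem (mul_mem (inv_mem htt) hg) htt)
    simpa [mul_assoc] using this
  let K : Subgroup J :=
    { carrier := {g | g ∈ M ∨ g * t⁻¹ ∈ M}
      one_mem' := Or.inl (one_mem _)
      mul_mem' := by
        rintro a b (ha | ha) (hb | hb)
        · exact Or.inl (mul_mem ha hb)
        · exact Or.inr (by rw [mul_assoc]; exact mul_mem ha hb)
        · exact Or.inr (by simpa [mul_assoc] using mul_mem ha (ht _ hb))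
        · exact Or.inl (by simpa [mul_assoc] using mul_mem (mul_mem ha (ht _ hb)) htt)
      inv_mem' := by
        rintro a (ha | ha)
        · exact Or.inl (inv_mem ha)
        · exact Or.inr (by simpa [mul_assoc] using mul_mem (ht' _ (inv_mem ha)) (inv_mem htt)) }
  exact ((Subgroup.closure_le K).2 h : _ ≤ K)

theorem inj_of_index_two {J G : Type*} [Group J] [Group G] {θ : J →* G} {M : Subgroup J}
    (hM : ∀ g ∈ M, θ g = 1 → g = 1) {t : J} (ht : ∀ g ∈ M, t * g * t⁻¹ ∈ M) (htt : t * t ∈ M) {S : Set J}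
    (hS : Subgroup.closure S = ⊤) (h : ∀ s ∈ S, s ∈ M ∨ s * t⁻¹ ∈ M) (hθ : t ∈ M ∨ θ t ∉ M.map θ) :
    Injective θ := by
  rw [injective_iff_map_eq_one]
  intro g hg
  rcases le_of_index_two ht htt h g (by rw [hS]; trivial) with h1 | h1
  · exact hM g h1 hg
  · rcases hθ with h2 | h2
    · exact hM g (by simpa using mul_mem h1 h2) hg
    · exact absurd ⟨_, inv_mem h1, by simp [hg]⟩ h2

variable {Ω : Type} [DecidableEq Ω] [Fintype Ω]

/-- Three relators on two generators which define an alternating group on `Δ` times a small group. -/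
structure Base (Δ : Finset Ω) (π : Fin 2 → Perm Ω) where
  /-- relators -/
  R : List (FreeGroup (Fin 2))
  len : R.length ≤ 3
  hR : ∀ w ∈ R, FreeGroup.lift π w = 1
  /-- the alternating group -/
  N : Subgroup (FreeGroup (Fin 2))
  normal : N.Normal
  /-- the element to be killed -/
  k : FreeGroup (Fin 2)
  hk : FreeGroup.lift π k = 1
  /-- the odd element -/
  β : FreeGroup (Fin 2)
  main : ∀ (J : Type) [Group J] (j : Fin 2 → J) (θ : J →* Perm Ω), (∀ i, θ (j i) = π i) →
    (∀ w ∈ R, FreeGroup.lift j w = 1) → Copy θ (N.map (FreeGroup.lift j)) Δ ∧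
      (∃ e, Nat.Coprime 3 e ∧ FreeGroup.lift j k ^ e = 1) ∧
      (FreeGroup.lift j k = 1 → ∀ w, FreeGroup.lift j w ∈ N.map (FreeGroup.lift j) ∨
        (FreeGroup.lift j w * (FreeGroup.lift j β)⁻¹ ∈ N.map (FreeGroup.lift j) ∧ FreeGroup.lift π β ∉ Alt Δ))

theorem Base.map_N {Δ : Finset Ω} {π : Fin 2 → Perm Ω} (D : Base Δ π) : D.N.map (FreeGroup.lift π) = Alt Δ := by
  have := (D.main (Perm Ω) π (MonoidHom.id _) (fun _ => rfl) D.hR).1.map
  rwa [Subgroup.map_id] at this

theorem exists_cyc (B : Finset Ω) {γ δ δ' : Ω} (hδ : δ ≠ δ') (h1 : δ ∉ insert γ B) (h2 : δ' ∉ insert γ B) (s : ℤˣ) :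
    ∃ (f : Perm Ω) (e : ℕ), (∀ x, x ∉ insert γ B → f x = x) ∧ Perm.sign (f * swap δ δ' ^ e) = s ∧
      ∀ i ∈ B, ∃ k : ℕ, ((f * swap δ δ' ^ e) ^ k) γ = i := by
  obtain ⟨f, hf, hs⟩ := (insert γ B).exists_cycleOn
  have hfix : ∀ x, x ∉ insert γ B → f x = x := fun x hx => by
    by_contra h; exact hx (hs (Perm.mem_support.2 h))
  have hc : Commute f (swap δ δ') := by
    apply Perm.Disjoint.commute
    intro x
    by_cases e1 : x = δ
    · left; rw [e1]; exact hfix _ h1
    by_cases e2 : x = δ'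
    · left; rw [e2]; exact hfix _ h2
    · right; exact swap_apply_of_ne_of_ne e1 e2
  have hγ : swap δ δ' γ = γ := swap_apply_of_ne_of_ne (fun e => h1 (by simp [e])) fun e => h2 (by simp [e])
  have ho : ∀ e : ℕ, ∀ i ∈ B, ∃ k : ℕ, ((f * swap δ δ' ^ e) ^ k) γ = i := fun e i hi => by
    obtain ⟨k, -, hk⟩ := hf.exists_pow_eq (Finset.mem_insert_self γ B) (Finset.mem_insert_of_mem hi)
    refine ⟨k, ?_⟩
    rw [(hc.pow_right e).mul_pow, ← pow_mul, Perm.mul_apply, Perm.pow_apply_eq_self_of_apply_eq_self hγ, hk]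
  by_cases h : Perm.sign f = s
  · exact ⟨f, 0, hfix, by simpa using h, ho 0⟩
  · refine ⟨f, 1, hfix, ?_, ho 1⟩
    rw [pow_one, map_mul, Perm.sign_swap hδ]
    rcases Int.units_eq_one_or (Perm.sign f) with e | e <;> rcases Int.units_eq_one_or s with e' | e' <;> simp_all

theorem Alt_le_of_cyc {Γ : Finset Ω} {a b γ : Ω} (hab : a ≠ b) {u : Perm Ω}
    (hu : (u a = a ∧ u b = b) ∨ (u a = b ∧ u b = a))
    (ho : ∀ i ∈ Γ, i ≠ a → i ≠ b → ∃ k : ℕ, (u ^ k) γ = i) {K : Subgroup (Perm Ω)} (h1 : c3 a b γ ∈ K) (h2 : u ∈ K) :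
    Alt Γ ≤ K := by
  refine Alt_le a b fun i hi i1 i2 => ?_
  obtain ⟨k, hk⟩ := ho i hi i1 i2
  have hp : ((u ^ k) a = a ∧ (u ^ k) b = b) ∨ ((u ^ k) a = b ∧ (u ^ k) b = a) := by
    clear hk
    induction k with
    | zero => simp
    | succ k ih => rw [pow_succ']; rcases hu with hu | hu <;> rcases ih with ih | ih <;> simp [ih, hu]
  have := mul_mem (mul_mem (pow_mem h2 k) h1) (inv_mem (pow_mem h2 k))
  rw [c3_conj, hk] at this
  rcases hp with hp | hp
  · rwa [hp.1, hp.2] at this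
  · rw [hp.1, hp.2, c3_swap hab i1 i2] at this
    exact (inv_mem_iff).1 this

theorem Base.glue {Δ B : Finset Ω} {π : Fin 2 → Perm Ω} (D : Base Δ π) (hB : B ⊆ Δ) {y : Perm Ω} (hy : y * y = 1)
    (hyB : ∀ x, y x ∉ B ↔ x ∈ Δ) {p : Fin 6 → Ω} (hp : Injective p) (hpΔ : ∀ i, p i ∈ Δ ∧ p i ∉ B)
    (y0 : y (p 0) = p 0) (y1 : y (p 1) = p 1) (y2 : y (p 2) = p 2) (y3 : y (p 3) = p 3)
    (y4 : y * swap (p 4) (p 5) * y⁻¹ = swap (p 4) (p 5)) {u' : Perm Ω} (hu1 : u' ∈ (FreeGroup.lift π).range)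
    (hu2 : y⁻¹ * u' * y ∈ (FreeGroup.lift π).range)
    (hu3 : Alt (Δ \ B) ≤ Subgroup.closure {c3 (p 0) (p 1) (p 2), u'})
    (hu4 : (FreeGroup.lift π).range ≤ Alt Δ ∨ u' ∉ Alt Δ)
    (hfin : (Perm.sign y = 1 ∧ (y⁻¹ * u' * y ∈ Alt Δ ∨ Perm.sign u' = -1)) ∨
      (Perm.sign y = -1 ∧ (FreeGroup.lift π).range ≤ Alt Δ)) {K : Subgroup (Perm Ω)}
    (hK : Subgroup.closure (Set.range fun o : Option (Fin 2) => o.elim y π) = K) :
    ∃ g : Option (Fin 2) → K, (∀ x, (g x : Perm Ω) = x.elim y π) ∧ HP g 7 := by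
  have ne : ∀ {i j : Fin 6}, i ≠ j → p i ≠ p j := fun h => hp.ne h
  have hyi : y⁻¹ = y := inv_eq_of_mul_eq_one_right hy
  have hyy : ∀ x, y (y x) = x := fun x => by rw [← Perm.mul_apply, hy]; rfl
  set ε : FreeGroup (Fin 2) →* FreeGroup (Option (Fin 2)) := FreeGroup.map some
  set Y : FreeGroup (Option (Fin 2)) := FreeGroup.of none
  have hN : ∀ g ∈ Alt Δ, ∃ w ∈ D.N, FreeGroup.lift π w = g := fun g hg => by rwa [← D.map_N] at hg
  obtain ⟨x, xN, hx⟩ := hN _ (c3_mem_Alt (hpΔ 0).1 (hpΔ 1).1 (hpΔ 2).1 (ne (by decide)) (ne (by decide)))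
  obtain ⟨w', hw'⟩ := hu1
  obtain ⟨w, hw⟩ := hu2
  have nm : ∀ {i j : Fin 6}, i ≠ j → p i ∉ insert (p j) B := fun h => by simp [ne h, (hpΔ _).2]
  have cycA : ∀ (i : Fin 6) (f : Perm Ω) (e : ℕ), (∀ x, x ∉ insert (p i) B → f x = x) →
      Perm.sign (f * swap (p 4) (p 5) ^ e) = 1 → f * swap (p 4) (p 5) ^ e ∈ Alt Δ := fun i f e h1 h2 => by
    refine ⟨fun x hx => ?_, h2⟩
    rw [Perm.mul_apply, Perm.pow_apply_eq_self_of_apply_eq_self (swap_apply_of_ne_of_ne
      (fun e : x = _ => hx (e ▸ (hpΔ 4).1)) fun e : x = _ => hx (e ▸ (hpΔ 5).1)), h1]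
    rw [Finset.mem_insert, not_or]
    exact ⟨fun e => hx (e ▸ (hpΔ i).1), fun e => hx (hB e)⟩
  have cycF : ∀ (i j : Fin 6) (f : Perm Ω) (e : ℕ), (∀ x, x ∉ insert (p i) B → f x = x) → j ≠ i → j ≠ 4 → j ≠ 5 →
      (f * swap (p 4) (p 5) ^ e) (p j) = p j := fun i j f e h1 h2 h3 h4 => by
    rw [Perm.mul_apply, Perm.pow_apply_eq_self_of_apply_eq_self (swap_apply_of_ne_of_ne (ne h3) (ne h4)),
      h1 _ (nm h2)]
  obtain ⟨f, e, f1, f2, f3⟩ := exists_cyc B (γ := p 2) (ne (show (4 : Fin 6) ≠ 5 by decide)) (nm (by decide))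
    (nm (by decide)) 1
  obtain ⟨f', e', f1', f2', f3'⟩ := exists_cyc B (γ := p 3) (ne (show (4 : Fin 6) ≠ 5 by decide)) (nm (by decide))
    (nm (by decide)) 1
  obtain ⟨c, cN, hc⟩ := hN _ (cycA 2 f e f1 f2)
  obtain ⟨c', cN', hc'⟩ := hN _ (cycA 3 f' e' f1' f2')
  have lε : ∀ {J : Type} [Group J] (j : Option (Fin 2) → J) (w : FreeGroup (Fin 2)),
      FreeGroup.lift j (ε w) = FreeGroup.lift (fun i => j (some i)) w := fun j w => lift_map _ _ _
  have mapM : ∀ {J : Type} [Group J] (j : Option (Fin 2) → J),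
      (D.N.map ε ⊔ (D.N.map ε).map (MulAut.conj Y).toMonoidHom).map (FreeGroup.lift j) =
        D.N.map (FreeGroup.lift fun i => j (some i)) ⊔
          (D.N.map (FreeGroup.lift fun i => j (some i))).map (MulAut.conj (j none)).toMonoidHom := by
    intro J _ j
    have e1 : (FreeGroup.lift j).comp ε = FreeGroup.lift fun i => j (some i) := MonoidHom.ext (lε j)
    rw [Subgroup.map_sup, Subgroup.map_map, e1, ← e1, ← Subgroup.map_map, Subgroup.map_map (D.N.map ε),
      Subgroup.map_map (D.N.map ε)]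
    congr 2
    ext1 g; simp [Y]
  have hun : Δ ∪ Bᶜ = Finset.univ := by
    ext x; simp only [Finset.mem_union, Finset.mem_compl, Finset.mem_univ, iff_true]
    by_contra h; rw [not_or, not_not] at h; exact h.1 (hB h.2)
  have hAlt : Alt Finset.univ ≤ Alt Δ ⊔ (Alt Δ).map (MulAut.conj y).toMonoidHom := by
    refine Alt_le (p 0) (p 1) fun i _ i1 i2 => ?_
    by_cases hi : i ∈ Δ
    · exact Subgroup.mem_sup_left (c3_mem_Alt (hpΔ 0).1 (hpΔ 1).1 hi (ne (by decide)) i1)
    · refine Subgroup.mem_sup_right ⟨c3 (p 0) (p 1) (y i), c3_mem_Alt (hpΔ 0).1 (hpΔ 1).1 ?_ (ne (by decide)) ?_, ?_⟩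
      · rw [← hyB, hyy]; exact fun h => hi (hB h)
      · intro e; apply i1; rw [← hyy i, e, y0]
      · show y * _ * y⁻¹ = _
        rw [c3_conj, y0, y1, hyy]
  obtain ⟨W, hW1, hW2⟩ : ∃ W : FreeGroup (Option (Fin 2)),
      FreeGroup.lift (fun o : Option (Fin 2) => o.elim y π) W = 1 ∧ ∀ (J : Type) [Group J] (j : Option (Fin 2) → J),
        FreeGroup.lift j W = 1 → (Perm.sign y = 1 → j none ∈ D.N.map (FreeGroup.lift fun i => j (some i)) ⊔
          (D.N.map (FreeGroup.lift fun i => j (some i))).map (MulAut.conj (j none)).toMonoidHom) ∧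
          (Perm.sign y = -1 → j none * j none = 1) := by
    rcases Int.units_eq_one_or (Perm.sign y) with hs | hs
    · have : y ∈ (D.N.map ε ⊔ (D.N.map ε).map (MulAut.conj Y).toMonoidHom).map
          (FreeGroup.lift fun o : Option (Fin 2) => o.elim y π) := by
        rw [mapM]
        simp only [Option.elim_some, Option.elim_none, D.map_N]
        exact hAlt ⟨by simp, hs⟩
      obtain ⟨W, h1, h2⟩ := this
      refine ⟨Y⁻¹ * W, by simp [Y, h2], fun J _ j hj => ⟨fun _ => ?_, fun h => by simp [hs] at h⟩⟩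
      rw [map_mul, map_inv, inv_mul_eq_one] at hj
      rw [← mapM]
      exact ⟨W, h1, by simpa [Y] using hj.symm⟩
    · exact ⟨Y * Y, by simp [Y, hy], fun J _ j hj => ⟨fun h => by simp [hs] at h, fun _ => by simpa [Y] using hj⟩⟩
  let L : List (FreeGroup (Option (Fin 2))) := D.R.map ε ++
    [Y * ε x * Y⁻¹ * (ε (x * D.k))⁻¹, Y * ε w * Y⁻¹ * (ε w')⁻¹,
      ε c * (Y * ε c' * Y⁻¹) * ((Y * ε c' * Y⁻¹) * ε c)⁻¹, W]
  have hlen : L.length ≤ 7 := by have := D.len; simp [L]; omega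
  have hcomm : Commute (f * swap (p 4) (p 5) ^ e) (y * (f' * swap (p 4) (p 5) ^ e') * y⁻¹) := by
    have e1 : y * (f' * swap (p 4) (p 5) ^ e') * y⁻¹ = (y * f' * y⁻¹) * swap (p 4) (p 5) ^ e' := by
      conv_rhs => rw [← y4, conj_pow]
      group
    have d : ∀ (i : Fin 6) (g : Perm Ω), i ≠ 4 → i ≠ 5 → (∀ x, x ∉ insert (p i) B → g x = x) →
        Commute g (swap (p 4) (p 5)) := fun i g h4 h5 h => by
      apply Perm.Disjoint.commute
      intro x
      by_cases e1 : x = p 4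
      · left; rw [e1]; exact h _ (nm h4.symm)
      by_cases e2 : x = p 5
      · left; rw [e2]; exact h _ (nm h5.symm)
      · right; exact swap_apply_of_ne_of_ne e1 e2
    have d2 : Commute (y * f' * y⁻¹) (swap (p 4) (p 5)) := by
      have := (d 3 f' (by decide) (by decide) f1').map (MulAut.conj y)
      rwa [MulAut.conj_apply, MulAut.conj_apply, y4] at this
    have d3 : Commute f (y * f' * y⁻¹) := by
      apply Perm.Disjoint.commute
      intro x
      by_cases hx : x ∈ insert (p 2) B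
      · right
        rw [hyi, Perm.mul_apply, Perm.mul_apply, f1', hyy]
        rw [Finset.mem_insert, not_or, hyB] 
        rcases Finset.mem_insert.1 hx with rfl | hx
        · exact ⟨by rw [y2]; exact ne (by decide), (hpΔ 2).1⟩
        · exact ⟨fun e => (hpΔ 3).2 (by rwa [← hyy x, e, y3] at hx), hB hx⟩
      · exact Or.inl (f1 x hx)
    rw [e1]
    exact (d3.mul_right ((d 2 f (by decide) (by decide) f1).pow_right _)).mul_left
      ((d2.symm.pow_left _).mul_right ((Commute.refl _).pow_pow _ _))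
  obtain ⟨g, hg1, hg2⟩ := HP.intro_sub _ hK L (by
    intro v hv
    simp only [L, List.mem_append, List.mem_map, List.mem_cons, List.not_mem_nil, or_false] at hv
    rcases hv with ⟨v, hv, rfl⟩ | rfl | rfl | rfl | rfl
    · rw [lε]; exact D.hR v hv
    · simp [lε, Y, hx, D.hk, c3_conj, y0, y1, y2]
    · simp [lε, Y, hw, hw', mul_assoc]
    · simp only [map_mul, map_inv, lε, Y, FreeGroup.lift_apply_of, Option.elim_none, Option.elim_some, hc, hc',
        mul_inv_eq_one]
      exact hcomm.eq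
    · exact hW1) (by
    intro J _ j θ hj hθ hrel
    set j0 : Fin 2 → J := fun i => j (some i)
    set z := j none
    have θz : θ z = y := hθ none
    have θl : ∀ v, θ (FreeGroup.lift j0 v) = FreeGroup.lift π v := fun v => by
      rw [← lift_comp_apply]; congr 2; funext i; exact hθ (some i)
    obtain ⟨hcp, ⟨m, hm, hkm⟩, hkill⟩ := D.main J j0 θ (fun i => hθ (some i)) fun v hv => by
      rw [← lε]; exact hrel _ (List.mem_append_left _ (List.mem_map_of_mem hv))
    set N := D.N.map (FreeGroup.lift j0)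
    have r1 := hrel _ (List.mem_append_right _ (List.mem_cons_self ..))
    have r2 := hrel _ (List.mem_append_right _ (List.mem_cons_of_mem _ (List.mem_cons_self ..)))
    have r3 := hrel _ (List.mem_append_right _ (List.mem_cons_of_mem _ (List.mem_cons_of_mem _
      (List.mem_cons_self ..))))
    have r4 := hW2 J j (hrel W (by simp [L]))
    simp only [map_mul, map_inv, lε, Y, FreeGroup.lift_apply_of, mul_inv_eq_one] at r1 r2 r3
    have nN : ∀ v, ∀ g ∈ N, FreeGroup.lift j0 v * g * (FreeGroup.lift j0 v)⁻¹ ∈ N := by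
      rintro v _ ⟨g, hg, rfl⟩
      exact ⟨_, D.normal.conj_mem g hg v, by simp⟩
    have xN' : FreeGroup.lift j0 x ∈ N := ⟨x, xN, rfl⟩
    have hk1 : FreeGroup.lift j0 D.k = 1 := by
      have x3 : FreeGroup.lift j0 x ^ 3 = 1 := hcp.ker _ (pow_mem xN' 3) (by
        rw [map_pow, θl, hx, c3_cube (ne (by decide)) (ne (by decide)) (ne (by decide))])
      have kc : Commute (FreeGroup.lift j0 x) (FreeGroup.lift j0 D.k) := by
        have := hcp.inj (nN D.k _ xN') xN' (by simp [θl, D.hk])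
        exact (mul_inv_eq_iff_eq_mul.1 this).symm
      have k3 : FreeGroup.lift j0 D.k ^ 3 = 1 := by
        have := congrArg (· ^ 3) r1
        simp only [conj_pow] at this
        rw [kc.mul_pow, x3] at this
        simpa using this.symm
      have := pow_gcd_eq_one.2 ⟨k3, hkm⟩
      rwa [hm, pow_one] at this
    replace hkill := hkill hk1
    rw [hk1, mul_one] at r1
    have hH : ∀ v, FreeGroup.lift π v ∈ Alt Δ → FreeGroup.lift j0 v ∈ N := fun v hv => by
      rcases hkill v with h | ⟨h, h'⟩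
      · exact h
      · have := hcp.mem h
        rw [map_mul, map_inv, θl, θl] at this
        exact absurd (by simpa using mul_mem (inv_mem this) hv) h'
    have hcp' : Copy θ (N.map (MulAut.conj z).toMonoidHom) Bᶜ := hcp.conj z fun x => by
      rw [θz, Finset.mem_compl, hyB]
    have hmem : ∀ i, p i ∈ Δ ∩ Bᶜ := fun i => by simp [hpΔ i]
    have hM := hcp.glue hcp' (ne (show (0 : Fin 6) ≠ 1 by decide)) (hmem 0) (hmem 1) (hmem 2) (hmem 3)
      (ne (by decide)) (ne (by decide)) (ne (by decide)) (ne (by decide)) (by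
        intro i hi i1 i2
        have hi' : i ∈ Δ \ B := by simpa using hi
        have hle : Subgroup.closure {c3 (p 0) (p 1) (p 2), u'} ≤ (((FreeGroup.lift j0).range ⊓
            (FreeGroup.lift j0).range.comap (MulAut.conj z).toMonoidHom).map (MulAut.conj z).toMonoidHom).map θ := by
          rw [Subgroup.closure_le]
          rintro _ (rfl | rfl)
          · exact ⟨_, ⟨FreeGroup.lift j0 x, ⟨⟨x, rfl⟩, ⟨x, r1.symm⟩⟩, rfl⟩, by
              show θ (z * _ * z⁻¹) = _; rw [r1, θl, hx]⟩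
          · exact ⟨_, ⟨FreeGroup.lift j0 w, ⟨⟨w, rfl⟩, ⟨w', r2.symm⟩⟩, rfl⟩, by
              show θ (z * _ * z⁻¹) = _; rw [r2, θl, hw']⟩
        have hc3 := c3_mem_Alt (Δ := Δ \ B) (by simp [hpΔ 0]) (by simp [hpΔ 1]) hi'
          (ne (show (0 : Fin 6) ≠ 1 by decide)) i1
        obtain ⟨_, ⟨_, ⟨⟨v, rfl⟩, ⟨v', hv'⟩⟩, rfl⟩, h⟩ := hle (hu3 hc3)
        refine ⟨_, ?_, ⟨_, hH v ?_, rfl⟩, h⟩
        · rw [← hv']; apply hH; rw [← θl, hv', h]; exact Alt_mono Finset.sdiff_subset hc3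
        · have : FreeGroup.lift π v = y * c3 (p 0) (p 1) i * y⁻¹ := by
            rw [← h, ← θl]; simp [θz, hyi, mul_assoc, hy, ← mul_assoc y y]
          rw [this]
          exact conj_mem_Alt hc3 fun x hx => by
            rw [← hyB, hyy]; exact (Finset.mem_sdiff.1 hx).2)
      (c := FreeGroup.lift j0 c) (c' := z * FreeGroup.lift j0 c' * z⁻¹) ⟨c, cN, rfl⟩ ⟨_, ⟨c', cN', rfl⟩, rfl⟩ r3
      (by rw [θl, hc]; exact cycF 2 0 f e f1 (by decide) (by decide) (by decide))
      (by rw [θl, hc]; exact cycF 2 1 f e f1 (by decide) (by decide) (by decide))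
      (by rw [θl, hc]; exact cycF 2 3 f e f1 (by decide) (by decide) (by decide))
      (by rw [map_mul, map_mul, map_inv, θl, hc', θz, hyi, Perm.mul_apply, Perm.mul_apply, y0,
            cycF 3 0 f' e' f1' (by decide) (by decide) (by decide), y0])
      (by rw [map_mul, map_mul, map_inv, θl, hc', θz, hyi, Perm.mul_apply, Perm.mul_apply, y1,
            cycF 3 1 f' e' f1' (by decide) (by decide) (by decide), y1])
      (fun i _ hi => by rw [θl, hc]; exact f3 i (by simpa using hi))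
      (fun i _ hi => by
        obtain ⟨k, hk⟩ := f3' (y i) (by by_contra h; exact hi ((hyB i).1 h))
        refine ⟨k, ?_⟩
        rw [map_mul, map_mul, map_inv, θl, hc', θz, conj_pow, hyi, Perm.mul_apply, Perm.mul_apply, y3, hk, hyy])
    rw [hun] at hM
    set M := N ⊔ N.map (MulAut.conj z).toMonoidHom
    have nM : ∀ t : J, (∀ g ∈ N, t * g * t⁻¹ ∈ M) → (∀ g ∈ N, t * (z * g * z⁻¹) * t⁻¹ ∈ M) →
        ∀ g ∈ M, t * g * t⁻¹ ∈ M := fun t h1 h2 =>
      (sup_le h1 (by rintro _ ⟨g, hg, rfl⟩; exact h2 g hg) : M ≤ M.comap (MulAut.conj t).toMonoidHom)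
    have notM : ∀ t, Perm.sign (θ t) = -1 → θ t ∉ M.map θ := fun t ht h => by
      rw [hM.map] at h; rw [h.2] at ht; exact absurd ht (by decide)
    rcases hfin with ⟨s1, s2⟩ | ⟨s1, s2⟩
    · refine inj_of_index_two hM.ker (t := FreeGroup.lift j0 w') (nM _ (fun g hg => Subgroup.mem_sup_left (nN _ g hg))
        fun g hg => Subgroup.mem_sup_right ⟨_, nN w g hg, ?_⟩) ?_ hj ?_ ?_
      · have r2' : z * FreeGroup.lift j0 w * z⁻¹ = FreeGroup.lift j0 w' := r2
        rw [← r2']; show z * _ * z⁻¹ = _; group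
      · apply Subgroup.mem_sup_left
        rcases hkill w' with h | ⟨h, -⟩
        · exact mul_mem h h
        · rcases hkill (w' * w') with h' | ⟨h', -⟩
          · rwa [map_mul] at h'
          · have : FreeGroup.lift j0 w' ∈ N := by simpa [mul_assoc] using mul_mem h' (inv_mem h)
            exact mul_mem this this
      · rintro _ ⟨_ | i, rfl⟩
        · exact Or.inl (r4.1 s1)
        · have e : j (some i) = FreeGroup.lift j0 (FreeGroup.of i) := by simp [j0]
          rw [e]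
          rcases hu4 with h4 | h4
          · exact Or.inl (Subgroup.mem_sup_left (hH _ (h4 ⟨_, rfl⟩)))
          · rcases hkill (FreeGroup.of i) with h | ⟨h, -⟩
            · exact Or.inl (Subgroup.mem_sup_left h)
            · rcases hkill w' with h' | ⟨h', -⟩
              · exact absurd (by have := hcp.mem h'; rwa [θl, hw'] at this) h4
              · exact Or.inr (Subgroup.mem_sup_left (by simpa [mul_assoc] using mul_mem h (inv_mem h')))
      · rcases s2 with s2 | s2
        · exact Or.inl (Subgroup.mem_sup_right ⟨_, hH w (hw ▸ s2), r2⟩)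
        · exact Or.inr (notM _ (by rw [θl, hw', s2]))
    · have zz := r4.2 s1
      refine inj_of_index_two hM.ker (t := z) (nM _ (fun g hg => Subgroup.mem_sup_right ⟨g, hg, rfl⟩)
        fun g hg => Subgroup.mem_sup_left ?_) (by rw [zz]; exact one_mem _) hj ?_ (Or.inr (notM _ (by rw [θz, s1])))
      · have : z * (z * g * z⁻¹) * z⁻¹ = (z * z) * g * (z * z)⁻¹ := by group
        rw [this, zz]; simpa using hg
      · rintro _ ⟨_ | i, rfl⟩
        · exact Or.inr (by simp [z])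
        · have e : j (some i) = FreeGroup.lift j0 (FreeGroup.of i) := by simp [j0]
          rw [e]; exact Or.inl (Subgroup.mem_sup_left (hH _ (s2 ⟨_, rfl⟩))))
  exact ⟨g, hg1, hg2.mono hlen⟩

end Cfsg.Agent.H3
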