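import Cfsg.Agent.H3.Pres

/-! Few relations forcing the conjugates of an element under a cyclic group to form a copy of a finite field. -/

set_option autoImplicit false

namespace Cfsg.Agent.H3

open Function Polynomial

variable {J G : Type*} [Group J] [Group G]

/-- The conjugate `d ^ i * v * d ^ (-i)`. -/
def cjp (d v : J) (i : ℕ) : J := d ^ i * v * (d ^ i)⁻¹

theorem cjp_zero (d v : J) : cjp d v 0 = v := by simp [cjp]

theorem cjp_one (d v : J) : cjp d v 1 = d * v * d⁻¹ := by simp [cjp]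

theorem conj_cjp (d v : J) (i k : ℕ) : d ^ i * cjp d v k * (d ^ i)⁻¹ = cjp d v (i + k) := by
  simp only [cjp, pow_add]; group

theorem conj_mul' (g a b : J) : g * (a * b) * g⁻¹ = (g * a * g⁻¹) * (g * b * g⁻¹) := by group

theorem Commute.cj {a b : J} (h : Commute a b) (g : J) : Commute (g * a * g⁻¹) (g * b * g⁻¹) :=
  h.map (MulAut.conj g)

theorem comm_cjp {d v : J} {k : ℕ} (h : ∀ i ≤ k, Commute v (cjp d v i)) {a b : ℕ} (h1 : a ≤ b + k) (h2 : b ≤ a + k) :
    Commute (cjp d v a) (cjp d v b) := by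
  wlog hab : a ≤ b generalizing a b
  · exact (this h2 h1 (by omega)).symm
  obtain ⟨c, rfl⟩ := Nat.exists_eq_add_of_le hab
  have := Commute.cj (h c (by omega)) (d ^ a)
  rwa [conj_cjp] at this

theorem comm_of_mul {a a' b b' : J} (h : Commute (a * a') (b * b')) (h1 : Commute a' b) (h2 : Commute a' b')
    (h3 : Commute a b) : Commute a b' := by
  have h4 : Commute a (b * b') := by
    have := h.mul_left (h1.mul_right h2).inv_left
    simpa using this
  have := h3.inv_right.mul_right h4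
  simpa using this

/-- Baumslag's trick. -/
theorem baumslag1 {d v : J} {j : ℕ} (h1 : Commute v (cjp d v 1)) (h : cjp d v j = v * cjp d v 1) (i : ℕ) :
    Commute v (cjp d v i) := by
  have key : ∀ k, ∀ i ≤ k + 1, Commute v (cjp d v i) := by
    intro k
    induction k with
    | zero =>
      intro i hi
      interval_cases i
      · rw [cjp_zero]
      · exact h1
    | succ k ih =>
      intro i hi
      rcases Nat.lt_or_eq_of_le hi with hi | rfl
      · exact ih i (by omega)
      have e : cjp d v (j + (k + 1)) = cjp d v (k + 1) * cjp d v (k + 1 + 1) := by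
        rw [add_comm, ← conj_cjp, h, conj_mul', conj_cjp]; rfl
      have : Commute (cjp d v j) _ := Commute.cj (ih (k + 1) le_rfl) (d ^ j)
      rw [conj_cjp, e, h] at this
      refine comm_of_mul this (comm_cjp ih (by omega) (by omega)) (comm_cjp ih (by omega) (by omega))
        (ih _ le_rfl)
  exact key i i (by omega)

theorem baumslag2 {d v : J} {j : ℕ} (h1 : Commute v (cjp d v 1)) (h2 : Commute v (cjp d v 2))
    (h : cjp d v j = v * (cjp d v 1 ^ 2 * cjp d v 2)) (i : ℕ) : Commute v (cjp d v i) := by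
  have key : ∀ k, ∀ i ≤ k + 2, Commute v (cjp d v i) := by
    intro k
    induction k with
    | zero =>
      intro i hi
      interval_cases i
      · rw [cjp_zero]
      · exact h1
      · exact h2
    | succ k ih =>
      intro i hi
      rcases Nat.lt_or_eq_of_le hi with hi | rfl
      · exact ih i (by omega)
      have e : cjp d v (j + (k + 1)) = (cjp d v (k + 1) * cjp d v (k + 1 + 1) ^ 2) * cjp d v (k + 1 + 2) := by
        rw [add_comm, ← conj_cjp, h, conj_mul', conj_mul', ← conj_pow, conj_cjp, conj_cjp, ← mul_assoc]; rfl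
      have : Commute (cjp d v j) _ := Commute.cj (ih (k + 1) (by omega)) (d ^ j)
      rw [conj_cjp, e, h] at this
      have c : ∀ {a b : ℕ}, a ≤ b + (k + 2) → b ≤ a + (k + 2) → Commute (cjp d v a) (cjp d v b) :=
        fun h1 h2 => comm_cjp ih h1 h2
      refine comm_of_mul this ?_ ?_ ((ih _ (by omega)).mul_right ((ih _ (by omega)).pow_right 2))
      · exact (((c (by omega) (by omega)).mul_right ((c (by omega) (by omega)).pow_right 2)).pow_left 2).mul_left
          ((c (by omega) (by omega)).mul_right ((c (by omega) (by omega)).pow_right 2))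
      · exact ((c (by omega) (by omega)).pow_left 2).mul_left (c (by omega) (by omega))
  exact key i i (by omega)

/-- Horner word. -/
def pw (v d : J) : List ℤ → J
  | [] => 1
  | c :: L => v ^ c * (d * pw v d L * d⁻¹)

theorem map_pw (f : J →* G) (v d : J) (L : List ℤ) : f (pw v d L) = pw (f v) (f d) L := by
  induction L with
  | nil => simp [pw]
  | cons c L ih => simp [pw, ih]

/-- Horner polynomial. -/
noncomputable def polyL : List ℤ → ℤ[X]
  | [] => 0
  | c :: L => C c + X * polyL L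

theorem polyL_surj (f : ℤ[X]) : ∃ L, polyL L = f := by
  induction h : f.natDegree generalizing f with
  | zero => exact ⟨[f.coeff 0], by simp [polyL, ← eq_C_of_natDegree_eq_zero h]⟩
  | succ n ih =>
    obtain ⟨L, hL⟩ := ih f.divX (by rw [natDegree_divX_eq_natDegree_tsub_one, h]; rfl)
    exact ⟨f.coeff 0 :: L, by rw [polyL, hL, add_comm, X_mul_divX_add]⟩

variable {F : Type*} [Field F]

/-- An additive map. -/
def Ad (x : F → J) : Prop := ∀ s t, x (s + t) = x s * x t

theorem Ad.zero {x : F → J} (h : Ad x) : x 0 = 1 := by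
  have := h 0 0
  rw [add_zero] at this
  exact mul_eq_left.1 this.symm

theorem Ad.neg {x : F → J} (h : Ad x) (t : F) : x (-t) = (x t)⁻¹ :=
  eq_inv_of_mul_eq_one_left (by rw [← h, neg_add_cancel, h.zero])

theorem Ad.comm {x : F → J} (h : Ad x) (s t : F) : Commute (x s) (x t) := by
  show _ = _; rw [← h, ← h, add_comm]

theorem Ad.nsmul {x : F → J} (h : Ad x) (n : ℕ) (t : F) : x (n * t) = x t ^ n := by
  induction n with
  | zero => simp [h.zero]
  | succ n ih => rw [Nat.cast_succ, add_mul, h, ih, one_mul, pow_succ]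

theorem Ad.zsmul {x : F → J} (h : Ad x) (n : ℤ) (t : F) : x (n * t) = x t ^ n := by
  obtain ⟨n, rfl | rfl⟩ := n.eq_nat_or_neg
  · simp [h.nsmul]
  · simp [h.neg, h.nsmul]

theorem Ad.map {x : F → J} (h : Ad x) (f : J →* G) : Ad fun t => f (x t) := fun s t => by
  simp only [h s t, map_mul]

theorem Ad.conj {x : F → J} (h : Ad x) (g : J) : Ad fun t => g * x t * g⁻¹ := fun s t => by
  simp only [h s t]; group

theorem Ad.smul {x : F → J} (h : Ad x) (c : F) : Ad fun t => x (c * t) := fun s t => by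
  simp only [mul_add, h _ _]

/-- The elements mapped into a subgroup. -/
def Ad.pre {x : F → J} (h : Ad x) (K : Subgroup J) : AddSubgroup F where
  carrier := {t | x t ∈ K}
  zero_mem' := by show x 0 ∈ K; rw [h.zero]; exact one_mem _
  add_mem' := fun {a b} ha hb => by show x _ ∈ K; rw [h]; exact mul_mem ha hb
  neg_mem' := fun {a} ha => by show x _ ∈ K; rw [h.neg]; exact inv_mem ha

/-- The elements on which two additive maps agree. -/
def Ad.eqs {x y : F → J} (h : Ad x) (h' : Ad y) : AddSubgroup F where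
  carrier := {t | x t = y t}
  zero_mem' := by show x 0 = y 0; rw [h.zero, h'.zero]
  add_mem' := fun {a b} (ha : x a = y a) (hb : x b = y b) => by show x _ = y _; rw [h, h', ha, hb]
  neg_mem' := fun {a} (ha : x a = y a) => by show x _ = y _; rw [h.neg, h'.neg, ha]

theorem conj_pow_x {x : F → J} {d : J} {l : F} (hd : ∀ t, d * x t * d⁻¹ = x (l * t)) (i : ℕ) (t : F) :
    d ^ i * x t * (d ^ i)⁻¹ = x (l ^ i * t) := by
  induction i with
  | zero => simp
  | succ i ih => rw [pow_succ' l, mul_assoc l, ← hd, ← ih, pow_succ']; group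

theorem cjp_x {x : F → J} {d : J} {l : F} (hd : ∀ t, d * x t * d⁻¹ = x (l * t)) (i : ℕ) :
    cjp d (x 1) i = x (l ^ i) := by rw [cjp, conj_pow_x hd, mul_one]

theorem pw_x {x : F → J} (h : Ad x) {d : J} {l : F} (hd : ∀ t, d * x t * d⁻¹ = x (l * t)) (L : List ℤ) :
    pw (x 1) d L = x (aeval l (polyL L)) := by
  induction L with
  | nil => simp [pw, polyL, h.zero]
  | cons c L ih =>
    rw [pw, ih, hd, ← h.zsmul, ← h, polyL]; simp

/-- The powers of `l` span `F` additively. -/
def Gn (l : F) : Prop := ∀ S : AddSubgroup F, 1 ∈ S → (∀ t ∈ S, l * t ∈ S) → ∀ t, t ∈ S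

theorem Gn.ext {l : F} (hl : Gn l) {x y : F → J} (h : Ad x) (h' : Ad y) {d : J}
    (hd : ∀ t, d * x t * d⁻¹ = x (l * t)) (hd' : ∀ t, d * y t * d⁻¹ = y (l * t)) (h1 : x 1 = y 1) (t : F) :
    x t = y t :=
  hl (h.eqs h') h1 (fun t (ht : x t = y t) => by show x _ = y _; rw [← hd, ← hd', ht]) t

theorem Gn.conj {l : F} (hl : Gn l) {x : F → J} (h : Ad x) {d : J} (hd : ∀ t, d * x t * d⁻¹ = x (l * t))
    {g : J} (hg : Commute g d) {c : F} (h1 : g * x 1 * g⁻¹ = x c) (t : F) : g * x t * g⁻¹ = x (c * t) :=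
  hl.ext (h.conj g) (h.smul c) (d := d) (fun t => by
      rw [← hd]
      calc d * (g * x t * g⁻¹) * d⁻¹ = (d * g) * x t * (d * g)⁻¹ := by group
        _ = _ := by rw [← hg.eq]; group)
    (fun t => by rw [hd, mul_left_comm]) (by simpa using h1) t

theorem Gn.mem {l : F} (hl : Gn l) {x : F → J} (h : Ad x) {d : J} (hd : ∀ t, d * x t * d⁻¹ = x (l * t))
    {K : Subgroup J} (h1 : x 1 ∈ K) (hK : ∀ g ∈ K, d * g * d⁻¹ ∈ K) (t : F) : x t ∈ K :=
  hl (h.pre K) h1 (fun t ht => by show x _ ∈ K; rw [← hd]; exact hK _ ht) t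

theorem mod_of_minpoly (p : ℕ) [Fact p.Prime] [Algebra (ZMod p) F] {l : F} (hl : Gn l) {L : List ℤ}
    (hm : (polyL L).map (algebraMap ℤ (ZMod p)) = minpoly (ZMod p) l) {J : Type*} [Group J] {v d : J}
    (hc : ∀ i, Commute v (cjp d v i)) (hp : v ^ p = 1) (hL : pw v d L = 1) :
    ∃ x : F → J, Ad x ∧ x 1 = v ∧ ∀ t, d * x t * d⁻¹ = x (l * t) := by
  have ev : ∀ f : ℤ[X], aeval l (f.map (algebraMap ℤ (ZMod p))) = aeval l f := fun f => aeval_map_algebraMap _ _ _
  have hsurj : Surjective (Polynomial.map (algebraMap ℤ (ZMod p))) :=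
    map_surjective _ (ZMod.ringHom_surjective _)
  have hker : ∀ f : ℤ[X], aeval l f = 0 → ∃ g h, f = polyL L * g + C (p : ℤ) * h := by
    intro f hf
    obtain ⟨g, hg⟩ := minpoly.dvd (ZMod p) l ((ev f).trans hf)
    obtain ⟨g, rfl⟩ := hsurj g
    have : C (p : ℤ) ∣ f - polyL L * g := by
      rw [C_dvd_iff_dvd_coeff]
      intro i
      rw [← ZMod.intCast_zmod_eq_zero_iff_dvd]
      have := congrArg (coeff · i) (show (f - polyL L * g).map (algebraMap ℤ (ZMod p)) = 0 by
        rw [Polynomial.map_sub, Polynomial.map_mul, hg, hm, sub_self])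
      simpa only [coeff_map, coeff_zero, eq_intCast] using this
    obtain ⟨h, hh⟩ := this
    exact ⟨g, h, by rw [← hh]; ring⟩
  let A := Subgroup.closure (Set.range (cjp d v))
  have hA : ∀ a ∈ Set.range (cjp d v), ∀ b ∈ Set.range (cjp d v), a * b = b * a := by
    rintro _ ⟨a, rfl⟩ _ ⟨b, rfl⟩
    exact comm_cjp (k := a + b) (fun i _ => hc i) (by omega) (by omega)
  haveI : IsMulCommutative A := Subgroup.isMulCommutative_closure hA
  let _ : CommGroup A := { mul_comm := fun a b => mul_comm' a b }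
  have hτ : ∀ a ∈ A, d * a * d⁻¹ ∈ A := by
    intro a ha
    have : A ≤ A.comap (MulAut.conj d).toMonoidHom := by
      rw [Subgroup.closure_le]
      rintro _ ⟨i, rfl⟩
      have := conj_cjp d v 1 i
      rw [pow_one] at this
      show d * cjp d v i * d⁻¹ ∈ A
      rw [this]; exact Subgroup.subset_closure ⟨_, rfl⟩
    exact this ha
  let τ0 : A →* A := ((MulAut.conj d).toMonoidHom.comp A.subtype).codRestrict A fun a => hτ a a.2
  let τ : Module.End ℤ (Additive A) := (MonoidHom.toAdditive τ0).toIntLinearMap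
  let v0 : Additive A := Additive.ofMul ⟨v, Subgroup.subset_closure ⟨0, cjp_zero d v⟩⟩
  let Φ : ℤ[X] → J := fun f => (Additive.toMul (aeval τ f v0) : A)
  have Φadd : ∀ f g, Φ (f + g) = Φ f * Φ g := fun f g => by simp [Φ]
  have ΦX : ∀ f, Φ (X * f) = d * Φ f * d⁻¹ := fun f => by simp [Φ, τ, τ0]
  have ΦC : ∀ c : ℤ, Φ (C c) = v ^ c := fun c => by simp [Φ, v0]
  have Φmul : ∀ f g, Φ f = 1 → Φ (f * g) = 1 := fun f g h => by
    have : aeval τ f v0 = 0 := by simpa [Φ] using h
    simp [Φ, mul_comm f g, this]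
  have ΦL : ∀ L, Φ (polyL L) = pw v d L := fun L => by
    induction L with
    | nil => simp [Φ, polyL, pw]
    | cons c L ih => rw [polyL, Φadd, ΦC, ΦX, ih, pw]
  have Φker : ∀ f, aeval l f = 0 → Φ f = 1 := fun f hf => by
    obtain ⟨g, h, rfl⟩ := hker f hf
    rw [Φadd, Φmul _ _ ((ΦL L).trans hL), Φmul _ _ (by rw [ΦC, zpow_natCast, hp]), one_mul]
  have Φeq : ∀ f g, aeval l f = aeval l g → Φ f = Φ g := fun f g h => by
    have := Φadd (f - g) g
    rwa [sub_add_cancel, Φker (f - g) (by rw [map_sub, h, sub_self]), one_mul] at this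
  have hs : ∀ t : F, ∃ f : ℤ[X], aeval l f = t := fun t =>
    hl (aeval l : ℤ[X] →ₐ[ℤ] F).toRingHom.toAddMonoidHom.range ⟨1, by simp⟩
      (by rintro _ ⟨f, rfl⟩; exact ⟨X * f, by simp⟩) t
  choose s hs using hs
  refine ⟨fun t => Φ (s t), fun a b => ?_, ?_, fun t => ?_⟩
  · rw [← Φadd]; exact Φeq _ _ (by simp [hs])
  · show Φ _ = v
    rw [Φeq _ (C 1) (by simp [hs]), ΦC, zpow_one]
  · rw [← ΦX]; exact Φeq _ _ (by simp [hs])

theorem exists_modL (p : ℕ) [Fact p.Prime] [CharP F p] [Finite F] {l : F} (hl : Gn l) :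
    ∃ L : List ℤ, aeval l (polyL L) = 0 ∧ ∀ (J : Type) [Group J] (v d : J), (∀ i, Commute v (cjp d v i)) →
      v ^ p = 1 → pw v d L = 1 → ∃ x : F → J, Ad x ∧ x 1 = v ∧ ∀ t, d * x t * d⁻¹ = x (l * t) := by
  let _ := ZMod.algebra F p
  obtain ⟨m, hm⟩ := map_surjective (algebraMap ℤ (ZMod p)) (ZMod.ringHom_surjective _) (minpoly (ZMod p) l)
  obtain ⟨L, rfl⟩ := polyL_surj m
  exact ⟨L, by rw [← aeval_map_algebraMap (ZMod p), hm, minpoly.aeval], fun J _ v d => mod_of_minpoly p hl hm⟩

theorem gn_of_prim {l : F} (h : ∀ t : F, t ≠ 0 → ∃ k : ℕ, l ^ k = t) : Gn l := by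
  intro S h1 hS t
  by_cases ht : t = 0
  · rw [ht]; exact zero_mem _
  obtain ⟨k, rfl⟩ := h t ht
  clear ht
  induction k with
  | zero => simpa using h1
  | succ k ih => rw [pow_succ']; exact hS _ ih

theorem exists_prim (F : Type*) [Field F] [Finite F] : ∃ l : F, l ≠ 0 ∧ ∀ t : F, t ≠ 0 → ∃ k : ℕ, l ^ k = t := by
  obtain ⟨g, hg⟩ := IsCyclic.exists_monoid_generator (α := Fˣ)
  refine ⟨g, g.ne_zero, fun t ht => ?_⟩
  obtain ⟨k, hk⟩ := hg (Units.mk0 t ht)
  exact ⟨k, by simpa using congrArg Units.val hk⟩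

theorem gn_sq [Finite F] {l : F} (h : ∀ t : F, t ≠ 0 → ∃ k : ℕ, l ^ k = t) : Gn (l ^ 2) := by
  intro S h1 hS t
  have hsq : ∀ a : F, a ^ 2 ∈ S := by
    intro a
    by_cases ha : a = 0
    · simp [ha]
    obtain ⟨k, rfl⟩ := h a ha
    clear ha
    induction k with
    | zero => simpa using h1
    | succ k ih => rw [pow_succ' l k, mul_pow]; exact hS _ ih
  by_cases h2 : (2 : F) = 0
  · have : CharP F 2 := CharTwo.of_one_ne_zero_of_two_eq_zero one_ne_zero h2
    obtain ⟨a, rfl⟩ := (frobeniusEquiv F 2).surjective t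
    exact hsq a
  · have : t = ((t + 1) / 2) ^ 2 - ((t - 1) / 2) ^ 2 := by field_simp; ring
    rw [this]; exact sub_mem (hsq _) (hsq _)

end Cfsg.Agent.H3
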