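import Cfsg.Agent.H3.PresAlt2
import Cfsg.Agent.H3.PresMod

/-! Presentations of alternating and symmetric groups: the affine groups. -/

set_option autoImplicit false

namespace Cfsg.Agent.H3

open Function Equiv Polynomial

/-- Two relators defining the affine group of a finite field (times a group of order three). -/
def AffPres {F : Type} [Field F] (l : F) (e : ℕ) : Prop :=
  ∃ R : List (FreeGroup (Fin 2)), R.length ≤ 2 ∧ ∀ (J : Type) [Group J] (j : Fin 2 → J),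
    (∀ w ∈ R, FreeGroup.lift j w = 1) ↔ (∃ x : F → J, Ad x ∧ x 1 = j 0 ∧
      ∀ t, j 1 ^ 3 * x t * (j 1 ^ 3)⁻¹ = x (l * t)) ∧ (j 1 ^ 3) ^ e = 1

theorem affPres_prime (p : ℕ) [Fact p.Prime] {l : ZMod p} (hl : l ≠ 1) : AffPres l (p - 1) := by
  obtain ⟨s, hs⟩ : ∃ s : ℕ, ((s + 1 : ℕ) : ZMod p) * l = s := by
    refine ⟨(l / (1 - l)).val, ?_⟩
    have : 1 - l ≠ 0 := sub_ne_zero.2 hl.symm
    push_cast; rw [ZMod.natCast_zmod_val]; field_simp; ring
  refine ⟨[FreeGroup.of 0 ^ p * ((FreeGroup.of 1 ^ 3) ^ (p - 1))⁻¹,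
    FreeGroup.of 1 ^ 3 * FreeGroup.of 0 ^ (s + 1) * (FreeGroup.of 1 ^ 3)⁻¹ * (FreeGroup.of 0 ^ s)⁻¹], le_rfl,
    fun J _ j => ?_⟩
  simp only [List.mem_cons, List.not_mem_nil, or_false, forall_eq_or_imp, forall_eq, map_mul, map_inv, map_pow,
    FreeGroup.lift_apply_of, mul_inv_eq_one]
  generalize j 1 ^ 3 = β
  generalize j 0 = A
  constructor
  · rintro ⟨h1, h2⟩
    have hc : β * A ^ p * β⁻¹ = A ^ p := by rw [h1]; group
    have hA : A ^ p = 1 := by
      have := congrArg (· ^ p) h2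
      simp only [conj_pow] at this
      rw [← pow_mul, ← pow_mul, mul_comm _ p, mul_comm _ p, pow_mul, pow_mul, ← conj_pow, hc, pow_succ] at this
      simpa using this
    have hx : ∀ n : ℕ, A ^ (n : ZMod p).val = A ^ n := fun n => by
      rw [ZMod.val_natCast, ← pow_eq_pow_mod _ hA]
    have had : Ad fun t : ZMod p => A ^ t.val := fun s t => by
      simp only [ZMod.val_add, ← pow_eq_pow_mod _ hA, pow_add]
    refine ⟨⟨fun t => A ^ t.val, had, by simpa using hx 1, fun t => ?_⟩, h1 ▸ hA⟩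
    have hs1 : ((s + 1 : ℕ) : ZMod p) ≠ 0 := fun h => by
      rw [h, zero_mul] at hs; push_cast at h; rw [← hs] at h; simp at h
    obtain ⟨u, rfl⟩ : ∃ u : ℕ, t = u * ((s + 1 : ℕ) : ZMod p) :=
      ⟨(t / ((s + 1 : ℕ) : ZMod p)).val, by rw [ZMod.natCast_zmod_val]; field_simp⟩
    have e1 := had.nsmul u ((s + 1 : ℕ) : ZMod p)
    have e2 := had.nsmul u (s : ZMod p)
    simp only [hx] at e1 e2
    simp only
    rw [e1, ← conj_pow, h2, ← e2, ← hs]; congr 2; ring
  · rintro ⟨⟨x, hx, rfl, h⟩, h2⟩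
    refine ⟨by rw [h2, ← hx.nsmul]; simp [hx.zero], ?_⟩
    rw [← hx.nsmul, ← hx.nsmul, h, mul_one, mul_one, mul_comm, hs]

theorem affPres_eight {F : Type} [Field F] [CharP F 2] {l : F} (hl : l ^ 3 = 1 + l) (hg : Gn l) : AffPres l 7 := by
  refine ⟨[FreeGroup.of 0 ^ 2 * ((FreeGroup.of 1 ^ 3) ^ 7)⁻¹,
    cjp (FreeGroup.of 1 ^ 3) (FreeGroup.of 0) 3 * (FreeGroup.of 0 * cjp (FreeGroup.of 1 ^ 3) (FreeGroup.of 0) 1)⁻¹],
    le_rfl, fun J _ j => ?_⟩
  have mc : ∀ (d v : FreeGroup (Fin 2)) (i : ℕ),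
    FreeGroup.lift j (cjp d v i) = cjp (FreeGroup.lift j d) (FreeGroup.lift j v) i := fun d v i => by simp [cjp]
  simp only [List.mem_cons, List.not_mem_nil, or_false, forall_eq_or_imp, forall_eq, map_mul, map_inv, map_pow,
    FreeGroup.lift_apply_of, mul_inv_eq_one, mc]
  generalize j 1 ^ 3 = β
  generalize j 0 = A
  constructor
  · rintro ⟨h1, h2⟩
    set c := A ^ 2 with hc
    have cβ : Commute c β := by rw [h1]; exact (Commute.refl β).pow_left 7
    have sq : ∀ i, cjp β A i * cjp β A i = c := fun i => by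
      rw [← sq, cjp, conj_pow, ← hc, (cβ.pow_right i).symm.eq]; group
    have cc : ∀ i, Commute c (cjp β A i) := fun i => by rw [← sq i]; exact (Commute.refl _).mul_left (Commute.refl _)
    have rc : ∀ i, cjp β A (i + 3) = cjp β A i * cjp β A (i + 1) := fun i => by
      rw [← conj_cjp, h2, conj_mul', conj_cjp]; rfl
    have anti : ∀ {u v : J}, u * u = c → v * v = c → u * v * (u * v) = c → v * u = c⁻¹ * (u * v) := by
      intro u v hu hv h
      have cu : Commute c u := by rw [← hu]; exact (Commute.refl _).mul_left (Commute.refl _)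
      have : v * u = u⁻¹ * c * v⁻¹ := by rw [← h]; group
      rw [this, eq_inv_mul_iff_mul_eq]
      calc c * (u⁻¹ * c * v⁻¹) = (u⁻¹ * c) * (c * v⁻¹) := by rw [← mul_assoc, ← mul_assoc, cu.inv_right.eq]; group
        _ = (u⁻¹ * (u * u)) * ((v * v) * v⁻¹) := by rw [hu, hv]
        _ = _ := by group
    have a1 : ∀ i, cjp β A (i + 1) * cjp β A i = c⁻¹ * (cjp β A i * cjp β A (i + 1)) := fun i =>
      anti (sq _) (sq _) (by rw [← rc, sq])
    have e6 : cjp β A 6 = c * (cjp β A 0 * cjp β A 2) := by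
      rw [rc 3, rc 0, rc 1, ← mul_assoc c, (cc 0).eq, ← sq 1]; group
    have c2 : c * c = 1 := by
      have h3 := anti (sq 1) (sq 0) (by
        have : cjp β A 1 * cjp β A 0 = (cjp β A 0)⁻¹ * cjp β A 3 * (cjp β A 0)⁻¹⁻¹ := by rw [rc 0]; group
        rw [← pow_two, this, conj_pow, pow_two, sq, (cc 0).inv_right.symm.eq]; group)
      rw [a1 0, ← mul_assoc, eq_comm, mul_eq_right, ← mul_inv_rev, inv_eq_one] at h3
      exact h3
    have a2 : cjp β A 2 * cjp β A 0 = c⁻¹ * (cjp β A 0 * cjp β A 2) := anti (sq _) (sq _) (by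
      have h3 := sq 6
      have c02 : Commute c (cjp β A 0 * cjp β A 2) := (cc 0).mul_right (cc 2)
      rw [e6, mul_assoc, ← mul_assoc _ c, ← c02.eq, mul_assoc c, ← mul_assoc c c, c2, one_mul] at h3
      exact h3)
    have c1 : c = 1 := by
      have h3 := a1 2
      have h4 : cjp β A 2 * cjp β A 3 = cjp β A 3 * cjp β A 2 := by
        calc cjp β A 2 * cjp β A 3 = (cjp β A 2 * cjp β A 0) * cjp β A 1 := by rw [rc 0, mul_assoc]
          _ = c⁻¹ * cjp β A 0 * (cjp β A 2 * cjp β A 1) := by rw [a2]; group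
          _ = c⁻¹ * (cjp β A 0 * c⁻¹) * (cjp β A 1 * cjp β A 2) := by rw [a1 1]; group
          _ = (c * c)⁻¹ * (cjp β A 0 * cjp β A 1 * cjp β A 2) := by rw [← (cc 0).inv_left.eq]; group
          _ = _ := by rw [c2, rc 0]; group
      rw [h4, eq_comm, mul_eq_right, inv_eq_one] at h3
      exact h3
    have hcm : Commute A (cjp β A 1) := by
      have := a1 0
      rw [c1, cjp_zero] at this
      exact (by simpa using this.symm : _)
    refine ⟨?_, h1 ▸ c1⟩
    let _ := ZMod.algebra F 2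
    have hm : (polyL [1, 1, 0, -1]).map (algebraMap ℤ (ZMod 2)) = X ^ 3 + X + 1 := by
      simp only [polyL, Polynomial.map_add, Polynomial.map_mul, map_C, map_X, Polynomial.map_zero]
      simp only [eq_intCast, Int.cast_one, Int.cast_neg, map_one, map_zero, CharTwo.neg_eq]
      ring
    refine mod_of_minpoly 2 hg (L := [1, 1, 0, -1]) ?_ (baumslag1 hcm h2) c1 ?_
    · rw [hm]
      have mo : (X ^ 3 + X + 1 : (ZMod 2)[X]).Monic := by monicity!
      have dg : (X ^ 3 + X + 1 : (ZMod 2)[X]).natDegree = 3 := by compute_degree!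
      refine minpoly.eq_of_irreducible_of_monic ?_ ?_ mo
      · rw [mo.irreducible_iff_roots_eq_zero_of_degree_le_three (by omega) (by omega), Multiset.eq_zero_iff_forall_notMem]
        intro a
        rw [mem_roots mo.ne_zero, IsRoot.def]
        simp only [eval_add, eval_pow, eval_X, eval_one]
        revert a; decide
      · simp only [map_add, map_pow, aeval_X, map_one, hl]
        rw [add_assoc, add_comm l 1, CharTwo.add_self_eq_zero]
    · have : pw A β [1, 1, 0, -1] = A * cjp β A 1 * (cjp β A 3)⁻¹ := by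
        simp [pw, cjp, pow_succ, mul_assoc]
      rw [this, h2]; group
  · rintro ⟨⟨x, hx, rfl, h⟩, h2⟩
    refine ⟨by rw [h2, ← hx.nsmul, mul_one, CharP.cast_eq_zero, hx.zero], ?_⟩
    rw [cjp_x h, cjp_x h, ← hx, hl, pow_one]

variable {Ω : Type} [DecidableEq Ω] [Fintype Ω]

theorem exists_base {F : Type} [Field F] [Fintype F] {l : F} (hl : ∀ t : F, t ≠ 0 → ∃ k : ℕ, l ^ k = t)
    (hl2 : l ^ 2 ≠ 1) {e : ℕ} (he : Nat.Coprime 3 e) (hA : AffPres l e) {ι : F → Ω} (hι : Injective ι) {a b : Ω}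
    (hab : a ≠ b) (ha : ∀ t, ι t ≠ a) (hb : ∀ t, ι t ≠ b) {Δ : Finset Ω}
    (hΔ : ∀ i, i ∈ Δ ↔ i = a ∨ i = b ∨ ∃ t, ι t = i) {T : F → Perm Ω} (hT : Ad T)
    (T1 : ∀ t u, T t (ι u) = ι (t + u)) (T2 : ∀ t, T t a = a) (T3 : ∀ t, T t b = b) {b0 : Perm Ω}
    (b1 : ∀ t, b0 ^ 3 * T t * (b0 ^ 3)⁻¹ = T (l * t)) (b2 : Commute b0 (c3 a b (ι 0))) (b3 : b0 ^ e = 1)
    (b4 : (b0 ^ 3) ^ 2 ∈ Alt Δ) (b5 : Odd e ∨ b0 ^ 3 ∉ Alt Δ) :
    Nonempty (Base Δ ![T 1, b0 * c3 a b (ι 0)]) := by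
  obtain ⟨R, hR, hR'⟩ := hA
  set π : Fin 2 → Perm Ω := ![T 1, b0 * c3 a b (ι 0)]
  have c33 := c3_cube hab (ha 0) (hb 0)
  have π3 : π 1 ^ 3 = b0 ^ 3 := by simp [π, b2.mul_pow, c33]
  have ee : e ^ 2 % 3 = 1 := by
    have : e % 3 ≠ 0 := fun h => by
      have := Nat.Coprime.eq_one_of_dvd he (Nat.dvd_of_mod_eq_zero h); omega
    have h3 : e % 3 = 1 ∨ e % 3 = 2 := by omega
    rcases h3 with h | h <;> simp [Nat.pow_mod, h]
  have πz : π 1 ^ e ^ 2 = c3 a b (ι 0) := by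
    have : π 1 = b0 * c3 a b (ι 0) := rfl
    rw [this, b2.mul_pow, pow_eq_pow_mod _ c33, ee, sq e, pow_mul, b3]; simp
  have Tc : ∀ t, T t * c3 a b (ι 0) * (T t)⁻¹ = c3 a b (ι t) := fun t => by rw [c3_conj, T1, T2, T3, add_zero]
  let wz : FreeGroup (Fin 2) := FreeGroup.of 1 ^ e ^ 2
  let N := Subgroup.normalClosure {wz}
  let R' := (wz * (FreeGroup.of 0 * wz * (FreeGroup.of 0)⁻¹)) ^ 2 :: R
  have main : ∀ (J : Type) [Group J] (j : Fin 2 → J) (θ : J →* Perm Ω), (∀ i, θ (j i) = π i) →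
      (∀ w ∈ R', FreeGroup.lift j w = 1) → Copy θ (N.map (FreeGroup.lift j)) Δ ∧ (j 1 ^ 3) ^ e = 1 ∧
      ((j 1 ^ 3) ^ 2 ∈ N.map (FreeGroup.lift j) → j 0 ∈ N.map (FreeGroup.lift j)) := by
    intro J _ j θ hθ hw
    obtain ⟨⟨x, hx, x1, hβ⟩, hβe⟩ := (hR' J j).1 fun w h => hw w (List.mem_cons_of_mem _ h)
    have r := hw _ (List.mem_cons_self ..)
    simp only [wz, map_pow, map_mul, map_inv, FreeGroup.lift_apply_of] at r
    set z := j 1 ^ e ^ 2 with hz
    set β := j 1 ^ 3 with hβ'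
    have zβ : Commute β z := (Commute.refl _).pow_pow _ _
    have z3 : z ^ 3 = 1 := by rw [hz, ← pow_mul, sq e, mul_comm, ← mul_assoc, pow_mul, pow_mul, hβe, one_pow]
    have θz : θ z = c3 a b (ι 0) := by rw [hz, map_pow, hθ, πz]
    have θx : ∀ t, θ (x t) = T t := (gn_of_prim hl).ext (hx.map θ) hT (d := b0 ^ 3)
      (fun t => by rw [← hβ, map_mul, map_mul, map_inv, map_pow, hθ, π3]) b1 (by rw [x1, hθ]; rfl)
    let y : F → J := fun t => x t * z * (x t)⁻¹
    have yx : ∀ s t, x s * y t * (x s)⁻¹ = y (s + t) := fun s t => by simp only [y, hx s t]; group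
    have yβ : ∀ (k : ℕ) t, β ^ k * y t * (β ^ k)⁻¹ = y (l ^ k * t) := fun k t => by
      simp only [y, ← conj_pow_x hβ]
      have := (zβ.pow_left k).eq
      calc β ^ k * (x t * z * (x t)⁻¹) * (β ^ k)⁻¹
          = β ^ k * x t * (β ^ k)⁻¹ * (β ^ k * z) * (β ^ k)⁻¹ * (β ^ k * x t * (β ^ k)⁻¹)⁻¹ := by group
        _ = _ := by rw [this]; group
    have y0 : y 0 = z := by simp [y, hx.zero]
    have pair : ∀ s t, s ≠ t → (y s * y t) ^ 2 = 1 := fun s t hst => by
      obtain ⟨k, hk⟩ := hl (t - s) (sub_ne_zero.2 hst.symm)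
      have r' : (y 0 * y 1) ^ 2 = 1 := by rw [y0]; simpa only [y, x1] using r
      have : y s * y t = (x s * β ^ k) * (y 0 * y 1) * (x s * β ^ k)⁻¹ := by
        have e1 : ∀ u, (x s * β ^ k) * y u * (x s * β ^ k)⁻¹ = y (s + l ^ k * u) := fun u => by
          rw [← yx, ← yβ]; group
        rw [conj_mul', e1, e1, hk]; simp
      rw [this, conj_pow, r']; group
    let Y : Ω → J := fun i => y (invFun ι i)
    have Yι : ∀ t, Y (ι t) = y t := fun t => by simp only [Y, leftInverse_invFun hι t]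
    have hex : ∀ i ∈ Δ, i ≠ a → i ≠ b → ∃ t, ι t = i := fun i hi h1 h2 => by
      rcases (hΔ i).1 hi with h | h | h
      · exact absurd h h1
      · exact absurd h h2
      · exact h
    have hcp := copy_carm θ ((hΔ a).2 (Or.inl rfl)) ((hΔ b).2 (Or.inr (Or.inl rfl))) hab Y
      (fun i hi h1 h2 => by
        obtain ⟨t, rfl⟩ := hex i hi h1 h2
        rw [Yι, map_mul, map_mul, map_inv, θx, θz, Tc])
      (fun i hi h1 h2 => by
        obtain ⟨t, rfl⟩ := hex i hi h1 h2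
        rw [Yι, conj_pow, z3]; group)
      (fun i hi h1 h2 i' hi' h1' h2' hne => by
        obtain ⟨t, rfl⟩ := hex i hi h1 h2
        obtain ⟨t', rfl⟩ := hex i' hi' h1' h2'
        rw [Yι, Yι]; exact pair t t' fun e => hne (e ▸ rfl))
    have him : Y '' {i | i ∈ Δ ∧ i ≠ a ∧ i ≠ b} = Set.range y := by
      ext g; constructor
      · rintro ⟨i, -, rfl⟩; exact ⟨_, rfl⟩
      · rintro ⟨t, rfl⟩; exact ⟨ι t, ⟨(hΔ _).2 (Or.inr (Or.inr ⟨t, rfl⟩)), ha t, hb t⟩, Yι t⟩
    rw [him] at hcp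
    set M := Subgroup.closure (Set.range y)
    have xr : ∀ t, x t ∈ (FreeGroup.lift j).range := (gn_of_prim hl).mem hx hβ (x1 ▸ ⟨FreeGroup.of 0, by simp⟩)
      fun g hg => mul_mem (mul_mem ⟨FreeGroup.of 1 ^ 3, by simp [β]⟩ hg) (inv_mem ⟨FreeGroup.of 1 ^ 3, by simp [β]⟩)
    have nN : ∀ g ∈ (FreeGroup.lift j).range, ∀ n ∈ N.map (FreeGroup.lift j), g * n * g⁻¹ ∈ N.map (FreeGroup.lift j) := by
      rintro _ ⟨g, rfl⟩ _ ⟨n, hn, rfl⟩
      exact ⟨_, Subgroup.normalClosure_normal.conj_mem n hn g, by simp⟩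
    have eq : N.map (FreeGroup.lift j) = M := by
      apply le_antisymm
      · have cjM : ∀ g : J, (∀ t, g * y t * g⁻¹ ∈ M) → ∀ n ∈ M, g * n * g⁻¹ ∈ M := fun g h =>
          ((Subgroup.closure_le _).2 (by rintro _ ⟨t, rfl⟩; exact h t) : M ≤ M.comap (MulAut.conj g).toMonoidHom)
        have ym : ∀ t, y t ∈ M := fun t => Subgroup.subset_closure ⟨t, rfl⟩
        have nrm : ∀ g : J, (∀ t, g * y t * g⁻¹ ∈ M) → (∀ t, g⁻¹ * y t * g⁻¹⁻¹ ∈ M) →
            g ∈ Subgroup.normalizer (M : Set J) := fun g h1 h2 =>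
          Subgroup.mem_normalizer_iff.2 fun n => ⟨cjM g h1 n, fun h => by simpa [mul_assoc] using cjM g⁻¹ h2 _ h⟩
        have n0 : j 0 ∈ Subgroup.normalizer (M : Set J) := by
          rw [← x1]
          exact nrm _ (fun t => by rw [yx]; exact ym _) fun t => by rw [← hx.neg, yx]; exact ym _
        have nβ : β ∈ Subgroup.normalizer (M : Set J) := by
          refine nrm _ (fun t => by have := yβ 1 t; rw [pow_one] at this; rw [this]; exact ym _) fun t => ?_
          have e0 : e ≠ 0 := by rintro rfl; simp at he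
          have : β⁻¹ = β ^ (e - 1) := by
            rw [inv_eq_iff_mul_eq_one, ← pow_succ', Nat.sub_add_cancel (by omega), hβe]
          rw [this, yβ]; exact ym _
        have n1 : j 1 ∈ Subgroup.normalizer (M : Set J) := by
          have : j 1 = z * (β ^ (e ^ 2 / 3))⁻¹ := by
            rw [eq_mul_inv_iff_mul_eq, hβ', ← pow_mul, ← pow_succ', hz]; congr 1; omega
          rw [this]
          exact mul_mem (Subgroup.le_normalizer (y0 ▸ ym 0)) (inv_mem (pow_mem nβ _))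
        have nr : (FreeGroup.lift j).range ≤ Subgroup.normalizer (M : Set J) := by
          rw [FreeGroup.range_lift_eq_closure, Subgroup.closure_le]
          rintro _ ⟨i, rfl⟩
          fin_cases i
          · exact n0
          · exact n1
        have : (M.comap (FreeGroup.lift j)).Normal := ⟨fun n hn g => by
          have := (Subgroup.mem_normalizer_iff.1 (nr ⟨g, rfl⟩) _).1 hn
          simpa using this⟩
        rw [Subgroup.map_le_iff_le_comap]
        refine Subgroup.normalClosure_le_normal ?_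
        rintro _ rfl
        show FreeGroup.lift j _ ∈ M
        simpa [wz, ← hz, ← y0] using ym 0
      · rw [Subgroup.closure_le]
        rintro _ ⟨t, rfl⟩
        exact nN _ (xr t) _ ⟨wz, Subgroup.subset_normalClosure rfl, by simp [wz, hz]⟩
    refine ⟨eq ▸ hcp, hβe, fun h2 => ?_⟩
    have h3 : l ^ 2 - 1 ≠ 0 := sub_ne_zero.2 hl2
    have := mul_mem h2 (nN _ (xr (l ^ 2 - 1)⁻¹) _ (inv_mem h2))
    rw [← mul_assoc, ← mul_assoc, conj_pow_x hβ, ← hx.neg, ← hx] at this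
    rwa [show l ^ 2 * (l ^ 2 - 1)⁻¹ + -(l ^ 2 - 1)⁻¹ = 1 by field_simp; ring, x1] at this
  have hRπ : ∀ w ∈ R', FreeGroup.lift π w = 1 := by
    intro w hw
    rcases List.mem_cons.1 hw with rfl | hw
    · simp only [wz, map_pow, map_mul, map_inv, FreeGroup.lift_apply_of, πz]
      have : π 0 = T 1 := rfl
      rw [this, Tc, c3_pair hab (ha 0) (hb 0) (ha 1) (hb 1) (hι.ne zero_ne_one)]
    · exact (hR' _ π).2 ⟨⟨T, hT, rfl, by rw [π3]; exact b1⟩, by rw [π3, ← pow_mul, mul_comm, pow_mul, b3, one_pow]⟩ w hw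
  have hmap := (main _ π (MonoidHom.id _) (fun _ => rfl) hRπ).1.map
  rw [Subgroup.map_id] at hmap
  obtain ⟨w, wN, hw⟩ : (b0 ^ 3) ^ 2 ∈ N.map (FreeGroup.lift π) := hmap ▸ b4
  refine ⟨⟨R', by simp [R']; omega, hRπ, N, inferInstance, (FreeGroup.of 1 ^ 3) ^ 2 * w⁻¹, by simp [π3, hw],
    FreeGroup.of 1 ^ 3, fun J _ j θ hθ hrel => ?_⟩⟩
  obtain ⟨hcp, hβe, hj0⟩ := main J j θ hθ hrel
  have θl : ∀ v, θ (FreeGroup.lift j v) = FreeGroup.lift π v := fun v => by
    rw [← lift_comp_apply]; congr 2; funext i; exact hθ i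
  have nN : ∀ v, ∀ n ∈ N.map (FreeGroup.lift j),
      FreeGroup.lift j v * n * (FreeGroup.lift j v)⁻¹ ∈ N.map (FreeGroup.lift j) := by
    rintro g _ ⟨n, hn, rfl⟩
    exact ⟨_, Subgroup.normalClosure_normal.conj_mem n hn g, by simp⟩
  have wN' : FreeGroup.lift j w ∈ N.map (FreeGroup.lift j) := ⟨w, wN, rfl⟩
  simp only [map_mul, map_inv, map_pow, FreeGroup.lift_apply_of, π3, mul_inv_eq_one]
  refine ⟨hcp, ⟨e, he, ?_⟩, fun hk => ?_⟩
  · have hc : Commute ((j 1 ^ 3) ^ 2) (FreeGroup.lift j w) := by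
      have := hcp.inj (nN ((FreeGroup.of 1 ^ 3) ^ 2) _ wN') wN' (by simp [θl, hw, π3, hθ])
      simpa [Commute, SemiconjBy] using mul_inv_eq_iff_eq_mul.1 this
    rw [hc.inv_right.mul_pow, ← pow_mul, mul_comm 2 e, pow_mul, hβe, one_pow, one_mul, inv_pow, inv_eq_one]
    exact hcp.ker _ (pow_mem wN' e) (by
      rw [map_pow, θl, hw, ← pow_mul, ← pow_mul, ← mul_assoc, mul_comm, pow_mul, b3, one_pow])
  · have h2 : (j 1 ^ 3) ^ 2 ∈ N.map (FreeGroup.lift j) := hk ▸ wN'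
    have key : ∀ v, FreeGroup.lift j v ∈ N.map (FreeGroup.lift j) ∨
        FreeGroup.lift j v * (j 1 ^ 3)⁻¹ ∈ N.map (FreeGroup.lift j) := by
      have hβ : ∀ n ∈ N.map (FreeGroup.lift j), j 1 ^ 3 * n * (j 1 ^ 3)⁻¹ ∈ N.map (FreeGroup.lift j) :=
        fun n hn => by
          have := nN (FreeGroup.of 1 ^ (3 : ℕ)) n hn
          rwa [map_pow, FreeGroup.lift_apply_of] at this
      have hz : j 1 ^ e ^ 2 ∈ N.map (FreeGroup.lift j) := ⟨wz, Subgroup.subset_normalClosure rfl, by simp [wz]⟩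
      intro v
      refine (le_of_index_two hβ (by rwa [← sq]) (S := Set.range j) ?_ :) _ ?_
      · rintro _ ⟨i, rfl⟩
        fin_cases i
        · exact Or.inl (hj0 h2)
        · have e1 : j 1 = j 1 ^ e ^ 2 * (((j 1 ^ 3) ^ 2) ^ (e ^ 2 / 6))⁻¹ * (j 1 ^ (e ^ 2 % 6 - 1))⁻¹ := by
            rw [mul_assoc, ← mul_inv_rev, eq_mul_inv_iff_mul_eq, ← pow_mul, ← pow_mul, ← pow_add, ← pow_succ']
            congr 1; omega
          have hm := mul_mem hz (inv_mem (pow_mem h2 (e ^ 2 / 6)))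
          have h6 : e ^ 2 % 6 - 1 = 0 ∨ e ^ 2 % 6 - 1 = 3 := by omega
          rcases h6 with h6 | h6
          · left; rw [h6] at e1; show j 1 ∈ _; rw [e1]; simpa using hm
          · right; rw [h6] at e1; show j 1 * _ ∈ _; nth_rw 1 [e1]
            rw [mul_assoc, ← mul_inv_rev, ← sq]; exact mul_mem hm (inv_mem h2)
      · rw [← FreeGroup.range_lift_eq_closure]; exact ⟨v, rfl⟩
    intro v
    rcases b5 with ⟨m, rfl⟩ | b5
    · left
      have : j 1 ^ 3 ∈ N.map (FreeGroup.lift j) := by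
        rw [pow_succ, pow_mul, mul_eq_one_iff_inv_eq] at hβe
        rw [← hβe]; exact inv_mem (pow_mem h2 m)
      exact (key v).elim id fun h => by simpa using mul_mem h this
    · exact (key v).imp_right fun h => ⟨h, b5⟩

end Cfsg.Agent.H3
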