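import Cfsg.Agent.H3.PresAlt3
import Cfsg.Agent.H3.Bertrand3

/-! Alternating and symmetric groups have presentations with three generators and seven relators. -/

set_option autoImplicit false

namespace Cfsg.Agent.H3

open Function Equiv

variable {Ω : Type} [DecidableEq Ω] [Fintype Ω]

/-- The alternating group (`s = 1`) or the symmetric group (`s = -1`). -/
def AS (Ω : Type) [DecidableEq Ω] [Fintype Ω] (s : ℤˣ) : Subgroup (Perm Ω) := if s = 1 then alternatingGroup Ω else ⊤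

theorem closure_eq_AS {S : Set (Perm Ω)} {s : ℤˣ} (h : Alt Finset.univ ≤ Subgroup.closure S)
    (h1 : s = 1 → ∀ g ∈ S, Perm.sign g = 1) (h2 : s = -1 → ∃ g ∈ Subgroup.closure S, Perm.sign g = -1) :
    Subgroup.closure S = AS Ω s := by
  rw [Alt_univ] at h
  rcases Int.units_eq_one_or s with rfl | rfl
  · rw [AS, if_pos rfl]
    exact le_antisymm ((Subgroup.closure_le _).2 (h1 rfl)) h
  · rw [AS, if_neg (by decide), eq_top_iff]
    obtain ⟨t, ht, ht'⟩ := h2 rfl
    intro g _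
    rcases Int.units_eq_one_or (Perm.sign g) with e | e
    · exact h e
    · have : g * t⁻¹ ∈ alternatingGroup Ω := by simp [Perm.mem_alternatingGroup, e, ht']
      simpa using mul_mem (h this) ht

theorem closure_sub_eq_top {P : Type*} [Group P] {K : Subgroup P} {a b : K}
    (h : Subgroup.closure {(a : P), (b : P)} = K) : Subgroup.closure {a, b} = ⊤ := by
  apply Subgroup.map_injective K.subtype_injective
  rw [MonoidHom.map_closure, ← MonoidHom.range_eq_map, Subgroup.range_subtype, Set.image_pair]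
  exact h

theorem exists_partner {a b γ : Ω} (hab : a ≠ b) (h1 : γ ≠ a) (h2 : γ ≠ b) {s : ℤˣ} {g : AS Ω s} {k : ℕ}
    (hg : (g : Perm Ω) ^ k = c3 a b γ) : ∃ h, Subgroup.closure {g, h} = ⊤ := by
  obtain ⟨f, e, f1, f2, f3⟩ := exists_cyc ((Finset.univ.erase a).erase b) (γ := γ) hab (by simp [h1.symm])
    (by simp [h2.symm]) s
  have hm : f * swap a b ^ e ∈ AS Ω s := by
    unfold AS; split_ifs with h
    · exact f2.trans h
    · trivial
  refine ⟨⟨_, hm⟩, closure_sub_eq_top (closure_eq_AS ?_ ?_ ?_)⟩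
  · refine Alt_le_of_cyc hab (γ := γ) (u := f * swap a b ^ e) ?_ (fun i _ i1 i2 => f3 i (by simp [i1, i2]))
      (hg ▸ pow_mem (Subgroup.subset_closure (by simp)) k) (Subgroup.subset_closure (by simp))
    have fa := f1 a (by simp [h1.symm])
    have fb := f1 b (by simp [h2.symm])
    rcases Nat.even_or_odd' e with ⟨e, rfl | rfl⟩ <;> simp [pow_succ, pow_mul, fa, fb]
  · rintro rfl x (rfl | rfl)
    · have := g.2; simp only [AS, if_pos] at this; exact this
    · exact f2
  · rintro rfl; exact ⟨_, Subgroup.subset_closure (by simp), f2⟩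

theorem exists_invol {ι : Type} {f g : ι → Ω} (hf : Injective f) (hg : Injective g) (h : ∀ i j, f i ≠ g j) :
    ∃ y : Perm Ω, y * y = 1 ∧ (∀ i, y (f i) = g i) ∧ (∀ i, y (g i) = f i) ∧
      ∀ x, (∀ i, f i ≠ x) → (∀ i, g i ≠ x) → y x = x := by
  classical
  let y : Ω → Ω := fun x => if h1 : ∃ i, f i = x then g h1.choose else if h2 : ∃ i, g i = x then f h2.choose else x
  have y1 : ∀ i, y (f i) = g i := fun i => by
    have h1 : ∃ j, f j = f i := ⟨i, rfl⟩
    simp only [y, dif_pos h1, hf h1.choose_spec]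
  have y2 : ∀ i, y (g i) = f i := fun i => by
    have h1 : ¬ ∃ j, f j = g i := fun ⟨j, e⟩ => h j i e
    have h2 : ∃ j, g j = g i := ⟨i, rfl⟩
    simp only [y, dif_neg h1, dif_pos h2, hg h2.choose_spec]
  have y3 : ∀ x, (∀ i, f i ≠ x) → (∀ i, g i ≠ x) → y x = x := fun x h1 h2 => by
    simp only [y, dif_neg (not_exists.2 h1), dif_neg (not_exists.2 h2)]
  have hy : Involutive y := fun x => by
    by_cases h1 : ∃ i, f i = x
    · obtain ⟨i, rfl⟩ := h1; rw [y1, y2]
    by_cases h2 : ∃ i, g i = x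
    · obtain ⟨i, rfl⟩ := h2; rw [y2, y1]
    · rw [y3 x (not_exists.1 h1) (not_exists.1 h2), y3 x (not_exists.1 h1) (not_exists.1 h2)]
  exact ⟨hy.toPerm y, Equiv.ext hy, y1, y2, y3⟩

theorem sign_mulLeft {F : Type} [Field F] [Fintype F] [DecidableEq F] {l : F} (h0 : l ≠ 0) (h1 : l ≠ 1)
    (hl : ∀ t : F, t ≠ 0 → ∃ k : ℕ, l ^ k = t) :
    Perm.sign (Equiv.mulLeft₀ l h0) = -(-1) ^ (Fintype.card F - 1) := by
  have hp : ∀ (k : ℕ) (t : F), (Equiv.mulLeft₀ l h0 ^ k) t = l ^ k * t := fun k t => by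
    induction k with
    | zero => simp
    | succ k ih => rw [pow_succ', Perm.mul_apply, ih, pow_succ', mul_assoc]; rfl
  have hc : Perm.IsCycle (Equiv.mulLeft₀ l h0) := by
    refine ⟨1, by simpa using h1, fun y hy => ?_⟩
    obtain ⟨k, hk⟩ := hl y (by rintro rfl; simp at hy)
    exact ⟨k, by rw [zpow_natCast, hp, mul_one, hk]⟩
  have hs : Perm.support (Equiv.mulLeft₀ l h0) = Finset.univ.erase 0 := by
    ext x; simp [Perm.mem_support, mul_left_eq_self₀, h1]
  rw [hc.sign, hs, Finset.card_erase_of_mem (Finset.mem_univ _), Finset.card_univ]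

set_option maxHeartbeats 2000000 in
theorem pres_big {F : Type} [Field F] [Fintype F] [DecidableEq F] {l : F} (h0 : l ≠ 0)
    (hl : ∀ t : F, t ≠ 0 → ∃ k : ℕ, l ^ k = t) (hl2 : l ^ 2 ≠ 1) (he : Nat.Coprime 3 (Fintype.card F - 1))
    (hA : AffPres l (Fintype.card F - 1)) (s : ℕ) (hs : s + 4 ≤ Fintype.card F)
    (hs2 : Even (Fintype.card F - 1) → 2 ≤ s) (ε : ℤˣ) :
    Pr (AS (F ⊕ Bool ⊕ Fin s) ε) 3 7 ∧ Pr (AS (F ⊕ Bool ⊕ Fin s) ε) 2 8 := by
  set e := Fintype.card F - 1
  have h1 : l ≠ 1 := by rintro rfl; simp at hl2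
  let a : F ⊕ Bool ⊕ Fin s := .inr (.inl false)
  let b : F ⊕ Bool ⊕ Fin s := .inr (.inl true)
  have hab : a ≠ b := by simp [a, b]
  let Δ : Finset (F ⊕ Bool ⊕ Fin s) := Finset.univ.filter fun i => i = a ∨ i = b ∨ ∃ t, Sum.inl t = i
  have hΔ : ∀ i, i ∈ Δ ↔ i = a ∨ i = b ∨ ∃ t, Sum.inl t = i := by simp [Δ]
  have hΔ' : ∀ i, i ∉ Δ ↔ ∃ j, i = .inr (.inr j) := by
    rintro (t | (_ | _) | j) <;> simp [hΔ, a, b]
  let T : F → Perm (F ⊕ Bool ⊕ Fin s) := fun t => Perm.sumCongr (Equiv.addLeft t) 1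
  have hT : Ad T := fun s t => by ext (x | x) <;> simp [T, add_assoc]
  let m : Perm (F ⊕ Bool ⊕ Fin s) := Perm.sumCongr (Equiv.mulLeft₀ l h0) 1
  have sm : Perm.sign m = -(-1) ^ e := by simp [m, Perm.sign_sumCongr, sign_mulLeft h0 h1 hl, e]
  obtain ⟨σ0, σ1, σ2⟩ : ∃ σ0 : Perm (Fin s), σ0 * σ0 = 1 ∧
      ((σ0 = 1 ∧ (Odd e ∨ ε = -1)) ∨ (Perm.sign σ0 = -1 ∧ Even e ∧ ε = 1)) := by
    rcases Nat.even_or_odd e with h | h
    · rcases Int.units_eq_one_or ε with h' | h'
      · have := hs2 h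
        exact ⟨swap ⟨0, by omega⟩ ⟨1, by omega⟩, by simp, Or.inr ⟨Perm.sign_swap (by simp), h, h'⟩⟩
      · exact ⟨1, by simp, Or.inl ⟨rfl, Or.inr h'⟩⟩
    · exact ⟨1, by simp, Or.inl ⟨rfl, Or.inl h⟩⟩
  let σ : Perm (F ⊕ Bool ⊕ Fin s) := Perm.sumCongr 1 (Perm.sumCongr 1 σ0)
  have sσ : Perm.sign σ = Perm.sign σ0 := by simp [σ, Perm.sign_sumCongr]
  have σσ : σ * σ = 1 := by simp [σ, σ1]
  have σΔ : ∀ x ∈ Δ, σ x = x := by
    intro x hx; rcases (hΔ x).1 hx with rfl | rfl | ⟨t, rfl⟩ <;> simp [σ, a, b]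
  have mΔ : ∀ x, x ∉ Δ → m x = x := by intro x hx; obtain ⟨j, rfl⟩ := (hΔ' x).1 hx; simp [m]
  have cσ : ∀ g : Perm (F ⊕ Bool ⊕ Fin s), (∀ x, x ∉ Δ → g x = x) → Commute g σ := fun g hg =>
    Perm.Disjoint.commute fun x => (em (x ∈ Δ)).symm.imp (hg x) (σΔ x)
  have σe : σ ^ e = 1 := by
    rcases σ2 with ⟨rfl, -⟩ | ⟨-, ⟨k, hk⟩, -⟩
    · simp [σ]
    · rw [hk, ← two_mul, pow_mul, sq, σσ, one_pow]
  have me : m ^ e = 1 := by
    have hp : ∀ (k : ℕ), m ^ k = Perm.sumCongr (Equiv.mulLeft₀ (l ^ k) (pow_ne_zero k h0)) 1 := fun k => by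
      induction k with
      | zero => ext (x | x) <;> simp
      | succ k ih => rw [pow_succ', ih]; ext (x | x) <;> simp [m, pow_succ', mul_assoc]
    rw [hp]; ext (x | x) <;> simp [e, FiniteField.pow_card_sub_one_eq_one l h0]
  have mσe : (m * σ) ^ e = 1 := by rw [(cσ m mΔ).mul_pow, me, σe, one_mul]
  obtain ⟨k, hk⟩ : ∃ k, (m * σ) ^ (k * 3) = m * σ := by
    obtain ⟨k, -, hk⟩ := Nat.exists_mul_mod_eq_one_of_coprime he (show 1 < e by omega)
    exact ⟨k, by rw [pow_eq_pow_mod _ mσe, mul_comm k, hk, pow_one]⟩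
  set b0 := (m * σ) ^ k
  have b3 : b0 ^ 3 = m * σ := by rw [← pow_mul, hk]
  have b2 : Commute b0 (c3 a b (.inl 0)) := by
    refine Commute.pow_left (mul_inv_eq_iff_eq_mul.1 ?_) k
    rw [c3_conj]; simp [m, σ, a, b]
  have be : b0 ^ e = 1 := by rw [← pow_mul, mul_comm, pow_mul, mσe, one_pow]
  have notA : ∀ ρ : Perm (F ⊕ Bool ⊕ Fin s), (∀ x, x ∉ Δ → ρ x = x) → Perm.sign ρ = Perm.sign m → Even e →
      ρ * σ ∉ Alt Δ := fun ρ h1 h2 h3 h => by
    have : σ = 1 := by
      ext x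
      by_cases hx : x ∈ Δ
      · exact σΔ x hx
      · have := h.1 x hx
        rwa [Perm.mul_apply, ← Perm.eq_inv_iff_eq, show ρ⁻¹ x = x from Perm.inv_eq_iff_eq.2 (h1 x hx).symm] at this
    have h4 := h.2
    rw [this, mul_one, h2, sm, h3.neg_one_pow] at h4
    exact absurd h4 (by decide)
  have b1 : ∀ t, b0 ^ 3 * T t * (b0 ^ 3)⁻¹ = T (l * t) := fun t => by
    rw [b3, mul_inv_eq_iff_eq_mul]; ext (x | x) <;> simp [m, σ, T, mul_add]
  obtain ⟨D⟩ := exists_base hl hl2 he hA Sum.inl_injective hab (by simp [a]) (by simp [b]) hΔ hT (by simp [T])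
    (by simp [T, a]) (by simp [T, b]) b1 b2 be (by
      rw [b3, (cσ m mΔ).mul_pow, sq σ, σσ, mul_one]
      exact ⟨fun x hx => Perm.pow_apply_eq_self_of_apply_eq_self (mΔ x hx) 2, by simp⟩)
    ((Nat.even_or_odd e).symm.imp_right fun h => b3 ▸ notA m mΔ rfl h)
  set π : Fin 2 → Perm (F ⊕ Bool ⊕ Fin s) := ![T 1, b0 * c3 a b (.inl 0)]
  have c33 : c3 a b (.inl 0) ^ 3 = 1 := c3_cube hab (by simp [a]) (by simp [b])
  have π3 : π 1 ^ 3 = m * σ := by simp [π, b2.mul_pow, c33, b3]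
  have rA : Alt Δ ≤ (FreeGroup.lift π).range := D.map_N ▸ Subgroup.map_le_range _ _
  have rρ : ∀ ρ : Perm (F ⊕ Bool ⊕ Fin s), (∀ x, x ∉ Δ → ρ x = x) → Perm.sign ρ = Perm.sign m →
      ρ * σ ∈ (FreeGroup.lift π).range := fun ρ h1 h2 => by
    have : ρ * m⁻¹ ∈ Alt Δ := ⟨fun x hx => by
      rw [Perm.mul_apply, show m⁻¹ x = x from Perm.inv_eq_iff_eq.2 (mΔ x hx).symm, h1 x hx], by simp [h2]⟩
    simpa [mul_assoc] using mul_mem (rA this) (show m * σ ∈ (FreeGroup.lift π).range from ⟨FreeGroup.of 1 ^ 3, by simp [π3]⟩)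
  have TA : T 1 ∈ Alt Δ := by
    refine ⟨fun x hx => by obtain ⟨j, rfl⟩ := (hΔ' x).1 hx; simp [T], ?_⟩
    have hs : ∀ k : ℕ, Perm.sign (T (l ^ k)) = Perm.sign (T 1) := fun k => by
      have := conj_pow_x b1 k 1
      rw [mul_one] at this; rw [← this, map_mul, map_mul, map_inv, mul_inv_cancel_comm]
    obtain ⟨k, hk⟩ := hl (l - 1) (sub_ne_zero.2 h1)
    have := hs 1
    rwa [pow_one, ← sub_add_cancel l 1, hT, ← hk, map_mul, hs, mul_eq_right] at this
  have gA : Odd e → σ0 = 1 → (FreeGroup.lift π).range ≤ Alt Δ := fun ho h => by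
    rw [FreeGroup.range_lift_eq_closure, Subgroup.closure_le]
    rintro _ ⟨i, rfl⟩
    fin_cases i
    · exact TA
    · refine mul_mem (pow_mem (mem_Alt.2 ⟨fun x hx => ?_, ?_⟩) k)
        (c3_mem_Alt (by simp [hΔ]) (by simp [hΔ]) (by simp [hΔ]) hab (by simp [a]))
      · simp [σ, h, mΔ x hx]
      · simp [sσ, h, sm, ho.neg_one_pow]
  obtain ⟨emb⟩ : Nonempty (Fin s ⊕ Fin 4 ↪ F) := Function.Embedding.nonempty_of_card_le (by simpa using hs)
  let B : Finset (F ⊕ Bool ⊕ Fin s) := Finset.univ.image fun j => .inl (emb (.inl j))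
  have hB : ∀ x, x ∈ B ↔ ∃ j, .inl (emb (.inl j)) = x := by simp [B]
  let p : Fin 6 → F ⊕ Bool ⊕ Fin s :=
    ![a, b, .inl (emb (.inr 0)), .inl (emb (.inr 1)), .inl (emb (.inr 2)), .inl (emb (.inr 3))]
  have hp : Injective p := by
    have h1 : Injective (Sum.elim (fun b => .inr (.inl b)) (fun i => .inl (emb (.inr i))) :
        Bool ⊕ Fin 4 → F ⊕ Bool ⊕ Fin s) := by rintro (i | i) (j | j) h <;> simpa using h
    have h2 : Injective (![.inl false, .inl true, .inr 0, .inr 1, .inr 2, .inr 3] : Fin 6 → Bool ⊕ Fin 4) := by decide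
    convert h1.comp h2 using 1
    funext i; fin_cases i <;> rfl
  have hpΔ : ∀ i, p i ∈ Δ ∧ p i ∉ B := by intro i; fin_cases i <;> simp [p, hΔ, hB, a, b]
  obtain ⟨y0, y1, y2, y3, y4⟩ := exists_invol (f := fun j => (.inl (emb (.inl j)) : F ⊕ Bool ⊕ Fin s))
    (g := fun j => .inr (.inr j)) (fun _ _ h => by simpa using h) (fun _ _ h => by simpa using h) (by simp)
  have y5 : ∀ x ∈ Δ, x ∉ B → y0 x = x := fun x h1 h2 =>
    y4 x (fun j e => h2 ((hB x).2 ⟨j, e⟩)) fun j e => (hΔ' x).2 ⟨j, e.symm⟩ h1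
  have h45 : p 4 ≠ p 5 := hp.ne (by decide)
  have yc : Commute y0 (swap (p 4) (p 5)) := by
    refine mul_inv_eq_iff_eq_mul.1 ?_
    rw [← swap_apply_apply, y5 _ (hpΔ 4).1 (hpΔ 4).2, y5 _ (hpΔ 5).1 (hpΔ 5).2]
  obtain ⟨d, hd⟩ : ∃ d : ℕ, Perm.sign (y0 * swap (p 4) (p 5) ^ d) = if Odd e then ε else 1 := by
    generalize (if Odd e then ε else 1) = η
    by_cases h : Perm.sign y0 = η
    · exact ⟨0, by simpa using h⟩
    · refine ⟨1, ?_⟩
      rw [pow_one, map_mul, Perm.sign_swap h45]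
      rcases Int.units_eq_one_or (Perm.sign y0) with e | e <;> rcases Int.units_eq_one_or η with e' | e' <;> simp_all
  set y := y0 * swap (p 4) (p 5) ^ d with hy
  have yy : y * y = 1 := by
    rw [← sq, hy, (yc.pow_right d).mul_pow, sq, y1, ← pow_mul, mul_comm, pow_mul, sq, swap_mul_self]; simp
  have yi : y⁻¹ = y := inv_eq_of_mul_eq_one_right yy
  have sw : ∀ x, x ≠ p 4 → x ≠ p 5 → y x = y0 x := fun x h4 h5 => by
    rw [hy, Perm.mul_apply, Perm.pow_apply_eq_self_of_apply_eq_self (swap_apply_of_ne_of_ne h4 h5)]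
  have yΓ : ∀ x ∈ Δ \ B, y x ∈ Δ \ B := fun x hx => by
    have : (swap (p 4) (p 5) ^ d) x ∈ Δ \ B := by
      clear hd sw yi yy hy
      induction d with
      | zero => exact hx
      | succ d ih =>
        rw [pow_succ', Perm.mul_apply, swap_apply_def]
        split_ifs
        · exact Finset.mem_sdiff.2 (hpΔ 5)
        · exact Finset.mem_sdiff.2 (hpΔ 4)
        · exact ih
    rw [hy, Perm.mul_apply, y5 _ (Finset.mem_sdiff.1 this).1 (Finset.mem_sdiff.1 this).2]; exact this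
  have hBΔ : B ⊆ Δ := fun x hx => by obtain ⟨j, rfl⟩ := (hB x).1 hx; simp [hΔ]
  have hyB : ∀ x, y x ∉ B ↔ x ∈ Δ := fun x => by
    by_cases h1 : x ∈ Δ
    · by_cases h2 : x ∈ B
      · rw [sw x (fun e => (hpΔ 4).2 (e ▸ h2)) fun e => (hpΔ 5).2 (e ▸ h2)]
        obtain ⟨j, rfl⟩ := (hB x).1 h2
        simp [y2, hB, h1]
      · simpa [h1] using (Finset.mem_sdiff.1 (yΓ x (Finset.mem_sdiff.2 ⟨h1, h2⟩))).2
    · rw [sw x (fun e => h1 (e ▸ (hpΔ 4).1)) fun e => h1 (e ▸ (hpΔ 5).1)]
      obtain ⟨j, rfl⟩ := (hΔ' x).1 h1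
      simp [y3, hB, h1]
  have yp : ∀ i, i ≠ 4 → i ≠ 5 → y (p i) = p i := fun i h4 h5 => by
    rw [sw _ (hp.ne h4) (hp.ne h5), y5 _ (hpΔ i).1 (hpΔ i).2]
  obtain ⟨f, c, f1, f2, f3⟩ := exists_cyc (((Δ \ B).erase a).erase b) (γ := p 2) hab
    (by simp [p, a]) (by simp [p, b]) (Perm.sign m)
  set ρ := f * swap a b ^ c with hρ
  have aΓ : a ∈ Δ \ B := Finset.mem_sdiff.2 (hpΔ 0)
  have bΓ : b ∈ Δ \ B := Finset.mem_sdiff.2 (hpΔ 1)
  have ρΓ : ∀ x, x ∉ Δ \ B → ρ x = x := fun x hx => by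
    rw [hρ, Perm.mul_apply, Perm.pow_apply_eq_self_of_apply_eq_self (swap_apply_of_ne_of_ne
      (fun e : x = a => hx (e ▸ aΓ)) fun e : x = b => hx (e ▸ bΓ)), f1]
    rw [Finset.mem_insert, not_or]
    exact ⟨fun e => hx (e ▸ Finset.mem_sdiff.2 (hpΔ 2)),
      fun h => hx (Finset.mem_of_mem_erase (Finset.mem_of_mem_erase h))⟩
  have ρΔ : ∀ x, x ∉ Δ → ρ x = x := fun x hx => ρΓ x fun h => hx (Finset.mem_sdiff.1 h).1
  have yρ : ∀ x, x ∉ Δ → (y⁻¹ * ρ * y) x = x := fun x hx => by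
    rw [Perm.mul_apply, Perm.mul_apply, ρΓ, Perm.inv_eq_iff_eq]
    rw [Finset.mem_sdiff, hyB]; exact fun h => hx h.2
  have yA : Perm.sign m * Perm.sign σ0 = 1 → y⁻¹ * (ρ * σ) * y ∈ Alt Δ := fun h => by
    refine ⟨fun x hx => ?_, by simp [f2, sσ, h]⟩
    have : y x ∈ B := by by_contra h; exact hx ((hyB x).1 h)
    rw [Perm.mul_apply, Perm.mul_apply, Perm.mul_apply, σΔ _ (hBΔ this), ρΓ, Perm.inv_eq_iff_eq]
    simp [this]
  have hAlt : Alt Finset.univ ≤ Subgroup.closure (Set.range fun o : Option (Fin 2) => o.elim y π) := by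
    have r1 : (FreeGroup.lift π).range ≤ Subgroup.closure (Set.range fun o : Option (Fin 2) => o.elim y π) := by
      rw [FreeGroup.range_lift_eq_closure]
      exact Subgroup.closure_mono (by rintro _ ⟨i, rfl⟩; exact ⟨some i, rfl⟩)
    have r2 : y ∈ Subgroup.closure (Set.range fun o : Option (Fin 2) => o.elim y π) :=
      Subgroup.subset_closure ⟨none, rfl⟩
    refine Alt_le a b fun i _ i1 i2 => ?_
    by_cases hi : i ∈ Δ
    · exact r1 (rA (c3_mem_Alt (hpΔ 0).1 (hpΔ 1).1 hi hab i1))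
    · have yyi : y (y i) = i := by rw [← Perm.mul_apply, yy]; rfl
      have ya : y a = a := yp 0 (by decide) (by decide)
      have yb : y b = b := yp 1 (by decide) (by decide)
      have := mul_mem (mul_mem r2 (r1 (rA (c3_mem_Alt (i := y i) (hpΔ 0).1 (hpΔ 1).1
        (by rw [← hyB, yyi]; exact fun h => hi (hBΔ h)) hab
        (fun e => i1 (by rw [← yyi, e]; exact ya)))))) (inv_mem r2)
      rw [c3_conj, yyi] at this
      exact ya ▸ yb ▸ this
  obtain ⟨g, hg1, hg2⟩ := D.glue hBΔ yy hyB hp hpΔ (yp 0 (by decide) (by decide)) (yp 1 (by decide) (by decide))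
    (yp 2 (by decide) (by decide)) (yp 3 (by decide) (by decide))
    (mul_inv_eq_iff_eq_mul.2 (yc.mul_left ((Commute.refl _).pow_left d)).eq) (u' := ρ * σ) (rρ ρ ρΔ f2)
    (by
      rcases σ2 with ⟨h, -⟩ | ⟨h, h', -⟩
      · have := rρ _ yρ (by rw [map_mul, map_mul, map_inv, inv_mul_cancel_comm, f2])
        have hσ : σ = 1 := by simp [σ, h]
        rwa [hσ, mul_one] at this ⊢
      · exact rA (yA (by rw [sm, h, h'.neg_one_pow]; rfl)))
    (by
      have hc := cσ ρ ρΔ
      have fa := f1 a (by simp [p, a])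
      have fb := f1 b (by simp [p, b])
      refine Alt_le_of_cyc hab (γ := p 2) (u := ρ * σ) ?_ (fun i hi i1 i2 => ?_) (Subgroup.subset_closure (by simp [p]))
        (Subgroup.subset_closure (by simp))
      · have σa : σ a = a := σΔ _ (hpΔ 0).1
        have σb : σ b = b := σΔ _ (hpΔ 1).1
        rw [Perm.mul_apply, Perm.mul_apply ρ, σa, σb, hρ]
        rcases Nat.even_or_odd' c with ⟨c, rfl | rfl⟩ <;> simp [pow_succ, pow_mul, fa, fb]
      · obtain ⟨k, hk⟩ := f3 i (by simp [i1, i2, hi, -Finset.mem_sdiff])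
        exact ⟨k, by rw [hc.mul_pow, Perm.mul_apply, Perm.pow_apply_eq_self_of_apply_eq_self (σΔ _ (hpΔ 2).1), hk]⟩)
    (by
      rcases Nat.even_or_odd e with h | h
      · exact Or.inr (notA ρ ρΔ f2 h)
      · rcases σ2 with ⟨h', -⟩ | ⟨-, h', -⟩
        · exact Or.inl (gA h h')
        · exact absurd h (Nat.not_odd_iff_even.2 h'))
    (by
      rcases Nat.even_or_odd e with h | h
      · rw [if_neg (Nat.not_odd_iff_even.2 h)] at hd
        refine Or.inl ⟨hd, ?_⟩
        rcases σ2 with ⟨h', -⟩ | ⟨h', -, -⟩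
        · right; simp [f2, sσ, h', sm, h.neg_one_pow]
        · exact Or.inl (yA (by rw [sm, h', h.neg_one_pow]; rfl))
      · rw [if_pos h] at hd
        rcases σ2 with ⟨h', -⟩ | ⟨-, h', -⟩
        · rcases Int.units_eq_one_or ε with rfl | rfl
          · exact Or.inl ⟨hd, Or.inl (yA (by simp [sm, h', h.neg_one_pow]))⟩
          · exact Or.inr ⟨hd, gA h h'⟩
        · exact absurd h (Nat.not_odd_iff_even.2 h'))
    (K := AS _ ε) (closure_eq_AS hAlt
      (by
        rintro rfl _ ⟨_ | i, rfl⟩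
        · simpa using hd
        · have s3 : Perm.sign (π 1) ^ 3 = 1 := by
            rw [← map_pow, π3, map_mul, sm, sσ]
            rcases σ2 with ⟨h, h' | h'⟩ | ⟨h, h', -⟩
            · simp [h, h'.neg_one_pow]
            · exact absurd h' (by decide)
            · simp [h, h'.neg_one_pow]
          fin_cases i
          · exact TA.2
          · rcases Int.units_eq_one_or (Perm.sign (π 1)) with h | h
            · exact h
            · rw [h] at s3; exact absurd s3 (by decide))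
      (by
        rintro rfl
        rcases Nat.even_or_odd e with h | h
        · refine ⟨π 1 ^ 3, pow_mem (Subgroup.subset_closure (Set.mem_range_self (some 1))) 3, ?_⟩
          rcases σ2 with ⟨h', -⟩ | ⟨-, -, h'⟩
          · simp [π3, sm, sσ, h', h.neg_one_pow]
          · exact absurd h' (by decide)
        · exact ⟨y, Subgroup.subset_closure ⟨none, rfl⟩, by simpa [h] using hd⟩))
  refine ⟨hg2.pr (by simp), ?_⟩
  obtain ⟨h, hh⟩ := exists_partner (g := g (some 1)) (k := e ^ 2) (γ := .inl 0) hab (by simp [a]) (by simp [b]) (by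
    have ee : e ^ 2 % 3 = 1 := by
      have : e % 3 ≠ 0 := fun h => by
        have := Nat.Coprime.eq_one_of_dvd he (Nat.dvd_of_mod_eq_zero h); omega
      have h3 : e % 3 = 1 ∨ e % 3 = 2 := by omega
      rcases h3 with h | h <;> simp [Nat.pow_mod, h]
    have : (g (some 1) : Perm _) = b0 * c3 a b (.inl 0) := hg1 _
    rw [this, b2.mul_pow, pow_eq_pow_mod _ c33, ee, sq e, pow_mul, be]; simp)
  exact hg2.two' _ hh

/-- Iterated twisted conjugation. -/
def tw {J : Type*} [Group J] (A z : J) (η : ℤˣ) : ℕ → J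
  | 0 => z
  | i + 1 => A * tw A z η i ^ (η : ℤ) * A⁻¹

theorem map_tw {J G : Type*} [Group J] [Group G] (f : J →* G) (A z : J) (η : ℤˣ) (i : ℕ) :
    f (tw A z η i) = tw (f A) (f z) η i := by
  induction i with
  | zero => rfl
  | succ i ih => simp [tw, ih]

theorem tw_add {J : Type*} [Group J] (A z : J) (η : ℤˣ) (i k : ℕ) : tw A z η (i + k) = tw A (tw A z η i) η k := by
  induction k with
  | zero => rfl
  | succ k ih => rw [← add_assoc, tw, ih, tw]

theorem sq_swap {J : Type*} [Group J] {u v : J} (h : (u * v) ^ 2 = 1) : (v * u) ^ 2 = 1 := by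
  have e : v * u = u⁻¹ * (u * v) * u⁻¹⁻¹ := by group
  rw [e, conj_pow, h]; group

theorem tw_pair {J : Type*} [Group J] (A : J) (η : ℤˣ) {u v : J} (h : (u * v) ^ 2 = 1) (k : ℕ) :
    (tw A u η k * tw A v η k) ^ 2 = 1 := by
  induction k with
  | zero => exact h
  | succ k ih =>
    rw [tw, tw, ← conj_mul', conj_pow]
    rcases Int.units_eq_one_or η with rfl | rfl
    · simp [ih]
    · simp [← mul_inv_rev, sq_swap ih]

theorem pres_small (m : ℕ) [NeZero m] (ε : ℤˣ) : Pr (AS (ZMod m ⊕ Bool) ε) 2 (3 + m / 2) := by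
  let a : ZMod m ⊕ Bool := .inr false
  let b : ZMod m ⊕ Bool := .inr true
  have hab : a ≠ b := by simp [a, b]
  obtain ⟨η, α, α1, α2, α3⟩ : ∃ (η : ℤˣ) (α : Perm (ZMod m ⊕ Bool)), Perm.sign α = ε ∧
      (∀ t, α (.inl t) = .inl (t + 1)) ∧ ((η = 1 ∧ α a = a ∧ α b = b) ∨ (η = -1 ∧ α a = b ∧ α b = a)) := by
    by_cases h : Perm.sign (Equiv.addRight (1 : ZMod m)) = ε
    · exact ⟨1, Perm.sumCongr (Equiv.addRight 1) 1, by simp [Perm.sign_sumCongr, h], by simp, by simp [a, b]⟩
    · refine ⟨-1, Perm.sumCongr (Equiv.addRight 1) (swap false true), ?_, by simp, by simp [a, b]⟩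
      rw [Perm.sign_sumCongr, Perm.sign_swap (by simp)]
      rcases Int.units_eq_one_or (Perm.sign (Equiv.addRight (1 : ZMod m))) with e | e <;>
        rcases Int.units_eq_one_or ε with e' | e' <;> simp_all
  have htw : ∀ i : ℕ, tw α (c3 a b (.inl 0)) η i = c3 a b (.inl i) := fun i => by
    induction i with
    | zero => simp [tw]
    | succ i ih =>
      rw [tw, ih, ← conj_zpow, c3_conj, α2]
      rcases α3 with ⟨rfl, h1, h2⟩ | ⟨rfl, h1, h2⟩
      · simp [h1, h2]
      · rw [h1, h2, c3_swap hab (by simp [a]) (by simp [b])]; simp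
  let π : Fin 2 → Perm (ZMod m ⊕ Bool) := ![α, c3 a b (.inl 0)]
  let A : FreeGroup (Fin 2) := FreeGroup.of 0
  let Z : FreeGroup (Fin 2) := FreeGroup.of 1
  let N := Subgroup.closure (Set.range (tw A Z η))
  have mapN : ∀ {J : Type} [Group J] (j : Fin 2 → J),
      N.map (FreeGroup.lift j) = Subgroup.closure (Set.range (tw (j 0) (j 1) η)) := fun j => by
    rw [MonoidHom.map_closure, ← Set.range_comp]; congr 2; funext i; simp [map_tw, A, Z]
  have hex : ∀ i, i ≠ a → i ≠ b → ∃ t : ZMod m, i = .inl t := by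
    rintro (t | _ | _) <;> simp [a, b]
  have hAlt : Alt Finset.univ ≤ N.map (FreeGroup.lift π) := by
    rw [mapN]
    refine Alt_le a b fun i _ i1 i2 => ?_
    obtain ⟨t, rfl⟩ := hex i i1 i2
    exact Subgroup.subset_closure ⟨t.val, by simpa [π] using htw t.val⟩
  let κ : ℕ := if ε = 1 then 1 else 2
  obtain ⟨w, wN, hw⟩ : α ^ κ ∈ N.map (FreeGroup.lift π) := hAlt ⟨by simp, by
    rcases Int.units_eq_one_or ε with rfl | rfl <;> simp [κ, α1]⟩
  let L : List (FreeGroup (Fin 2)) := [Z ^ 3, tw A Z η m * Z⁻¹, A ^ κ * w⁻¹] ++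
    (List.range' 1 (m / 2)).map fun i => (Z * tw A Z η i) ^ 2
  obtain ⟨g, -, hg⟩ := HP.intro_sub π (K := AS _ ε) (closure_eq_AS (hAlt.trans (by
      rw [← FreeGroup.range_lift_eq_closure]; exact Subgroup.map_le_range _ _))
      (by
        rintro rfl _ ⟨i, rfl⟩
        fin_cases i
        · exact α1
        · exact sign_c3 hab (by simp [a]))
      (by rintro rfl; exact ⟨α, Subgroup.subset_closure ⟨0, rfl⟩, α1⟩)) L
    (by
      intro v hv
      simp only [L, List.mem_append, List.mem_map, List.mem_cons, List.not_mem_nil, or_false] at hv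
      rcases hv with (rfl | rfl | rfl) | ⟨i, hi, rfl⟩
      · simpa [Z, π] using c3_cube hab (by simp [a]) (by simp [b])
      · simp [Z, A, π, map_tw, htw]
      · simp [A, π, hw]
      · simp only [map_pow, map_mul, map_tw, Z, A, FreeGroup.lift_apply_of, π, Matrix.cons_val_zero,
          Matrix.cons_val_one, htw]
        refine c3_pair hab (by simp [a]) (by simp [b]) (by simp [a]) (by simp [b]) ?_
        rw [List.mem_range'_1] at hi
        have := NeZero.pos m
        simp only [ne_eq, Sum.inl.injEq, eq_comm (a := (0 : ZMod m)), ZMod.natCast_eq_zero_iff]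
        exact Nat.not_dvd_of_pos_of_lt (by omega) (by omega))
    (by
      intro J _ j θ hj hθ hrel
      have r1 : j 1 ^ 3 = 1 := by
        have := hrel (Z ^ 3) (by simp [L])
        rwa [map_pow, FreeGroup.lift_apply_of] at this
      have r2 : tw (j 0) (j 1) η m = j 1 := by
        simpa [Z, A, map_tw, mul_inv_eq_one] using hrel (tw A Z η m * Z⁻¹) (by simp [L])
      have r3 : j 0 ^ κ = FreeGroup.lift j w := by
        simpa [A, mul_inv_eq_one] using hrel (A ^ κ * w⁻¹) (by simp [L])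
      have r4 : ∀ i, 1 ≤ i → i ≤ m / 2 → (j 1 * tw (j 0) (j 1) η i) ^ 2 = 1 := fun i h1 h2 => by
        simpa [Z, A, map_tw] using hrel ((Z * tw A Z η i) ^ 2)
          (List.mem_append_right _ (List.mem_map_of_mem (List.mem_range'_1.2 ⟨h1, by omega⟩)))
      set x := tw (j 0) (j 1) η with hx
      have per : ∀ i, x (m + i) = x i := fun i => by rw [hx, tw_add, ← hx, r2]
      have per' : ∀ i, x (i % m) = x i := fun i => by
        conv_rhs => rw [← Nat.div_add_mod i m]
        generalize i / m = k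
        induction k with
        | zero => simp
        | succ k ih => rw [mul_add, mul_one, add_comm _ m, add_assoc, per, ih]
      have shift : ∀ d k, (x 0 * x d) ^ 2 = 1 → (x k * x (d + k)) ^ 2 = 1 := fun d k h => by
        have := tw_pair (j 0) η h k
        rwa [hx, ← tw_add, ← tw_add, zero_add] at this
      have pair : ∀ u v, u < v → v < m → (x u * x v) ^ 2 = 1 := fun u v h1 h2 => by
        by_cases h : v - u ≤ m / 2
        · have := shift _ u (r4 (v - u) (by omega) h)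
          rwa [Nat.sub_add_cancel h1.le] at this
        · have := shift _ v (r4 (m - (v - u)) (by omega) (by omega))
          rw [show m - (v - u) + v = m + u by omega, per] at this
          exact sq_swap this
      have x3 : ∀ i, x i ^ 3 = 1 := fun i => by
        induction i with
        | zero => exact r1
        | succ i ih => rw [hx, tw, conj_pow, ← zpow_natCast, ← zpow_mul, mul_comm (η : ℤ), zpow_mul, zpow_natCast,
            ← hx, ih]; simp
      let Y : ZMod m ⊕ Bool → J := Sum.elim (fun t => x t.val) 1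
      have hcp := copy_carm θ (Finset.mem_univ a) (Finset.mem_univ b) hab Y
        (fun i _ i1 i2 => by
          obtain ⟨t, rfl⟩ := hex i i1 i2
          simpa [Y, hx, map_tw, hθ, π] using htw t.val)
        (fun i _ i1 i2 => by obtain ⟨t, rfl⟩ := hex i i1 i2; exact x3 _)
        (fun i _ i1 i2 i' _ i1' i2' hne => by
          obtain ⟨t, rfl⟩ := hex i i1 i2
          obtain ⟨t', rfl⟩ := hex i' i1' i2'
          rcases lt_trichotomy t.val t'.val with h | h | h
          · exact pair _ _ h t'.val_lt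
          · exact absurd (congrArg _ (ZMod.val_injective _ h)) hne
          · exact sq_swap (pair _ _ h t.val_lt))
      have him : Y '' {i | i ∈ Finset.univ ∧ i ≠ a ∧ i ≠ b} = Set.range x := by
        ext g; constructor
        · rintro ⟨i, ⟨-, i1, i2⟩, rfl⟩; obtain ⟨t, rfl⟩ := hex i i1 i2; exact ⟨_, rfl⟩
        · rintro ⟨t, rfl⟩; exact ⟨.inl t, by simp [a, b], by simp [Y, per']⟩
      rw [him] at hcp
      set M := Subgroup.closure (Set.range x)
      have wM : j 0 ^ κ ∈ M := by rw [r3]; exact (mapN j).le ⟨w, wN, rfl⟩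
      have nM : ∀ g ∈ M, j 0 * g * (j 0)⁻¹ ∈ M :=
        ((Subgroup.closure_le _).2 (by
          rintro _ ⟨i, rfl⟩
          have : j 0 * x i * (j 0)⁻¹ = x (i + 1) ^ (η : ℤ) := by
            rw [hx, tw, ← conj_zpow, ← zpow_mul]
            rcases Int.units_eq_one_or η with rfl | rfl <;> simp [mul_assoc]
          show j 0 * x i * (j 0)⁻¹ ∈ M
          rw [this]; exact zpow_mem (Subgroup.subset_closure (Set.mem_range_self _)) _) :
          M ≤ M.comap (MulAut.conj (j 0)).toMonoidHom)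
      refine inj_of_index_two hcp.ker nM ?_ hj ?_ ?_
      · rcases Int.units_eq_one_or ε with rfl | rfl
        · simp only [κ, if_pos, pow_one] at wM; exact mul_mem wM wM
        · simpa [κ, sq] using wM
      · rintro _ ⟨i, rfl⟩
        fin_cases i
        · exact Or.inr (by simp)
        · exact Or.inl (Subgroup.subset_closure ⟨0, rfl⟩)
      · rcases Int.units_eq_one_or ε with rfl | rfl
        · left; simpa [κ] using wM
        · right
          rw [hcp.map, hθ]
          intro h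
          have := h.2.symm.trans α1
          exact absurd this (by decide))
  exact (hg.pr (by simp)).mono (by simp [L]; omega)

theorem Pr.as_congr {Ω' : Type} [DecidableEq Ω'] [Fintype Ω'] {ε : ℤˣ} {d r : ℕ} (h : Pr (AS Ω ε) d r)
    (hc : Fintype.card Ω = Fintype.card Ω') : Pr (AS Ω' ε) d r := by
  have e := Fintype.equivOfCardEq hc
  rcases Int.units_eq_one_or ε with rfl | rfl
  · exact Pr.congr (G := alternatingGroup Ω) (H := alternatingGroup Ω') h e.altCongrHom
  · exact Pr.congr (G := (⊤ : Subgroup (Perm Ω))) (H := (⊤ : Subgroup (Perm Ω'))) h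
      (Subgroup.topEquiv.trans (e.permCongrHom.trans Subgroup.topEquiv.symm))

theorem pres_AS (n : ℕ) (hn : 3 ≤ n) (ε : ℤˣ) : Pr (AS (Fin n) ε) 3 7 ∧ Pr (AS (Fin n) ε) 2 8 := by
  classical
  by_cases h1 : n ≤ 9
  · haveI : NeZero (n - 2) := ⟨by omega⟩
    have := (pres_small (n - 2) ε).as_congr (Ω' := Fin n) (by simp; omega)
    exact ⟨(this.pad 1).mono (by omega), this.mono (by omega)⟩
  by_cases h2 : n ≤ 14
  · let F := GaloisField 2 3
    let _ : Fintype F := Fintype.ofFinite F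
    have hc : Fintype.card F = 8 := by rw [Fintype.card_eq_nat_card, GaloisField.card 2 3 (by norm_num)]; rfl
    obtain ⟨l, h0, hl⟩ := exists_prim F
    have h7 : l ^ 7 = 1 := by simpa [hc] using FiniteField.pow_card_sub_one_eq_one l h0
    have hl1 : l ≠ 1 := by
      rintro rfl
      have : (Finset.univ : Finset F) ⊆ {0, 1} := fun t _ => by
        by_cases ht : t = 0
        · simp [ht]
        · obtain ⟨k, rfl⟩ := hl t ht; simp
      have := (Finset.card_le_card this).trans Finset.card_le_two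
      simp [hc] at this
    have key : ∀ l : F, l ≠ 0 → l ≠ 1 → (∀ t : F, t ≠ 0 → ∃ k : ℕ, l ^ k = t) → l ^ 3 = 1 + l →
        Pr (AS (Fin n) ε) 3 7 ∧ Pr (AS (Fin n) ε) 2 8 := fun l h0 h1 hl h3 => by
      have := pres_big h0 hl (by rw [ne_eq, sq_eq_one_iff, CharTwo.neg_eq, or_self]; exact h1) (by rw [hc]; norm_num)
        (by rw [hc]; exact affPres_eight h3 (gn_of_prim hl)) (n - 10) (by omega) (by rw [hc]; exact fun h => absurd h (by decide)) ε
      exact ⟨this.1.as_congr (by simp [hc]; omega), this.2.as_congr (by simp [hc]; omega)⟩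
    have h2 : (2 : F) = 0 := CharTwo.two_eq_zero
    have : (l - 1) * ((l ^ 3 - (1 + l)) * (l ^ 3 - (1 + l ^ 2))) = 0 := by
      linear_combination h7 + (-l ^ 6 + l ^ 3 + 0 * l) * h2
    rcases mul_eq_zero.1 ((mul_eq_zero.1 this).resolve_left (sub_ne_zero.2 hl1)) with h | h
    · exact key l h0 hl1 hl (sub_eq_zero.1 h)
    · refine key l⁻¹ (inv_ne_zero h0) (by simpa using hl1) (fun t ht => ?_) ?_
      · obtain ⟨k, hk⟩ := hl t⁻¹ (inv_ne_zero ht)
        exact ⟨k, by rw [inv_pow, hk, inv_inv]⟩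
      · have : l * l⁻¹ = 1 := mul_inv_cancel₀ h0
        generalize l⁻¹ = u at this ⊢
        linear_combination (-u ^ 3) * h + (u ^ 2 * l ^ 2 + u * l + 1 - (u ^ 2 * l + u)) * this - (u + 0) * h2
  obtain ⟨p, hp, p1, p2, p3⟩ := exists_prime_two_mod_three n (by omega)
  haveI := Fact.mk hp
  obtain ⟨l, h0, hl⟩ := exists_prim (ZMod p)
  have hl2 : l ^ 2 ≠ 1 := by
    intro h
    have : (Finset.univ : Finset (ZMod p)) ⊆ {0, 1, l} := fun t _ => by
      by_cases ht : t = 0
      · simp [ht]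
      · obtain ⟨k, rfl⟩ := hl t ht
        rcases Nat.even_or_odd' k with ⟨k, rfl | rfl⟩ <;> simp [pow_add, pow_mul, h]
    have := (Finset.card_le_card this).trans Finset.card_le_three
    simp at this; omega
  have := pres_big h0 hl hl2 (by
      rw [ZMod.card, Nat.Prime.coprime_iff_not_dvd Nat.prime_three]; omega)
    (by rw [ZMod.card]; exact affPres_prime p (by rintro rfl; simp at hl2)) (n - p - 2) (by simp; omega)
    (fun _ => by omega) ε
  exact ⟨this.1.as_congr (by simp; omega), this.2.as_congr (by simp; omega)⟩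

theorem pres_alt (n : ℕ) (hn : 3 ≤ n) : Pr (alternatingGroup (Fin n)) 3 7 ∧ Pr (alternatingGroup (Fin n)) 2 8 := by
  exact pres_AS n hn 1

theorem pres_sym (n : ℕ) (hn : 3 ≤ n) : Pr (Perm (Fin n)) 3 7 ∧ Pr (Perm (Fin n)) 2 8 := by
  have := pres_AS n hn (-1)
  rw [AS, if_neg (by decide)] at this
  exact ⟨this.1.congr Subgroup.topEquiv, this.2.congr Subgroup.topEquiv⟩

theorem pr_of_sq {G : Type*} [Group G] {a : G} (ha : a * a = 1) (h : ∀ g, g = 1 ∨ g = a) : Pr G 2 2 := by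
  classical
  have := HP.intro (![a, 1] : Fin 2 → G) (fun g => (h g).elim (fun e => ⟨1, by simp [e]⟩)
    fun e => ⟨FreeGroup.of 0, by simp [e]⟩) [FreeGroup.of 0 ^ (if a = 1 then 1 else 2), FreeGroup.of 1]
    (by by_cases h1 : a = 1 <;> simp [h1, sq, ha]) (by
      intro J _ j θ hj hθ hw
      have h1 : j 1 = 1 := by simpa using hw (FreeGroup.of 1) (by simp)
      have h0 : j 0 ^ (if a = 1 then 1 else 2) = 1 := by
        have := hw _ (List.mem_cons_self ..)
        rwa [map_pow, FreeGroup.lift_apply_of] at this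
      refine inj_of_index_two (M := ⊥) (t := j 0) (fun g hg _ => hg) (by simp) ?_ hj ?_ ?_
      · split_ifs at h0 with h2
        · rw [pow_one] at h0; simp [h0]
        · simpa [sq] using h0
      · rintro _ ⟨i, rfl⟩; fin_cases i <;> simp [h1]
      · split_ifs at h0 with h2
        · left; simpa using h0
        · right; simpa [hθ] using h2)
  exact this.pr (by simp)

end Cfsg.Agent.H3
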