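import Cfsg.Agent.H3.PresPk

/-! Equivariant families of root elements, torus actions and commutator relations. -/

set_option autoImplicit false

namespace Cfsg.Agent.H3

open Function

variable {J G W R : Type*} [Group J] [Group G] [Group W] [MulAction W R]

open Classical in
/-- An element moving `r0` to `r`. -/
noncomputable def sec (W : Type*) [Group W] [MulAction W R] (r0 r : R) : W :=
  if h : ∃ w : W, w • r0 = r then h.choose else 1

theorem sec_smul {r0 r : R} (h : ∃ w : W, w • r0 = r) : sec W r0 r • r0 = r := by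
  rw [sec, dif_pos h]; exact h.choose_spec

/-- The conjugate of `z` belonging to `r`. -/
noncomputable def fam (r0 : R) (ω : W →* J) (z : J) (r : R) : J := ω (sec W r0 r) * z * (ω (sec W r0 r))⁻¹

theorem map_fam (f : J →* G) (r0 : R) (ω : W →* J) (z : J) (r : R) :
    f (fam r0 ω z r) = fam r0 (f.comp ω) (f z) r := by simp [fam]

theorem fam_eq {r0 : R} {ω : W →* J} {z : J} (hz : ∀ s : W, s • r0 = r0 → Commute (ω s) z) (w : W) :
    fam r0 ω z (w • r0) = ω w * z * (ω w)⁻¹ := by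
  have h := sec_smul (W := W) (r0 := r0) ⟨w, rfl⟩
  have := hz (w⁻¹ * sec W r0 (w • r0)) (by rw [mul_smul, h, inv_smul_smul])
  rw [map_mul, map_inv] at this
  rw [fam, ← mul_inv_cancel_left (ω w) (ω (sec W r0 (w • r0))), mul_assoc (ω w), this.eq]; group

theorem fam_self {r0 : R} {ω : W →* J} {z : J} (hz : ∀ s : W, s • r0 = r0 → Commute (ω s) z) :
    fam r0 ω z r0 = z := by simpa using fam_eq hz 1

theorem fam_conj {r0 : R} {ω : W →* J} {z : J} (hz : ∀ s : W, s • r0 = r0 → Commute (ω s) z) {r : R}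
    (h : ∃ w : W, w • r0 = r) (w : W) : ω w * fam r0 ω z r * (ω w)⁻¹ = fam r0 ω z (w • r) := by
  obtain ⟨a, rfl⟩ := h
  rw [← mul_smul, fam_eq hz, fam_eq hz, map_mul]; group

/-- In the target group the family is known. -/
theorem fam_val {r0 : R} {ω : W →* J} {Z : R → J} (hZ : ∀ w, ω w * Z r0 * (ω w)⁻¹ = Z (w • r0)) {r : R}
    (h : ∃ w : W, w • r0 = r) : fam r0 ω (Z r0) r = Z r := by
  rw [fam, hZ, sec_smul h]

theorem comm_of_gens {ω : W →* J} {z : J} {L : List W} (h : ∀ s ∈ L, Commute (ω s) z) {s : W}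
    (hs : s ∈ Subgroup.closure {s | s ∈ L}) : Commute (ω s) z := by
  induction hs using Subgroup.closure_induction with
  | mem a ha => exact h a ha
  | one => simp
  | mul a b _ _ ha hb => rw [map_mul]; exact ha.mul_left hb
  | inv a _ ha => rw [map_inv]; exact ha.inv_left

variable {F : Type*} [Field F]

/-- `h` acts on `y` as multiplication by `c`. -/
def Act (h : J) (y : F → J) (c : F) : Prop := ∀ t, h * y t * h⁻¹ = y (c * t)

variable {h k : J} {y y₁ y₂ y₃ : F → J} {c d l : F}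

theorem Act.mul (H : Act h y c) (H' : Act k y d) : Act (h * k) y (c * d) := fun t => by
  rw [mul_assoc c, ← H, ← H']; group

theorem Act.inv (H : Act h y c) (hc : c ≠ 0) : Act h⁻¹ y c⁻¹ := fun t => by
  rw [← mul_inv_cancel_left₀ hc t, ← H, inv_mul_cancel_left₀ hc]; group

theorem Act.pow (H : Act h y c) (i : ℕ) : Act (h ^ i) y (c ^ i) := conj_pow_x H i

theorem Act.cast (H : Act h y c) (e : c = d) : Act h y d := e ▸ H

theorem Act.comm (H : Act h y 1) (t : F) : Commute h (y t) := by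
  have := H t
  rwa [one_mul, mul_inv_eq_iff_eq_mul] at this

theorem Act.of_comm (H : ∀ t, Commute h (y t)) : Act h y 1 := fun t => by rw [(H t).eq]; simp

theorem Act.conj (H : Act h y c) (g : J) : Act (g * h * g⁻¹) (fun t => g * y t * g⁻¹) c := fun t => by
  simp only [← H t]; group

theorem Gn.act (hl : Gn l) (hy : Ad y) (H : Act h y l) (hk : Commute k h) (h1 : k * y 1 * k⁻¹ = y c) :
    Act k y c := hl.conj hy H hk h1

theorem Gn.act_one (hl : Gn l) (hy : Ad y) (H : Act h y l) (hk : Commute k h) (h1 : Commute k (y 1)) :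
    Act k y 1 := hl.act hy H hk (by rw [h1.eq]; simp)

/-- Two root groups commute. -/
theorem Gn.comm_all (hl : Gn l) (hd : Gn d) (h₁ : Ad y₁) (h₂ : Ad y₂) (a₁ : Act h y₁ l) (a₂ : Act h y₂ 1)
    (b₁ : Commute k (y₁ 1)) (b₂ : Act k y₂ d) (H : Commute (y₁ 1) (y₂ 1)) (s t : F) : Commute (y₁ s) (y₂ t) :=
  ((hl.act_one h₁ a₁ (a₂.comm t).symm ((hd.act_one h₂ b₂ b₁.symm H).comm t).symm).comm s).symm

/-- The commutator relation. -/
def Cm (y₁ y₂ y₃ : F → J) (s t : F) : Prop := y₁ s * y₂ t * (y₁ s)⁻¹ * (y₂ t)⁻¹ = y₃ (s * t)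

theorem Cm.step {s t : F} (H : Cm y₁ y₂ y₃ s t) (a₁ : Act h y₁ c) (a₂ : Act h y₂ d) (a₃ : Act h y₃ (c * d)) :
    Cm y₁ y₂ y₃ (c * s) (d * t) := by
  rw [Cm, mul_mul_mul_comm, ← a₁, ← a₂, ← a₃, ← H]; group

theorem Cm.conj {s t : F} (H : Cm y₁ y₂ y₃ s t) (g : J) :
    Cm (fun t => g * y₁ t * g⁻¹) (fun t => g * y₂ t * g⁻¹) (fun t => g * y₃ t * g⁻¹) s t := by
  rw [Cm, ← H]; group

theorem Cm.all (hl : ∀ t, t ≠ 0 → ∃ k : ℕ, l ^ k = t) (h₁ : Ad y₁) (h₂ : Ad y₂) (h₃ : Ad y₃) (a₁ : Act h y₁ c)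
    (hc : c ≠ 0) (a₂ : Act h y₂ l) (a₃ : Act h y₃ (c * l)) (H : ∀ e : ℕ, Cm y₁ y₂ y₃ (l ^ e) 1) (s t : F) :
    Cm y₁ y₂ y₃ s t := by
  by_cases hs : s = 0
  · simp [Cm, hs, h₁.zero, h₃.zero]
  by_cases ht : t = 0
  · simp [Cm, ht, h₂.zero, h₃.zero]
  obtain ⟨m, rfl⟩ := hl t ht
  obtain ⟨e, he⟩ := hl (s / c ^ m) (div_ne_zero hs (pow_ne_zero _ hc))
  have := (H e).step (a₁.pow m) (a₂.pow m) ((a₃.pow m).cast (mul_pow _ _ _))
  rwa [he, mul_one, mul_div_cancel₀ _ (pow_ne_zero _ hc)] at this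

theorem Cm.left (h₁ : Ad y₁) (h₃ : Ad y₃) (H : ∀ s, Cm y₁ y₂ y₃ s 1) (s t : F) : Commute (y₁ s) (y₃ t) := by
  have e := H (s + t)
  have e1 := H s
  have e2 := H t
  simp only [Cm, mul_one] at e e1 e2
  rw [add_comm s t, h₃, add_comm t s, h₁, ← e1] at e
  have : y₁ s * y₃ t * (y₁ s)⁻¹ = y₃ t := by
    rw [← mul_left_inj (y₁ s * y₂ 1 * (y₁ s)⁻¹ * (y₂ 1)⁻¹), ← e, ← e2]; group
  exact mul_inv_eq_iff_eq_mul.1 this

theorem Cm.right (h₂ : Ad y₂) (h₃ : Ad y₃) (H : ∀ s, Cm y₁ y₂ y₃ 1 s) (s t : F) : Commute (y₂ s) (y₃ t) := by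
  have e := H (s + t)
  have e1 := H s
  have e2 := H t
  simp only [Cm, one_mul] at e e1 e2
  rw [h₃, h₂, ← e1] at e
  have : y₂ s * y₃ t * (y₂ s)⁻¹ = y₃ t := by
    rw [← mul_right_inj (y₁ 1 * y₂ s * (y₁ 1)⁻¹ * (y₂ s)⁻¹), ← e, ← e2]; group
  exact mul_inv_eq_iff_eq_mul.1 this

end Cfsg.Agent.H3
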