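import Cfsg.Agent.H3.PresFam
import Cfsg.Agent.H39.PresSL
import Cfsg.Agent.H39.CentBCD

/-! Weak commutator relations and coverings of the groups of types `C` and `D`. -/

set_option autoImplicit false

namespace Cfsg.Agent.H3

open Function H38 H39

variable {J : Type*} [Group J] {F : Type*} [Field F]

/-- `g` maps `N` into itself. -/
def Nz (N : Subgroup J) (g : J) : Prop := ∀ n ∈ N, g * n * g⁻¹ ∈ N

theorem Nz.closure {S : Set J} {g : J} (h : ∀ s ∈ S, g * s * g⁻¹ ∈ Subgroup.closure S) : Nz (Subgroup.closure S) g :=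
  (Subgroup.closure_le ((Subgroup.closure S).comap (MulAut.conj g).toMonoidHom)).2 h

theorem Nz.of_comm {N : Subgroup J} {g : J} (h : ∀ n ∈ N, Commute g n) : Nz N g := fun n hn => by
  rwa [(h n hn).eq, mul_inv_cancel_right]

/-- Weak commutator relation. -/
def WC (N : Subgroup J) (y z : F → J) : Prop := ∀ s t, y s * z t * (y s)⁻¹ * (z t)⁻¹ ∈ N

variable {N : Subgroup J} {y z : F → J} {h k b : J} {l d : F}

omit [Field F] in
theorem WC.symm (H : WC N y z) : WC N z y := fun s t => by simpa [mul_assoc] using inv_mem (H t s)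

omit [Field F] in
theorem WC.mono (H : WC N y z) {N' : Subgroup J} (h : N ≤ N') : WC N' y z := fun s t => h (H s t)

omit [Field F] in
theorem WC.of_comm (H : ∀ s t, Commute (y s) (z t)) : WC N y z := fun s t => by simp [(H s t).eq]

theorem Gn.wc_left (hl : Gn l) (hy : Ad y) (n1 : ∀ s, Nz N (y s)) (a : Act h y l) (c : Commute h b) (n2 : Nz N h)
    (H : y 1 * b * (y 1)⁻¹ * b⁻¹ ∈ N) (s : F) : y s * b * (y s)⁻¹ * b⁻¹ ∈ N := by
  refine hl ⟨⟨⟨{s | y s * b * (y s)⁻¹ * b⁻¹ ∈ N}, fun {s t} hs ht => ?_⟩, by simp [hy.zero]⟩, fun {s} hs => ?_⟩ H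
    (fun s hs => ?_) s
  · have := mul_mem (n1 s _ ht) hs
    show _ ∈ N
    rw [hy]; convert this using 1; group
  · have := n1 (-s) _ (inv_mem hs)
    show _ ∈ N
    rw [hy.neg] at this ⊢; convert this using 1; group
  · have := n2 _ hs
    show _ ∈ N
    rw [← a, ← mul_inv_eq_iff_eq_mul.2 c.eq]; convert this using 1; group

theorem Gn.wc (hl : Gn l) (hd : Gn d) (hy : Ad y) (hz : Ad z) (n1 : ∀ s, Nz N (y s)) (n2 : ∀ s, Nz N (z s))
    (a1 : Act h y l) (a2 : Act h z 1) (b1 : Commute k (y 1)) (b2 : Act k z d) (n3 : Nz N h) (n4 : Nz N k)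
    (H : y 1 * z 1 * (y 1)⁻¹ * (z 1)⁻¹ ∈ N) : WC N y z := fun s t =>
  hl.wc_left hy n1 a1 (a2.comm t) n3 (by
    simpa [mul_assoc] using inv_mem (hd.wc_left hz n2 b2 b1 n4 (by simpa [mul_assoc] using inv_mem H) t)) s

variable {I κ ι : Type} [Fintype κ] [DecidableEq I] [Fintype I] {Φ : Fr I κ} [Fintype ι] [DecidableEq ι]

/-- The root groups between two roots. -/
def Btw (Φ : Fr I κ) (x : I → I → F → J) (v w : κ → ℤ) : Subgroup J := Subgroup.closure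
  {g | ∃ e f t, Φ.Adm e f ∧ (∃ m n : ℤ, 0 < m ∧ 0 < n ∧ Φ.wt e - Φ.wt f = m • v + n • w) ∧ g = x e f t}

omit [Field F] [DecidableEq I] [Fintype I] in
theorem mem_Btw {x : I → I → F → J} {v w : κ → ℤ} {e f : I} (h : Φ.Adm e f) (m n : ℤ) (hm : 0 < m) (hn : 0 < n)
    (h' : Φ.wt e - Φ.wt f = m • v + n • w) (t : F) : x e f t ∈ Btw Φ x v w :=
  Subgroup.subset_closure ⟨e, f, t, h, ⟨m, n, hm, hn, h'⟩, rfl⟩

omit [Field F] [DecidableEq I] [Fintype I] in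
theorem Btw_comm (x : I → I → F → J) (v w : κ → ℤ) : Btw Φ x v w ≤ Btw Φ x w v :=
  Subgroup.closure_mono (by
    rintro _ ⟨e, f, t, h, ⟨m, n, hm, hn, h'⟩, rfl⟩
    exact ⟨e, f, t, h, ⟨n, m, hn, hm, h'.trans (add_comm _ _)⟩, rfl⟩)

theorem exists_rg_fr [Finite F] (Δ : Φ.Base ι) (hgen : ∀ r, Gen (Δ.rg F).toRG0 r) {x : I → I → F → J}
    (ad : ∀ {i j}, Φ.Adm i j → Ad (x i j))
    (fl : ∀ {i j}, Φ.Adm i j → ∀ t, x (Φ.bar j) (Φ.bar i) t = x i j (Φ.κs F i j * t))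
    (c1 : ∀ {i j l}, Φ.Adm i j → Φ.Adm i l → l ≠ Φ.bar j → ∀ s t, Commute (x i j s) (x i l t))
    (c2 : ∀ {i j k l}, Φ.Adm i j → Φ.Adm k l → k ≠ i → k ≠ j → k ≠ Φ.bar i → k ≠ Φ.bar j → l ≠ i → l ≠ j →
      l ≠ Φ.bar i → l ≠ Φ.bar j → ∀ s t, Commute (x i j s) (x k l t))
    (c3 : ∀ {i j l}, Φ.Adm i j → Φ.Adm j l → i ≠ l →
      WC (Btw Φ x (Φ.wt i - Φ.wt j) (Φ.wt j - Φ.wt l)) (x i j) (x j l))
    (hG : Subgroup.closure {g | ∃ i j t, Φ.Adm i j ∧ x i j t = g} = ⊤) (θ : J →* GL I F)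
    (hθ : ∀ i j, Φ.Adm i j → ∀ t, θ (x i j t) = Φ.y F i j t) :
    ∃ (X : RG Δ.rs F J) (hX : HMul X), (∀ r, X.x r = x r.i r.j) ∧ ∀ g, θ g = 1 →
      (∀ a, Commute g a) ∧ ∃ c, (∀ a, chi Δ.euc (Φ.wt a) c = 1) ∧ g = hX.tor c := by
  have bb := Φ.bar_bar
  have wf : ∀ i j, Φ.wt (Φ.bar j) - Φ.wt (Φ.bar i) = Φ.wt i - Φ.wt j := fun i j => by
    rw [Φ.wt_bar, Φ.wt_bar]; abel
  have fl' : ∀ {i j}, Φ.Adm i j → ∀ t, ∃ t', x i j t = x (Φ.bar j) (Φ.bar i) t' := fun h t =>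
    ⟨_, by rw [fl h, ← mul_assoc, Φ.κs_mul_self, one_mul]⟩
  have xr : ∀ {i j} (h : Φ.Adm i j) t, ∃ t', x i j t = x (Fr.rt i j h).i (Fr.rt i j h).j t' := fun h t => by
    rcases Fr.rt_cases h with ⟨-, h1, h2⟩ | ⟨-, h1, h2⟩ <;> rw [h1, h2]
    exacts [⟨t, rfl⟩, fl' h t]
  let W : I → I → I → I → Prop := fun i j k l => WC (Btw Φ x (Φ.wt i - Φ.wt j) (Φ.wt k - Φ.wt l)) (x i j) (x k l)
  have sy : ∀ {i j k l}, W i j k l → W k l i j := fun h => h.symm.mono (Btw_comm _ _ _)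
  have fr : ∀ {i j k l}, Φ.Adm k l → W i j (Φ.bar l) (Φ.bar k) → W i j k l := fun {i j k l} h H s t => by
    obtain ⟨t', e⟩ := fl' h t
    rw [e, ← wf k l]; exact H s t'
  have key : ∀ {i j k l}, Φ.Adm i j → Φ.Adm k l → ¬(k = j ∧ l = i) → ¬(k = Φ.bar i ∧ l = Φ.bar j) → W i j k l := by
    intro i j k l h h' n1 n2
    by_cases e1 : k = j
    · subst e1; exact c3 h h' fun e => n1 ⟨rfl, e.symm⟩
    by_cases e2 : l = i
    · subst e2; exact sy (c3 h' h e1)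
    by_cases e3 : l = Φ.bar j
    · subst e3
      refine fr h' ?_
      rw [bb]
      exact c3 h (by simpa [bb] using h'.flip) fun e => n2 ⟨by rw [e, bb], rfl⟩
    by_cases e4 : k = Φ.bar i
    · subst e4
      refine fr h' ?_
      rw [bb]
      exact sy (c3 (by simpa [bb] using h'.flip) h fun e => e3 (by rw [← e, bb]))
    have row : ∀ {i j l}, Φ.Adm i j → Φ.Adm i l → l ≠ Φ.bar j → W i j i l := fun h h' e => WC.of_comm (c1 h h' e)
    by_cases e5 : k = i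
    · subst e5; exact row h h' e3
    by_cases e6 : l = Φ.bar i
    · subst e6
      refine fr h' ?_
      rw [bb]
      exact row h (by simpa [bb] using h'.flip) fun e => e1 (Φ.bar_inj e)
    by_cases e7 : l = j
    · subst e7
      exact sy (fr h (sy (fr h' (row h.flip h'.flip fun e => e4 (Φ.bar_inj e)))))
    by_cases e8 : k = Φ.bar j
    · subst e8
      exact sy (fr h (sy (row h.flip h' fun e => e2 (by rw [e, bb]))))
    exact WC.of_comm (c2 h h' e5 e1 e4 e8 e2 e7 e6 e3)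
  let X0 : RG0 Δ.rs F J := RG0.ofMem (fun r => x r.i r.j) (fun r => ad r.adm) (fun r s => s ≠ Δ.rs.neg r)
    (fun _ _ _ h => Or.inl h) fun r s h t u => by
      have := key s.adm r.adm (fun e => h (Fr.Rt.ext e.2.symm e.1.symm)) (fun e => h (Fr.vec_inj (by
        rw [Δ.rs_neg, Fr.vec_neg, Fr.vec, Fr.vec, e.1, e.2, wf, neg_sub]))) (-u) (-t)
      rw [(ad s.adm).neg, (ad r.adm).neg, inv_inv, inv_inv, mul_assoc, mul_assoc, ← mul_assoc (_)⁻¹ (x _ _ u)] at this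
      refine (Subgroup.closure_le _).2 ?_ this
      rintro _ ⟨e, f, t, h1, ⟨m, n, hm, hn, h2⟩, rfl⟩
      obtain ⟨t', e'⟩ := xr h1 t
      exact Subgroup.subset_closure ⟨Fr.rt e f h1, Δ.comb_of_vec hn hm (by rw [Fr.vec_rt, h2, add_comm]; rfl), t', e'⟩
  have hθ' : ∀ r t, θ (X0.x r t) = (Δ.rg F).x r t := fun r => hθ _ _ r.adm
  let X := liftRG X0 (Δ.rg F) θ hθ' Δ.faithful.sep fun r => (hgen r).of_hom θ hθ' Δ.faithful.sep
  have hX : HMul X := h_mul_fin X (faithful_of_hom X (Δ.rg F) θ hθ' Δ.faithful)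
  have hG' : X.grp = ⊤ := by
    rw [eq_top_iff, ← hG, Subgroup.closure_le]
    rintro _ ⟨i, j, t, h, rfl⟩
    obtain ⟨t', e⟩ := xr h t
    exact e ▸ X.x_mem_grp (Fr.rt i j h) t'
  refine ⟨X, hX, fun _ => rfl, fun g hg => ⟨fun a => ?_, ?_⟩⟩
  · have : X.grp ≤ Subgroup.centralizer {g} := X.US_le.2 fun r _ t => Subgroup.mem_centralizer_singleton_iff.2
      (comm_of_map_eq_one X (Δ.rg F) θ hθ' Δ.faithful (hG'.ge trivial) hg r t).symm
    exact (Subgroup.mem_centralizer_singleton_iff.1 (this (hG'.ge trivial))).symm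
  obtain ⟨c, rfl⟩ := hX.tor_range.ge (mem_H_of_map_eq_one X (Δ.rg F) θ hθ' Δ.faithful (hG'.ge trivial) hg)
  refine ⟨c, fun a => Units.ext ?_, rfl⟩
  have hY := h_mul_fin _ (Δ.faithful (F := F))
  have := tor_val (E := Δ.euc) hY (Units.coeHom _) (wt := Φ.wt) (fun i c hc => Δ.h_val _ hc) c
  rw [← hX.map_tor hY θ hθ', hg, map_one, eq_comm, ← Matrix.diagonal_one, Matrix.diagonal_eq_diagonal_iff] at this
  exact this a

end Cfsg.Agent.H3
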