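import Cfsg.Agent.H3.PresSp3

/-! The group `2^{n-1}:A_n` of even signed permutations. -/

set_option autoImplicit false

namespace Cfsg.Agent.H3

open Function Equiv SemidirectProduct Wr

variable {J G : Type*} [Group J] [Group G] {I : Type} [Fintype I] [DecidableEq I]

theorem exists_sym_gens2 (Γ : Finset I) : ∃ L : List (Perm I), L.length ≤ 2 ∧ L.length ≤ Γ.card - 1 ∧
    ∀ s : Perm I, (∀ x, x ∉ Γ → s x = x) ↔ s ∈ Subgroup.closure {s | s ∈ L} := by
  by_cases h : Γ.card ≤ 3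
  · obtain ⟨L, -, h1, h2⟩ := exists_sym_gens Γ
    exact ⟨L, by omega, h1, h2⟩
  obtain ⟨α, hα⟩ := ((pres_sym Γ.card (by omega)).2.congr Γ.equivFin.symm.permCongrHom).hp
  refine ⟨(List.ofFn α).map Perm.ofSubtype, by simp, by simp; omega, fun s => ⟨fun hs => ?_, fun hs x hx => ?_⟩⟩
  · have k : ∀ x, s x ≠ x → x ∈ Γ := fun x h => not_not.1 fun h' => h (hs x h')
    rw [← Perm.ofSubtype_subtypePerm (f := s) (fun x => ⟨fun h => not_not.1 fun h' => h' (hs x h' ▸ h), fun h =>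
      not_not.1 fun h' => h' (by rwa [s.injective (hs _ h')])⟩) k]
    exact mem_closure_map _ (hα.mem_ofFn _)
  · refine (Subgroup.closure_le (MulAction.stabilizer (Perm I) x)).2 (fun g hg => ?_) hs
    obtain ⟨g, -, rfl⟩ := List.mem_map.1 hg
    exact Perm.ofSubtype_apply_of_not_mem g hx

/-- The homomorphism defined by an involution. -/
def sgH (z : G) (hz : z * z = 1) : ℤˣ →* G where
  toFun ε := if ε = 1 then 1 else z
  map_one' := if_pos rfl
  map_mul' a b := by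
    rcases Int.units_eq_one_or a with rfl | rfl <;> rcases Int.units_eq_one_or b with rfl | rfl <;> simp [hz]

theorem sgH_neg (z : G) (hz : z * z = 1) : sgH z hz (-1) = z := rfl

/-- Generators for the stabiliser of an unordered pair. -/
theorem exists_lift_gens (ι : Perm I →* G) {o o' : I} (ho : o ≠ o') {z : G} (hz : z * z = 1)
    (hc : ∀ s : Perm I, s o = o → s o' = o' → Commute (ι s) z) : ∃ L : List G, L.length ≤ 2 ∧
      L.length ≤ Fintype.card I - 3 ∧ (∀ g ∈ L, ∃ s : Perm I, s o = o ∧ s o' = o' ∧ g = ι s * sgH z hz (Perm.sign s)) ∧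
      ∀ s : Perm I, s o = o → s o' = o' → ι s * sgH z hz (Perm.sign s) ∈ Subgroup.closure {g | g ∈ L} := by
  obtain ⟨L, l1, l2, l3⟩ := exists_sym_gens2 ({o, o'}ᶜ : Finset I)
  rw [Finset.card_compl, Finset.card_pair ho] at l2
  simp only [Finset.mem_compl, Finset.mem_insert, Finset.mem_singleton, not_not, forall_eq_or_imp, forall_eq] at l3
  have hc' : ∀ s ∈ Subgroup.closure {s | s ∈ L}, ∀ ε, Commute (ι s) (sgH z hz ε) := fun s hs ε => by
    rcases Int.units_eq_one_or ε with rfl | rfl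
    exacts [by simp, hc s ((l3 s).2 hs).1 ((l3 s).2 hs).2]
  refine ⟨L.map fun s => ι s * sgH z hz (Perm.sign s), by simpa, by simpa, fun g hg => ?_, fun s h h' => ?_⟩
  · obtain ⟨s, hs, rfl⟩ := List.mem_map.1 hg
    exact ⟨s, ((l3 s).2 (Subgroup.subset_closure hs)).1, ((l3 s).2 (Subgroup.subset_closure hs)).2, rfl⟩
  have := (l3 s).1 ⟨h, h'⟩
  clear h h'
  induction this using Subgroup.closure_induction with
  | mem s hs => exact Subgroup.subset_closure (List.mem_map.2 ⟨s, hs, rfl⟩)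
  | one => simp
  | mul s t _ ht h h' =>
    convert mul_mem h h' using 1
    rw [map_mul, map_mul, map_mul, mul_assoc, mul_assoc, ← mul_assoc (ι t), (hc' t ht _).eq, mul_assoc]
  | inv s hs h =>
    convert inv_mem h using 1
    rw [(hc' s hs _).eq, mul_inv_rev, map_inv, map_inv, map_inv]

/-- The even signed permutations with even underlying permutation. -/
def WD (I : Type) [Fintype I] [DecidableEq I] : Subgroup (Wr ℤˣ I) where
  carrier := {w | ∏ i, w.left i = 1 ∧ Perm.sign w.right = 1}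
  one_mem' := by simp
  mul_mem' {a b} ha hb := ⟨by
    simp only [mul_left', Finset.prod_mul_distrib, ha.1, Equiv.prod_comp a.right⁻¹ b.left, hb.1, mul_one],
    by simp [ha.2, hb.2]⟩
  inv_mem' {a} ha := ⟨by
    have := congrArg (fun w : Wr ℤˣ I => ∏ i, w.left i) (mul_inv_cancel a)
    simpa only [mul_left', Finset.prod_mul_distrib, ha.1, Equiv.prod_comp a.right⁻¹ a⁻¹.left, one_mul, one_left,
      Pi.one_apply, Finset.prod_const_one] using this, by simp [ha.2]⟩

/-- A double sign change. -/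
def sE (i j : I) : Wr ℤˣ I := el i (-1) * el j (-1)

theorem sE_mem (i j : I) : sE i j ∈ WD I :=
  ⟨by simp [sE, el_left, el_right, Finset.prod_mul_distrib, Finset.prod_pi_mulSingle'], by simp [sE, el_right]⟩

omit [Fintype I] in
theorem conj_sE (w : Wr ℤˣ I) (i j : I) : w * sE i j * w⁻¹ = sE (w.right i) (w.right j) := by
  rw [sE, conj_mul', conj_el, conj_el]; simp [sE]

omit [Fintype I] in
theorem sE_comm (i j : I) : sE i j = sE j i := by
  by_cases h : i = j
  exacts [h ▸ rfl, (el_comm h _ _).eq]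

omit [Fintype I] in
theorem sE_mul (i j k : I) : sE i j * sE j k = sE i k := by
  rw [sE, sE, mul_assoc, ← mul_assoc (el j _), ← map_mul]; simp [sE]

omit [Fintype I] in
theorem sE_sq (i j : I) : sE i j * sE i j = 1 := by
  nth_rw 2 [sE_comm]
  rw [sE_mul, sE, ← map_mul]; simp

/-- The alternating group inside `WD`. -/
def inA (I : Type) [Fintype I] [DecidableEq I] : alternatingGroup I →* WD I :=
  (inr.comp (alternatingGroup I).subtype).codRestrict _ fun s => ⟨by simp, s.2⟩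

/-- A double sign change in `WD`. -/
def sW (i j : I) : WD I := ⟨sE i j, sE_mem i j⟩

theorem inA_sW (s : alternatingGroup I) (i j : I) : inA I s * sW i j * (inA I s)⁻¹ = sW (s • i) (s • j) :=
  Subtype.ext (conj_sE (inr s.1) i j)

/-- The projection to even vectors. -/
def xi (o : I) : (I → ℤˣ) →* Wr ℤˣ I where
  toFun v := inl v * el o (∏ i, v i)
  map_one' := by simp
  map_mul' v w := by
    simp only [el, MonoidHom.comp_apply, Finset.prod_mul_distrib, Pi.mul_apply]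
    rw [← map_mul, ← map_mul, ← map_mul, ← map_mul, map_mul (MonoidHom.mulSingle _ _), mul_mul_mul_comm]

theorem xi_single (o i : I) (ε : ℤˣ) : xi o (Pi.mulSingle i ε) = if ε = 1 then 1 else sE i o := by
  rcases Int.units_eq_one_or ε with rfl | rfl
  · simp
  · simp [xi, sE, el, Finset.prod_pi_mulSingle']

theorem wd_mem {C : Subgroup (Wr ℤˣ I)} {w : Wr ℤˣ I} (hw : w ∈ WD I) (o : I) (h1 : ∀ i, w.left i ≠ 1 → sE i o ∈ C)
    (h2 : inr w.right ∈ C) : w ∈ C := by
  rw [← w.inl_left_mul_inr_right, show inl w.left = xi o w.left by simp [xi, hw.1]]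
  refine mul_mem (Submonoid.pi_mem_of_mulSingle_mem (H := C.comap (xi o)) w.left fun i => ?_) h2
  show _ ∈ C
  rw [xi_single]; split_ifs with h
  exacts [one_mem _, h1 i h]

theorem wd_top {a b : I} (hab : a ≠ b) (hn : 4 ≤ Fintype.card I) {N : Subgroup (WD I)} (h1 : ∀ s, inA I s ∈ N)
    (h2 : sW a b ∈ N) : N = ⊤ := by
  rw [eq_top_iff]
  rintro ⟨w, hw⟩ -
  rw [← Subgroup.mem_map_iff_mem (WD I).subtype_injective]
  refine wd_mem hw a (fun i _ => ?_) ⟨_, h1 ⟨_, hw.2⟩, rfl⟩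
  by_cases h : i = a
  · rw [h, ← sE_mul a b a, sE_comm b]; exact mul_mem ⟨_, h2, rfl⟩ ⟨_, h2, rfl⟩
  obtain ⟨s, e⟩ := alt_pair hab hn h
  exact ⟨_, mul_mem (mul_mem (h1 s) h2) (inv_mem (h1 s)),
    (conj_sE (inr s.1) _ _).trans (congrArg (fun p => sE p.1 p.2) e)⟩

theorem wd_kill {a b c : I} (hab : a ≠ b) (hac : a ≠ c) (hbc : b ≠ c) (hn : 4 ≤ Fintype.card I) (N : Subgroup (WD I))
    (hN : N.Normal) (h : inA I ⟨c3 a b c, sign_c3 hab hac.symm⟩ ∈ N) : N = ⊤ := by
  have h1 : ∀ s, inA I s ∈ N := fun s => (alt_kill hab hac hbc _ (hN.comap (inA I)) h).ge trivial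
  refine wd_top hab hn h1 ?_
  obtain ⟨s, e⟩ := alt_pair hac hn hbc
  convert mul_mem (hN.conj_mem _ (h1 s) (sW a c)) (inv_mem (h1 s)) using 1
  have := (conj_sE (inr s.1) a c).trans (congrArg (fun p => sE p.1 p.2) e)
  refine Subtype.ext (show sE a b = sE a c * inr s.1 * (sE a c)⁻¹ * (inr s.1)⁻¹ from ?_)
  rw [← eq_inv_of_mul_eq_one_left (sE_sq a c), mul_assoc, mul_assoc, ← mul_assoc (inr _), this, sE_comm b, sE_mul]

theorem pres_wd {d r : ℕ} (hP : Pr (alternatingGroup I) d r) (hn : 4 ≤ Fintype.card I) :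
    Pr (WD I) (d + 1) (r + (min 2 (Fintype.card I - 3) + if 5 ≤ Fintype.card I then 1 else 2)) := by
  obtain ⟨γ, hγ⟩ := hP.hp
  obtain ⟨a, b, hab⟩ := Fintype.exists_pair_of_one_lt_card (α := I) (by omega)
  obtain ⟨c, hac, hbc, -⟩ := exists_fourth hn a b b
  obtain ⟨L0, l1, l2, l3, l4⟩ := exists_lift_gens (MonoidHom.id _) hab (swap_mul_self a b) fun s h h' => by
    simpa [h, h', eq_mul_inv_iff_mul_eq, commute_iff_eq, eq_comm] using swap_apply_apply s a b
  have l5 : ∀ g ∈ L0, Perm.sign g = 1 ∧ sE (g a) (g b) = sE a b := fun g hg => by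
    obtain ⟨s, h, h', rfl⟩ := l3 g hg
    rcases Int.units_eq_one_or (Perm.sign s) with e | e <;> simp [e, h, h', sgH_neg, hab, sE_comm b]
  obtain ⟨L, l6, l7⟩ := exists_sub_gens (K := alternatingGroup I) (A := Subgroup.closure {g | g ∈ L0})
    ((Subgroup.closure_le _).2 fun g hg => (l5 g hg).1) rfl
  obtain ⟨T, t1, t2, t3⟩ : ∃ T : List (I × I), T.length = (if 5 ≤ Fintype.card I then 1 else 2) ∧
      (∀ τ ∈ T, a ≠ τ.1 ∧ a ≠ τ.2 ∧ τ.1 ≠ τ.2) ∧
      ∀ {i j k}, i ≠ j → i ≠ k → j ≠ k → ∃ τ ∈ T, ∃ w : alternatingGroup I, w • (a, τ) = (i, j, k) := by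
    split_ifs with h
    · exact ⟨[(b, c)], rfl, by simp [*], fun k1 k2 k3 => ⟨_, by simp, alt_triple' hab hac hbc h k1 k2 k3⟩⟩
    refine ⟨[(b, c), (c, b)], rfl, by simp [*, hbc.symm], fun k1 k2 k3 => ?_⟩
    obtain ⟨w, h | h⟩ := alt_triple hab hac hbc k1 k2 k3
    · exact ⟨_, by simp, w, h⟩
    · exact ⟨(c, b), by simp, w, by obtain ⟨⟩ := h; rfl⟩
  let ψ : Monoid.Coprod (alternatingGroup I) (FreeGroup Unit) →* WD I :=
    Monoid.Coprod.lift (inA I) (FreeGroup.lift fun _ => sW a b)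
  let u : Monoid.Coprod (alternatingGroup I) (FreeGroup Unit) := .inr (.of ())
  have hu : ψ u = sW a b := by simp [ψ, u]
  have hs : Surjective ψ := MonoidHom.range_eq_top.1 (wd_top hab hn (fun s => ⟨.inl s, rfl⟩) ⟨_, hu⟩)
  have hS : ∀ {i j}, i ≠ j → ψ (fam (a, b) Monoid.Coprod.inl u (i, j)) = sW i j := fun h => by
    rw [map_fam, hu, Monoid.Coprod.lift_comp_inl]
    exact fam_val (Z := fun r : I × I => sW r.1 r.2) (fun w => by rw [Prod.smul_mk, inA_sW]) (alt_pair hab hn h)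
  have P1 : Pk ψ (L.length * 1) fun _ _ f => ∀ s ∈ L, Commute (f (.inl s)) (f u) :=
    Pk.list L fun s hs => Pk.comm _ _ (by
      rw [hu]
      exact Subtype.ext (comm_of_gens (ω := inr) (fun g hg => mul_inv_eq_iff_eq_mul.1
        ((conj_sE (inr g) a b).trans (l5 g hg).2)) ((l7 s).2 (Subgroup.subset_closure hs))).eq)
  have P2 : Pk ψ (T.length * 1) fun _ _ f => ∀ τ ∈ T, f (fam (a, b) Monoid.Coprod.inl u (a, τ.1) *
      fam (a, b) Monoid.Coprod.inl u (τ.1, τ.2)) = f (fam (a, b) Monoid.Coprod.inl u (a, τ.2)) :=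
    Pk.list T fun τ hτ => Pk.eq _ _ (by
      rw [map_mul, hS (t2 τ hτ).1, hS (t2 τ hτ).2.1, hS (t2 τ hτ).2.2]; exact Subtype.ext (sE_mul _ _ _))
  refine (((hγ.coprod_free Unit).pk hs ((P1.and P2).imp fun J _ f hf θ hf' hθ => ?_)).mono (by omega)).pr (by simp)
  let ω := f.comp Monoid.Coprod.inl
  have st : ∀ s : alternatingGroup I, s • (a, b) = (a, b) ∨ s • (a, b) = (b, a) → Commute (ω s) (f u) := by
    rintro ⟨s, hs⟩ h
    refine comm_of_gens hf.1 ((l7 _).1 ?_)
    rcases h with h | h <;> obtain ⟨h, h'⟩ : s a = _ ∧ s b = _ := Prod.ext_iff.1 h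
    · simpa [Perm.mem_alternatingGroup.1 hs] using l4 s h h'
    · simpa [Perm.mem_alternatingGroup.1 hs, hab, sgH_neg, mul_assoc] using
        l4 (s * swap a b) (by simp [h']) (by simp [h])
  let S : I → I → J := fun i j => fam (a, b) ω (f u) (i, j)
  have eq : ∀ (w : alternatingGroup I) {i j}, i ≠ j → ω w * S i j * (ω w)⁻¹ = S (w • i) (w • j) := fun w i j h =>
    fam_conj (fun s h => st s (Or.inl h)) (alt_pair hab hn h) w
  have s0 : S a b = f u := fam_self fun s h => st s (Or.inl h)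
  have sy : ∀ {i j}, i ≠ j → S i j = S j i := fun h => by
    obtain ⟨w, ⟨⟩⟩ := alt_pair hab hn h
    obtain ⟨w', e⟩ := alt_pair hab hn hab.symm
    rw [← eq w hab, ← eq w hab.symm, s0, show S b a = _ from e ▸ fam_eq (fun s h => st s (Or.inl h)) w',
      (st w' (Or.inr e)).eq, mul_inv_cancel_right]
  have G1 : ∀ {i j k}, i ≠ j → i ≠ k → j ≠ k → S i j * S j k = S i k := fun k1 k2 k3 => by
    obtain ⟨τ, hτ, w, e⟩ := t3 k1 k2 k3
    clear k1 k2 k3
    obtain ⟨⟩ := e
    rw [← eq w (t2 τ hτ).1, ← eq w (t2 τ hτ).2.1, ← eq w (t2 τ hτ).2.2, ← conj_mul']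
    simpa only [map_mul, map_fam] using congrArg (fun g => ω w * g * (ω w)⁻¹) (hf.2 τ hτ)
  let t : I → J := fun i => if i = a then 1 else S i a
  have tt : ∀ {i j}, i ≠ j → t i * t j = S i j := fun {i j} h => by
    simp only [t]
    split_ifs with h1 h2 h2
    · exact absurd (h1.trans h2.symm) h
    · rw [h1, one_mul, sy h2]
    · rw [h2, mul_one]
    · rw [sy h2, G1 h1 h (Ne.symm h2)]
  have t2 : ∀ i, t i * t i = 1 := fun i => by
    obtain ⟨j, h1, -⟩ := exists_fourth hn i i i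
    obtain ⟨k, h2, h3, -⟩ := exists_fourth hn i j j
    have := G1 h1.symm h3 h2
    rwa [← tt h1.symm, ← tt h2, ← tt h3, mul_assoc, mul_left_cancel_iff, ← mul_assoc, mul_eq_right] at this
  let φ := MonoidHom.noncommPiCoprod (fun i => sgH (t i) (t2 i)) fun i j h x y => by
    rcases Int.units_eq_one_or x with rfl | rfl <;> rcases Int.units_eq_one_or y with rfl | rfl <;>
      simp [sgH_neg, commute_iff_eq, tt h, tt h.symm, sy h]
  have mem : ∀ i, t i ∈ Subgroup.closure (Set.range t) := fun i => Subgroup.subset_closure ⟨i, rfl⟩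
  have hu' : f u ∈ Subgroup.closure (Set.range t) := s0 ▸ tt hab ▸ mul_mem (mem _) (mem _)
  have hN : (Subgroup.closure (Set.range t)).Normal := by
    have k : ∀ w i, ω w * t i * (ω w)⁻¹ ∈ Subgroup.closure (Set.range t) := fun w i => by
      simp only [t]
      split_ifs with h
      · simp
      · rw [eq w h, ← tt ((MulAction.injective w).ne h)]; exact mul_mem (mem _) (mem _)
    refine normal_of_gens (closure_coprod hf') ?_
    rintro _ (⟨w, rfl⟩ | ⟨_, rfl⟩) _ ⟨i, rfl⟩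
    · exact ⟨k w i, map_inv ω w ▸ k w⁻¹ i⟩
    · exact ⟨mul_mem (mul_mem hu' (mem i)) (inv_mem hu'), mul_mem (mul_mem (inv_mem hu') (mem i)) (inv_mem (inv_mem hu'))⟩
  have hθ' : ∀ g, θ (f g) = ψ g := fun g => DFunLike.congr_fun hθ g
  have hφ : ((WD I).subtype.comp θ).comp φ = xi a := MonoidHom.pi_ext fun i ε => by
    simp only [MonoidHom.comp_apply, φ, MonoidHom.noncommPiCoprod_mulSingle, xi_single, sgH, MonoidHom.coe_mk,
      OneHom.coe_mk, t]
    split_ifs with h h'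
    · simp
    · rw [h', ← sE_mul a b a, sE_comm b, sE_sq]; simp
    · simp only [S, ω, ← map_fam, hθ', hS h']; rfl
  refine (injective_iff_map_eq_one _).2 fun g hg => ?_
  have : g ∈ Subgroup.closure (Set.range t) ⊔ ω.range := by
    refine (Subgroup.closure_le _).2 ?_ ((closure_coprod hf').ge trivial)
    rintro _ (⟨w, rfl⟩ | ⟨_, rfl⟩)
    exacts [Subgroup.mem_sup_right ⟨w, rfl⟩, Subgroup.mem_sup_left hu']
  obtain ⟨y, hy, _, ⟨w, rfl⟩, rfl⟩ := Subgroup.mem_sup_of_normal_left.1 this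
  obtain ⟨v, rfl⟩ : y ∈ φ.range := (Subgroup.closure_le _).2 (by
    rintro _ ⟨i, rfl⟩; exact ⟨Pi.mulSingle i (-1), MonoidHom.noncommPiCoprod_mulSingle _ _ _⟩) hy
  have e : xi a v * inr w.1 = 1 := by
    rw [← hφ]; exact congrArg Subtype.val ((congrArg _ (hθ' (.inl w)).symm).trans ((map_mul θ _ _).symm.trans hg))
  have e1 : w = 1 := Subtype.ext (by simpa [xi, el_right] using congrArg SemidirectProduct.right e)
  have e2 : v = (Pi.mulSingle a (∏ i, v i))⁻¹ := by
    simpa [xi, e1, el_left, el_right, mul_eq_one_iff_eq_inv] using congrArg SemidirectProduct.left e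
  rw [e1, map_one, mul_one, e2]
  simp [φ, sgH, t]

theorem flip_of_gens {W R : Type*} [Group W] [MulAction W R] {ω : W →* J} {u : J} {r r' : R}
    (h1 : ∀ w : W, w • r = r → w • r' = r') (h2 : ∀ w : W, w • r = r' → w • r' = r) {L : List W}
    (h : ∀ s ∈ L, s • r = r ∧ ω s * u * (ω s)⁻¹ = u ∨ s • r = r' ∧ ω s * u * (ω s)⁻¹ = u⁻¹) {s : W}
    (hs : s ∈ Subgroup.closure {s | s ∈ L}) :
    s • r = r ∧ ω s * u * (ω s)⁻¹ = u ∨ s • r = r' ∧ ω s * u * (ω s)⁻¹ = u⁻¹ := by
  induction hs using Subgroup.closure_induction with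
  | mem s hs => exact h s hs
  | one => simp
  | mul s t _ _ k k' =>
    have e : ω (s * t) * u * (ω (s * t))⁻¹ = ω s * (ω t * u * (ω t)⁻¹) * (ω s)⁻¹ := by rw [map_mul]; group
    rw [e, mul_smul]
    rcases k with k | k <;> rcases k' with k' | k' <;> rw [k'.1, k'.2]
    · exact Or.inl k
    · exact Or.inr ⟨h1 s k.1, by rw [conj_inv.symm, k.2]⟩
    · exact Or.inr k
    · exact Or.inl ⟨h2 s k.1, by rw [conj_inv.symm, k.2, inv_inv]⟩
  | inv s _ k =>
    rw [map_inv]
    rcases k with k | k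
    · exact Or.inl ⟨inv_smul_eq_iff.2 k.1.symm, by nth_rw 1 [← k.2]; group⟩
    · exact Or.inr ⟨inv_smul_eq_iff.2 (h2 s k.1).symm, by rw [← inv_inv u, ← k.2]; nth_rw 2 [k.2]; group⟩

section act

variable {m : ℕ} {a b c e i j k l : Fin m ⊕ Fin m}

/-- The sign of an index. -/
def sg (a : Fin m ⊕ Fin m) : ℤˣ := a.elim (fun _ => 1) fun _ => -1

/-- Indices as signed coordinates. -/
def eI (m : ℕ) : Fin m ⊕ Fin m ≃ Fin m × ℤˣ where
  toFun a := (ix a, sg a)
  invFun p := if p.2 = 1 then .inl p.1 else .inr p.1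
  left_inv := by rintro (a | a) <;> simp [ix, sg]
  right_inv := by rintro ⟨i, ε⟩; rcases Int.units_eq_one_or ε with rfl | rfl <;> simp [ix, sg]

instance : MulAction (Wr ℤˣ (Fin m)) (Fin m ⊕ Fin m) := (eI m).mulAction _

theorem ix_smul (w : Wr ℤˣ (Fin m)) (a : Fin m ⊕ Fin m) : ix (w • a) = w.right (ix a) :=
  congrArg Prod.fst ((eI m).apply_symm_apply (w • eI m a))

theorem sg_smul (w : Wr ℤˣ (Fin m)) (a : Fin m ⊕ Fin m) : sg (w • a) = w.left (w.right (ix a)) * sg a :=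
  congrArg Prod.snd ((eI m).apply_symm_apply (w • eI m a))

theorem ix_sg_ext (h : ix a = ix b) (h' : sg a = sg b) : a = b := (eI m).injective (Prod.ext h h')

theorem sg_swap (a : Fin m ⊕ Fin m) : sg a.swap = -sg a := by rcases a with a | a <;> simp [sg]

theorem swap_smul (w : Wr ℤˣ (Fin m)) (a : Fin m ⊕ Fin m) : w • a.swap = (w • a).swap :=
  ix_sg_ext (by simp only [ix_smul, ix_swap]) (by simp only [sg_smul, sg_swap, ix_swap, mul_neg])

theorem swap_smul' (w : WD (Fin m)) (a : Fin m ⊕ Fin m) : w • a.swap = (w • a).swap := swap_smul w.1 a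

theorem inr_act (s : Perm (Fin m)) (a : Fin m ⊕ Fin m) : (inr s : Wr ℤˣ (Fin m)) • a = a.map s s := by
  rcases a with a | a <;> exact ix_sg_ext (ix_smul _ _) ((sg_smul _ _).trans (one_mul _))

theorem el_act (i : Fin m) (a : Fin m ⊕ Fin m) : el i (-1 : ℤˣ) • a = if ix a = i then a.swap else a := by
  split_ifs with h <;> exact ix_sg_ext (by simp [ix_smul, ix_swap, el_right])
    (by simp [sg_smul, sg_swap, el_left, el_right, h])

theorem eq_or_swap (h : ix a = ix b) : a = b ∨ a = b.swap := by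
  by_contra e
  exact ix_ne (not_or.1 e).1 (not_or.1 e).2 h

theorem ix_ne_smul (w : WD (Fin m)) (h : ix i ≠ ix j) : ix (w • i) ≠ ix (w • j) := by
  rw [Subgroup.smul_def, Subgroup.smul_def, ix_smul, ix_smul]; exact w.1.right.injective.ne h

theorem lift_wd {n : ℕ} {a b : Fin n → Fin m ⊕ Fin m} (hb : Injective fun x => ix (b x)) (hn : n < m)
    {s : Perm (Fin m)} (hs : Perm.sign s = 1) (h : ∀ x, s (ix (a x)) = ix (b x)) :
    ∃ w : WD (Fin m), w.1.right = s ∧ ∀ x, w • a x = b x := by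
  obtain ⟨z, hz⟩ : ∃ z, ∀ x, ix (b x) ≠ z := by
    by_contra! h'
    simpa [hn.not_ge] using Fintype.card_le_of_surjective (fun x => ix (b x)) h'
  let v := extend (fun x => ix (b x)) (fun x => sg (b x) * sg (a x)) 1
  refine ⟨⟨⟨v * Pi.mulSingle z (∏ i, v i), s⟩, by simp [Finset.prod_mul_distrib], hs⟩, rfl, fun x =>
    ix_sg_ext ((ix_smul _ _).trans (h x)) ((sg_smul _ _).trans ?_)⟩
  simp [h x, v, hb.extend_apply, hz x, mul_assoc]

theorem wd_alt {n : ℕ} {a b b' : Fin n → Fin m ⊕ Fin m} (ha : Injective fun x => ix (a x))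
    (hb : Injective fun x => ix (b x)) (hn : n < m) {p q : Fin n} (h : p ≠ q) (h' : ∀ x, ix (b' x) = ix (b (swap p q x))) :
    ∃ w : WD (Fin m), (∀ x, w • a x = b x) ∨ ∀ x, w • a x = b' x := by
  obtain ⟨s, hs, e | e⟩ := exists_even ha hb h
  · exact (lift_wd hb hn hs e).imp fun _ h => Or.inl h.2
  · exact (lift_wd (b := b') (by simp only [h']; exact hb.comp (swap p q).injective) hn hs
      (by simpa only [h'] using e)).imp fun _ h => Or.inr h.2

theorem ixj2 (h : ix i ≠ ix j) : Injective fun x => ix (![i, j] x) := by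
  convert inj2 h using 2; rename_i x; fin_cases x <;> rfl

theorem ixj3 (h : ix i ≠ ix j) (h1 : ix i ≠ ix k) (h2 : ix j ≠ ix k) : Injective fun x => ix (![i, j, k] x) := by
  convert inj3 h h1 h2 using 2; rename_i x; fin_cases x <;> rfl

theorem ixj4 (h : ix i ≠ ix j) (h1 : ix i ≠ ix k) (h2 : ix j ≠ ix k) (h3 : ix i ≠ ix l) (h4 : ix j ≠ ix l)
    (h5 : ix k ≠ ix l) : Injective fun x => ix (![i, j, k, l] x) := by
  convert inj4 h h1 h2 h3 h4 h5 using 2; rename_i x; fin_cases x <;> rfl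

theorem wd_pair (hm : 4 ≤ m) (hab : ix a ≠ ix b) (h : ix i ≠ ix j) : ∃ w : WD (Fin m), w • (a, b) = (i, j) := by
  obtain ⟨s, hs, e⟩ := exists_even' (ixj2 hab) (ixj2 h) (by simpa)
  obtain ⟨w, -, e⟩ := lift_wd (ixj2 h) (by omega) hs e
  exact ⟨w, Prod.ext (e 0) (e 1)⟩

theorem wd_quad (hm : 4 ≤ m) (ha : Injective fun x => ix (![a, b, c, e] x)) (h : ix i ≠ ix j) (h1 : ix i ≠ ix k)
    (h2 : ix j ≠ ix k) (h3 : ix i ≠ ix l) (h4 : ix j ≠ ix l) (h5 : ix k ≠ ix l) :
    ∃ e' ∈ (if 5 ≤ m then [e] else [e, e.swap]), ∃ w : WD (Fin m), w • c = k ∧ w • e' = l ∧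
      (w • (a, b) = (i, j) ∨ w • (a, b) = (j.swap, i.swap)) := by
  split_ifs with h5m
  · obtain ⟨w, e | e⟩ := wd_alt (b' := ![j.swap, i.swap, k, l]) ha (ixj4 h h1 h2 h3 h4 h5) h5m (p := 0) (q := 1)
      (by decide) (fun x => by fin_cases x <;> simp [ix_swap, swap_apply_def])
    exacts [⟨_, by simp, w, e 2, e 3, Or.inl (Prod.ext (e 0) (e 1))⟩, ⟨_, by simp, w, e 2, e 3, Or.inr (Prod.ext (e 0) (e 1))⟩]
  have key : ∀ {i j} (s : Perm (Fin m)), ix i ≠ ix j → ix i ≠ ix k → ix j ≠ ix k → Perm.sign s = 1 →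
      s (ix a) = ix i → s (ix b) = ix j → s (ix c) = ix k → s (ix e) = ix l →
      ∃ e' ∈ [e, e.swap], ∃ w : WD (Fin m), w • c = k ∧ w • e' = l ∧ w • (a, b) = (i, j) := by
    intro i j s h h1 h2 hs e0 e1 e2 e3
    obtain ⟨w, rfl, hw⟩ := lift_wd (a := ![a, b, c]) (ixj3 h h1 h2) hm hs (fun x => by fin_cases x <;> assumption)
    rcases eq_or_swap ((ix_smul w.1 e).trans e3) with h | h
    · exact ⟨_, by simp, w, hw 2, h, Prod.ext (hw 0) (hw 1)⟩
    · exact ⟨e.swap, by simp, w, hw 2, by rw [swap_smul', show w • e = _ from h, Sum.swap_swap], Prod.ext (hw 0) (hw 1)⟩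
  obtain ⟨s, hs, e | e⟩ := exists_even ha (ixj4 h h1 h2 h3 h4 h5) (p := 0) (q := 1) (by decide)
  · obtain ⟨e', h, w, hw⟩ := key s h h1 h2 hs (e 0) (e 1) (e 2) (e 3)
    exact ⟨e', h, w, hw.1, hw.2.1, Or.inl hw.2.2⟩
  · obtain ⟨e', h, w, hw⟩ := key (i := j.swap) (j := i.swap) s (by simpa [ix_swap] using h.symm)
      (by simpa [ix_swap]) (by simpa [ix_swap]) hs ((e 0).trans (ix_swap j).symm) ((e 1).trans (ix_swap i).symm)
      (e 2) (e 3)
    exact ⟨e', h, w, hw.1, hw.2.1, Or.inr hw.2.2⟩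

theorem wd_root {o o' c e : Fin m} (ho : o ≠ o') (h1 : o ≠ c) (h2 : o' ≠ c) (h3 : o ≠ e) (h4 : o' ≠ e) (h5 : c ≠ e) :
    ∃ L : List (WD (Fin m)), L.length ≤ 1 + min 2 (m - 3) ∧ ∀ w : WD (Fin m),
      w • ((.inl o, .inl o') : (Fin m ⊕ Fin m) × (Fin m ⊕ Fin m)) = (.inl o, .inl o') ∨
        w • ((.inl o, .inl o') : (Fin m ⊕ Fin m) × (Fin m ⊕ Fin m)) = (.inr o', .inr o) ↔
      w ∈ Subgroup.closure {s | s ∈ L} := by
  have hz : (inr (Equiv.swap o o') * sE o o') * (inr (Equiv.swap o o') * sE o o') = 1 := by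
    have := conj_sE (inr (Equiv.swap o o')) o o'
    rw [← map_inv, swap_inv] at this
    simpa [← mul_assoc, this, sE_comm o'] using sE_sq o o'
  obtain ⟨L0, l1, l2, l3, l4⟩ := exists_lift_gens inr ho hz fun s h h' =>
    Commute.mul_right (Commute.map (by
      simpa [h, h', eq_mul_inv_iff_mul_eq, commute_iff_eq, eq_comm] using swap_apply_apply s o o') inr)
      (mul_inv_eq_iff_eq_mul.1 (by simp [conj_sE, h, h']))
  let R : Wr ℤˣ (Fin m) → Prop := fun w => w ∈ WD (Fin m) ∧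
    (w • ((.inl o, .inl o') : (Fin m ⊕ Fin m) × (Fin m ⊕ Fin m)) = (.inl o, .inl o') ∨
      w • ((.inl o, .inl o') : (Fin m ⊕ Fin m) × (Fin m ⊕ Fin m)) = (.inr o', .inr o))
  have r1 : ∀ s : Perm (Fin m), s o = o → s o' = o' → inr s * sgH _ hz (Perm.sign s) ∈ WD (Fin m) ∧
      (inr s * sgH _ hz (Perm.sign s)) • ((.inl o, .inl o') : (Fin m ⊕ Fin m) × (Fin m ⊕ Fin m)) =
        if Perm.sign s = 1 then (.inl o, .inl o') else (.inr o', .inr o) := fun s h h' => by
    rcases Int.units_eq_one_or (Perm.sign s) with k | k <;> rw [k]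
    · exact ⟨⟨by simp, by simp [k]⟩, by simp [inr_act, h, h']⟩
    · rw [sgH_neg, ← mul_assoc, ← map_mul]
      exact ⟨mul_mem ⟨by simp, by simp [k, ho]⟩ (sE_mem _ _),
        by simp [mul_smul, sE, inr_act, el_act, ix_inl, ix_inr, ho, ho.symm, h, h']⟩
  have r2 : ∀ g ∈ Subgroup.closure {g | g ∈ sE c e :: L0}, R g := fun g hg => by
    refine ⟨(Subgroup.closure_le _).2 (fun g hg => ?_) hg, (flip_of_gens (ω := 1) (u := (1 : Unit)) (fun w h => ?_)
      (fun w h => ?_) (fun g hg => ?_) hg).imp And.left And.left⟩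
    · rcases List.mem_cons.1 hg with rfl | hg
      · exact sE_mem _ _
      · obtain ⟨s, h, h', rfl⟩ := l3 g hg
        exact (r1 s h h').1
    · obtain ⟨k, k'⟩ := Prod.ext_iff.1 h
      exact Prod.ext ((swap_smul w (.inl o')).trans (congrArg Sum.swap k')) ((swap_smul w (.inl o)).trans (congrArg Sum.swap k))
    · obtain ⟨k, k'⟩ := Prod.ext_iff.1 h
      exact Prod.ext ((swap_smul w (.inl o')).trans (congrArg Sum.swap k')) ((swap_smul w (.inl o)).trans (congrArg Sum.swap k))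
    simp only [MonoidHom.one_apply, inv_one, mul_one, and_true]
    rcases List.mem_cons.1 hg with rfl | hg
    · simp [mul_smul, sE, el_act, ix_inl, h1, h2, h3, h4]
    · obtain ⟨s, h, h', rfl⟩ := l3 g hg
      rw [(r1 s h h').2]; split_ifs <;> simp
  obtain ⟨L, l5, l6⟩ := exists_sub_gens (K := WD (Fin m)) (A := Subgroup.closure {g | g ∈ sE c e :: L0})
    (fun g hg => (r2 g hg).1) rfl
  refine ⟨L, by simp at l2 l5; omega, fun w => ⟨fun h => (l6 w).1 ?_, fun h => (r2 _ ((l6 w).2 h)).2⟩⟩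
  have l7 : ∀ s : Perm (Fin m), s o = o → s o' = o' → inr s * sgH _ hz (Perm.sign s) ∈
      Subgroup.closure {g | g ∈ sE c e :: L0} := fun s h h' =>
    Subgroup.closure_mono (fun _ h => List.mem_cons_of_mem _ h) (l4 s h h')
  have k0 : sE c e ∈ Subgroup.closure {g | g ∈ sE c e :: L0} := Subgroup.subset_closure List.mem_cons_self
  have k1 : ∀ w ∈ WD (Fin m), w • ((.inl o, .inl o') : (Fin m ⊕ Fin m) × (Fin m ⊕ Fin m)) = (.inl o, .inl o') →
      w ∈ Subgroup.closure {g | g ∈ sE c e :: L0} := fun w hw h => by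
    obtain ⟨k, k'⟩ := Prod.ext_iff.1 h
    have e1 : w.right o = o := (ix_smul w (.inl o)).symm.trans (congrArg ix k)
    have e2 : w.right o' = o' := (ix_smul w (.inl o')).symm.trans (congrArg ix k')
    refine wd_mem hw c (fun i hi => ?_) (by simpa [hw.2] using l7 _ e1 e2)
    have e3 : o ≠ i := by
      rintro rfl; exact hi (by simpa [ix, e1] using (sg_smul w (.inl o)).symm.trans (congrArg sg k))
    have e4 : o' ≠ i := by
      rintro rfl; exact hi (by simpa [ix, e2] using (sg_smul w (.inl o')).symm.trans (congrArg sg k'))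
    by_cases e5 : c = i
    · rw [← e5, ← sE_mul c e c, sE_comm e]; exact mul_mem k0 k0
    obtain ⟨s, hs⟩ := Perm.exists_extending_pair _ _ (inj4 ho h1 h2 h3 h4 h5) (inj4 ho h1 h2 e3 e4 e5)
    have := l7 s (hs 0) (hs 1)
    convert mul_mem (mul_mem this k0) (inv_mem this) using 1
    rw [conj_sE, sE_comm]
    rcases Int.units_eq_one_or (Perm.sign s) with k | k <;>
      simp [k, sgH_neg, sE, el_right, swap_apply_of_ne_of_ne, h1.symm, h2.symm, h3.symm, h4.symm, show s c = c from hs 2,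
        show s e = i from hs 3]
  rcases h with h | h
  · exact k1 _ w.2 h
  have k2 := r1 (Equiv.swap c e) (swap_apply_of_ne_of_ne h1 h3) (swap_apply_of_ne_of_ne h2 h4)
  rw [if_neg (by simp [h5])] at k2
  exact (mul_mem_cancel_left (inv_mem (l7 _ (swap_apply_of_ne_of_ne h1 h3) (swap_apply_of_ne_of_ne h2 h4)))).1
    (k1 _ (mul_mem (inv_mem k2.1) w.2) (by rw [mul_smul, show w.1 • _ = _ from h, ← k2.2, inv_smul_smul]))

end act

end Cfsg.Agent.H3
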