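import Cfsg.Agent.H3.PresO1

/-! Root elements of type `D` from few relations. -/

set_option autoImplicit false

namespace Cfsg.Agent.H3

open Function Equiv SemidirectProduct Wr H38

variable {J : Type*} [Group J] {F : Type*} [Field F] {m : ℕ}

/-- Independent indices. -/
abbrev DI (i j : Fin m ⊕ Fin m) : Prop := ix i ≠ ix j

theorem DI.sl {i j : Fin m ⊕ Fin m} (h : DI i j) : DI i.swap j := fun e => h ((ix_swap i).symm.trans e)

theorem DI.sr {i j : Fin m ⊕ Fin m} (h : DI i j) : DI i j.swap := fun e => h (e.trans (ix_swap j))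

theorem DI.symm {i j : Fin m ⊕ Fin m} (h : DI i j) : DI j i := Ne.symm h

theorem adm_D {i j : Fin m ⊕ Fin m} : (frE m false).Adm i j ↔ DI i j :=
  ⟨fun h => ix_ne h.1 fun e => by simpa [frE_lng] using h.2 e,
    fun h => ⟨fun e => h (e ▸ rfl), fun e => absurd (e ▸ ix_swap j) h⟩⟩

/-- All relations of type `D`. -/
structure DFull (ω : WD (Fin m) →* J) (ζ : F) (g : Fin m ⊕ Fin m → Fin m ⊕ Fin m → J)
    (x : Fin m ⊕ Fin m → Fin m ⊕ Fin m → F → J) : Prop extends AFull DI ω ζ g x where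
  gf : ∀ {i j}, DI i j → g j.swap i.swap = g i j
  fl : ∀ {i j}, DI i j → ∀ t, x j.swap i.swap t = x i j (-t)
  cb : ∀ {i j}, DI i j → ∀ s t, Commute (x i j s) (x i j.swap t)

theorem Act.neg {h : J} {y : F → J} {c : F} (H : Act h y c) : Act h (fun t => y (-t)) c := fun t => by
  rw [H, mul_neg]

theorem exists_dfull [Finite F] {ζ : F} (h0 : ζ ≠ 0) (hζ : ∀ t, t ≠ 0 → ∃ k : ℕ, ζ ^ k = t) (hm : 4 ≤ m)
    {a b c e : Fin m ⊕ Fin m} (hab : DI a b) (hac : DI a c) (hbc : DI b c) (hae : DI a e) (hbe : DI b e) (hce : DI c e)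
    {ω : WD (Fin m) →* J} {u d : J} (hu : ∀ w : WD (Fin m), w • (a, b) = (a, b) → Commute (ω w) u)
    (hu' : ∀ w : WD (Fin m), w • (a, b) = (b.swap, a.swap) → ω w * u * (ω w)⁻¹ = u⁻¹)
    (hd : ∀ w : WD (Fin m), w • (a, b) = (a, b) ∨ w • (a, b) = (b.swap, a.swap) → Commute (ω w) d)
    {g v : Fin m ⊕ Fin m → Fin m ⊕ Fin m → J} (hg : ∀ i j, g i j = fam (a, b) ω d (i, j))
    (hv : ∀ i j, v i j = fam (a, b) ω u (i, j)) (r2 : g a b * g b c = g a c) (r3 : Commute (g a b) (g a c))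
    (r4 : Commute (g a c * g b c) u)
    (r5 : ∀ e' ∈ (if 5 ≤ m then [e] else [e, e.swap]), Commute (g c e') u ∧ Commute (v a b) (v c e'))
    {y : F → J} (hy : Ad y) (y1 : y 1 = u) (yd : Act (g a c) y ζ)
    (r7 : v a b * v b c * (v a b)⁻¹ * (v b c)⁻¹ = v a c) (r9 : Commute (v a b) (v a b.swap)) :
    ∃ x, DFull ω ζ g x ∧ ∀ i j, x i j 1 = v i j := by
  have h2 : ∀ {i j}, DI i j → ∃ w : WD (Fin m), w • (a, b) = (i, j) := wd_pair hm hab
  have h2' : ∀ {i j}, DI i j → ∃ w : WD (Fin m), w • a = i ∧ w • b = j := fun h => (h2 h).imp fun _ => Prod.ext_iff.1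
  have eqg : ∀ (w : WD (Fin m)) {i j}, DI i j → ω w * g i j * (ω w)⁻¹ = g (w • i) (w • j) := fun w i j h => by
    rw [hg, hg]; exact fam_conj (fun s h => hd s (Or.inl h)) (h2 h) w
  obtain ⟨w0, hw0⟩ := h2 hab.symm.sl.sr
  have gf : ∀ {i j}, DI i j → g j.swap i.swap = g i j := fun h => by
    obtain ⟨w, rfl, rfl⟩ := h2' h
    rw [← swap_smul', ← swap_smul', ← eqg w hab, ← eqg w hab.symm.sl.sr, hg, hg, ← hw0,
      fam_eq (fun s h => hd s (Or.inl h)), fam_self (fun s h => hd s (Or.inl h)), (hd w0 (Or.inr hw0)).eq,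
      mul_inv_cancel_right]
  have h3 : ∀ {i j k}, DI i j → DI i k → DI j k → ∃ w : WD (Fin m), (w • a = i ∧ w • b = j ∧ w • c = k) ∨
      w • a = k.swap ∧ w • b = j.swap ∧ w • c = i.swap := fun {i j k} h h1 h2 => by
    obtain ⟨w, e⟩ := wd_alt (b' := ![k.swap, j.swap, i.swap]) (ixj3 hab hac hbc) (ixj3 h h1 h2) hm (p := 0) (q := 2)
      (by decide) (fun x => by fin_cases x <;> simp [ix_swap, swap_apply_def])
    exact ⟨w, e.imp (fun e => ⟨e 0, e 1, e 2⟩) fun e => ⟨e 0, e 1, e 2⟩⟩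
  have G2 : ∀ {i j k}, DI i j → DI i k → DI j k → Commute (g i j) (g i k) := fun {i j k} h h1 h2 => by
    obtain ⟨w, e | e⟩ := wd_alt (b' := ![i, k, j]) (ixj3 hab hac hbc) (ixj3 h h1 h2) hm (p := 1) (q := 2)
      (by decide) (fun x => by fin_cases x <;> simp [swap_apply_def]) <;>
    have := Commute.cj r3 (ω w) <;>
    rw [eqg w hab, eqg w hac, show w • a = _ from e 0, show w • b = _ from e 1, show w • c = _ from e 2] at this
    exacts [this, this.symm]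
  have G1 : ∀ {i j k}, DI i j → DI i k → DI j k → g i j * g j k = g i k := fun {i j k} h h1 h2 => by
    obtain ⟨w, e | e⟩ := h3 h h1 h2 <;> have := congrArg (fun z => ω w * z * (ω w)⁻¹) r2 <;>
      simp only [conj_mul', eqg w hab, eqg w hac, eqg w hbc, e.1, e.2.1, e.2.2] at this
    · exact this
    · rw [gf h, gf h1, gf h2] at this
      have k := (G2 h h1 h2).eq
      rwa [← this, ← mul_assoc, mul_left_inj, this] at k
  have hQ : ∀ e' ∈ (if 5 ≤ m then [e] else [e, e.swap]), DI c e' := fun e' he => by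
    split_ifs at he <;> simp only [List.mem_cons, List.not_mem_nil, or_false] at he
    exacts [he ▸ hce, he.elim (· ▸ hce) (· ▸ hce.sr)]
  have K2 : ∀ {k l}, DI a k → DI b k → DI a l → DI b l → DI k l → Commute (g k l) u := fun k1 k2 k3 k4 k5 => by
    obtain ⟨e', he, w, rfl, rfl, h | h⟩ := wd_quad hm (ixj4 hab hac hbc hae hbe hce) hab k1 k2 k3 k4 k5 <;>
      have := Commute.cj (r5 e' he).1 (ω w) <;> rw [eqg w (hQ e' he)] at this
    · rwa [(hu w h).eq, mul_inv_cancel_right] at this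
    · rw [hu' w h] at this; simpa using this.inv_right
  obtain ⟨x, C, x1⟩ := exists_acore hζ Ne.symm (fun w _ _ => ix_ne_smul w) hab hac hbc h2 (fun k _ _ =>
    Or.inr ((eq_or_ne (ix c) (ix k)).symm.imp_right fun h => ⟨e, hae, hbe, hce, fun h' => hce (h.trans h'.symm)⟩)) hu eqg G1 G2 r4 K2 hy y1 yd
  simp only [← hv] at x1
  have fl : ∀ {i j}, DI i j → ∀ t, x j.swap i.swap t = x i j (-t) := fun {i j} h =>
    (gn_sq hζ).ext (C.ad h.symm.sl.sr) (fun s t => by rw [neg_add, C.ad h]) (gf h ▸ C.m0 h.symm.sl.sr) (C.m0 h).neg (by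
      obtain ⟨w, rfl, rfl⟩ := h2' h
      rw [← swap_smul', ← swap_smul', ← C.eqx w hab, ← C.eqx w hab.symm.sl.sr, (C.ad hab).neg, x1, x1, hv, hv, ← hw0,
        fam_eq hu, fam_self hu, hu' w0 hw0])
  refine ⟨x, ⟨⟨C, eqg, G2, fun {i j k} h h1 h2 s t => ?_, fun {i j k l} k1 k2 k3 k4 k5 k6 => ?_⟩, gf, fl,
    fun h s t => ?_⟩, x1⟩
  · have b := C.cm_all h0 Ne.symm hζ hab hac hbc (C.cm4 Ne.symm hab hac hbc hae hbe hce (by simpa [Cm, x1] using r7))
    obtain ⟨w, ⟨rfl, rfl, rfl⟩ | e⟩ := h3 h h1 h2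
    · exact C.cm_conj w hab hac hbc (b s t)
    have := C.cm_conj w hab hac hbc (b (-t) (-s))
    simp only [Cm, e.1, e.2.1, e.2.2, fl h, fl h1, fl h2, neg_neg, neg_mul_neg, (C.ad h1).neg, mul_comm t] at this
    rw [Cm, ← inv_inv (x i k _), ← this]; group
  · refine C.comm4 Ne.symm hζ k1 k2 k3 k4 k5 k6 ?_
    obtain ⟨e', he, w, rfl, rfl, h | h⟩ := wd_quad hm (ixj4 hab hac hbc hae hbe hce) k1 k2 k3 k4 k5 k6 <;>
      have := C.comm_conj w hab (hQ e' he) (s := 1) (t := 1) (by rw [x1, x1]; exact (r5 e' he).2) <;>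
      rw [show w • a = _ from congrArg Prod.fst h, show w • b = _ from congrArg Prod.snd h] at this
    · exact this
    · rw [fl k1, (C.ad k1).neg] at this; simpa using this.inv_left
  · obtain ⟨w, rfl, rfl⟩ := h2' h
    rw [← swap_smul']
    refine C.comm_conj w hab hab.sr ?_
    have e : x a b.swap = fun t => x b a.swap (-t) := funext (by simpa using fl hab.symm.sr)
    have a1 : Act (g c b) (x a b.swap) ζ⁻¹ := e ▸ (C.m1' h0 hab.symm.sr hbc hac.sl).neg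
    have a2 : Act (g b c) (x a b.swap) ζ := e ▸ (C.m1 hab.symm.sr hbc hac.sl).neg
    exact (gn_sq hζ).comm_all (gn_sq hζ) (C.ad hab) (C.ad hab.sr) (C.m0 hab) (G1 hac hab hbc.symm ▸
      ((C.m1 hab.sr hac hbc.sl).mul a1).cast (mul_inv_cancel₀ h0)) (by rwa [x1, hv, fam_self hu])
      (((C.m1 hab.sr hac hbc.sl).mul a2).cast (sq _).symm) (by rwa [x1, x1]) s t

namespace DFull

variable {ω : WD (Fin m) →* J} {ζ : F} {g : Fin m ⊕ Fin m → Fin m ⊕ Fin m → J}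
  {x : Fin m ⊕ Fin m → Fin m ⊕ Fin m → F → J} (C : DFull ω ζ g x) (h0 : ζ ≠ 0) {i j k l : Fin m ⊕ Fin m}
include C h0

theorem act_one (h : DI i j) (h1 : DI k l) (h2 : DI i l) (h3 : DI j l) : ∃ c ≠ 0, Act (g k l) (x i j) c := by
  have e : x i j = fun t => x j.swap i.swap (-t) := funext fun t => by rw [C.fl h, neg_neg]
  by_cases e1 : ix k = ix i
  · rcases eq_or_swap e1 with rfl | rfl
    · exact ⟨_, h0, C.m1 h h2 h3⟩
    · exact ⟨_, inv_ne_zero h0, e ▸ (C.m2' h0 Ne.symm h.symm.sl.sr h3.sl h2.sl).neg⟩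
  by_cases e2 : ix k = ix j
  · rcases eq_or_swap e2 with rfl | rfl
    · exact ⟨_, inv_ne_zero h0, C.m2' h0 Ne.symm h h2 h3⟩
    · exact ⟨_, h0, e ▸ (C.m1 h.symm.sl.sr h3.sl h2.sl).neg⟩
  exact ⟨_, one_ne_zero, C.m3 h (Ne.symm e1) (Ne.symm e2) h2 h3 h1⟩

theorem act_all (hm : 4 ≤ m) (h : DI i j) (h1 : DI k l) : ∃ c, Act (g k l) (x i j) c := by
  by_cases e : DI i k ∧ DI j k ∧ DI i l ∧ DI j l
  · exact ⟨_, C.m3 h e.1 e.2.1 e.2.2.1 e.2.2.2 h1⟩
  obtain ⟨p, p1, p2, p3, p4⟩ : ∃ p, DI i p ∧ DI j p ∧ DI k p ∧ DI l p := by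
    obtain ⟨p, hp⟩ := exists_fourth (by simpa) (ix i) (ix j) (ix k)
    obtain ⟨q, hq⟩ := exists_fourth (by simpa) (ix i) (ix j) (ix l)
    by_cases e' : DI i k ∧ DI j k
    · exact ⟨.inl p, by simp only [DI, ix_inl] at *; grind⟩
    · exact ⟨.inl q, by simp only [DI, ix_inl] at *; grind⟩
  obtain ⟨c, -, hc⟩ := C.act_one h0 h p3 p1 p2
  obtain ⟨c', h', hc'⟩ := C.act_one h0 h p4 p1 p2
  exact ⟨_, C.g1 p3 h1 p4.symm ▸ C.gi p4 ▸ hc.mul (hc'.inv h')⟩

end DFull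

theorem kerD {n : ℕ} {c : Option (Fin (n + 1)) → Fˣ}
    (hc : ∀ a, H39.chi (baseD n).euc ((frE (n + 2) false).wt a) c = 1) : c none ^ 2 = 1 ∧ (c none = 1 → c = 1) := by
  have k : ∀ v, H39.chi (baseD n).euc v c = 1 := fun v => by
    rw [H39.chi_eq_pow _ (d := 1) (fun j => hc (.inl j)), _root_.one_zpow]
  refine ⟨?_, fun k0 => funext fun i => ?_⟩
  · have := k fun _ => 1
    rw [H39.chi_apply, Fintype.prod_option] at this
    change _ ^ (Fr.cov (spD n none) ⬝ᵥ _) * ∏ i, _ ^ (Fr.cov (chainE false i) ⬝ᵥ _) = _ at this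
    rw [← zpow_natCast]
    simpa [H39.cov_spD_none, H39.cov_chainE, one_add_one_eq_two] using this
  rcases i with _ | i
  · exact k0
  have := k fun l => if l ≤ i.castSucc then 1 else 0
  rw [H39.chi_apply, Fintype.prod_option, k0, _root_.one_zpow, one_mul, Finset.prod_eq_single i] at this
  · simpa [Fr.Base.euc, baseD, spD, H39.cov_chainE] using this
  · intro j _ hj
    change _ ^ (Fr.cov (chainE false j) ⬝ᵥ _) = _
    rw [H39.cov_chainE]
    simp only [sub_dotProduct, single_dotProduct, one_mul, Fin.castSucc_le_castSucc_iff, Fin.succ_le_castSucc_iff]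
    rw [show ((if j ≤ i then 1 else 0) - if j < i then 1 else 0 : ℤ) = 0 by grind, zpow_zero]
  · simp

theorem DFull.ker [Finite F] {n : ℕ} (hn : 1 ≤ n) {ω : WD (Fin (n + 2)) →* J} {ζ : F} {g} {x} (C : DFull ω ζ g x)
    (hG : Subgroup.closure {g | ∃ i j t, (frE (n + 2) false).Adm i j ∧ x i j t = g} = ⊤)
    (θ : J →* GL (Fin (n + 2) ⊕ Fin (n + 2)) F) (hθ : ∀ i j, DI i j → ∀ t, θ (x i j t) = (frE (n + 2) false).y F i j t) :
    ∃ z, θ z = 1 ∧ ∀ g, θ g = 1 → g = 1 ∨ g = z := by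
  refine (exists_rg_fr (baseD n) (genD hn) (fun h => C.ad (adm_D.1 h)) (fun h t => ?_) (fun {i j l} h h' e s t => ?_)
    (fun h h' e1 e2 e3 e4 e5 e6 e7 e8 => C.c4 (adm_D.1 h) (ix_ne e1 e3).symm (ix_ne e2 e4).symm (ix_ne e5 e7).symm
      (ix_ne e6 e8).symm (adm_D.1 h')) (fun {i j l} h h' e s t => ?_) hG θ fun i j h => hθ i j (adm_D.1 h)).elim
    fun X ⟨hX, _, H⟩ => ?_
  · rw [Fr.κs_of_not _ rfl, neg_one_mul]; exact C.fl (adm_D.1 h) t
  · by_cases e0 : l = j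
    · exact e0 ▸ (C.ad (adm_D.1 h)).comm _ _
    exact Cm.left (C.ad (adm_D.1 h)) (C.ad (adm_D.1 h')) (fun s => C.cm (adm_D.1 h) (adm_D.1 h') (ix_ne e0 e).symm s 1) _ _
  · by_cases e0 : i = l.swap
    · subst e0
      rw [← neg_neg t, ← C.fl (adm_D.1 h'), (C.cb (adm_D.1 h) _ _).eq]; simp
    rw [C.cm (adm_D.1 h) (ix_ne e e0) (adm_D.1 h') s t]
    exact mem_Btw (adm_D.2 (ix_ne e e0)) 1 1 one_pos one_pos (by simp) _
  by_cases e : ∃ z, θ z = 1 ∧ z ≠ 1
  · obtain ⟨z, hz, hz1⟩ := e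
    refine ⟨z, hz, fun g hg => or_iff_not_imp_left.2 fun hg1 => ?_⟩
    obtain ⟨c, hc, rfl⟩ := (H g hg).2
    obtain ⟨c', hc', rfl⟩ := (H z hz).2
    have k : ∀ {c}, (∀ a, H39.chi (baseD n).euc ((frE (n + 2) false).wt a) c = 1) → hX.tor c ≠ 1 → c none = -1 :=
      fun h h' => Units.ext ((sq_eq_one_iff.1 (congrArg Units.val (kerD h).1)).resolve_left fun e =>
        h' (by rw [(kerD h).2 (Units.ext e), map_one]))
    rw [← mul_inv_eq_one, ← map_inv, ← map_mul, (kerD (c := c * c'⁻¹) (by simp [hc, hc'])).2 (by simp [k hc hg1, k hc' hz1]),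
      map_one]
  · exact ⟨1, map_one _, fun g hg => Or.inl (by_contra fun h => e ⟨g, hg, h⟩)⟩

universe v in
theorem Pk.kill {G : Type*} {Γ : Type v} [Group G] [Group Γ] {ψ : Γ →* G} {s : ℕ} (h : Pk ψ s fun J _ f =>
    ∀ θ : J →* G, Surjective f → θ.comp f = ψ → ∃ z, θ z = 1 ∧ ∀ g, θ g = 1 → g = 1 ∨ g = z) :
    Pk ψ (s + 1) fun J _ f => ∀ θ : J →* G, Surjective f → θ.comp f = ψ → Injective θ := by
  obtain ⟨W, h1, h2, h3⟩ := h
  have hle : Subgroup.normalClosure {w | w ∈ W} ≤ ψ.ker := Subgroup.normalClosure_le_normal h2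
  obtain ⟨z, hz, H⟩ := h3 _ (QuotientGroup.mk' (Subgroup.normalClosure {w | w ∈ W}))
    (fun w hw => (QuotientGroup.eq_one_iff w).2 (Subgroup.subset_normalClosure hw))
    (QuotientGroup.lift _ ψ hle) (QuotientGroup.mk'_surjective _) (by ext; simp)
  obtain ⟨z, rfl⟩ := QuotientGroup.mk_surjective z
  refine ⟨z :: W, by simpa, by simpa using ⟨hz, h2⟩, fun J _ f hf θ hs hθ => (injective_iff_map_eq_one _).2 fun g hg => ?_⟩
  obtain ⟨g, rfl⟩ := hs g
  have k : Subgroup.normalClosure {w | w ∈ W} ≤ f.ker :=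
    Subgroup.normalClosure_le_normal fun w hw => hf w (List.mem_cons_of_mem _ hw)
  rcases H g (by simpa [← hθ] using hg) with e | e
  · exact k ((QuotientGroup.eq_one_iff g).1 e)
  · simpa [hf z List.mem_cons_self] using k (QuotientGroup.eq.1 e)

end Cfsg.Agent.H3
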