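import Cfsg.Agent.H3.PresO2
import Cfsg.Agent.H11.POrder

/-! Short presentations of `Ω⁺_{2n}(q)`. -/

set_option autoImplicit false

namespace Cfsg.Agent.H3

open Function Equiv Matrix SemidirectProduct Wr H38

variable {F : Type*} [Field F] {m n : ℕ} {ζ : F} {i j k l : Fin (n + 2) ⊕ Fin (n + 2)}

/-- Permutation matrices. -/
def rhoO (F : Type*) [Field F] (m : ℕ) : Wr ℤˣ (Fin m) →* GL (Fin m ⊕ Fin m) F :=
  (MonoidHom.toHomUnits ⟨⟨fun π : Perm _ => mono π fun _ => (1 : F), by simp [mono_one]⟩,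
    by simp [mono_mul_mono]⟩).comp (MulAction.toPermHom _ _)

theorem ap_rhoO (w : Wr ℤˣ (Fin m)) (a : Fin m ⊕ Fin m) : ap (rhoO F m w) (bv F a) = bv F (w • a) :=
  (mono_mulVec_single _ _ a 1).trans (by simp [bv])

theorem rhoO_mem (w : Wr ℤˣ (Fin m)) : rhoO F m w ∈ (frE m false).K F := by
  refine Fr.mem_K_of_Q rfl fun x => ?_
  have k : ∀ a, ap (rhoO F m w) x (w • a) = x a := fun a => by simp [ap, rhoO, mono, mulVec, dotProduct]
  rw [← quadFormPlus_eq, ← quadFormPlus_eq, quadFormPlus, quadFormPlus, ← Equiv.sum_comp w.right]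
  refine Finset.sum_congr rfl fun i _ => ?_
  rw [← k (.inl i), ← k (.inr i), show w • Sum.inr i = _ from swap_smul w (.inl i)]
  rcases eq_or_swap (b := .inl (w.right i)) (ix_smul w (.inl i)) with e | e <;> simp [e, mul_comm]

/-- The torus elements. -/
noncomputable def g0 (ζ : F) (i j : Fin (n + 2) ⊕ Fin (n + 2)) : GL (Fin (n + 2) ⊕ Fin (n + 2)) F :=
  if h : DI i j then ((baseD n).rg F).h (Fr.rt i j (adm_D.2 h)) ζ else 1

theorem g0_mem (h0 : ζ ≠ 0) (h : DI i j) : g0 ζ i j ∈ ((baseD n).rg F).grp := by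
  rw [g0, dif_pos h]; exact RG.H_le_grp _ (RG.h_mem_H _ _ h0)

theorem ap_g0 (h0 : ζ ≠ 0) (h : DI i j) (a) : ap (g0 ζ i j) (bv F a) =
    ζ ^ (((frE (n + 2) false).wt i - (frE (n + 2) false).wt j) ⬝ᵥ (frE (n + 2) false).wt a) • bv F a := by
  rw [g0, dif_pos h, Fr.Base.ap_h _ _ h0, Fr.cov_rt, Fr.cv, if_neg (show ¬i = Fr.bar _ j from (adm_D.2 h.sr).1),
    if_neg (not_or.2 ⟨frE_sing i, frE_sing j⟩)]

theorem act_g0 (h0 : ζ ≠ 0) (h : DI k l) (h' : DI i j) : Act (g0 ζ k l) ((frE (n + 2) false).y F i j)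
    (ζ ^ (((frE (n + 2) false).wt k - (frE (n + 2) false).wt l) ⬝ᵥ
      ((frE (n + 2) false).wt i - (frE (n + 2) false).wt j))) := fun t => by
  rw [Fr.y_conj ((baseD n).grp_le_K (g0_mem h0 h)) (π := 1) (fun _ => rfl) (ap_g0 h0 h) (adm_D.2 h').1, dotProduct_sub,
    zpow_sub₀ h0, div_eq_mul_inv]; rfl

theorem dfull_O (h0 : ζ ≠ 0) : DFull ((rhoO F (n + 2)).comp (WD _).subtype) ζ (g0 ζ) ((frE (n + 2) false).y F) := by
  have d0 : ∀ {i j}, DI i j → (frE (n + 2) false).wt i ⬝ᵥ (frE (n + 2) false).wt j = 0 := fun h =>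
    (frE _ false).dot_ne _ _ (adm_D.2 h).1.symm (adm_D.2 h.sl).1.symm
  have d1 : ∀ i, (frE (n + 2) false).wt i ⬝ᵥ (frE (n + 2) false).wt i = 1 := fun i => (frE _ false).dot_self i (frE_sing i)
  have wb : ∀ i, (frE (n + 2) false).wt i.swap = -(frE (n + 2) false).wt i := (frE _ false).wt_bar
  have fl : ∀ {i j}, DI i j → ∀ t : F, (frE (n + 2) false).y F j.swap i.swap t = (frE (n + 2) false).y F i j (-t) :=
    fun h t => (Fr.y_flip (adm_D.2 h) t).trans (by rw [Fr.κs_of_not _ rfl, neg_one_mul])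
  have sh : ∀ {i j}, DI i j → ∀ t : F, ∃ a : F, (frE (n + 2) false).y F i j t =
      (frE (n + 2) false).E (bv F i) (a • bv F j.swap) 0 := fun {i j} h t => ⟨(frE (n + 2) false).δ F i.swap * -t, by
    rw [← neg_neg t, ← fl h, Fr.y_gen (frE_sing _) (adm_D.2 h.symm.sl.sr.sr).1, Fr.q_sing _ (frE_sing _), mul_zero,
      frE_bar, Sum.swap_swap, neg_neg]⟩
  refine ⟨⟨⟨fun h => ad_y (adm_D.2 h).1, fun w i j h t => ?_, fun h => ?_, fun h h1 h2 => ext_bv fun a => ?_,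
    fun h h1 h2 => (act_g0 h0 h1 h).cast ?_, fun h h1 h2 => (act_g0 h0 h2.symm h).cast ?_,
    fun h h1 h2 h3 h4 h5 => (act_g0 h0 h5 h).cast ?_, fun h => (act_g0 h0 h h).cast ?_⟩, fun w i j h => ?_,
    fun h h1 _ => ext_bv fun a => ?_, fun h h1 h2 s t => ?_, fun {i j k l} h h1 h2 h3 h4 h5 s t => ?_⟩,
    fun h => ext_bv fun a => ?_, fl, fun {i j} h s t => ?_⟩
  · simpa using Fr.y_conj (rhoO_mem w.1) (π := MulAction.toPerm w) (swap_smul' w) (l := fun _ => 1)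
      (fun a => (ap_rhoO w.1 a).trans (one_smul _ _).symm) (adm_D.2 h).1 t
  · refine eq_inv_of_mul_eq_one_left (ext_bv fun a => ?_)
    rw [ap_mul, ap_g0 h0 h, ap_smul, ap_g0 h0 h.symm, smul_smul, ← zpow_add₀ h0, ← add_dotProduct, ap_one]; simp
  · rw [ap_mul, ap_g0 h0 h2, ap_smul, ap_g0 h0 h, smul_smul, ← zpow_add₀ h0, ← add_dotProduct, ap_g0 h0 h1]; simp
  · simp [d1, d0 h, d0 h1.symm, d0 h2.symm]
  · simp [d1, d0 h.symm, d0 h1.symm, d0 h2.symm]
  · simp [d0 h1.symm, d0 h2.symm, d0 h3.symm, d0 h4.symm]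
  · simp [d1, d0 h, d0 h.symm, one_add_one_eq_two]
  · refine mul_inv_eq_iff_eq_mul.2 (ext_bv fun a => ?_)
    have e : ∀ b, ap (((rhoO F (n + 2)).comp (WD _).subtype) w) (bv F b) = bv F (w • b) := ap_rhoO w.1
    rw [ap_mul, ap_mul, ap_g0 h0 h, ap_smul, e, ap_g0 h0 (ix_ne_smul w h)]
    simp only [sub_dotProduct, Fr.dot_eq, frE_bar, ← swap_smul', smul_left_cancel_iff]
    congr!
  · rw [ap_mul, ap_mul, ap_g0 h0 h, ap_g0 h0 h1, ap_smul, ap_smul, ap_g0 h0 h, ap_g0 h0 h1, smul_comm]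
  · have := comm_eq_of (ad_y (adm_D.2 h).1) (ad_y (adm_D.2 h2).1) (Fr.y_comm_gen (F := F) (Φ := frE _ false) (frE_sing _)
      (frE_sing _) (frE_sing _) (adm_D.2 h).1 (adm_D.2 h2).1 (adm_D.2 h1).1 (adm_D.2 h.sr).1 (adm_D.2 h2.sr).1 (adm_D.2 h1.sr).1 (-s) (-t))
    rw [← (ad_y (adm_D.2 h1).1).neg] at this
    simpa [Cm] using this
  · obtain ⟨a, e⟩ := sh h5 t
    have := Fr.E_conj (Fr.y_mem_K (adm_D.2 h) s) (Fr.β_bv_self (frE_sing k)) (Fr.β_smul_bv (b := k) (c := l.swap)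
      (adm_D.2 h5.symm.sl.sr).1 a) 0
    rw [ap_smul, Fr.ap_y_fix (adm_D.2 h).1 s (bv_ne (adm_D.2 h2).1) (bv_ne (adm_D.2 h1.sl).1),
      Fr.ap_y_fix (adm_D.2 h).1 s (bv_ne (adm_D.2 h4.sr).1) (bv_ne (adm_D.2 h3.sl.sr).1), ← e] at this
    exact mul_inv_eq_iff_eq_mul.1 this
  · rw [ap_g0 h0 h, ap_g0 h0 h.symm.sl.sr, wb, wb, neg_sub_neg]
  · obtain ⟨a, e⟩ := sh h s
    obtain ⟨a', e'⟩ := sh h.sr t
    have k1 := Fr.β_smul_bv (Φ := frE (n + 2) false) (b := i) (c := j.swap) (adm_D.2 h.symm.sl.sr).1 a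
    have k2 := Fr.β_smul_bv (Φ := frE (n + 2) false) (b := i) (c := j.swap.swap) (adm_D.2 h.symm.sl.sl.sr).1 a'
    rw [e, e', commute_iff_eq, Fr.E_mul (Fr.β_bv_self (frE_sing i)) k1 k2, Fr.E_mul (Fr.β_bv_self (frE_sing i)) k2 k1,
      add_comm (a • _), Fr.β_swap, Fr.ε_of_not _ rfl, one_mul]

theorem smul_flip {w : WD (Fin m)} {a b i j : Fin m ⊕ Fin m} (h : w • (a, b) = (i, j)) :
    w • (b.swap, a.swap) = (j.swap, i.swap) := by
  obtain ⟨⟩ := h; exact Prod.ext (swap_smul' w b) (swap_smul' w a)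

theorem pres_om [Finite F] {d r : ℕ} (hn : 2 ≤ n) (hP : Pr (alternatingGroup (Fin (n + 2))) d r) :
    Pr (Omega F (quadFormPlus (n + 2) F)) (d + 3) (r + 3 * min 2 (n - 1) + if 3 ≤ n then 16 else 19) := by
  obtain ⟨ζ, h0, hζ⟩ := exists_prim F
  have hm : 4 ≤ n + 2 := by omega
  obtain ⟨γ, hγ⟩ := (pres_wd hP (by simpa)).hp
  obtain ⟨o, o', c, e, ho, h1, h2, h3, h4, h5⟩ :
      ∃ a b c e : Fin (n + 2), a ≠ b ∧ a ≠ c ∧ b ≠ c ∧ a ≠ e ∧ b ≠ e ∧ c ≠ e :=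
    ⟨⟨0, by omega⟩, ⟨1, by omega⟩, ⟨2, by omega⟩, ⟨3, by omega⟩, by simp⟩
  obtain ⟨L, l1, l2⟩ := wd_root ho h1 h2 h3 h4 h5
  have C0 := dfull_O (n := n) h0
  let ψ : Monoid.Coprod (WD (Fin (n + 2))) (FreeGroup Bool) →* _ := Monoid.Coprod.lift
    ((rhoO F (n + 2)).comp (WD _).subtype) (FreeGroup.lift fun y =>
      cond y ((frE (n + 2) false).y F (.inl o) (.inl o') 1) (g0 ζ (.inl o) (.inl o')))
  let ι : WD (Fin (n + 2)) →* Monoid.Coprod _ (FreeGroup Bool) := Monoid.Coprod.inl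
  let u : Monoid.Coprod (WD (Fin (n + 2))) (FreeGroup Bool) := .inr (.of true)
  let δ : Monoid.Coprod (WD (Fin (n + 2))) (FreeGroup Bool) := .inr (.of false)
  let g := fun i j : Fin (n + 2) ⊕ Fin (n + 2) => fam (Sum.inl o, Sum.inl o') ι δ (i, j)
  let v := fun i j : Fin (n + 2) ⊕ Fin (n + 2) => fam (Sum.inl o, Sum.inl o') ι u (i, j)
  have hι : ψ.comp ι = (rhoO F (n + 2)).comp (WD _).subtype := Monoid.Coprod.lift_comp_inl _ _
  have hι' : ∀ w, ψ (ι w) = (rhoO F (n + 2)).comp (WD _).subtype w := DFunLike.congr_fun hι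
  have hu : ψ u = (frE (n + 2) false).y F (.inl o) (.inl o') 1 := by simp [ψ, u]
  have hd : ψ δ = g0 ζ (.inl o) (.inl o') := by simp [ψ, δ]
  have ab : DI (.inl o) (.inl o') := ho
  have ac : DI (.inl o) (.inl c) := h1
  have bc : DI (.inl o') (.inl c) := h2
  have hg : ∀ {i j}, DI i j → ψ (g i j) = g0 ζ i j := fun h => by
    rw [map_fam, hd, hι]
    exact fam_val (Z := fun r : _ × _ => g0 ζ r.1 r.2) (r0 := (_, _)) (r := (_, _)) (fun w => C0.eqg w ab)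
      (wd_pair hm ab h)
  have hv : ∀ {i j}, DI i j → ψ (v i j) = (frE (n + 2) false).y F i j 1 := fun h => by
    rw [map_fam, hu, hι]
    exact fam_val (Z := fun r : _ × _ => (frE (n + 2) false).y F r.1 r.2 1) (r0 := (_, _)) (r := (_, _))
      (fun w => C0.eqx w ab 1) (wd_pair hm ab h)
  have htop : ∀ N : Subgroup (GL (Fin (n + 2) ⊕ Fin (n + 2)) F), ψ u ∈ N → (∀ γ, ∀ g ∈ N, ψ γ * g * (ψ γ)⁻¹ ∈ N) →
      ((baseD n).rg F).grp ≤ N := fun N k1 k2 => ((baseD n).rg F).US_le.2 fun r _ t => by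
    obtain ⟨w, e⟩ := wd_pair hm ab (adm_D.1 r.adm)
    have := k2 (ι w) _ ((gn_sq hζ).mem (C0.ad ab) (C0.m0 ab) (hu ▸ k1) (hd ▸ k2 _) t)
    rwa [hι', C0.eqx w ab, show w • _ = r.i from congrArg Prod.fst e, show w • _ = r.j from congrArg Prod.snd e] at this
  have hρ : ∀ w, ψ (ι w) ∈ ((baseD n).rg F).grp := fun w => (wd_kill ho h1 h2 (by simpa)
    (((baseD n).rg F).grp.comap ((rhoO F (n + 2)).comp (WD _).subtype)) ⟨fun a ha b => by
      simpa using (baseD n).conj_mem_grp (rhoO_mem b.1) ha⟩ (by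
      refine (baseD n).commutator_K_le rfl (frE_sing _) (frE_sing _) (adm_D.2 ab).1 (adm_D.2 ab.sr).1 ?_
      convert Subgroup.commutator_mem_commutator (rhoO_mem (F := F) (inr (swap o' c))) (rhoO_mem (inr (swap o o')))
      rw [← map_commutatorElement, ← map_commutatorElement, commutatorElement_def, ← swap_apply_apply, swap_inv,
        swap_apply_left, swap_apply_of_ne_of_ne ho h1]
      rfl)).ge trivial
  have hr : (Fr.omegaHom (quadFormPlus (n + 2) F)).range = ψ.range := by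
    rw [← grpD_eq (Or.inl (by omega))]
    refine le_antisymm (htop _ ⟨_, rfl⟩ fun γ g hg => mul_mem (mul_mem ⟨γ, rfl⟩ hg) (inv_mem ⟨γ, rfl⟩)) ?_
    rw [Monoid.Coprod.range_lift, FreeGroup.range_lift_eq_closure, sup_le_iff, Subgroup.closure_le]
    exact ⟨by rintro _ ⟨w, rfl⟩; exact hρ w, by
      rintro _ ⟨_ | _, rfl⟩; exacts [g0_mem h0 ab, (baseD n).y_mem_grp (adm_D.2 ab) 1]⟩
  have P1 : Pk ψ (L.length * (1 + 1)) fun _ _ f => ∀ s ∈ L,
      (s • (Sum.inl o, Sum.inl o') = (Sum.inl o, Sum.inl o') ∧ f.comp ι s * f u * (f.comp ι s)⁻¹ = f u ∨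
        s • (Sum.inl o, Sum.inl o') = (Sum.inr o', Sum.inr o) ∧ f.comp ι s * f u * (f.comp ι s)⁻¹ = (f u)⁻¹) ∧
      Commute (f (ι s)) (f δ) := Pk.list L fun s hs => by
    have k1 := C0.eqx s ab 1
    have k2 := C0.eqg s ab
    rcases (l2 s).2 (Subgroup.subset_closure hs) with h | h <;>
      rw [show s • _ = _ from congrArg Prod.fst h, show s • _ = _ from congrArg Prod.snd h] at k1 k2
    · exact ((Pk.eq (ι s * u * (ι s)⁻¹) u (by simpa only [map_mul, map_inv, hu, hι'] using k1)).imp fun _ _ f hf =>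
        Or.inl ⟨h, by simpa using hf⟩).and (Pk.comm _ _ (by rw [hd, hι']; exact mul_inv_eq_iff_eq_mul.1 k2))
    · exact ((Pk.eq (ι s * u * (ι s)⁻¹) u⁻¹ (by
        simpa only [map_mul, map_inv, hu, hι', ← (C0.ad ab).neg, ← C0.fl ab, Sum.swap_inl] using k1)).imp fun _ _ f hf =>
        Or.inr ⟨h, by simpa using hf⟩).and (Pk.comm _ _ (by
          rw [hd, hι']; exact mul_inv_eq_iff_eq_mul.1 (k2.trans (C0.gf ab))))
  have P2 := ((Pk.eq (ψ := ψ) (g (.inl o) (.inl o') * g (.inl o') (.inl c)) (g (.inl o) (.inl c)) (by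
    rw [map_mul, hg ab, hg ac, hg bc, C0.g1 ab ac bc])).and
    (Pk.comm (g (.inl o) (.inl o')) (g (.inl o) (.inl c)) (by rw [hg ab, hg ac]; exact C0.g2 ab ac bc))).and
    (Pk.comm (g (.inl o) (.inl c) * g (.inl o') (.inl c)) u (by
      rw [map_mul, hg ac, hg bc, hu]
      exact (((C0.m1 ab ac bc).mul (C0.m2' h0 Ne.symm ab ac bc)).cast (mul_inv_cancel₀ h0)).comm 1))
  have P3 := Pk.list (ψ := ψ) (if 5 ≤ n + 2 then [Sum.inl e] else [Sum.inl e, (Sum.inl e).swap]) fun e' he =>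
    have k : ∀ {i}, i ≠ e → DI (.inl i) e' := fun h => by
      split_ifs at he <;> simp only [List.mem_cons, List.not_mem_nil, or_false] at he
      exacts [he ▸ h, he.elim (· ▸ h) (· ▸ h)]
    (Pk.comm (g (.inl c) e') u (by rw [hu, hg (k h5)]; exact (C0.m3 ab ac bc (k h3) (k h4) (k h5)).comm 1)).and
    (Pk.comm (v (.inl o) (.inl o')) (v (.inl c) e') (by
      rw [hv ab, hv (k h5)]; exact C0.c4 ab ac bc (k h3) (k h4) (k h5) 1 1))
  have P4 := (((Pk.mod1 (ψ := ψ) (d := g (.inl o) (.inl c)) (C0.ad ab) hu (by rw [hg ac]; exact C0.m1 ab ac bc) hζ).and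
    (Pk.eq (v (.inl o) (.inl o') * v (.inl o') (.inl c) * (v (.inl o) (.inl o'))⁻¹ * (v (.inl o') (.inl c))⁻¹)
      (v (.inl o) (.inl c)) (by simpa [Cm, hv ab, hv ac, hv bc] using C0.cm ab ac bc 1 1))).and
    (Pk.comm (v (.inl o) (.inl o')) (v (.inl o) (Sum.inl o').swap) (by rw [hv ab, hv ab.sr]; exact C0.cb ab 1 1))).and
    (Pk.mem (ι (inA _ ⟨c3 o o' c, sign_c3 ho h1.symm⟩)) (Subgroup.normalClosure {u}) (htop
      ((Subgroup.normalClosure {u}).map ψ) ⟨u, Subgroup.subset_normalClosure rfl, rfl⟩ (by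
        rintro γ _ ⟨a, ha, rfl⟩
        exact ⟨_, Subgroup.normalClosure_normal.conj_mem a ha γ, by simp⟩) (hρ _)))
  refine ((Pk.pr_range (hγ.coprod_free Bool) (Pk.kill ((((P1.and P2).and P3).and P4).imp
    fun J _ f hf θ hf' hθ => ?_))).congr ((MonoidHom.ofInjective (Fr.omegaHom_inj _)).trans
      (MulEquiv.subgroupCongr hr)).symm).mono ?_ |> fun h => by simpa [add_assoc] using h
  · obtain ⟨⟨⟨p1, ⟨p2, p3⟩, p4⟩, p5⟩, ⟨⟨⟨y, hy, y1, yd⟩, p6⟩, p7⟩, p8⟩ := hf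
    have q1 := fun s h => flip_of_gens (ω := f.comp ι) (r := (Sum.inl o, Sum.inl o')) (r' := (Sum.inr o', Sum.inr o))
      (fun w h => smul_flip h) (fun w h => smul_flip h) (fun s hs => (p1 s hs).1) ((l2 s).1 h)
    have su : ∀ w : WD (Fin (n + 2)), w • (Sum.inl o, Sum.inl o') = (Sum.inl o, Sum.inl o') → Commute (f.comp ι w) (f u) :=
      fun w h => mul_inv_eq_iff_eq_mul.1 ((q1 w (Or.inl h)).elim And.right fun k => by simp [h] at k)
    have sd := fun w h => comm_of_gens (ω := f.comp ι) (fun s hs => (p1 s hs).2) ((l2 w).1 h)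
    obtain ⟨x, C, x1⟩ := exists_dfull h0 hζ hm (e := .inl e) ab ac bc h3 h4 h5 su
      (fun w h => (q1 w (Or.inr h)).elim (fun k => by simp [h] at k) And.right) sd (g := fun i j => f (g i j))
      (v := fun i j => f (v i j)) (fun _ _ => map_fam _ _ _ _ _) (fun _ _ => map_fam _ _ _ _ _) (by simpa using p2) p3
      (by simpa using p4) p5 hy y1 yd (by simpa using p6) p7
    have hθ' : ∀ g, θ (f g) = ψ g := fun g => DFunLike.congr_fun hθ g
    have g1 : f (g (.inl o) (.inl o')) = f δ := by rw [map_fam, fam_self fun s h => sd s (Or.inl h)]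
    refine C.ker (by omega) ?_ θ fun i j h => (gn_sq hζ).map_eq (C.ad h) (C0.ad h) θ (C.m0 h)
      (by rw [hθ', hg h]; exact C0.m0 h) (by rw [x1, hθ', hv h])
    set N := Subgroup.closure {g | ∃ i j t, (frE (n + 2) false).Adm i j ∧ x i j t = g}
    have mem : ∀ {i j}, DI i j → ∀ t, x i j t ∈ N := fun h t => Subgroup.subset_closure ⟨_, _, t, adm_D.2 h, rfl⟩
    have mu : f u ∈ N := by simpa only [x1, v, map_fam, fam_self su] using mem ab 1
    have hN : N.Normal := by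
      refine normal_of_gens (closure_coprod hf') ?_
      rintro _ (⟨w, rfl⟩ | ⟨_ | _, rfl⟩) _ ⟨i, j, t, h, rfl⟩ <;> replace h := adm_D.1 h
      · rw [C.eqx w h, ← map_inv, C.eqx w⁻¹ h]
        exact ⟨mem (ix_ne_smul _ h) _, mem (ix_ne_smul _ h) _⟩
      · obtain ⟨c, hc⟩ := C.act_all h0 hm h ab
        obtain ⟨c', hc'⟩ := C.act_all h0 hm h ab.symm
        rw [C.gi ab] at hc'
        simp only [g1] at hc hc'
        rw [hc, hc']; exact ⟨mem h _, mem h _⟩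
      · exact ⟨mul_mem (mul_mem mu (mem h t)) (inv_mem mu), mul_mem (mul_mem (inv_mem mu) (mem h t)) (inv_mem (inv_mem mu))⟩
    have hW : ∀ w, f.comp ι w ∈ N := fun w => (wd_kill ho h1 h2 (by simpa) _ (hN.comap (f.comp ι))
      (Subgroup.map_le_iff_le_comap.2 (Subgroup.normalClosure_le_normal (N := N.comap f) (by simpa using mu)) p8)).ge
        trivial
    rw [eq_top_iff, ← closure_coprod hf', Subgroup.closure_le]
    rintro _ (⟨w, rfl⟩ | ⟨_ | _, rfl⟩)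
    exacts [hW w, fam_mem hW (by simpa only [g, map_fam] using C.g1 ab ac bc), mu]
  · simp only [Fintype.card_fin] at *
    split_ifs <;> simp <;> omega

theorem Pr.pom [Finite F] {d r : ℕ} (hm : 3 ≤ m) (h : Pr (Omega F (quadFormPlus m F)) d r) :
    Pr (POmega F (quadFormPlus m F)) d (r + 1) := by
  have : IsCyclic (Subgroup.center (Omega F (quadFormPlus m F))) := by
    refine isCyclic_of_card_dvd_prime (p := 2) ?_
    rw [Nat.card_congr (Subgroup.centerCongr (H11.commEquiv (H11.isoOG _ _ (H11.qPlus_eq F m)))).toEquiv]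
    by_cases h : (2 : F) = 0 ∨ H11.negOne (H11.qPlus F m) ∉ commutator _
    · simp [(H11.nd_qPlus F m).card_center_omega_one (by simp; omega) h]
    · rw [(H11.nd_qPlus F m).card_center_omega_two (by simp; omega) (not_or.1 h).1 (not_not.1 (not_or.1 h).2)]
  exact h.quot_cyclic _

end Cfsg.Agent.H3
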