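import Cfsg.Agent.H3.PresAlt4

/-! Orbits of alternating groups on tuples; generators of point stabilisers. -/

set_option autoImplicit false

namespace Cfsg.Agent.H3

open Function Equiv

variable {I : Type} [Fintype I] [DecidableEq I] {k : ℕ}

theorem exists_even {a b : Fin k → I} (ha : Injective a) (hb : Injective b) {p q : Fin k} (h : p ≠ q) :
    ∃ w : Perm I, Perm.sign w = 1 ∧ ((∀ m, w (a m) = b m) ∨ ∀ m, w (a m) = b (swap p q m)) := by
  obtain ⟨σ, hσ⟩ := Perm.exists_extending_pair _ _ ha hb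
  rcases Int.units_eq_one_or (Perm.sign σ) with e | e
  · exact ⟨σ, e, Or.inl hσ⟩
  · exact ⟨swap (b p) (b q) * σ, by simp [e, Perm.sign_swap (hb.ne h)],
      Or.inr fun m => by rw [Perm.mul_apply, hσ, hb.swap_apply]⟩

theorem exists_notMem {b : Fin k → I} (h : k + 2 ≤ Fintype.card I) :
    ∃ y z, y ≠ z ∧ (∀ m, b m ≠ y) ∧ ∀ m, b m ≠ z := by
  have h1 : (Finset.univ.image b).card ≤ k := by simpa using Finset.card_image_le (s := Finset.univ) (f := b)
  have : 1 < (Finset.univ.image b)ᶜ.card := by rw [Finset.card_compl]; omega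
  obtain ⟨y, hy, z, hz, e⟩ := Finset.one_lt_card.1 this
  exact ⟨y, z, e, by simpa using hy, by simpa using hz⟩

theorem exists_even' {a b : Fin k → I} (ha : Injective a) (hb : Injective b) (h : k + 2 ≤ Fintype.card I) :
    ∃ w : Perm I, Perm.sign w = 1 ∧ ∀ m, w (a m) = b m := by
  obtain ⟨σ, hσ⟩ := Perm.exists_extending_pair _ _ ha hb
  obtain ⟨y, z, e, hy, hz⟩ := exists_notMem (b := b) h
  rcases Int.units_eq_one_or (Perm.sign σ) with e' | e'
  · exact ⟨σ, e', hσ⟩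
  · exact ⟨swap y z * σ, by simp [e', Perm.sign_swap e],
      fun m => by rw [Perm.mul_apply, hσ, swap_apply_of_ne_of_ne (hy m) (hz m)]⟩

omit [Fintype I] [DecidableEq I] in
theorem inj2 {i j : I} (h : i ≠ j) : Injective ![i, j] := by
  intro a b; fin_cases a <;> fin_cases b <;> simp [h, h.symm]

omit [Fintype I] [DecidableEq I] in
theorem inj3 {i j k : I} (h : i ≠ j) (h1 : i ≠ k) (h2 : j ≠ k) : Injective ![i, j, k] := by
  intro a b; fin_cases a <;> fin_cases b <;> simp [h, h.symm, h1, h1.symm, h2, h2.symm]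

omit [Fintype I] [DecidableEq I] in
theorem inj4 {i j k l : I} (h : i ≠ j) (h1 : i ≠ k) (h2 : j ≠ k) (h3 : i ≠ l) (h4 : j ≠ l) (h5 : k ≠ l) :
    Injective ![i, j, k, l] := by
  intro a b
  fin_cases a <;> fin_cases b <;>
    simp [h, h.symm, h1, h1.symm, h2, h2.symm, h3, h3.symm, h4, h4.symm, h5, h5.symm]

theorem exists_alt_gens (Γ : Finset I) : ∃ L : List (Perm I), L.length ≤ 2 ∧ L.length ≤ Γ.card - 2 ∧
    Subgroup.closure {s | s ∈ L} = Alt Γ := by
  by_cases h : Γ.card ≤ 2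
  · refine ⟨[], by simp, by simp, le_antisymm (by simp) ?_⟩
    rcases Γ.eq_empty_or_nonempty with rfl | ⟨a, ha⟩
    · intro g hg
      have : g = 1 := Equiv.ext fun x => hg.1 x (by simp)
      rw [this]; exact one_mem _
    rcases (Γ.erase a).eq_empty_or_nonempty with e | ⟨b, hb⟩
    · exact Alt_le a a fun i hi h1 _ => absurd (Finset.mem_erase.2 ⟨h1, hi⟩) (by simp [e])
    refine Alt_le a b fun i hi h1 h2 => absurd h (not_le.2 (Finset.two_lt_card_iff.2 ⟨a, b, i, ha, ?_⟩))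
    simp only [Finset.mem_erase] at hb
    exact ⟨hb.2, hi, hb.1.symm, h1.symm, h2.symm⟩
  obtain ⟨a, b, c, ha, hb, hc, hab, hac, hbc⟩ := Finset.two_lt_card_iff.1 (not_le.1 h)
  have h3 := c3_mem_Alt ha hb hc hab hac.symm
  by_cases h' : Γ.card = 3
  · refine ⟨[c3 a b c], by simp, by simp [h'], le_antisymm (by simpa using h3) (Alt_le a b fun i hi h1 h2 => ?_)⟩
    have : i = c := by
      by_contra e
      have := Finset.card_le_card (show ({a, b, c, i} : Finset I) ⊆ Γ by simp [Finset.insert_subset_iff, *])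
      rw [Finset.card_eq_four.2 ⟨a, b, c, i, hab, hac, h1.symm, hbc, h2.symm, Ne.symm e, rfl⟩] at this
      omega
    exact Subgroup.subset_closure (by simp [this])
  obtain ⟨f, e, f1, f2, f3⟩ := exists_cyc ((Γ.erase a).erase b) (γ := c) hab (by simp [hac]) (by simp [hbc]) 1
  have fa := f1 a (by simp [hac])
  have fb := f1 b (by simp [hbc])
  refine ⟨[c3 a b c, f * swap a b ^ e], by simp, by simp; omega, le_antisymm ?_ (Alt_le_of_cyc (γ := c) hab
    (u := f * swap a b ^ e) ?_ (fun i hi h1 h2 => f3 i (by simp [*])) (Subgroup.subset_closure (by simp))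
    (Subgroup.subset_closure (by simp)))⟩
  · have : f * swap a b ^ e ∈ Alt Γ := ⟨fun x hx => by
      rw [Perm.mul_apply, Perm.pow_apply_eq_self_of_apply_eq_self
        (swap_apply_of_ne_of_ne (by rintro rfl; exact hx ha) (by rintro rfl; exact hx hb))]
      exact f1 x (by simp [hx]; rintro rfl; exact hx hc), f2⟩
    refine (Subgroup.closure_le _).2 fun s hs => ?_
    rcases List.mem_pair.1 hs with rfl | rfl
    exacts [h3, this]
  · rcases Nat.even_or_odd' e with ⟨m, rfl | rfl⟩ <;> simp [pow_succ, pow_mul, fa, fb]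

theorem exists_sub_gens {G : Type*} [Group G] {K A : Subgroup G} (h : A ≤ K) {L : List G}
    (hL : Subgroup.closure {s | s ∈ L} = A) : ∃ L' : List K, L'.length = L.length ∧
      ∀ s : K, s.1 ∈ A ↔ s ∈ Subgroup.closure {s | s ∈ L'} := by
  have hm : ∀ s ∈ L, s ∈ K := fun s hs => h (hL ▸ Subgroup.subset_closure hs)
  refine ⟨L.pmap Subtype.mk hm, by simp, fun s => ?_⟩
  rw [← Subgroup.mem_map_iff_mem K.subtype_injective, MonoidHom.map_closure, ← hL]
  have : K.subtype '' {s | s ∈ L.pmap Subtype.mk hm} = {s | s ∈ L} := by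
    ext g; simp only [List.mem_pmap, Set.mem_image, Set.mem_ofPred_eq]
    exact ⟨by rintro ⟨_, ⟨a, ha, rfl⟩, rfl⟩; exact ha, fun hg => ⟨_, ⟨g, hg, rfl⟩, rfl⟩⟩
  rw [this]; rfl

theorem alt_kill {a b c : I} (hab : a ≠ b) (hac : a ≠ c) (hbc : b ≠ c) (N : Subgroup (alternatingGroup I))
    (hN : N.Normal) (h : ⟨c3 a b c, sign_c3 hab hac.symm⟩ ∈ N) : N = ⊤ := by
  have : Alt Finset.univ ≤ N.map (alternatingGroup I).subtype := Alt_le a b fun i _ h1 h2 => by
    obtain ⟨w, hw, e | e⟩ := exists_even (inj3 hab hac hbc) (inj3 hab h1.symm h2.symm) (p := 0) (q := 1) (by decide)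
    · refine ⟨_, hN.conj_mem _ h ⟨w, hw⟩, (c3_conj w a b c).trans ?_⟩
      rw [show w a = a from e 0, show w b = b from e 1, show w c = i from e 2]
    · refine ⟨_, inv_mem (hN.conj_mem _ h ⟨w, hw⟩), (congrArg Inv.inv (c3_conj w a b c)).trans ?_⟩
      rw [show w a = b from e 0, show w b = a from e 1, show w c = i from e 2, c3_swap hab h1 h2, inv_inv]
  rw [eq_top_iff]
  intro g _
  obtain ⟨g', hg', e⟩ := this (show g.1 ∈ Alt Finset.univ by rw [Alt_univ]; exact g.2)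
  rwa [← Subtype.ext e]

theorem sym_kill {a b : I} (hab : a ≠ b) (N : Subgroup (Perm I)) (hN : N.Normal) (h : swap a b ∈ N) : N = ⊤ := by
  rw [eq_top_iff, ← Perm.closure_isSwap, Subgroup.closure_le]
  rintro _ ⟨x, y, hxy, rfl⟩
  obtain ⟨w, hw⟩ := Perm.exists_extending_pair _ _ (inj2 hab) (inj2 hxy)
  have := hN.conj_mem _ h w
  rwa [← swap_apply_apply, show w a = x from hw 0, show w b = y from hw 1] at this

section alt

variable {a b c e : I} (hab : a ≠ b) (hac : a ≠ c) (hbc : b ≠ c) (hae : a ≠ e) (hbe : b ≠ e) (hce : c ≠ e)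
  {i j k l : I}

include hab hac hbc in
theorem alt_triple (h : i ≠ j) (h1 : i ≠ k) (h2 : j ≠ k) :
    ∃ w : alternatingGroup I, w • (a, b, c) = (i, j, k) ∨ w • (a, b, c) = (i, k, j) := by
  obtain ⟨w, hw, e | e⟩ := exists_even (inj3 hab hac hbc) (inj3 h h1 h2) (p := 1) (q := 2) (by decide)
  · exact ⟨⟨w, hw⟩, Or.inl (Prod.ext (e 0) (Prod.ext (e 1) (e 2)))⟩
  · exact ⟨⟨w, hw⟩, Or.inr (Prod.ext (e 0) (Prod.ext (e 1) (e 2)))⟩

include hab in
theorem alt_pair (hn : 4 ≤ Fintype.card I) (h : i ≠ j) : ∃ w : alternatingGroup I, w • (a, b) = (i, j) := by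
  obtain ⟨w, hw, e⟩ := exists_even' (inj2 hab) (inj2 h) hn
  exact ⟨⟨w, hw⟩, Prod.ext (e 0) (e 1)⟩

include hab hac hbc in
theorem alt_triple' (hn : 5 ≤ Fintype.card I) (h : i ≠ j) (h1 : i ≠ k) (h2 : j ≠ k) :
    ∃ w : alternatingGroup I, w • (a, b, c) = (i, j, k) := by
  obtain ⟨w, hw, e⟩ := exists_even' (inj3 hab hac hbc) (inj3 h h1 h2) hn
  exact ⟨⟨w, hw⟩, Prod.ext (e 0) (Prod.ext (e 1) (e 2))⟩

include hab hac hbc hae hbe hce in
theorem alt_quad (h : i ≠ j) (h1 : i ≠ k) (h2 : j ≠ k) (h3 : i ≠ l) (h4 : j ≠ l) (h5 : k ≠ l) :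
    ∃ w : alternatingGroup I, w • (a, b, c, e) = (i, j, k, l) ∨ w • (a, b, c, e) = (i, j, l, k) := by
  obtain ⟨w, hw, e | e⟩ := exists_even (inj4 hab hac hbc hae hbe hce) (inj4 h h1 h2 h3 h4 h5) (p := 2) (q := 3)
    (by decide)
  · exact ⟨⟨w, hw⟩, Or.inl (Prod.ext (e 0) (Prod.ext (e 1) (Prod.ext (e 2) (e 3))))⟩
  · exact ⟨⟨w, hw⟩, Or.inr (Prod.ext (e 0) (Prod.ext (e 1) (Prod.ext (e 2) (e 3))))⟩

include hab hac hbc hae hbe hce in
theorem alt_quad' (hn : 6 ≤ Fintype.card I) (h : i ≠ j) (h1 : i ≠ k) (h2 : j ≠ k) (h3 : i ≠ l) (h4 : j ≠ l)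
    (h5 : k ≠ l) : ∃ w : alternatingGroup I, w • (a, b, c, e) = (i, j, k, l) := by
  obtain ⟨w, hw, e⟩ := exists_even' (inj4 hab hac hbc hae hbe hce) (inj4 h h1 h2 h3 h4 h5) hn
  exact ⟨⟨w, hw⟩, Prod.ext (e 0) (Prod.ext (e 1) (Prod.ext (e 2) (e 3)))⟩

include hab in
theorem alt_stab : ∃ L : List (alternatingGroup I), L.length ≤ 2 ∧ L.length ≤ Fintype.card I - 4 ∧
    ∀ s : alternatingGroup I, s • (a, b) = (a, b) ↔ s ∈ Subgroup.closure {s | s ∈ L} := by
  obtain ⟨L, h1, h2, h3⟩ := exists_alt_gens ({a, b}ᶜ : Finset I)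
  obtain ⟨L', h4, h5⟩ := exists_sub_gens (K := alternatingGroup I) (fun _ h => (mem_Alt.1 h).2) h3
  rw [Finset.card_compl, Finset.card_pair hab] at h2
  refine ⟨L', h4 ▸ h1, h4 ▸ h2, fun s => Iff.trans ?_ (h5 s)⟩
  simp [mem_Alt, Subgroup.smul_def, Perm.mem_alternatingGroup.1 s.2, ← or_iff_not_imp_left]

end alt

theorem exists_fourth (hn : 4 ≤ Fintype.card I) (i j k : I) : ∃ l, i ≠ l ∧ j ≠ l ∧ k ≠ l := by
  have : 0 < ({i, j, k}ᶜ : Finset I).card := by
    have := Finset.card_le_three (a := i) (b := j) (c := k)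
    rw [Finset.card_compl]; omega
  obtain ⟨l, hl⟩ := Finset.card_pos.1 this
  exact ⟨l, by simpa [eq_comm] using hl⟩

end Cfsg.Agent.H3
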