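import Cfsg.Agent.H3.PresMod

/-! Packages of relators forcing a property. -/

set_option autoImplicit false

namespace Cfsg.Agent.H3

open Function Polynomial

universe v

variable {X Y : Type} {G : Type*} {Γ : Type v} [Group G] [Group Γ] {ψ : Γ →* G}

/-- At most `r` relators, valid under `ψ`, force the property `P`. -/
def Pk (ψ : Γ →* G) (r : ℕ) (P : ∀ (J : Type v) [Group J], (Γ →* J) → Prop) : Prop :=
  ∃ W : List Γ, W.length ≤ r ∧ (∀ w ∈ W, ψ w = 1) ∧
    ∀ (J : Type v) [Group J] (f : Γ →* J), (∀ w ∈ W, f w = 1) → P J f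

variable {P Q : ∀ (J : Type v) [Group J], (Γ →* J) → Prop} {r s : ℕ}

theorem Pk.triv (h : ∀ (J : Type v) [Group J] (f : Γ →* J), P J f) : Pk ψ 0 P :=
  ⟨[], le_rfl, by simp, fun J _ f _ => h J f⟩

theorem Pk.eq (a b : Γ) (h : ψ a = ψ b) : Pk ψ 1 fun _ _ f => f a = f b :=
  ⟨[a * b⁻¹], le_rfl, by simp [h], fun J _ f hf => by simpa [mul_inv_eq_one] using hf⟩

theorem Pk.imp (h : Pk ψ r P) (H : ∀ (J : Type v) [Group J] (f : Γ →* J), P J f → Q J f) : Pk ψ r Q :=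
  Exists.imp (fun _ h => ⟨h.1, h.2.1, fun J _ f hf => H J f (h.2.2 J f hf)⟩) h

theorem Pk.mono (h : Pk ψ r P) (hrs : r ≤ s) : Pk ψ s P :=
  Exists.imp (fun _ h => ⟨h.1.trans hrs, h.2⟩) h

theorem Pk.and (h : Pk ψ r P) (h' : Pk ψ s Q) : Pk ψ (r + s) fun J _ f => P J f ∧ Q J f := by
  obtain ⟨W, h1, h2, h3⟩ := h
  obtain ⟨W', h1', h2', h3'⟩ := h'
  refine ⟨W ++ W', by simpa using add_le_add h1 h1', fun w hw => (List.mem_append.1 hw).elim (h2 w) (h2' w),
    fun J _ f hf => ⟨h3 J f fun w hw => hf w (List.mem_append_left _ hw),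
      h3' J f fun w hw => hf w (List.mem_append_right _ hw)⟩⟩

theorem Pk.list {α : Type*} {P : α → ∀ (J : Type v) [Group J], (Γ →* J) → Prop} (L : List α)
    (h : ∀ a ∈ L, Pk ψ r (P a)) : Pk ψ (L.length * r) fun J _ f => ∀ a ∈ L, P a J f := by
  induction L with
  | nil => simpa using Pk.triv (by simp)
  | cons a L ih =>
    refine (((h a (by simp)).and (ih fun b hb => h b (by simp [hb]))).imp fun J _ f hf => ?_).mono
      (by simp [add_mul, add_comm])
    simpa using hf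

theorem Pk.comm (a b : Γ) (h : Commute (ψ a) (ψ b)) : Pk ψ 1 fun _ _ f => Commute (f a) (f b) :=
  (Pk.eq (a * b) (b * a) (by simpa using h.eq)).imp fun _ _ f hf => by simpa [commute_iff_eq] using hf

theorem Pk.mem (c : Γ) (K : Subgroup Γ) (h : ψ c ∈ K.map ψ) : Pk ψ 1 fun _ _ f => f c ∈ K.map f := by
  obtain ⟨w, hw, e⟩ := h
  exact (Pk.eq w c e).imp fun _ _ f hf => ⟨w, hw, hf⟩

/-- An element can be forced into the normal closure of another one. -/
theorem Pk.normal (hs : Surjective ψ) (c u : Γ) (h : ψ c ∈ Subgroup.normalClosure {ψ u}) :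
    Pk ψ 1 fun J _ f => ∀ N : Subgroup J, N.Normal → f u ∈ N → f c ∈ N := by
  refine (Pk.mem c (Subgroup.normalClosure {u}) ?_).imp fun J _ f hf N hN hu => ?_
  · rwa [Subgroup.map_normalClosure _ _ hs, Set.image_singleton]
  · have := hN.comap f
    exact Subgroup.map_le_iff_le_comap.2 (Subgroup.normalClosure_le_normal (by simpa using hu)) hf

theorem HP.pk {γ : X → Γ} (hγ : HP γ r) (hs : Surjective ψ)
    (h : Pk ψ s fun J _ f => ∀ θ : J →* G, Surjective f → θ.comp f = ψ → Injective θ) :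
    HP (fun x => ψ (γ x)) (r + s) := by
  obtain ⟨W, h1, h2, h3⟩ := h
  have hle : Subgroup.normalClosure {w | w ∈ W} ≤ ψ.ker := Subgroup.normalClosure_le_normal h2
  refine (hγ.quot ψ hs W (le_antisymm (fun g hg => ?_) hle)).mono (by omega)
  rw [← QuotientGroup.eq_one_iff]
  refine h3 _ (QuotientGroup.mk' (Subgroup.normalClosure {w | w ∈ W}))
    (fun w hw => (QuotientGroup.eq_one_iff w).2 (Subgroup.subset_normalClosure hw))
    (QuotientGroup.lift _ ψ hle) (QuotientGroup.mk'_surjective _) (by ext; simp) ?_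
  simpa using hg

theorem HP.free : HP (FreeGroup.of : X → FreeGroup X) 0 := by
  have : FreeGroup.lift (FreeGroup.of : X → FreeGroup X) = MonoidHom.id _ := by ext; simp
  refine ⟨by rw [this]; exact surjective_id, [], le_rfl, ?_⟩
  rw [this]; simp

theorem HP.coprod_free {H : Type*} [Group H] {h : X → H} (hh : HP h r) (Y : Type) :
    HP (Sum.elim (fun x => (Monoid.Coprod.inl (h x) : Monoid.Coprod H (FreeGroup Y)))
      fun b => Monoid.Coprod.inr (FreeGroup.of b)) r := by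
  have e : Monoid.Coprod.lift (Monoid.Coprod.inl : H →* Monoid.Coprod H (FreeGroup Y))
      (FreeGroup.lift fun b => Monoid.Coprod.inr (FreeGroup.of b)) = MonoidHom.id _ := by
    ext <;> simp
  refine hh.ext Monoid.Coprod.inl (fun b => Monoid.Coprod.inr (FreeGroup.of b)) [] ?_ (by simp) ?_
  · rw [← Monoid.Coprod.range_inl_sup_range_inr, Subgroup.closure_union, ← MonoidHom.coe_range,
      Subgroup.closure_eq, ← FreeGroup.range_lift_eq_closure]
    congr 2; ext; simp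
  · intro J _ f j θ hj h1 h2 _
    have : (Monoid.Coprod.lift f (FreeGroup.lift j)).comp θ = MonoidHom.id J := by
      apply MonoidHom.eq_of_eqOn_dense hj
      rintro _ (⟨a, rfl⟩ | ⟨a, rfl⟩) <;> simp [h1, h2]
    exact LeftInverse.injective (g := Monoid.Coprod.lift f (FreeGroup.lift j)) fun x => DFunLike.congr_fun this x

theorem map_cjp {J : Type*} [Group J] (f : J →* G) (d v : J) (i : ℕ) : f (cjp d v i) = cjp (f d) (f v) i := by
  simp [cjp]

theorem comm_of_inv {d v : G} (h : cjp d v 1 = v⁻¹) (i : ℕ) : Commute v (cjp d v i) := by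
  have : cjp d v i = v ∨ cjp d v i = v⁻¹ := by
    induction i with
    | zero => exact Or.inl (cjp_zero d v)
    | succ i ih =>
      rw [add_comm, ← conj_cjp, pow_one]
      rw [cjp_one] at h
      rcases ih with e | e <;> rw [e]
      · exact Or.inr h
      · left; rw [← conj_inv, h, inv_inv]
  rcases this with e | e <;> simp [e]

variable {F : Type*} [Field F] {x : F → G} {u d : Γ} {l : F}

theorem Pk.b1 (hx : Ad x) (hu : ψ u = x 1) (hd : ∀ t, ψ d * x t * (ψ d)⁻¹ = x (l * t))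
    (hl : ∀ t, t ≠ 0 → ∃ k : ℕ, l ^ k = t) : Pk ψ 1 fun _ _ f =>
      (Commute (f u) (cjp (f d) (f u) 1) ∨ f u ^ 2 = 1) → ∀ i, Commute (f u) (cjp (f d) (f u) i) := by
  by_cases h : 1 + l = 0
  · refine (Pk.eq (cjp d u 1) u⁻¹ ?_).imp fun J _ f hf _ => comm_of_inv (by simpa [map_cjp] using hf)
    rw [map_cjp, hu, cjp_x hd, map_inv, hu, ← hx.neg, pow_one, eq_neg_of_add_eq_zero_right h]
  obtain ⟨j, hj⟩ := hl _ h
  refine (Pk.eq (cjp d u j) (u * cjp d u 1) ?_).imp fun J _ f hf hc => ?_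
  · rw [map_mul, map_cjp, map_cjp, hu, cjp_x hd, cjp_x hd, ← hx, hj, pow_one]
  rw [map_mul, map_cjp, map_cjp] at hf
  refine baumslag1 (hc.elim id fun h2 => ?_) hf
  have k : ∀ i, cjp (f d) (f u) i ^ 2 = 1 := fun i => by rw [cjp, conj_pow, h2]; group
  have k1 := k j
  rw [hf] at k1
  have k2 := k 1
  rw [sq] at h2 k1 k2
  show _ = _
  rw [eq_inv_of_mul_eq_one_left k1, mul_inv_rev, ← eq_inv_of_mul_eq_one_left h2, ← eq_inv_of_mul_eq_one_left k2]

theorem Pk.poly (p : ℕ) [Fact p.Prime] [CharP F p] [Finite F] (hl : Gn l) (hx : Ad x) (hu : ψ u = x 1)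
    (hd : ∀ t, ψ d * x t * (ψ d)⁻¹ = x (l * t)) : Pk ψ 1 fun J _ f =>
      (∀ i, Commute (f u) (cjp (f d) (f u) i)) → f u ^ p = 1 →
        ∃ y : F → J, Ad y ∧ y 1 = f u ∧ ∀ t, f d * y t * (f d)⁻¹ = y (l * t) := by
  let _ := ZMod.algebra F p
  obtain ⟨m, hm⟩ := map_surjective (algebraMap ℤ (ZMod p)) (ZMod.ringHom_surjective _) (minpoly (ZMod p) l)
  obtain ⟨L, rfl⟩ := polyL_surj m
  refine (Pk.eq (pw u d L) 1 ?_).imp fun J _ f hf h1 h2 => mod_of_minpoly p hl hm h1 h2 (by simpa [map_pw] using hf)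
  rw [map_pw, hu, pw_x hx hd, ← aeval_map_algebraMap (ZMod p), hm, minpoly.aeval, hx.zero, map_one]

theorem Ad.pow_char (hx : Ad x) (p : ℕ) [CharP F p] (t : F) : x t ^ p = 1 := by
  rw [← hx.nsmul, CharP.cast_eq_zero, zero_mul, hx.zero]

theorem exists_char (F : Type*) [Field F] [Finite F] : ∃ p : ℕ, p.Prime ∧ CharP F p :=
  ⟨ringChar F, CharP.char_is_prime F _, inferInstance⟩

theorem Pk.mod1 [Finite F] (hx : Ad x) (hu : ψ u = x 1) (hd : ∀ t, ψ d * x t * (ψ d)⁻¹ = x (l * t))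
    (hl : ∀ t, t ≠ 0 → ∃ k : ℕ, l ^ k = t) : Pk ψ 4 fun J _ f =>
      ∃ y : F → J, Ad y ∧ y 1 = f u ∧ ∀ t, f d * y t * (f d)⁻¹ = y (l * t) := by
  obtain ⟨p, hp, _⟩ := exists_char F
  have := Fact.mk hp
  refine ((((Pk.b1 hx hu hd hl).and (Pk.poly p (gn_of_prim hl) hx hu hd)).and (Pk.eq (u ^ p) 1 ?_)).and
    (Pk.comm u (cjp d u 1) ?_)).imp fun J _ f hf => ?_
  · rw [map_pow, hu, hx.pow_char, map_one]
  · rw [map_cjp, hu, cjp_x hd]; exact hx.comm _ _
  · exact hf.1.1.2 (hf.1.1.1 (Or.inl (by simpa [map_cjp] using hf.2))) (by simpa using hf.1.2)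

theorem Pk.mod2 [Finite F] (hx : Ad x) (hu : ψ u = x 1) (hd : ∀ t, ψ d * x t * (ψ d)⁻¹ = x (l ^ 2 * t))
    (hl : ∀ t, t ≠ 0 → ∃ k : ℕ, l ^ k = t) (c : Γ) (hc : ψ c = 1) : Pk ψ 5 fun J _ f =>
      Commute (f d) (f c) → f c ^ 2 = 1 →
      f c = 1 ∧ ∃ y : F → J, Ad y ∧ y 1 = f u ∧ ∀ t, f d * y t * (f d)⁻¹ = y (l ^ 2 * t) := by
  obtain ⟨p, hp, _⟩ := exists_char F
  have := Fact.mk hp
  have k1 : Pk ψ 1 fun _ _ f => f (u ^ p) = f c := Pk.eq _ _ (by rw [map_pow, hu, hx.pow_char, hc])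
  have k2 : Pk ψ 3 fun _ _ f => f u ^ p = f c → Commute (f d) (f c) → f c ^ 2 = 1 →
      f c = 1 ∧ ∀ i, Commute (f u) (cjp (f d) (f u) i) := by
    by_cases h : 1 + l ^ 2 = 0
    · refine (((Pk.eq (cjp d u 1) u⁻¹ ?_).and (Pk.eq c 1 (by simpa using hc))).imp fun J _ f hf _ _ _ =>
        ⟨by simpa using hf.2, comm_of_inv (by simpa [map_cjp] using hf.1)⟩).mono (by norm_num)
      rw [map_cjp, hu, cjp_x hd, map_inv, hu, ← hx.neg, pow_one, eq_neg_of_add_eq_zero_right h]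
    obtain ⟨j, hj⟩ := hl _ h
    have hcm : ∀ i, Pk ψ 1 fun _ _ f => Commute (f u) (f (cjp d u i)) := fun i =>
      Pk.comm u _ (by rw [map_cjp, hu, cjp_x hd]; exact hx.comm _ _)
    refine (((hcm 1).and (hcm 2)).and (Pk.eq (cjp d u j) (u * (cjp d u 1 ^ 2 * cjp d u 2)) ?_)).imp
      fun J _ f hf h1 h2 h3 => ?_
    · simp only [map_mul, map_pow, map_cjp, hu, cjp_x hd]
      rw [← hx.nsmul, ← hx, ← hx, ← pow_mul, mul_comm 2 j, pow_mul, hj]; congr 1; push_cast; ring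
    simp only [map_mul, map_pow, map_cjp] at hf
    have hh := baumslag2 hf.1.1 hf.1.2 hf.2
    refine ⟨?_, hh⟩
    have k : ∀ i, cjp (f d) (f u) i ^ p = f c := fun i => by
      rw [cjp, conj_pow, h1, (h2.pow_left i).eq]; group
    have c12 : Commute (cjp (f d) (f u) 1) (cjp (f d) (f u) 2) :=
      comm_cjp (k := 1) (fun i _ => hh i) (by omega) (by omega)
    have e := k j
    rw [hf.2, (((hh 1).pow_right 2).mul_right (hh 2)).mul_pow, (c12.pow_left 2).mul_pow, ← pow_mul, mul_comm 2,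
      pow_mul, k, k, h1, h3, one_mul] at e
    simpa using e
  exact ((k1.and k2).and (Pk.poly p (gn_sq hl) hx hu hd)).imp fun J _ f hf h1 h2 => by
    have e : f u ^ p = f c := by simpa using hf.1.1
    obtain ⟨e1, e2⟩ := hf.1.2 e h1 h2
    exact ⟨e1, hf.2 e2 (e.trans e1)⟩

theorem Gn.map_eq (hl : Gn l) {J : Type*} [Group J] {y : F → J} (hy : Ad y) (hx : Ad x) (θ : J →* G) {e : J}
    (he : ∀ t, e * y t * e⁻¹ = y (l * t)) (hd : ∀ t, θ e * x t * (θ e)⁻¹ = x (l * t)) (h1 : θ (y 1) = x 1) (t : F) :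
    θ (y t) = x t :=
  hl.ext (hy.map θ) hx (d := θ e) (fun t => by rw [← he]; simp) hd h1 t

end Cfsg.Agent.H3
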