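import Cfsg.Agent.H3.PresPk

/-! Short presentations of `SL₂(q)` and `PSL₂(q)`. -/

set_option autoImplicit false

namespace Cfsg.Agent.H3

open Function Polynomial Matrix

universe v

variable {J G : Type*} [Group J] [Group G]

/-- Abstract rank one Bruhat decomposition. -/
theorem bruhat_one {B : Subgroup J} {t : J} (h2 : t * t ∈ B)
    (h : ∀ b ∈ B, t * b * t⁻¹ ∈ B ∨ ∃ c ∈ B, ∃ c' ∈ B, t * b * t⁻¹ = c * t * c') :
    ∀ g ∈ Subgroup.closure (insert t (B : Set J)), g ∈ B ∨ ∃ c ∈ B, ∃ c' ∈ B, g = c * t * c' := by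
  have hB : ∀ b ∈ B, ∀ g, (g ∈ B ∨ ∃ c ∈ B, ∃ c' ∈ B, g = c * t * c') →
      (b * g ∈ B ∨ ∃ c ∈ B, ∃ c' ∈ B, b * g = c * t * c') := by
    rintro b hb g (hg | ⟨c, hc, c', hc', rfl⟩)
    · exact Or.inl (mul_mem hb hg)
    · exact Or.inr ⟨b * c, mul_mem hb hc, c', hc', by group⟩
  have ht : ∀ g, (g ∈ B ∨ ∃ c ∈ B, ∃ c' ∈ B, g = c * t * c') →
      (t * g ∈ B ∨ ∃ c ∈ B, ∃ c' ∈ B, t * g = c * t * c') := by
    rintro g (hg | ⟨c, hc, c', hc', rfl⟩)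
    · exact Or.inr ⟨1, one_mem _, g, hg, by group⟩
    have e : t * (c * t * c') = (t * c * t⁻¹) * (t * t * c') := by group
    rcases h c hc with k | ⟨a, ha, a', ha', k⟩
    · exact Or.inl (e ▸ mul_mem k (mul_mem h2 hc'))
    · exact Or.inr ⟨a, ha, _, mul_mem ha' (mul_mem h2 hc'), by rw [e, k]; group⟩
  intro g hg
  induction hg using Subgroup.closure_induction_left with
  | one => exact Or.inl (one_mem _)
  | mul_left a ha g _ ih =>
    rcases ha with rfl | ha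
    · exact ht g ih
    · exact hB a ha g ih
  | inv_mul_cancel a ha g _ ih =>
    rcases ha with rfl | ha
    · have := hB _ (inv_mem h2) _ (ht g ih)
      rwa [show (a * a)⁻¹ * (a * g) = a⁻¹ * g by group] at this
    · exact hB _ (inv_mem ha) g ih

variable {F : Type*} [Field F]

/-- Upper unitriangular matrices. -/
def X2 (s : F) : SpecialLinearGroup (Fin 2) F := ⟨!![1, s; 0, 1], by simp [det_fin_two]⟩

/-- Diagonal matrices. -/
def D2 (a : F) (ha : a ≠ 0) : SpecialLinearGroup (Fin 2) F := ⟨!![a, 0; 0, a⁻¹], by simp [det_fin_two, ha]⟩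

/-- The Weyl element. -/
def T2 (F : Type*) [Field F] : SpecialLinearGroup (Fin 2) F := ⟨!![0, 1; -1, 0], by simp [det_fin_two]⟩

theorem X2_val (s : F) : (X2 s : Matrix _ _ F) = !![1, s; 0, 1] := rfl

theorem D2_val (a : F) (ha : a ≠ 0) : (D2 a ha : Matrix _ _ F) = !![a, 0; 0, a⁻¹] := rfl

theorem T2_val : (T2 F : Matrix _ _ F) = !![0, 1; -1, 0] := rfl

theorem ad_X2 : Ad (X2 : F → _) := fun s t => Subtype.ext (by simp [X2_val, add_comm])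

theorem D2_pow {a : F} (ha : a ≠ 0) (i : ℕ) : D2 a ha ^ i = D2 (a ^ i) (pow_ne_zero i ha) := by
  induction i with
  | zero => exact Subtype.ext (by simp [D2_val, one_fin_two])
  | succ i ih => rw [pow_succ, ih]; exact Subtype.ext (by simp [D2_val, pow_succ, mul_comm])

theorem D2_X2 {a : F} (ha : a ≠ 0) (s : F) : D2 a ha * X2 s * (D2 a ha)⁻¹ = X2 (a ^ 2 * s) := by
  rw [mul_inv_eq_iff_eq_mul]
  exact Subtype.ext (by simp [D2_val, X2_val]; field_simp)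

theorem T2_D2 {a : F} (ha : a ≠ 0) : T2 F * D2 a ha * (T2 F)⁻¹ = (D2 a ha)⁻¹ := by
  rw [mul_inv_eq_iff_eq_mul, eq_inv_mul_iff_mul_eq]
  exact Subtype.ext (by simp [D2_val, T2_val, ha])

theorem T2_sq : T2 F * T2 F = D2 (-1) (by simp) := Subtype.ext (by simp [D2_val, T2_val])

theorem T2_X2 {a : F} (ha : a ≠ 0) :
    T2 F * X2 a * (T2 F)⁻¹ = X2 (-a⁻¹) * D2 a⁻¹ (inv_ne_zero ha) * T2 F * X2 (-a⁻¹) := by
  rw [mul_inv_eq_iff_eq_mul]
  exact Subtype.ext (by simp [D2_val, T2_val, X2_val, ha])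

theorem sl2_mem {K : Subgroup (SpecialLinearGroup (Fin 2) F)} (h1 : ∀ s, X2 s ∈ K) (h2 : ∀ a ha, D2 a ha ∈ K)
    (h3 : T2 F ∈ K) : K = ⊤ := by
  rw [eq_top_iff]
  intro g _
  have hd := g.det_coe
  rw [det_fin_two] at hd
  by_cases hc : g 1 0 = 0
  · have ha : g 0 0 ≠ 0 := fun h => by simp [h, hc] at hd
    have : g = X2 (g 0 1 * g 0 0) * D2 _ ha := by
      ext i j
      fin_cases i <;> fin_cases j <;> simp [X2_val, D2_val, hc, ha]
      rw [hc] at hd; exact eq_inv_of_mul_eq_one_right (by simpa using hd)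
    rw [this]; exact mul_mem (h1 _) (h2 _ _)
  · have : g = X2 (g 0 0 / g 1 0) * D2 (-(g 1 0)⁻¹) (by simpa using hc) * T2 F * X2 (g 1 1 / g 1 0) := by
      ext i j
      fin_cases i <;> fin_cases j <;> simp [X2_val, D2_val, T2_val, hc] <;> field_simp
      linear_combination -hd
    rw [this]; exact mul_mem (mul_mem (mul_mem (h1 _) (h2 _ _)) h3) (h1 _)

/-- The Borel subgroup. -/
def B2 (x : F → J) (h : J) : Subgroup J := Subgroup.closure (insert h (Set.range x))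

omit [Field F] in
theorem x_mem_B2 (x : F → J) (h : J) (s : F) : x s ∈ B2 x h := Subgroup.subset_closure (Or.inr ⟨s, rfl⟩)

omit [Field F] in
theorem h_mem_B2 (x : F → J) (h : J) : h ∈ B2 x h := Subgroup.subset_closure (Or.inl rfl)

theorem B2_nf {x : F → J} (hx : Ad x) {h : J} {l : F} (hd : ∀ s, h * x s * h⁻¹ = x (l * s)) {m : ℕ} (hm : 0 < m)
    (ho : h ^ m = 1) : ∀ b ∈ B2 x h, ∃ s, ∃ i : ℕ, b = x s * h ^ i := by
  have k : ∀ (j : ℕ) g, (∃ s, ∃ i : ℕ, g = x s * h ^ i) → ∃ s, ∃ i : ℕ, h ^ j * g = x s * h ^ i := by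
    rintro j _ ⟨s, i, rfl⟩
    exact ⟨l ^ j * s, j + i, by rw [← conj_pow_x hd, pow_add]; group⟩
  have k' : ∀ a g, (∃ s, ∃ i : ℕ, g = x s * h ^ i) → ∃ s, ∃ i : ℕ, x a * g = x s * h ^ i := by
    rintro a _ ⟨s, i, rfl⟩
    exact ⟨a + s, i, by rw [hx, mul_assoc]⟩
  intro b hb
  induction hb using Subgroup.closure_induction_left with
  | one => exact ⟨0, 0, by simp [hx.zero]⟩
  | mul_left a ha g _ ih =>
    rcases ha with rfl | ⟨a, rfl⟩
    · simpa using k 1 g ih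
    · exact k' a g ih
  | inv_mul_cancel a ha g _ ih =>
    rcases ha with rfl | ⟨a, rfl⟩
    · obtain ⟨m, rfl⟩ : ∃ n, m = n + 1 := ⟨m - 1, by omega⟩
      rw [inv_eq_of_mul_eq_one_left ((pow_succ a m).symm.trans ho)]
      exact k m g ih
    · rw [← hx.neg]; exact k' _ g ih

/-- The rank one relation. -/
def R1 (x : F → J) (h t : J) (a : F) : Prop := ∃ c ∈ B2 x h, ∃ c' ∈ B2 x h, t * x a * t⁻¹ = c * t * c'

theorem R1.pow {x : F → J} {h t : J} {l a : F} (hd : ∀ s, h * x s * h⁻¹ = x (l * s)) (ht : t * h * t⁻¹ = h⁻¹)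
    (H : R1 x h t a) (i : ℕ) : R1 x h t (l ^ i * a) := by
  obtain ⟨c, hc, c', hc', e⟩ := H
  have hi := pow_mem (h_mem_B2 x h) i
  refine ⟨_, mul_mem (inv_mem hi) hc, _, mul_mem hc' hi, ?_⟩
  have : t * h ^ i * t⁻¹ = (h ^ i)⁻¹ := by rw [← conj_pow, ht, inv_pow]
  rw [← conj_pow_x hd, conj_mul', conj_mul', ← conj_inv, this, e]
  group

theorem sl2_inj {ζ : F} (h0 : ζ ≠ 0) (π : SpecialLinearGroup (Fin 2) F →* G)
    (hπ : ∀ g, π g = 1 → g 0 1 = 0 ∧ g 1 0 = 0) {x : F → J} (hx : Ad x) {h t : J}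
    (hd : ∀ s, h * x s * h⁻¹ = x (ζ ^ 2 * s)) (ht : t * h * t⁻¹ = h⁻¹) (ht2 : t * t ∈ B2 x h) {m : ℕ} (hm : 0 < m)
    (ho : h ^ m = 1) (ho' : ∀ i, π (D2 ζ h0 ^ i) = 1 → h ^ i = 1) (hr : ∀ a, a ≠ 0 → R1 x h t a) (θ : J →* G)
    (θx : ∀ s, θ (x s) = π (X2 s)) (θh : θ h = π (D2 ζ h0)) (θt : θ t = π (T2 F))
    (hJ : Subgroup.closure {x 1, h, t} = ⊤) : Injective θ := by
  have nf := B2_nf hx hd hm ho
  refine (injective_iff_map_eq_one _).2 fun g hg => ?_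
  have hg' : g ∈ Subgroup.closure (insert t (B2 x h : Set J)) :=
    Subgroup.closure_mono (by simp [Set.insert_subset_iff, x_mem_B2, h_mem_B2]) (hJ.ge trivial)
  have hb : ∀ b ∈ B2 x h, t * b * t⁻¹ ∈ B2 x h ∨ ∃ c ∈ B2 x h, ∃ c' ∈ B2 x h, t * b * t⁻¹ = c * t * c' := by
    intro b hb
    obtain ⟨s, i, rfl⟩ := nf b hb
    have e : t * h ^ i * t⁻¹ ∈ B2 x h := by rw [← conj_pow, ht]; exact pow_mem (inv_mem (h_mem_B2 x h)) i
    rw [conj_mul']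
    by_cases hs : s = 0
    · left; simpa [hs, hx.zero] using e
    · obtain ⟨c, hc, c', hc', k⟩ := hr s hs
      exact Or.inr ⟨c, hc, _, mul_mem hc' e, by rw [k]; group⟩
  rcases bruhat_one ht2 hb g hg' with k | ⟨c, hc, c', hc', rfl⟩
  · obtain ⟨s, i, rfl⟩ := nf g k
    rw [map_mul, map_pow, θx, θh, ← map_pow, ← map_mul] at hg
    have hs : s = 0 := by simpa [X2_val, D2_val, D2_pow, h0] using (hπ _ hg).1
    subst hs
    rw [ad_X2.zero, one_mul] at hg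
    rw [hx.zero, ho' i hg, one_mul]
  · obtain ⟨s, i, e⟩ := nf _ (mul_mem hc' hc)
    have : θ (t * (c' * c)) = 1 := by
      rw [show t * (c' * c) = c⁻¹ * (c * t * c') * c by group, map_mul, map_mul, hg]; simp
    rw [e, map_mul, map_mul, map_pow, θx, θh, θt, ← map_pow, ← map_mul, ← map_mul] at this
    have := (hπ _ this).2
    simp [X2_val, D2_val, T2_val, D2_pow, h0] at this

theorem Gn.exists_L {l : F} (hl : Gn l) (a : F) : ∃ L, aeval l (polyL L) = a := by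
  obtain ⟨f, hf⟩ : ∃ f : ℤ[X], aeval l f = a :=
    hl (aeval l : ℤ[X] →ₐ[ℤ] F).toRingHom.toAddMonoidHom.range ⟨1, by simp⟩
      (by rintro _ ⟨f, rfl⟩; exact ⟨X * f, by simp⟩) a
  obtain ⟨L, rfl⟩ := polyL_surj f
  exact ⟨L, hf⟩

variable [Finite F] {ζ : F}

theorem Pk.r1 {Γ : Type v} [Group Γ] {ψ : Γ →* G} (h0 : ζ ≠ 0) (hζ : ∀ t, t ≠ 0 → ∃ k : ℕ, ζ ^ k = t)
    (π : SpecialLinearGroup (Fin 2) F →* G) {u d t : Γ} (hu : ψ u = π (X2 1)) (hd : ψ d = π (D2 ζ h0))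
    (ht : ψ t = π (T2 F)) {a : F} (ha : a ≠ 0) : Pk ψ 1 fun J _ f => ∀ y : F → J, Ad y → y 1 = f u →
      (∀ s, f d * y s * (f d)⁻¹ = y (ζ ^ 2 * s)) → R1 y (f d) (f t) a := by
  obtain ⟨L, hL⟩ := (gn_sq hζ).exists_L a
  obtain ⟨L', hL'⟩ := (gn_sq hζ).exists_L (-a⁻¹)
  obtain ⟨i, hi⟩ := hζ _ (inv_ne_zero ha)
  refine (Pk.eq (t * pw u d L * t⁻¹) (pw u d L' * d ^ i * t * pw u d L') ?_).imp fun J _ f hf y hy h1 h2 => ?_
  · simp only [map_mul, map_inv, map_pow, map_pw, hu, hd, ht]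
    simp only [← map_pw, pw_x ad_X2 (D2_X2 h0), hL, hL', ← map_pow, ← map_inv, ← map_mul, D2_pow, hi, T2_X2 ha]
  · simp only [map_mul, map_inv, map_pow, map_pw, ← h1, pw_x hy h2, hL, hL'] at hf
    exact ⟨_, mul_mem (x_mem_B2 _ _ _) (pow_mem (h_mem_B2 _ _) _), _, x_mem_B2 _ _ _, hf⟩

theorem sl2_surj (h0 : ζ ≠ 0) (hζ : ∀ t, t ≠ 0 → ∃ k : ℕ, ζ ^ k = t) :
    Surjective (FreeGroup.lift ![X2 1, D2 ζ h0, T2 F]) := by
  rw [← MonoidHom.range_eq_top]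
  have k1 : X2 1 ∈ (FreeGroup.lift ![X2 1, D2 ζ h0, T2 F]).range := ⟨.of 0, by simp⟩
  have k2 : D2 ζ h0 ∈ (FreeGroup.lift ![X2 1, D2 ζ h0, T2 F]).range := ⟨.of 1, by simp⟩
  refine sl2_mem ((gn_sq hζ).mem ad_X2 (D2_X2 h0) k1 fun g hg => mul_mem (mul_mem k2 hg) (inv_mem k2))
    (fun a ha => ?_) ⟨.of 2, by simp⟩
  obtain ⟨i, rfl⟩ := hζ a ha
  rw [← D2_pow h0]; exact pow_mem k2 i

theorem closure_three {f : FreeGroup (Fin 3) →* J} (hf : Surjective f) :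
    Subgroup.closure {f (.of 0), f (.of 1), f (.of 2)} = ⊤ := by
  have : f = FreeGroup.lift fun i => f (.of i) := by ext; simp
  rw [this, surj_lift_iff] at hf
  rw [← hf]; congr 1; ext g; simp [Fin.exists_fin_succ, eq_comm]

theorem order_pos (h0 : ζ ≠ 0) : 0 < orderOf ζ := by
  have := orderOf_pos (Units.mk0 ζ h0)
  rwa [← orderOf_units] at this

theorem pres_sl2_odd (h2 : (-1 : F) ≠ 1) (π : SpecialLinearGroup (Fin 2) F →* G) (hs : Surjective π)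
    (hπ : ∀ g, π g = 1 → g 0 1 = 0 ∧ g 1 0 = 0 ∧ (g 0 0 = 1 ∨ (g 0 0 = -1 ∧ π (T2 F * T2 F) = 1))) : Pr G 3 9 := by
  obtain ⟨ζ, h0, hζ⟩ := exists_prim F
  obtain ⟨k, hk0, hk, hk'⟩ : ∃ k, 0 < k ∧ ζ ^ k = -1 ∧ ∀ i, ζ ^ i = 1 → 2 * k ∣ i := by
    obtain ⟨k, hk⟩ := hζ (-1) (by simp)
    rw [← pow_mod_orderOf] at hk
    have h1 := Nat.mod_lt k (order_pos h0)
    generalize k % orderOf ζ = j at hk h1
    have h3 : 0 < j := Nat.pos_of_ne_zero (by rintro rfl; exact h2 (by simpa using hk.symm))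
    obtain ⟨c, hc⟩ := orderOf_dvd_of_pow_eq_one (show ζ ^ (2 * j) = 1 by rw [mul_comm, pow_mul, hk]; simp)
    have : c = 1 := by
      have : c < 2 := by by_contra; nlinarith
      have : c ≠ 0 := by rintro rfl; omega
      omega
    exact ⟨j, h3, hk, fun i hi => by rw [hc, this, mul_one]; exact orderOf_dvd_of_pow_eq_one hi⟩
  let ψ := π.comp (FreeGroup.lift ![X2 1, D2 ζ h0, T2 F])
  have hu : ψ (.of 0) = π (X2 1) := by simp [ψ]
  have hd : ψ (.of 1) = π (D2 ζ h0) := by simp [ψ]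
  have ht : ψ (.of 2) = π (T2 F) := by simp [ψ]
  have hd' : ∀ s, ψ (.of 1) * π (X2 s) * (ψ (.of 1))⁻¹ = π (X2 (ζ ^ 2 * s)) := fun s => by
    rw [hd, ← D2_X2 h0]; simp
  obtain ⟨c, hc, hc'⟩ : ∃ c : FreeGroup (Fin 3), ψ c = 1 ∧ (c = .of 2 * .of 2 ∨ (c = 1 ∧ π (T2 F * T2 F) ≠ 1)) := by
    by_cases h : π (T2 F * T2 F) = 1
    · exact ⟨_, by rw [map_mul, ht, ← map_mul, h], Or.inl rfl⟩
    · exact ⟨1, map_one _, Or.inr ⟨rfl, h⟩⟩
  have P := ((((Pk.mod2 (ad_X2.map π) hu hd' hζ c hc).and (Pk.r1 h0 hζ π hu hd ht one_ne_zero)).and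
    (Pk.r1 h0 hζ π hu hd ht h0)).and (Pk.eq (ψ := ψ) (.of 2 * .of 1 * (.of 2)⁻¹) (.of 1)⁻¹ (by
      simp only [map_mul, map_inv, hd, ht]; simp only [← map_mul, ← map_inv, T2_D2]))).and
    (Pk.eq (ψ := ψ) (.of 2 * .of 2) (.of 1 ^ k) (by
      simp only [map_mul, map_pow, hd, ht]; simp only [← map_mul, ← map_pow, T2_sq, D2_pow, hk]))
  refine (HP.free.pk (hs.comp (sl2_surj h0 hζ)) (P.imp fun J _ f hf θ hs hθ => ?_)).pr (by simp)
  obtain ⟨⟨⟨⟨h1, h3⟩, h4⟩, h5⟩, h6⟩ := hf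
  simp only [map_mul, map_inv, map_pow] at h5 h6
  have hθ' : ∀ g, θ (f g) = ψ g := fun g => DFunLike.congr_fun hθ g
  have ho : f (.of 1) ^ (2 * k) = 1 := by
    have : f (.of 2) * f (.of 1) ^ k * (f (.of 2))⁻¹ = (f (.of 1) ^ k)⁻¹ := by rw [← conj_pow, h5, inv_pow]
    rw [two_mul, pow_add, ← eq_inv_iff_mul_eq_one, ← this, ← h6]; group
  obtain ⟨e, y, hy, y1, yd⟩ := h1 (by
      rcases hc' with rfl | ⟨rfl, -⟩
      · rw [map_mul, h6]; exact Commute.self_pow _ _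
      · simp) (by
      rcases hc' with rfl | ⟨rfl, -⟩
      · rw [map_mul, h6, ← pow_mul, mul_comm, ho]
      · simp)
  have ho1 : ∀ i, ζ ^ i = 1 → f (.of 1) ^ i = 1 := fun i hi => by
    obtain ⟨j, rfl⟩ := hk' i hi
    rw [pow_mul, ho, one_pow]
  refine sl2_inj h0 π (fun g hg => ⟨(hπ g hg).1, (hπ g hg).2.1⟩) hy yd h5 (h6 ▸ pow_mem (h_mem_B2 _ _) k)
    (by omega) ho (fun i hi => ?_) (fun a ha => ?_) θ
    ((gn_sq hζ).map_eq hy (ad_X2.map π) θ yd (by rw [hθ']; exact hd') (by rw [y1, hθ', hu]))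
    (by rw [hθ', hd]) (by rw [hθ', ht]) (y1 ▸ closure_three hs)
  · rcases (hπ _ hi).2.2 with k1 | ⟨k1, k2⟩
    · exact ho1 i (by simpa [D2_pow, D2_val] using k1)
    · have := ho1 (i + k) (by rw [pow_add, hk]; simpa [D2_pow, D2_val, neg_eq_iff_eq_neg] using k1)
      rcases hc' with rfl | ⟨-, k3⟩
      · rwa [pow_add, ← h6, ← map_mul, e, mul_one] at this
      · exact absurd k2 k3
  · obtain ⟨i, rfl⟩ := hζ a ha
    rcases Nat.even_or_odd' i with ⟨j, rfl | rfl⟩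
    · simpa [pow_mul] using (h3 y hy y1 yd).pow yd h5 j
    · simpa [pow_mul, pow_succ ζ (2 * j)] using (h4 y hy y1 yd).pow yd h5 j

theorem pres_sl2_even [CharP F 2] (π : SpecialLinearGroup (Fin 2) F →* G) (hs : Surjective π)
    (hπ : ∀ g, π g = 1 → g 0 1 = 0 ∧ g 1 0 = 0 ∧ g 0 0 = 1) : Pr G 3 5 := by
  obtain ⟨ζ, h0, hζ⟩ := exists_prim F
  obtain ⟨k, hk⟩ : ∃ k, orderOf ζ = 2 * k + 1 := by
    rcases Nat.even_or_odd' (orderOf ζ) with ⟨j, h | h⟩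
    · have h1 := pow_orderOf_eq_one ζ
      rw [h, mul_comm, pow_mul, sq_eq_one_iff, CharTwo.neg_eq, or_self] at h1
      have := Nat.le_of_dvd (by have := order_pos h0; omega) (orderOf_dvd_of_pow_eq_one h1)
      have := order_pos h0
      omega
    · exact ⟨j, h⟩
  have hk1 : ζ ^ (2 * k + 1) = 1 := hk ▸ pow_orderOf_eq_one ζ
  have hζ2 : ∀ t, t ≠ 0 → ∃ i : ℕ, (ζ ^ 2) ^ i = t := fun t ht => by
    obtain ⟨i, rfl⟩ := hζ t ht
    exact ⟨(k + 1) * i, by rw [pow_mul, ← pow_mul ζ 2, mul_add, mul_one, pow_succ, hk1, one_mul]⟩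
  let ψ := π.comp (FreeGroup.lift ![X2 1, D2 ζ h0, T2 F])
  have hu : ψ (.of 0) = π (X2 1) := by simp [ψ]
  have hd : ψ (.of 1) = π (D2 ζ h0) := by simp [ψ]
  have ht : ψ (.of 2) = π (T2 F) := by simp [ψ]
  have hd' : ∀ s, ψ (.of 1) * π (X2 s) * (ψ (.of 1))⁻¹ = π (X2 (ζ ^ 2 * s)) := fun s => by
    rw [hd, ← D2_X2 h0]; simp
  have tt : T2 F * T2 F = 1 := by rw [T2_sq]; exact Subtype.ext (by simp [D2_val, CharTwo.neg_eq, one_fin_two])
  have P := ((((Pk.b1 (ad_X2.map π) hu hd' hζ2).and (Pk.poly 2 (gn_sq hζ) (ad_X2.map π) hu hd')).and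
    (Pk.eq (ψ := ψ) (.of 2 * .of 2) 1 (by rw [map_mul, ht, ← map_mul, tt, map_one, map_one]))).and
    (Pk.eq (ψ := ψ) (.of 2 * .of 0 * .of 2) (.of 0 * .of 2 * .of 0) (by
      simp only [map_mul, hu, ht]; simp only [← map_mul]; congr 1
      exact Subtype.ext (by simp [X2_val, T2_val, CharTwo.neg_eq, CharTwo.add_self_eq_zero])))).and
    (Pk.eq (ψ := ψ) (.of 2 * .of 1 ^ k * (.of 2)⁻¹) (.of 1 ^ (k + 1)) (by
      simp only [map_mul, map_pow, map_inv, hd, ht]; simp only [← map_mul, ← map_pow, ← map_inv]; congr 1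
      rw [← conj_pow, T2_D2, inv_pow, inv_eq_iff_mul_eq_one, ← pow_add, D2_pow]
      exact Subtype.ext (by simp [D2_val, ← add_assoc, ← two_mul, hk1, one_fin_two])))
  refine (HP.free.pk (hs.comp (sl2_surj h0 hζ)) (P.imp fun J _ f hf θ hs hθ => ?_)).pr (by simp)
  obtain ⟨⟨⟨⟨h1, h2⟩, h3⟩, h4⟩, h5⟩ := hf
  simp only [map_mul, map_inv, map_pow, map_one] at h3 h4 h5
  have hθ' : ∀ g, θ (f g) = ψ g := fun g => DFunLike.congr_fun hθ g
  have hθu := (hθ' _).trans hu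
  have hθd := (hθ' _).trans hd
  have hθt := (hθ' _).trans ht
  have hJ := closure_three hs
  rw [← hθ'] at hd'
  generalize f (.of 0) = u at *
  generalize f (.of 1) = d at *
  generalize f (.of 2) = t at *
  have ti : t⁻¹ = t := inv_eq_of_mul_eq_one_left h3
  have u2 : u ^ 2 = 1 := by
    have : u = (u * t)⁻¹ * t * (u * t)⁻¹⁻¹ := by rw [inv_inv, mul_assoc, ← mul_assoc t, h4]; group
    rw [this, conj_pow, sq, h3]; group
  have h6 : t * d ^ (k + 1) * t⁻¹ = d ^ k := by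
    rw [← h5, show t * (t * d ^ k * t⁻¹) * t⁻¹ = (t * t) * d ^ k * (t * t)⁻¹ by group, h3]; group
  have h7 : t * d * t⁻¹ = d⁻¹ := by
    rw [pow_succ, conj_mul', h5, pow_succ, mul_assoc, mul_eq_left] at h6
    exact eq_inv_of_mul_eq_one_right h6
  have ho : d ^ (2 * k + 1) = 1 := by
    rw [← conj_pow, h7, inv_pow, inv_eq_iff_mul_eq_one, ← pow_add] at h5
    rw [← h5]; congr 1; omega
  obtain ⟨y, hy, y1, yd⟩ := h2 (h1 (Or.inr u2)) u2
  refine sl2_inj h0 π (fun g hg => ⟨(hπ g hg).1, (hπ g hg).2.1⟩) hy yd h7 (h3 ▸ one_mem _)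
    (by omega) ho (fun i hi => ?_) (fun a ha => ?_) θ
    ((gn_sq hζ).map_eq hy (ad_X2.map π) θ yd hd' (by rw [y1, hθu])) hθd hθt (y1 ▸ hJ)
  · obtain ⟨j, rfl⟩ : 2 * k + 1 ∣ i :=
      hk ▸ orderOf_dvd_of_pow_eq_one (by simpa [D2_pow, D2_val] using (hπ _ hi).2.2)
    rw [pow_mul, ho, one_pow]
  · obtain ⟨i, rfl⟩ := hζ2 a ha
    have : R1 y d t 1 := ⟨_, x_mem_B2 y d 1, _, x_mem_B2 y d 1, by rw [y1, ti, h4]⟩
    simpa using this.pow yd h7 i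

theorem pres_sl2 : Pr (SpecialLinearGroup (Fin 2) F) 3 9 ∧ Pr (ProjectiveSpecialLinearGroup (Fin 2) F) 3 9 ∧
    (CharP F 2 → Pr (ProjectiveSpecialLinearGroup (Fin 2) F) 3 5) := by
  have k : ∀ g : SpecialLinearGroup (Fin 2) F, QuotientGroup.mk' (Subgroup.center _) g = 1 →
      g 0 1 = 0 ∧ g 1 0 = 0 ∧ (g 0 0 = 1 ∨ g 0 0 = -1) := fun g hg => by
    obtain ⟨r, h1, h2⟩ := Matrix.SpecialLinearGroup.mem_center_iff.1 ((QuotientGroup.eq_one_iff g).1 hg)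
    rw [← h2]; simpa [sq_eq_one_iff] using h1
  have k1 : ∀ g : SpecialLinearGroup (Fin 2) F, MonoidHom.id _ g = 1 → g 0 1 = 0 ∧ g 1 0 = 0 ∧ g 0 0 = 1 := by
    rintro _ rfl; simp
  have k2 : CharP F 2 → Pr (ProjectiveSpecialLinearGroup (Fin 2) F) 3 5 := fun _ =>
    pres_sl2_even _ (QuotientGroup.mk'_surjective _) fun g hg => by simpa [CharTwo.neg_eq] using k g hg
  by_cases h2 : (-1 : F) = 1
  · have : CharP F 2 := CharTwo.of_one_ne_zero_of_two_eq_zero one_ne_zero (by linear_combination -h2)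
    exact ⟨(pres_sl2_even _ surjective_id k1).mono (by norm_num), (k2 this).mono (by norm_num), k2⟩
  refine ⟨pres_sl2_odd h2 _ surjective_id fun g hg => ⟨(k1 g hg).1, (k1 g hg).2.1, Or.inl (k1 g hg).2.2⟩,
    pres_sl2_odd h2 _ (QuotientGroup.mk'_surjective _) fun g hg => ⟨(k g hg).1, (k g hg).2.1,
      (k g hg).2.2.imp_right fun h => ⟨h, ?_⟩⟩, k2⟩
  refine (QuotientGroup.eq_one_iff _).2 (Matrix.SpecialLinearGroup.mem_center_iff.2 ⟨-1, by simp, ?_⟩)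
  rw [T2_sq]; ext i j; fin_cases i <;> fin_cases j <;> simp [D2_val]

end Cfsg.Agent.H3
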