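import Cfsg.Agent.H3.PresA
import Cfsg.Agent.H3.PresOrb
import Cfsg.Agent.S2401

/-! Short presentations of `SL_n(q)`. -/

set_option autoImplicit false

namespace Cfsg.Agent.H3

open Function Equiv Matrix

variable {J W : Type*} [Group J] [Group W]

theorem normal_of_gens {S T : Set J} (hT : Subgroup.closure T = ⊤)
    (h : ∀ g ∈ T, ∀ s ∈ S, g * s * g⁻¹ ∈ Subgroup.closure S ∧ g⁻¹ * s * g⁻¹⁻¹ ∈ Subgroup.closure S) :
    (Subgroup.closure S).Normal := by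
  have k : ∀ g : J, (∀ s ∈ S, g * s * g⁻¹ ∈ Subgroup.closure S) → ∀ s ∈ Subgroup.closure S,
      g * s * g⁻¹ ∈ Subgroup.closure S := fun g hg =>
    (Subgroup.closure_le ((Subgroup.closure S).comap (MulAut.conj g).toMonoidHom)).2 hg
  rw [← Subgroup.normalizer_eq_top_iff, eq_top_iff, ← hT, Subgroup.closure_le]
  intro g hg s
  refine ⟨k g (fun s hs => (h g hg s hs).1) s, fun hs => ?_⟩
  simpa [mul_assoc] using k g⁻¹ (fun s hs => (h g hg s hs).2) _ hs

theorem closure_coprod {Y : Type} {f : Monoid.Coprod W (FreeGroup Y) →* J} (hf : Surjective f) :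
    Subgroup.closure (Set.range (f.comp Monoid.Coprod.inl) ∪
      Set.range fun y => f (Monoid.Coprod.inr (FreeGroup.of y))) = ⊤ := by
  rw [eq_top_iff, ← MonoidHom.range_eq_top.2 hf, Subgroup.closure_union, ← MonoidHom.coe_range, Subgroup.closure_eq,
    ← FreeGroup.range_lift_eq_closure]
  rintro _ ⟨g, rfl⟩
  induction g using Monoid.Coprod.induction_on with
  | inl a => exact Subgroup.mem_sup_left ⟨a, rfl⟩
  | inr b => exact Subgroup.mem_sup_right ⟨b, by rw [lift_comp_apply, lift_comp_apply, FreeGroup.lift_of_apply]⟩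
  | mul a b ha hb => rw [map_mul]; exact mul_mem ha hb

/-- Killing the torus modulo a normal subgroup. -/
theorem fam_mem {R : Type*} [MulAction W R] {r0 : R} {ω : W →* J} {z : J} {N : Subgroup J} [N.Normal]
    (h : ∀ w, ω w ∈ N) {r s t : R} (e : fam r0 ω z r * fam r0 ω z s = fam r0 ω z t) : z ∈ N := by
  have k : ∀ r, QuotientGroup.mk' N (fam r0 ω z r) = QuotientGroup.mk' N z := fun r => by
    simp [fam, (QuotientGroup.eq_one_iff _).2 (h _)]
  have := congrArg (QuotientGroup.mk' N) e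
  rw [map_mul, k, k, k, mul_eq_left] at this
  exact (QuotientGroup.eq_one_iff _).1 this

variable {I : Type} [Fintype I] [DecidableEq I] {F : Type*} [Field F]

theorem det_mono (π : Perm I) (l : I → F) : (H38.mono π l).det = ((Perm.sign π : ℤ) : F) * ∏ i, l i := by
  have : H38.mono π l = (diagonal l).submatrix (π⁻¹ : Perm I) id := by
    ext x y
    simp only [H38.mono, of_apply, submatrix_apply, diagonal_apply, id, Perm.inv_eq_iff_eq]
    split_ifs with h <;> simp_all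
  rw [this, det_permute, det_diagonal, Perm.sign_inv]

/-- Elementary matrices. -/
def XT (i j : I) (t : F) : SpecialLinearGroup I F := if h : i ≠ j then SpecialLinearGroup.transvection h t else 1

theorem XT_val {i j : I} (h : i ≠ j) (t : F) : (XT i j t : Matrix I I F) = 1 + single i j t := by
  rw [XT, dif_pos h]; rfl

theorem mono_XT {g : SpecialLinearGroup I F} {π : Perm I} {l : I → F} (hg : g.1 = H38.mono π l) {i j : I}
    (h : i ≠ j) (hl : l j ≠ 0) (t : F) : g * XT i j t * g⁻¹ = XT (π i) (π j) (l i * (l j)⁻¹ * t) := by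
  rw [mul_inv_eq_iff_eq_mul]
  apply Subtype.ext
  simp only [Matrix.SpecialLinearGroup.coe_mul, XT_val h, XT_val (π.injective.ne h), hg, mul_add, add_mul,
    H38.mono_mul_single, H38.single_mul_mono, mul_one, one_mul]
  congr 2; field_simp

/-- Signed permutation matrices. -/
def rho (K : Subgroup (Perm I)) (hK : ∀ w ∈ K, Perm.sign w = 1 ∨ Odd (Fintype.card I)) (F : Type*) [Field F] :
    K →* SpecialLinearGroup I F where
  toFun w := ⟨H38.mono w fun _ => ((Perm.sign w.1 : ℤ) : F), by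
    rw [det_mono, Finset.prod_const, Finset.card_univ]
    rcases hK w w.2 with h | h
    · simp [h]
    · rcases Int.units_eq_one_or (Perm.sign w.1) with e | e <;> simp [e, h.neg_one_pow]⟩
  map_one' := Subtype.ext (by simp [H38.mono_one])
  map_mul' a b := Subtype.ext (by show _ = H38.mono _ _ * H38.mono _ _; simp [H38.mono_mul_mono])

theorem rho_val {K : Subgroup (Perm I)} (hK : ∀ w ∈ K, Perm.sign w = 1 ∨ Odd (Fintype.card I)) (w : K) :
    (rho K hK F w).1 = H38.mono w fun _ => ((Perm.sign w.1 : ℤ) : F) := rfl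

theorem sign_ne (w : Perm I) : ((Perm.sign w : ℤ) : F) ≠ 0 := by
  rcases Int.units_eq_one_or (Perm.sign w) with e | e <;> simp [e]

/-- Diagonal matrices. -/
def DG {ζ : F} (h0 : ζ ≠ 0) (i j : I) : SpecialLinearGroup I F :=
  ⟨H38.mono 1 fun k => (if k = i then ζ else 1) * (if k = j then ζ else 1)⁻¹, by
    rw [det_mono, Finset.prod_mul_distrib, Finset.prod_inv_distrib]; simp [h0]⟩

theorem DG_val {ζ : F} (h0 : ζ ≠ 0) (i j : I) :
    (DG h0 i j).1 = H38.mono 1 fun k => (if k = i then ζ else 1) * (if k = j then ζ else 1)⁻¹ := rfl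

theorem DG_act {ζ : F} (h0 : ζ ≠ 0) (k l : I) {i j : I} (h : i ≠ j) : Act (DG h0 k l) (XT i j)
    ((if i = k then ζ else 1) * (if i = l then ζ else 1)⁻¹ *
      ((if j = k then ζ else 1) * (if j = l then ζ else 1)⁻¹)⁻¹) :=
  mono_XT (DG_val h0 k l) h (by split_ifs <;> simp [h0])

theorem afull_sl {K : Subgroup (Perm I)} (hK : ∀ w ∈ K, Perm.sign w = 1 ∨ Odd (Fintype.card I)) {ζ : F}
    (h0 : ζ ≠ 0) : AFull (· ≠ ·) (rho K hK F) ζ (DG h0) XT := by
  have g1 : ∀ i j k : I, DG h0 i j * DG h0 j k = DG h0 i k := fun i j k => Subtype.ext (by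
    simp only [Matrix.SpecialLinearGroup.coe_mul, DG_val, H38.mono_one, diagonal_mul_diagonal]
    congr 1; ext l; split_ifs <;> simp [h0])
  refine ⟨⟨fun h s t => Subtype.ext ?_, fun w i j h t => ?_, fun {i j} h => ?_, fun _ _ _ => g1 _ _ _,
    fun h h1 h2 => (DG_act h0 _ _ h).cast ?_, fun h h1 h2 => (DG_act h0 _ _ h).cast ?_,
    fun h h1 h2 h3 h4 h5 => (DG_act h0 _ _ h).cast ?_, fun h => (DG_act h0 _ _ h).cast ?_⟩,
    fun w i j h => ?_, fun _ _ _ => Subtype.ext ?_, fun {i j k} h h1 h2 s t => ?_,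
    fun h h1 h2 h3 h4 h5 s t => Subtype.ext ?_⟩
  · simp only [Matrix.SpecialLinearGroup.coe_mul, XT_val h, mul_add, add_mul, single_mul_single_of_ne _ _ _ _ h.symm,
      single_add, mul_one, one_mul]
    abel
  · rw [mono_XT (rho_val hK w) h (sign_ne _), mul_inv_cancel₀ (sign_ne _), one_mul]; rfl
  · rw [eq_inv_iff_mul_eq_one, g1]
    apply Subtype.ext
    rw [DG_val, H38.mono_one, Matrix.SpecialLinearGroup.coe_one, ← diagonal_one]
    congr 1; ext l; split_ifs <;> simp [h0]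
  · simp [h.symm, h1, h2]
  · simp [h, h1, h2]
  · simp [h1, h2, h3, h4]
  · simp [h, h.symm, sq]
  · rw [mul_inv_eq_iff_eq_mul]
    apply Subtype.ext
    simp only [Matrix.SpecialLinearGroup.coe_mul, DG_val, rho_val, H38.mono_mul_mono, mul_comm, Subgroup.smul_def,
      Perm.smul_def, EmbeddingLike.apply_eq_iff_eq, mul_one, one_mul]
  · simp only [Matrix.SpecialLinearGroup.coe_mul, DG_val, H38.mono_one, diagonal_mul_diagonal, mul_comm]
  · rw [Cm, mul_inv_eq_iff_eq_mul, mul_inv_eq_iff_eq_mul]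
    apply Subtype.ext
    simp only [Matrix.SpecialLinearGroup.coe_mul, XT_val h, XT_val h1, XT_val h2, mul_add, add_mul, single_mul_single_same,
      single_mul_single_of_ne _ _ _ _ h1.symm, single_mul_single_of_ne _ _ _ _ h2.symm, mul_one, one_mul, zero_mul]
    abel
  · simp only [Matrix.SpecialLinearGroup.coe_mul, XT_val h, XT_val h5, mul_add, add_mul,
      single_mul_single_of_ne _ _ _ _ h2, single_mul_single_of_ne _ _ _ _ h3.symm, mul_one, one_mul]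
    abel

theorem ACore.act_all {I : Type*} [MulAction W I] {ω : W →* J} {ζ : F} {g : I → I → J} {x : I → I → F → J}
    (C : ACore (· ≠ ·) ω ζ g x) (h0 : ζ ≠ 0) {i j k l : I} (h : i ≠ j) (h' : k ≠ l) : ∃ c, Act (g i j) (x k l) c := by
  by_cases e1 : i = k
  · subst e1
    by_cases e2 : j = l
    · subst e2; exact ⟨_, C.m0 h⟩
    · exact ⟨_, C.m1 h' h (Ne.symm e2)⟩
  by_cases e2 : i = l
  · subst e2
    by_cases e3 : j = k
    · subst e3; exact ⟨_, C.gi h' ▸ (C.m0 h').inv (pow_ne_zero _ h0)⟩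
    · exact ⟨_, C.m2' h0 Ne.symm h' (Ne.symm e3) h⟩
  by_cases e3 : j = k
  · subst e3; exact ⟨_, C.m1' h0 h' (Ne.symm e1) (Ne.symm e2)⟩
  by_cases e4 : j = l
  · subst e4; exact ⟨_, C.m2 h' (Ne.symm e1) (Ne.symm e2)⟩
  · exact ⟨_, C.m3 h' (Ne.symm e1) (Ne.symm e2) (Ne.symm e3) (Ne.symm e4) h⟩

variable [Finite F] {n : ℕ}

theorem sl_gen (hn : 3 ≤ n) : Subgroup.closure {g : SpecialLinearGroup (Fin n) F | ∃ i j t, i ≠ j ∧ XT i j t = g} = ⊤ := by
  obtain ⟨e, he⟩ := S2401.result (K := F) n hn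
  rw [eq_top_iff, ← MonoidHom.range_eq_top.2 (show Surjective e.toMonoidHom from e.surjective),
    MonoidHom.range_eq_map, ← PresentedGroup.closure_range_of, MonoidHom.map_closure]
  refine Subgroup.closure_mono ?_
  rintro _ ⟨_, ⟨⟨a, t⟩, rfl⟩, rfl⟩
  exact ⟨_, _, t, a.2, Subtype.ext ((XT_val a.2 t).trans (he a t).symm)⟩

theorem sl_hom (hn : 3 ≤ n) {ω : W →* J} [MulAction W (Fin n)] {ζ : F} {g : Fin n → Fin n → J}
    {x : Fin n → Fin n → F → J} (C : AFull (· ≠ ·) ω ζ g x) :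
    ∃ φ : SpecialLinearGroup (Fin n) F →* J, ∀ i j t, i ≠ j → φ (XT i j t) = x i j t := by
  obtain ⟨e, he⟩ := S2401.result (K := F) n hn
  refine ⟨(PresentedGroup.toGroup (f := fun p => x p.1.1.1 p.1.1.2 p.2) ?_).comp e.symm.toMonoidHom,
    fun i j t h => ?_⟩
  · rintro _ ((⟨a, t, u, rfl⟩ | ⟨⟨⟨i, j⟩, h⟩, ⟨⟨k, l⟩, h'⟩, t, u, h1, h2, rfl⟩) |
      ⟨⟨⟨i, j⟩, h1⟩, ⟨⟨_, k⟩, h2⟩, h3, t, u, rfl, rfl⟩) <;> simp only [map_mul, map_inv, FreeGroup.lift_apply_of]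
    · rw [C.ad a.2, mul_inv_cancel]
    · rw [mul_inv_eq_one, mul_inv_eq_iff_eq_mul]
      by_cases e1 : i = k
      · subst e1
        by_cases e2 : j = l
        · subst e2; exact (C.ad h).comm _ _
        · exact Cm.left (C.ad h) (C.ad h') (fun s => C.cm h h' e2 s 1) _ _
      by_cases e2 : j = l
      · subst e2
        exact (Cm.right (C.ad h') (C.ad h) (fun s => C.cm e1 h h' 1 s) _ _).symm
      · exact C.c4 h e1 h2 h1 e2 h' _ _
    · exact mul_inv_eq_one.2 (C.cm h1 h3 h2 t u)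
  · have : e.symm (XT i j t) = PresentedGroup.of (⟨(i, j), h⟩, t) := by
      rw [MulEquiv.symm_apply_eq]; exact Subtype.ext ((XT_val h t).trans (he ⟨(i, j), h⟩ t).symm)
    simp [this]

theorem pres_sl_of (hn : 3 ≤ n) {K : Subgroup (Perm (Fin n))}
    (hK : ∀ w ∈ K, Perm.sign w = 1 ∨ Odd (Fintype.card (Fin n))) {d r : ℕ} (hP : Pr K d r) (k0 : K)
    (hk : ∀ N : Subgroup K, N.Normal → k0 ∈ N → N = ⊤) {a b c : Fin n} (hab : a ≠ b) (hac : a ≠ c) (hbc : b ≠ c)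
    (LS : List K) (hS : ∀ s : K, s • (a, b) = (a, b) ↔ s ∈ Subgroup.closure {s | s ∈ LS})
    (h3 : ∀ {i j k}, i ≠ j → i ≠ k → j ≠ k → ∃ w : K, w • (a, b, c) = (i, j, k) ∨ w • (a, b, c) = (i, k, j))
    (T : List (Fin n × Fin n × Fin n)) (hT : ∀ τ ∈ T, τ.1 ≠ τ.2.1 ∧ τ.1 ≠ τ.2.2 ∧ τ.2.1 ≠ τ.2.2)
    (hT' : ∀ {i j k}, i ≠ j → i ≠ k → j ≠ k → ∃ τ ∈ T, ∃ w : K, w • τ = (i, j, k))
    (h2 : ∀ {i j}, i ≠ j → ∃ w : K, w • (a, b) = (i, j))
    (E : List ℕ) (hE : (∀ e < 3, e ∈ E) ∨ (0 ∈ E ∧ ∀ {i j k : Fin n}, i ≠ j → i ≠ k → j ≠ k → ∃ l, i ≠ l ∧ j ≠ l ∧ k ≠ l))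
    (Q Q' : List (Fin n × Fin n)) (hQ : ∀ τ ∈ Q ++ Q', a ≠ τ.1 ∧ b ≠ τ.1 ∧ a ≠ τ.2 ∧ b ≠ τ.2 ∧ τ.1 ≠ τ.2)
    (hQ1 : ∀ {i j k l}, i ≠ j → i ≠ k → j ≠ k → i ≠ l → j ≠ l → k ≠ l →
      ∃ τ ∈ Q, ∃ w : K, w • (a, b, τ) = (i, j, k, l))
    (hQ2 : ∀ {k l}, a ≠ k → b ≠ k → a ≠ l → b ≠ l → k ≠ l →
      ∃ τ ∈ Q', ∃ w : K, w • (a, b, τ) = (a, b, k, l) ∨ w • (a, b, τ) = (a, b, l, k)) :
    Pr (SpecialLinearGroup (Fin n) F) (d + 2)
      (r + (LS.length * 2 + T.length * (1 + E.length) + Q.length + Q'.length + 6 + 1)) := by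
  obtain ⟨ζ, h0, hζ⟩ := exists_prim F
  obtain ⟨γ, hγ⟩ := hP.hp
  have C0 := afull_sl (F := F) hK h0
  let ψ : Monoid.Coprod K (FreeGroup Bool) →* _ :=
    Monoid.Coprod.lift (rho K hK F) (FreeGroup.lift fun y => cond y (XT a b 1) (DG h0 a b))
  have hu : ψ (.inr (.of true)) = XT a b 1 := by simp [ψ]
  have hd : ψ (.inr (.of false)) = DG h0 a b := by simp [ψ]
  have htop : ∀ N : Subgroup (SpecialLinearGroup (Fin n) F), XT a b 1 ∈ N →
      (∀ γ, ∀ g ∈ N, ψ γ * g * (ψ γ)⁻¹ ∈ N) → N = ⊤ := by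
    intro N h1 h
    rw [eq_top_iff, ← sl_gen hn, Subgroup.closure_le]
    rintro _ ⟨i, j, t, hij, rfl⟩
    obtain ⟨w, ⟨⟩⟩ := h2 hij
    rw [← C0.eqx w hab]
    exact h (.inl w) _ ((gn_sq hζ).mem (C0.ad hab) (C0.m0 hab) h1 (hd ▸ h _) t)
  have hs : Surjective ψ := MonoidHom.range_eq_top.1 (htop _ ⟨_, hu⟩ fun γ g hg =>
    mul_mem (mul_mem ⟨γ, rfl⟩ hg) (inv_mem ⟨γ, rfl⟩))
  have P := (Pk.afull (ψ := ψ) Monoid.Coprod.inl h0 hζ Ne.symm (fun w _ _ h => (MulAction.injective w).ne h)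
    hab hac hbc h2 (fun k _ _ => (eq_or_ne k c).imp_right fun h => Or.inl h.symm) C0 hu hd LS hS h3 T hT hT' E hE
    Q Q' hQ hQ1 hQ2).and (Pk.normal hs (.inl k0) (.inr (.of true)) (by
      rw [htop (Subgroup.normalClosure _) (Subgroup.subset_normalClosure (hu ▸ rfl))
        fun γ g hg => Subgroup.normalClosure_normal.conj_mem g hg _]; trivial))
  refine ((hγ.coprod_free Bool).pk hs (P.imp fun J _ f hf θ hf' hθ => ?_)).pr (by simp)
  obtain ⟨⟨x, C, -, x1, g1, hx⟩, hkill⟩ := hf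
  obtain ⟨φ, hφ⟩ := sl_hom hn C
  let S : Set J := {g | ∃ i j t, i ≠ j ∧ x i j t = g}
  have mem : ∀ {i j}, i ≠ j → ∀ t, x i j t ∈ Subgroup.closure S := fun h t => Subgroup.subset_closure ⟨_, _, t, h, rfl⟩
  have hN : (Subgroup.closure S).Normal := by
    refine normal_of_gens (closure_coprod hf') ?_
    rintro _ (⟨w, rfl⟩ | ⟨_ | _, rfl⟩) _ ⟨i, j, t, h, rfl⟩
    · rw [C.eqx w h, ← map_inv, C.eqx w⁻¹ h]
      exact ⟨mem ((MulAction.injective _).ne h) _, mem ((MulAction.injective _).ne h) _⟩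
    · obtain ⟨c, hc⟩ := C.act_all h0 hab h
      obtain ⟨c', hc'⟩ := C.act_all h0 hab.symm h
      rw [C.gi hab] at hc'
      simp only [g1] at hc hc'
      rw [hc, hc']; exact ⟨mem h _, mem h _⟩
    · have := x1 ▸ mem hab 1
      exact ⟨mul_mem (mul_mem this (mem h t)) (inv_mem this),
        mul_mem (mul_mem (inv_mem this) (mem h t)) (inv_mem (inv_mem this))⟩
  have hW : ∀ w, f.comp Monoid.Coprod.inl w ∈ Subgroup.closure S := fun w =>
    (hk _ (hN.comap (f.comp Monoid.Coprod.inl)) (hkill _ hN (x1 ▸ mem hab 1))).ge trivial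
  have htop' : φ.range = ⊤ := by
    have : Subgroup.closure S ≤ φ.range := (Subgroup.closure_le _).2 (by
      rintro _ ⟨i, j, t, h, rfl⟩; exact ⟨_, hφ i j t h⟩)
    rw [eq_top_iff, ← closure_coprod hf', Subgroup.closure_le]
    rintro _ (⟨w, rfl⟩ | ⟨_ | _, rfl⟩) <;> apply this
    · exact hW w
    · exact fam_mem hW (by simpa only [map_fam] using C.g1 hab hac hbc)
    · exact (x1 ▸ mem hab 1 :)
  have : θ.comp φ = MonoidHom.id _ := MonoidHom.eq_of_eqOn_dense (sl_gen hn) (by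
    rintro _ ⟨i, j, t, h, rfl⟩; simp [hφ i j t h, hx θ hθ i j h])
  intro p q e
  obtain ⟨p, rfl⟩ := MonoidHom.range_eq_top.1 htop' p
  obtain ⟨q, rfl⟩ := MonoidHom.range_eq_top.1 htop' q
  rw [show p = q from ((DFunLike.congr_fun this p).symm.trans e).trans (DFunLike.congr_fun this q)]

theorem pres_sl_alt (hn : 4 ≤ n) {d r : ℕ} (hP : Pr (alternatingGroup (Fin n)) d r) :
    Pr (SpecialLinearGroup (Fin n) F) (d + 2) (r + if 6 ≤ n then 15 else 2 * n + 6) := by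
  obtain ⟨a, b, c, e, hab, hac, hbc, hae, hbe, hce⟩ :
      ∃ a b c e : Fin n, a ≠ b ∧ a ≠ c ∧ b ≠ c ∧ a ≠ e ∧ b ≠ e ∧ c ≠ e :=
    ⟨⟨0, by omega⟩, ⟨1, by omega⟩, ⟨2, by omega⟩, ⟨3, by omega⟩, by simp⟩
  obtain ⟨L, h1, h2, h3⟩ := alt_stab hab
  have hn' : 4 ≤ Fintype.card (Fin n) := by simpa using hn
  rw [Fintype.card_fin] at h2
  have key := @pres_sl_of F _ _ n (by omega) (alternatingGroup (Fin n)) (fun w hw => Or.inl hw) d r hP _
    (alt_kill hab hac hbc) a b c hab hac hbc L h3 (alt_triple hab hac hbc)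
  have hE : (∀ e < 3, e ∈ [0]) ∨ (0 ∈ [0] ∧ ∀ {i j k : Fin n}, i ≠ j → i ≠ k → j ≠ k → ∃ l, i ≠ l ∧ j ≠ l ∧ k ≠ l) :=
    Or.inr ⟨by simp, fun _ _ _ => exists_fourth hn' _ _ _⟩
  have hQ2 : ∀ {k l}, a ≠ k → b ≠ k → a ≠ l → b ≠ l → k ≠ l → ∃ τ ∈ [(c, e)],
      ∃ w : alternatingGroup (Fin n), w • (a, b, τ) = (a, b, k, l) ∨ w • (a, b, τ) = (a, b, l, k) :=
    fun k1 k2 k3 k4 k5 => ⟨_, List.mem_singleton_self _, alt_quad hab hac hbc hae hbe hce hab k1 k2 k3 k4 k5⟩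
  split_ifs with h6
  · refine (key [(a, b, c)] (by simp [*]) (fun k1 k2 k3 => ⟨_, List.mem_singleton_self _,
      alt_triple' hab hac hbc (by simp; omega) k1 k2 k3⟩) (alt_pair hab hn') [0] hE [(c, e)] [(c, e)] (by simp [*])
      (fun k1 k2 k3 k4 k5 k6 => ⟨_, List.mem_singleton_self _,
        alt_quad' hab hac hbc hae hbe hce (by simpa using h6) k1 k2 k3 k4 k5 k6⟩) hQ2).mono ?_
    simp; omega
  · refine (key [(a, b, c), (a, c, b)] (by simp [*, hbc.symm]) (fun k1 k2 k3 => ?_) (alt_pair hab hn') [0] hE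
      [(c, e), (e, c)] [(c, e)] (by simp [*, hce.symm]) (fun k1 k2 k3 k4 k5 k6 => ?_) hQ2).mono ?_
    · obtain ⟨w, h | h⟩ := alt_triple hab hac hbc k1 k2 k3
      · exact ⟨_, by simp, w, h⟩
      · exact ⟨(a, c, b), by simp, w, by obtain ⟨⟩ := h; rfl⟩
    · obtain ⟨w, h | h⟩ := alt_quad hab hac hbc hae hbe hce k1 k2 k3 k4 k5 k6
      · exact ⟨(c, e), by simp, w, h⟩
      · exact ⟨(e, c), by simp, w, by obtain ⟨⟩ := h; rfl⟩
    · simp; omega

theorem pres_sl3 : Pr (SpecialLinearGroup (Fin 3) F) 4 14 := by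
  have hP : Pr (⊤ : Subgroup (Perm (Fin 3))) 2 3 := by
    have := (pres_small 1 (-1)).as_congr (Ω' := Fin 3) (by simp)
    rwa [AS, if_neg (by decide)] at this
  have h3 : ∀ {i j k : Fin 3}, i ≠ j → i ≠ k → j ≠ k →
      ∃ w : (⊤ : Subgroup (Perm (Fin 3))), w • ((0 : Fin 3), (1 : Fin 3), (2 : Fin 3)) = (i, j, k) := by
    intro i j k h h1 h2
    obtain ⟨w, e⟩ := Perm.exists_extending_pair ![0, 1, 2] _ (by decide) (inj3 h h1 h2)
    exact ⟨⟨w, trivial⟩, Prod.ext (e 0) (Prod.ext (e 1) (e 2))⟩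
  refine pres_sl_of le_rfl (fun _ _ => Or.inr (by decide)) hP ⟨swap 0 1, trivial⟩ (fun N hN h => ?_)
    (a := 0) (b := 1) (c := 2) (by decide) (by decide) (by decide) [] (fun s => ?_)
    (fun k1 k2 k3 => (h3 k1 k2 k3).imp fun _ => Or.inl) [(0, 1, 2)] (by decide)
    (fun k1 k2 k3 => ⟨_, List.mem_singleton_self _, h3 k1 k2 k3⟩) (fun {i j} h => ?_) [0, 1, 2]
    (Or.inl (by decide)) [] [] (by simp) (fun {i j k l} => ?_) (fun {k l} => ?_)
  · have := sym_kill (a := (0 : Fin 3)) (b := 1) (by decide) (N.map (Subgroup.subtype _))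
      (hN.map _ fun g => ⟨⟨g, trivial⟩, rfl⟩) ⟨_, h, rfl⟩
    exact Subgroup.map_injective (Subgroup.subtype_injective _) (this.trans (by ext; simp))
  · have : ∀ s : Perm (Fin 3), s • ((0 : Fin 3), (1 : Fin 3)) = (0, 1) ↔ s = 1 := by decide
    exact (this s).trans (by simp)
  · obtain ⟨w, e⟩ := Perm.exists_extending_pair ![0, 1] _ (by decide) (inj2 h)
    exact ⟨⟨w, trivial⟩, Prod.ext (e 0) (e 1)⟩
  · omega
  · omega

theorem pr_alt_small (m : ℕ) [NeZero m] : Pr (alternatingGroup (Fin (m + 2))) 2 (3 + m / 2) :=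
  (pres_small m 1).as_congr (Ω' := Fin (m + 2)) (by simp)

theorem pres_sl4 : Pr (SpecialLinearGroup (Fin 4) F) 4 18 := pres_sl_alt le_rfl (pr_alt_small 2)

theorem pres_sl5 : Pr (SpecialLinearGroup (Fin 5) F) 4 20 := pres_sl_alt (by norm_num) (pr_alt_small 3)

theorem pres_sln (hn : 4 ≤ n) : Pr (SpecialLinearGroup (Fin n) F) 7 24 := by
  by_cases h : 6 ≤ n
  · simpa [h] using (pres_sl_alt (F := F) hn (pres_alt n (by omega)).1).pad 2
  obtain rfl | rfl : n = 4 ∨ n = 5 := by omega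
  · exact (pres_sl4.pad 3).mono (by norm_num)
  · exact (pres_sl5.pad 3).mono (by norm_num)

theorem Pr.psl {d r : ℕ} (h : Pr (SpecialLinearGroup (Fin n) F) d r) :
    Pr (ProjectiveSpecialLinearGroup (Fin n) F) d (r + 1) :=
  have : IsCyclic (Subgroup.center (SpecialLinearGroup (Fin n) F)) :=
    isCyclic_of_surjective _ (Matrix.SpecialLinearGroup.center_equiv_rootsOfUnity (n := Fin n) (R := F)).symm.surjective
  h.quot_cyclic _

end Cfsg.Agent.H3
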