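import Cfsg.Agent.H3.PresWr
import Cfsg.Agent.H3.PresSL2
import Cfsg.Agent.H3.PresFr

/-! Short root elements of the symplectic group from few relations. -/

set_option autoImplicit false

namespace Cfsg.Agent.H3

open Function Equiv Matrix SemidirectProduct Wr

variable {J G : Type*} [Group J] [Group G] {F : Type*} [Field F]

/-- `SL₂`. -/
abbrev S2 (F : Type*) [Field F] := SpecialLinearGroup (Fin 2) F

/-- Lower unitriangular matrices. -/
def Y2 (s : F) : S2 F := ⟨!![1, 0; s, 1], by simp [det_fin_two]⟩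

theorem Y2_val (s : F) : (Y2 s : Matrix _ _ F) = !![1, 0; s, 1] := rfl

theorem ad_Y2 : Ad (Y2 : F → _) := fun s t => Subtype.ext (by simp [Y2_val])

theorem D2_Y2 {a : F} (ha : a ≠ 0) : Act (D2 a ha)⁻¹ Y2 (a ^ 2) := fun s => by
  rw [inv_inv, mul_assoc, inv_mul_eq_iff_eq_mul]
  exact Subtype.ext (by simp [D2_val, Y2_val]; field_simp)

theorem s2_smul (a : S2 F) (v : Fin 2 → F) (i : Fin 2) : (a • v) i = a.1 i 0 * v 0 + a.1 i 1 * v 1 := by
  show (a.1 *ᵥ v) i = _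
  simp [mulVec, dotProduct]

/-- The first basis vector. -/
def e0 (F : Type*) [Field F] : Fin 2 → F := ![1, 0]

/-- The second basis vector. -/
def e1 (F : Type*) [Field F] : Fin 2 → F := ![0, 1]

theorem D2_e0 {a : F} (ha : a ≠ 0) : D2 a ha • e0 F = a • e0 F := by
  ext i; fin_cases i <;> simp [s2_smul, D2_val, e0, e1]

theorem D2_e1 {a : F} (ha : a ≠ 0) : D2 a ha • e1 F = a⁻¹ • e1 F := by
  ext i; fin_cases i <;> simp [s2_smul, D2_val, e0, e1]

theorem D2_inv {a : F} (ha : a ≠ 0) : (D2 a ha)⁻¹ = D2 a⁻¹ (inv_ne_zero ha) :=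
  inv_eq_of_mul_eq_one_left (Subtype.ext (by simp [D2_val, ha, one_fin_two]))

theorem X2_e0 (s : F) : X2 s • e0 F = e0 F := by ext i; fin_cases i <;> simp [s2_smul, X2_val, e0]

theorem Y2_e1 (s : F) : Y2 s • e1 F = e1 F := by ext i; fin_cases i <;> simp [s2_smul, Y2_val, e1]

theorem stab_e0 {a : S2 F} (h : a • e0 F = e0 F) : a = X2 (a 0 1) := by
  have h0 : a 0 0 = 1 := by simpa [s2_smul, e0, e1] using congrFun h 0
  have h1 : a 1 0 = 0 := by simpa [s2_smul, e0, e1] using congrFun h 1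
  have := a.det_coe
  rw [det_fin_two, h0, h1] at this
  ext i j; fin_cases i <;> fin_cases j <;> simp_all [X2_val]

theorem stab_e1 {a : S2 F} (h : a • e1 F = e1 F) : a = Y2 (a 1 0) := by
  have h0 : a 0 1 = 0 := by simpa [s2_smul, e0, e1] using congrFun h 0
  have h1 : a 1 1 = 1 := by simpa [s2_smul, e0, e1] using congrFun h 1
  have := a.det_coe
  rw [det_fin_two, h0, h1] at this
  ext i j; fin_cases i <;> fin_cases j <;> simp_all [Y2_val]

theorem exists_s2 {v w : Fin 2 → F} (h : v 0 * w 1 - w 0 * v 1 = 1) :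
    ∃ a : S2 F, a • e0 F = v ∧ a • e1 F = w :=
  ⟨⟨!![v 0, w 0; v 1, w 1], by simpa [det_fin_two] using h⟩, by
    constructor <;> ext i <;> refine (s2_smul _ _ i).trans ?_ <;> fin_cases i <;> simp [e0, e1]⟩

theorem exists_s2' {v : Fin 2 → F} (h : v ≠ 0) : ∃ a : S2 F, a • e0 F = v := by
  by_cases h0 : v 0 = 0
  · have h1 : v 1 ≠ 0 := fun h1 => h (by ext i; fin_cases i <;> simp [h0, h1])
    exact (exists_s2 (w := ![-(v 1)⁻¹, 0]) (by simp [h1])).imp fun _ h => h.1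
  · exact (exists_s2 (w := ![0, (v 0)⁻¹]) (by simp [h0])).imp fun _ h => h.1

theorem e0_ne : e0 F ≠ 0 := by simp [e0]

theorem e1_ne : e1 F ≠ 0 := by simp [e1]

variable {I : Type} [Fintype I] [DecidableEq I]

omit [Fintype I] [DecidableEq I] in
theorem exists_wr {A X : Type*} [Group A] [MulAction A X] {k : ℕ} {ι ι' : Fin k → I} (h : Injective ι)
    (h' : Injective ι') (a : Fin k → A) : ∃ m : Wr A I, ∀ n, m.right (ι n) = ι' n ∧ m.left (ι' n) = a n ∧
      ∀ x : X, m • (ι n, x) = (ι' n, a n • x) := by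
  obtain ⟨s, hs⟩ := Perm.exists_extending_pair _ _ h h'
  refine ⟨⟨extend ι' a 1, s⟩, fun n => ⟨hs n, h'.extend_apply _ _ _, fun x => ?_⟩⟩
  simp only [smul_mk, hs, h'.extend_apply]

omit [Fintype I] in
theorem el_smul {A X : Type*} [Group A] [MulAction A X] (i : I) (a : A) (x : X) :
    el i a • (i, x) = (i, a • x) := by simp [smul_mk, el_left, el_right]

omit [Fintype I] in
theorem el_smul_ne {A X : Type*} [Group A] [MulAction A X] {i j : I} (h : j ≠ i) (a : A) (x : X) :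
    el i a • (j, x) = (j, x) := by simp [smul_mk, el_left, el_right, h]

omit [Fintype I] [DecidableEq I] in
theorem inr_smul {A X : Type*} [Group A] [MulAction A X] (s : Perm I) (i : I) (x : X) :
    (inr s : Wr A I) • (i, x) = (s i, x) := by simp [smul_mk]

open Classical in
/-- The short root elements. -/
noncomputable def Bf (o o' : I) (ω : Wr (S2 F) I →* J) (u : J) (p q : I × (Fin 2 → F)) : J :=
  if p.2 = 0 ∨ q.2 = 0 then 1 else fam ((o, e0 F), (o', e0 F)) ω u (p, q)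

omit [Fintype I] [DecidableEq I] in
theorem map_Bf (f : J →* G) (o o' : I) (ω : Wr (S2 F) I →* J) (u : J) (p q : I × (Fin 2 → F)) :
    f (Bf o o' ω u p q) = Bf o o' (f.comp ω) (f u) p q := by
  simp only [Bf]; split_ifs <;> simp [map_fam]

/-- The long root subgroups. -/
def LS (ω : Wr (S2 F) I →* J) (j : I) (w : Fin 2 → F) : Subgroup J :=
  (MulAction.stabilizer (S2 F) w).map (ω.comp (el j))

/-- Basic properties of the short root elements. -/
structure SpB (ω : Wr (S2 F) I →* J) (B : I × (Fin 2 → F) → I × (Fin 2 → F) → J) : Prop where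
  eqv : ∀ m {p q}, p.1 ≠ q.1 → ω m * B p q * (ω m)⁻¹ = B (m • p) (m • q)
  symm : ∀ {p q}, p.1 ≠ q.1 → B p q = B q p
  smul : ∀ {i j} (c : F) v w, i ≠ j → B (i, c • v) (j, w) = B (i, v) (j, c • w)
  add : ∀ {i j} v w, i ≠ j → Ad fun t : F => B (i, t • v) (j, w)

omit [Fintype I] [DecidableEq I] in
theorem trans_pair {o o' : I} (ho : o ≠ o') {i j : I} (h : i ≠ j) {v w : Fin 2 → F} (hv : v ≠ 0) (hw : w ≠ 0) :
    ∃ m : Wr (S2 F) I, (∀ t : F, m • (o, t • e0 F) = (i, t • v)) ∧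
      ∀ t : F, m • (o', t • e0 F) = (j, t • w) := by
  obtain ⟨a, rfl⟩ := exists_s2' hv
  obtain ⟨b, rfl⟩ := exists_s2' hw
  obtain ⟨m, hm⟩ := exists_wr (X := Fin 2 → F) (inj2 ho) (inj2 h) ![a, b]
  exact ⟨m, fun t => by simpa [smul_comm a t] using (hm 0).2.2 (t • e0 F),
    fun t => by simpa [smul_comm b t] using (hm 1).2.2 (t • e0 F)⟩

theorem spB_of [Finite F] {ζ : F} (h0 : ζ ≠ 0) (hζ : ∀ t, t ≠ 0 → ∃ k : ℕ, ζ ^ k = t) {o o' : I} (ho : o ≠ o')
    {ω : Wr (S2 F) I →* J} {u : J} (c1 : Commute (ω (inr (Equiv.swap o o'))) u)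
    (c2 : ∀ s : Perm I, s o = o → s o' = o' → Commute (ω (inr s)) u)
    (c3 : ∀ k, k ≠ o → k ≠ o' → ∀ a, Commute (ω (el k a)) u) (c4 : Commute (ω (el o (X2 1))) u)
    (c5 : Commute (ω (el o (D2 ζ h0) * (el o' (D2 ζ h0))⁻¹)) u) {y : F → J} (hy : Ad y) (y1 : y 1 = u)
    (yd : Act (ω (el o (D2 ζ h0))) y ζ) : SpB ω (Bf o o' ω u) ∧ Bf o o' ω u (o, e0 F) (o', e0 F) = u := by
  let C := (Subgroup.centralizer {u}).comap ω
  have mC : ∀ {m}, m ∈ C ↔ Commute (ω m) u := Subgroup.mem_centralizer_singleton_iff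
  have k1 : ∀ s, el o (X2 s) ∈ C := (gn_sq hζ).mem (ad_X2.map (el o)) (d := el o (D2 ζ h0) * (el o' (D2 ζ h0))⁻¹)
    (fun s => by
      rw [← D2_X2 h0, map_mul, map_mul, map_inv, mul_assoc (el o _), (el_comm ho _ _).inv_right.symm.eq]; group)
    (mC.2 c4) fun g hg => mul_mem (mul_mem (mC.2 c5) hg) (inv_mem (mC.2 c5))
  have hs : ∀ m : Wr (S2 F) I, m • ((o, e0 F), (o', e0 F)) =
      ((o, e0 F), (o', e0 F)) → Commute (ω m) u := by
    intro m hm
    simp only [Prod.smul_mk, smul_mk, Prod.mk.injEq] at hm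
    obtain ⟨⟨e1, e2⟩, e3, e4⟩ := hm
    refine mC.1 (mem_of (fun i => ?_) (mC.2 (c2 _ e1 e3)))
    by_cases h1 : i = o
    · rw [e1] at e2
      rw [h1, stab_e0 e2]; exact k1 _
    by_cases h2 : i = o'
    · rw [e3] at e4
      rw [h2, stab_e0 e4, ← swap_apply_left o o', ← inr_el]
      exact mul_mem (mul_mem (mC.2 c1) (k1 _)) (inv_mem (mC.2 c1))
    · exact mC.2 (c3 i h1 h2 _)
  have ne : ∀ (m : Wr (S2 F) I) (p : I × (Fin 2 → F)), (m • p).2 = 0 ↔ p.2 = 0 := fun m p => smul_eq_zero_iff_eq _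
  have b0 : ∀ m : Wr (S2 F) I, Bf o o' ω u (m • (o, e0 F)) (m • (o', e0 F)) = ω m * u * (ω m)⁻¹ := fun m => by
    rw [Bf, if_neg (by simp [ne, e0_ne])]; exact fam_eq hs m
  have z1 : ∀ i q, Bf o o' ω u (i, 0) q = 1 := fun i q => if_pos (Or.inl rfl)
  have z2 : ∀ i q, Bf o o' ω u q (i, 0) = 1 := fun i q => if_pos (Or.inr rfl)
  have eqv : ∀ (m : Wr (S2 F) I) {p q : I × (Fin 2 → F)}, p.1 ≠ q.1 →
      ω m * Bf o o' ω u p q * (ω m)⁻¹ = Bf o o' ω u (m • p) (m • q) := by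
    intro m p q h
    by_cases e : p.2 = 0 ∨ q.2 = 0
    · rw [Bf, Bf, if_pos e, if_pos (by rwa [ne, ne])]; simp
    · rw [Bf, Bf, if_neg e, if_neg (by rwa [ne, ne])]
      obtain ⟨m', e1, e2⟩ := trans_pair ho h (not_or.1 e).1 (not_or.1 e).2
      exact fam_conj hs (r := (p, q)) ⟨m', Prod.ext (by simpa using e1 1) (by simpa using e2 1)⟩ m
  have b1 : ∀ t, Bf o o' ω u (o, t • e0 F) (o', e0 F) = y t := by
    intro t
    by_cases ht : t = 0
    · rw [ht, zero_smul, z1, hy.zero]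
    obtain ⟨k, rfl⟩ := hζ t ht
    have := b0 (el o (D2 ζ h0 ^ k))
    rw [el_smul, el_smul_ne ho.symm, map_pow, map_pow, D2_pow, D2_e0] at this
    rw [this, ← y1, yd.pow, mul_one]
  have b2 : ∀ t : F, Bf o o' ω u (o, t • e0 F) (o', e0 F) = Bf o o' ω u (o, e0 F) (o', t • e0 F) := by
    intro t
    by_cases ht : t = 0
    · rw [ht, zero_smul, z1, z2]
    obtain ⟨k, rfl⟩ := hζ t ht
    have e1 := b0 (el o (D2 ζ h0 ^ k))
    have e2 := b0 (el o' (D2 ζ h0 ^ k))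
    rw [el_smul, el_smul_ne ho.symm, D2_pow, D2_e0, ← D2_pow h0] at e1
    rw [el_smul, el_smul_ne ho, D2_pow, D2_e0, ← D2_pow h0] at e2
    have e3 := mC.1 (pow_mem (mC.2 c5) k)
    rw [(el_comm ho _ _).inv_right.mul_pow, inv_pow, ← map_pow, ← map_pow, (el_comm ho _ _).inv_right.eq, map_mul,
      map_inv] at e3
    rw [e1, e2, ← mul_inv_cancel_left (ω (el o' (D2 ζ h0 ^ k))) (ω (el o _)), mul_assoc (ω (el o' _)), e3.eq]
    group
  have b3 : Bf o o' ω u (o, e0 F) (o', e0 F) = u := by simpa using b0 1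
  refine ⟨⟨eqv, fun {p q} h => ?_, fun {i j} c v w h => ?_, fun {i j} v w h => ?_⟩, b3⟩
  · by_cases e : p.2 = 0 ∨ q.2 = 0
    · rw [Bf, Bf, if_pos e, if_pos e.symm]
    obtain ⟨m, e1, e2⟩ := trans_pair ho h (not_or.1 e).1 (not_or.1 e).2
    have := b0 (inr (Equiv.swap o o'))
    rw [inr_smul, inr_smul, swap_apply_left, swap_apply_right, c1.eq, mul_inv_cancel_right] at this
    rw [← show m • (o, e0 F) = p by simpa using e1 1, ← show m • (o', e0 F) = q by simpa using e2 1,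
      ← eqv m ho, ← eqv m ho.symm, this, b3]
  · by_cases hv : v = 0
    · rw [hv, smul_zero, z1, z1]
    by_cases hw : w = 0
    · rw [hw, smul_zero, z2, z2]
    obtain ⟨m, e1, e2⟩ := trans_pair ho h hv hw
    rw [← e1, ← e2, ← one_smul F w, ← e2, ← one_smul F v, ← e1, ← eqv m ho, ← eqv m ho, one_smul, b2]
  · by_cases hv : v = 0
    · intro s t; simp [hv, z1]
    by_cases hw : w = 0
    · intro s t; simp [hw, z2]
    obtain ⟨m, e1, e2⟩ := trans_pair ho h hv hw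
    simpa only [← e1, ← show m • (o', e0 F) = (j, w) by simpa using e2 1, ← eqv m (p := (o, _)) (q := (o', _)) ho,
      b1] using hy.conj (ω m)

end Cfsg.Agent.H3
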