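import Cfsg.Agent.H3.PresSp1

/-! Commutator relations for the symplectic root elements. -/

set_option autoImplicit false

namespace Cfsg.Agent.H3

open Function Equiv Matrix SemidirectProduct Wr H38

variable {J : Type*} [Group J] {F : Type*} [Field F] {I : Type} [DecidableEq I]

omit [Field F] in
theorem WC.conj {N N' : Subgroup J} {y z : F → J} (H : WC N y z) (g : J) (h : ∀ n ∈ N, g * n * g⁻¹ ∈ N') :
    WC N' (fun t => g * y t * g⁻¹) fun t => g * z t * g⁻¹ := fun s t => by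
  have := h _ (H s t)
  convert this using 1; group

omit [Field F] in
theorem WC.of_sub {N : Subgroup J} {y z y' z' : F → J} (H : WC N y z) (h1 : ∀ s, ∃ s', y' s = y s')
    (h2 : ∀ s, ∃ s', z' s = z s') : WC N y' z' := fun s t => by
  obtain ⟨s', e1⟩ := h1 s
  obtain ⟨t', e2⟩ := h2 t
  rw [e1, e2]; exact H _ _

variable {ω : Wr (S2 F) I →* J} {B : I × (Fin 2 → F) → I × (Fin 2 → F) → J}

theorem LS_conj (m : Wr (S2 F) I) (j : I) (w : Fin 2 → F) :
    ∀ n ∈ LS ω j w, ω m * n * (ω m)⁻¹ ∈ LS ω (m • (j, w)).1 (m • (j, w)).2 := by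
  rintro _ ⟨a, ha, rfl⟩
  refine ⟨_, ?_, by rw [MonoidHom.comp_apply, MonoidHom.comp_apply, ← map_inv, ← map_mul, ← map_mul, conj_el]; rfl⟩
  show _ • _ • w = _ • w
  rw [mul_smul, inv_smul_smul, mul_smul, show a • w = w from ha]

theorem LS_nz {k j : I} {a : S2 F} {w : Fin 2 → F} {c : F} (hc : c ≠ 0) (h : k = j → a • w = c • w) :
    Nz (LS ω j w) (ω (el k a)) := fun n hn => by
  have := LS_conj (el k a) j w n hn
  by_cases e : k = j
  · subst e
    rw [el_smul, h rfl] at this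
    obtain ⟨b, hb, e⟩ := this
    exact ⟨b, smul_right_injective _ hc (by simpa [smul_comm b c] using hb), e⟩
  · rwa [el_smul_ne (Ne.symm e)] at this

/-- The subgroup between a short and a long root. -/
def N4 (ω : Wr (S2 F) I →* J) (B : I × (Fin 2 → F) → I × (Fin 2 → F) → J) (i : I) (v : Fin 2 → F) (j : I)
    (w : Fin 2 → F) : Subgroup J :=
  Subgroup.closure ((Set.range fun t : F => B (i, t • v) (j, w)) ∪ LS ω j w)

namespace SpB

variable (S : SpB ω B) {i j k l o o' : I} {v v' w w' z : Fin 2 → F}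
include S

theorem zero_left (h : i ≠ j) : B (i, 0) (j, w) = 1 := by simpa using (S.add 0 w h).zero

theorem zero_right (h : i ≠ j) : B (i, v) (j, 0) = 1 := by rw [S.symm h, S.zero_left h.symm]

theorem flip (h : i ≠ j) (c : F) : B (i, c • v) (j, w) = B (j, c • w) (i, v) := by rw [S.smul c v w h, S.symm h]

theorem act_left (h : i ≠ j) {a : S2 F} {c : F} (e : a • v = c • v) :
    Act (ω (el i a)) (fun t : F => B (i, t • v) (j, w)) c := fun t => by
  rw [S.eqv _ h, el_smul, el_smul_ne h.symm, smul_comm a, e, smul_smul, mul_comm]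

theorem act_right (h : i ≠ j) {a : S2 F} {c : F} (e : a • w = c • w) :
    Act (ω (el j a)) (fun t : F => B (i, t • v) (j, w)) c := fun t => by
  rw [S.eqv _ h, el_smul, el_smul_ne h, e, ← S.smul _ _ _ h, smul_smul]

theorem act_none (h : i ≠ j) (h1 : i ≠ k) (h2 : j ≠ k) (a : S2 F) :
    Act (ω (el k a)) (fun t : F => B (i, t • v) (j, w)) 1 := fun t => by
  rw [S.eqv _ h, el_smul_ne h1, el_smul_ne h2, one_mul]

theorem comm_LS (h : i ≠ j) (t : F) : ∀ n ∈ LS ω j w, Commute (B (i, t • v) (j, w)) n := by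
  rintro _ ⟨a, ha, rfl⟩
  exact ((S.act_right h (c := 1) (by simpa using ha)).comm t).symm

theorem r1 (h : Injective ![o, o', k, l]) (H : Commute (B (o, e0 F) (o', e0 F)) (B (k, e0 F) (l, e0 F)))
    {i j i' j' : I} (h' : Injective ![i, j, i', j']) (v w v' w' : Fin 2 → F) :
    Commute (B (i, v) (j, w)) (B (i', v') (j', w')) := by
  have k1 : i ≠ j := h'.ne (show (0 : Fin 4) ≠ 1 by decide)
  have k2 : i' ≠ j' := h'.ne (show (2 : Fin 4) ≠ 3 by decide)
  by_cases e1 : v = 0; · simp [e1, S.zero_left k1]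
  by_cases e2 : w = 0; · simp [e2, S.zero_right k1]
  by_cases e3 : v' = 0; · simp [e3, S.zero_left k2]
  by_cases e4 : w' = 0; · simp [e4, S.zero_right k2]
  obtain ⟨a, rfl⟩ := exists_s2' e1
  obtain ⟨b, rfl⟩ := exists_s2' e2
  obtain ⟨c, rfl⟩ := exists_s2' e3
  obtain ⟨d, rfl⟩ := exists_s2' e4
  obtain ⟨m, hm⟩ := exists_wr (X := Fin 2 → F) h h' ![a, b, c, d]
  have := Commute.cj H (ω m)
  rw [S.eqv _ (h.ne (show (0 : Fin 4) ≠ 1 by decide)), S.eqv _ (h.ne (show (2 : Fin 4) ≠ 3 by decide))] at this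
  exact ((hm 0).2.2 _ : m • (o, _) = (i, _)) ▸ ((hm 1).2.2 _ : m • (o', _) = (j, _)) ▸
    ((hm 2).2.2 _ : m • (k, _) = (i', _)) ▸ ((hm 3).2.2 _ : m • (l, _) = (j', _)) ▸ this

variable [Finite F] {ζ : F} (h0 : ζ ≠ 0) (hζ : ∀ t, t ≠ 0 → ∃ k : ℕ, ζ ^ k = t)
include h0 hζ

omit [Finite F] in
theorem r2 (ho : o ≠ o') (h1 : o ≠ k) (h2 : o' ≠ k) (H : B (o, e0 F) (o', e0 F) * B (o', e1 F) (k, e0 F) *
      (B (o, e0 F) (o', e0 F))⁻¹ * (B (o', e1 F) (k, e0 F))⁻¹ = B (o, e0 F) (k, e0 F))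
    (h : i ≠ j) (h3 : i ≠ l) (h4 : j ≠ l) (hv : v ≠ 0) (hz : z ≠ 0) (hw : w 0 * w' 1 - w' 0 * w 1 = 1) (s t : F) :
    Cm (fun s : F => B (i, s • v) (j, w)) (fun s => B (j, s • w') (l, z)) (fun s => B (i, s • v) (l, z)) s t := by
  have b : Cm (fun s : F => B (o, s • e0 F) (o', e0 F)) (fun s => B (o', s • e1 F) (k, e0 F))
      (fun s => B (o, s • e0 F) (k, e0 F)) s t := by
    refine Cm.all hζ (S.add _ _ ho) (S.add _ _ h2) (S.add _ _ h1) (S.act_none ho h1 h2 _) one_ne_zero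
      (S.act_right h2 (D2_e0 h0)) ((S.act_right h1 (D2_e0 h0)).cast (one_mul _).symm) (fun e => ?_) s t
    simpa using Cm.step (s := 1) (t := 1) (by simpa [Cm] using H) ((S.act_left ho (D2_e0 h0)).pow e)
      ((S.act_none h2 ho.symm h1.symm _).pow e) (((S.act_left h1 (D2_e0 h0)).pow e).cast (by simp))
  obtain ⟨a, rfl⟩ := exists_s2' hv
  obtain ⟨c, rfl⟩ := exists_s2' hz
  obtain ⟨d, rfl, rfl⟩ := exists_s2 hw
  obtain ⟨m, hm⟩ := exists_wr (X := Fin 2 → F) (inj3 ho h1 h2) (inj3 h h3 h4) ![a, d, c]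
  have e1 : ∀ x, m • (o, x) = (i, a • x) := (hm 0).2.2
  have e2 : ∀ x, m • (o', x) = (j, d • x) := (hm 1).2.2
  have e3 : ∀ x, m • (k, x) = (l, c • x) := (hm 2).2.2
  simpa only [S.eqv m (p := (o, _)) (q := (o', _)) ho, S.eqv m (p := (o', _)) (q := (k, _)) h2,
    S.eqv m (p := (o, _)) (q := (k, _)) h1, e1, e2, e3, smul_comm a, smul_comm d] using b.conj (ω m)

theorem r34 (ho : o ≠ o') (H : B (o, e0 F) (o', e0 F) * B (o, e1 F) (o', e0 F) *
      (B (o, e0 F) (o', e0 F))⁻¹ * (B (o, e1 F) (o', e0 F))⁻¹ ∈ LS ω o' (e0 F))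
    (H' : B (o, e0 F) (o', e0 F) * ω (el o (Y2 1)) * (B (o, e0 F) (o', e0 F))⁻¹ * (ω (el o (Y2 1)))⁻¹ ∈
      N4 ω B o (e1 F) o' (e0 F)) (h : i ≠ j) (hw : w ≠ 0) (hv : v 0 * v' 1 - v' 0 * v 1 = 1) :
    WC (LS ω j w) (fun s : F => B (i, s • v) (j, w)) (fun s => B (i, s • v') (j, w)) ∧
    ∀ y : F → S2 F, (∀ t, y t • v' = v') →
      WC (N4 ω B i v' j w) (fun s : F => B (i, s • v) (j, w)) fun t => ω (el i (y t)) := by
  have hi := inv_ne_zero h0
  have n1 : Nz (LS ω o' (e0 F)) (ω (el o' (D2 ζ h0))) := LS_nz h0 fun _ => D2_e0 h0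
  have n2 : ∀ a, Nz (LS ω o' (e0 F)) (ω (el o a)) := fun a => LS_nz one_ne_zero fun e => absurd e ho
  have nm : ∀ {N : Subgroup J} {g g'}, Nz N g → Nz N g' → Nz N (g * g') := fun h h' n hn => by
    simpa [mul_assoc] using h _ (h' n hn)
  have a1 := (S.act_left (w := e0 F) ho (D2_e0 hi)).mul (S.act_right ho (D2_e0 h0))
  have a2 := (S.act_left (w := e0 F) ho (D2_e1 hi)).mul (S.act_right ho (D2_e0 h0))
  rw [inv_mul_cancel₀ h0] at a1
  rw [inv_inv, ← sq] at a2
  have b : WC (LS ω o' (e0 F)) (fun s : F => B (o, s • e0 F) (o', e0 F)) fun s => B (o, s • e1 F) (o', e0 F) :=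
    (gn_sq hζ).wc (gn_sq hζ) (S.add _ _ ho) (S.add _ _ ho) (fun s => .of_comm (S.comm_LS ho s))
      (fun s => .of_comm (S.comm_LS ho s))
      (((S.act_left ho (D2_e0 h0)).mul (S.act_right ho (D2_e0 h0))).cast (sq _).symm)
      (((S.act_left ho (D2_e1 h0)).mul (S.act_right ho (D2_e0 h0))).cast (inv_mul_cancel₀ h0)) (a1.comm 1) a2
      (nm (n2 _) n1) (nm (n2 _) n1) (by simpa using H)
  have m1 : ∀ i v j w t, B (i, t • v) (j, w) ∈ N4 ω B i v j w := fun _ _ _ _ t =>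
    Subgroup.subset_closure (Or.inl ⟨t, rfl⟩)
  have m2 : ∀ i v j w, LS ω j w ≤ N4 ω B i v j w := fun _ _ _ _ _ h => Subgroup.subset_closure (Or.inr h)
  have n3 : ∀ {g c}, Act g (fun s : F => B (o, s • e1 F) (o', e0 F)) c → Nz (LS ω o' (e0 F)) g →
      Nz (N4 ω B o (e1 F) o' (e0 F)) g := fun h h' => Nz.closure (by
    rintro _ (⟨t, rfl⟩ | hn)
    · exact h t ▸ m1 _ _ _ _ _
    · exact m2 _ _ _ _ (h' _ hn))
  have b' : WC (N4 ω B o (e1 F) o' (e0 F)) (fun s : F => B (o, s • e0 F) (o', e0 F)) fun t => ω (el o (Y2 t)) := by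
    refine (gn_of_prim hζ).wc (gn_sq hζ) (S.add _ _ ho) ((ad_Y2.map (el o)).map ω) (fun s => Nz.closure ?_)
      (fun s => n3 (S.act_left (c := 1) ho (by simpa using Y2_e1 s)) (n2 _)) (S.act_right ho (D2_e0 h0))
      (.of_comm fun t => (el_comm ho.symm _ _).map ω) (a1.comm 1) (fun t => ?_)
      (n3 (S.act_right ho (D2_e0 h0)) n1) (n3 a2 (nm (n2 _) n1)) (by simpa using H')
    · rintro _ (⟨t, rfl⟩ | hn)
      · simpa [N4] using mul_mem (m2 o (e1 F) _ _ (b s t)) (m1 o (e1 F) _ _ t)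
      · exact m2 _ _ _ _ (Nz.of_comm (S.comm_LS ho s) _ hn)
    · rw [← D2_Y2 h0, D2_inv, mul_assoc (ω _), ((el_comm ho.symm _ _).map ω).eq]
      simp only [map_mul, map_inv]; group
  obtain ⟨c, rfl⟩ := exists_s2' hw
  obtain ⟨a, rfl, rfl⟩ := exists_s2 hv
  obtain ⟨m, hm⟩ := exists_wr (X := Fin 2 → F) (inj2 ho) (inj2 h) ![a, c]
  have e1 : ∀ x, m • (o, x) = (i, a • x) := (hm 0).2.2
  have e2 : ∀ x, m • (o', x) = (j, c • x) := (hm 1).2.2
  have e3 : ∀ x (t : F), ω m * B (o, t • x) (o', e0 F) * (ω m)⁻¹ = B (i, t • a • x) (j, c • e0 F) := fun x t => by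
    rw [S.eqv _ ho, e1, e2, smul_comm a]
  have e4 := LS_conj (ω := ω) m o' (e0 F)
  rw [e2] at e4
  refine ⟨by simpa only [e3] using b.conj (ω m) e4, fun y hy => (b'.conj (ω m) fun n hn => ?_).of_sub
    (fun s => ⟨s, (e3 _ s).symm⟩) fun t => ?_⟩
  · refine (Subgroup.closure_le ((N4 ω B i _ j _).comap (MulAut.conj (ω m)).toMonoidHom)).2 ?_ hn
    rintro _ (⟨t, rfl⟩ | hn)
    · exact (e3 _ t ▸ m1 _ _ _ _ t :)
    · exact m2 _ _ _ _ (e4 _ hn)
  · have := stab_e1 (a := a⁻¹ * y t * a) (by rw [mul_smul, mul_smul, hy, inv_smul_smul])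
    refine ⟨(a⁻¹ * y t * a) 1 0, ?_⟩
    rw [← this, ← map_inv, ← map_mul, ← map_mul, conj_el, show m.right o = i from (hm 0).1,
      show m.left i = a from (hm 0).2.1]
    congr 2; group

end SpB

section root

variable {m : ℕ}

/-- The hyperbolic plane of a basis vector. -/
def ix (a : Fin m ⊕ Fin m) : Fin m := a.elim id id

/-- The basis vector inside its plane. -/
def bs (F : Type*) [Field F] (a : Fin m ⊕ Fin m) : Fin 2 → F := a.elim (fun _ => e0 F) fun _ => e1 F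

/-- The transvections fixing a basis vector. -/
def U2 (a : Fin m ⊕ Fin m) : F → S2 F := a.elim (fun _ => X2) fun _ => Y2

/-- The Gram coefficients. -/
def dl (F : Type*) [Field F] (a : Fin m ⊕ Fin m) : F := a.elim (fun _ => -1) fun _ => 1

theorem dl_eq (a : Fin m ⊕ Fin m) : (frE m true).δ F a = dl F a := by
  rcases a with a | a <;> simp [Fr.δ, frE_lng, frE_rk_inl, frE_rk_inr, dl]

theorem dl_sq (a : Fin m ⊕ Fin m) (t : F) : dl F a * (dl F a * t) = t := by rcases a with a | a <;> simp [dl]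

theorem dl_swap (a : Fin m ⊕ Fin m) : dl F a.swap = -dl F a := by rcases a with a | a <;> simp [dl]

theorem ix_swap (a : Fin m ⊕ Fin m) : ix a.swap = ix a := by rcases a with a | a <;> rfl

theorem ix_ne {a b : Fin m ⊕ Fin m} (h : a ≠ b) (h' : a ≠ b.swap) : ix a ≠ ix b := by
  rcases a with a | a <;> rcases b with b | b <;> simp_all [ix]

theorem bs_ne (a : Fin m ⊕ Fin m) : bs F a ≠ 0 := by rcases a with a | a <;> simp [bs, e0_ne, e1_ne]

theorem bs_det (a : Fin m ⊕ Fin m) :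
    bs F a.swap 0 * (dl F a • bs F a) 1 - (dl F a • bs F a) 0 * bs F a.swap 1 = 1 := by
  rcases a with a | a <;> simp [bs, dl, e0, e1]

theorem U2_bs (a : Fin m ⊕ Fin m) (t : F) : U2 a t • bs F a = bs F a := by
  rcases a with a | a
  exacts [X2_e0 t, Y2_e1 t]

theorem ad_U2 (a : Fin m ⊕ Fin m) : Ad (U2 (F := F) a) := by
  rcases a with a | a
  exacts [ad_X2, ad_Y2]

theorem stab_bs {a : Fin m ⊕ Fin m} {g : S2 F} (h : g • bs F a = bs F a) : ∃ t, g = U2 a t := by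
  rcases a with a | a
  exacts [⟨_, stab_e0 h⟩, ⟨_, stab_e1 h⟩]

/-- The root elements. -/
def xs (ω : Wr (S2 F) (Fin m) →* J) (B : Fin m × (Fin 2 → F) → Fin m × (Fin 2 → F) → J) (i j : Fin m ⊕ Fin m)
    (t : F) : J :=
  if i = j.swap then ω (el (ix i) (U2 i t)) else B (ix i, (dl F j * t) • bs F i) (ix j, bs F j.swap)

variable {ω : Wr (S2 F) (Fin m) →* J} {B : Fin m × (Fin 2 → F) → Fin m × (Fin 2 → F) → J}

theorem xs_long (i : Fin m ⊕ Fin m) : xs ω B i i.swap = fun t => ω (el (ix i) (U2 i t)) :=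
  funext fun _ => if_pos i.swap_swap.symm

theorem xs_short {i j : Fin m ⊕ Fin m} (h : i ≠ j.swap) :
    xs ω B i j = fun t => B (ix i, (dl F j * t) • bs F i) (ix j, bs F j.swap) := funext fun _ => if_neg h

theorem adm_C {i j : Fin m ⊕ Fin m} : (frE m true).Adm i j ↔ i ≠ j := ⟨fun h => h.1, fun h => ⟨h, fun _ => rfl⟩⟩

theorem sp_inj [Finite F] {n : ℕ} (hn : 1 ≤ n) {ω : Wr (S2 F) (Fin (n + 1)) →* J}
    {B : Fin (n + 1) × (Fin 2 → F) → Fin (n + 1) × (Fin 2 → F) → J} (S : SpB ω B)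
    (R1 : ∀ {i j i' j'}, Injective ![i, j, i', j'] → ∀ v w v' w', Commute (B (i, v) (j, w)) (B (i', v') (j', w')))
    (R2 : ∀ {i j l v w w' z}, i ≠ j → i ≠ l → j ≠ l → v ≠ 0 → z ≠ 0 → w 0 * w' 1 - w' 0 * w 1 = 1 → ∀ s t : F,
      Cm (fun s : F => B (i, s • v) (j, w)) (fun s => B (j, s • w') (l, z)) (fun s => B (i, s • v) (l, z)) s t)
    (R3 : ∀ {i j v v' w}, i ≠ j → w ≠ 0 → v 0 * v' 1 - v' 0 * v 1 = 1 →
      WC (LS ω j w) (fun s : F => B (i, s • v) (j, w)) (fun s => B (i, s • v') (j, w)) ∧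
      ∀ y : F → S2 F, (∀ t, y t • v' = v') →
        WC (N4 ω B i v' j w) (fun s : F => B (i, s • v) (j, w)) fun t => ω (el i (y t)))
    (hG : Subgroup.closure {g | ∃ i j t, (frE (n + 1) true).Adm i j ∧ xs ω B i j t = g} = ⊤)
    (θ : J →* GL (Fin (n + 1) ⊕ Fin (n + 1)) F)
    (hθ : ∀ i j, (frE (n + 1) true).Adm i j → ∀ t, θ (xs ω B i j t) = (frE (n + 1) true).y F i j t) :
    Injective θ := by
  have sw : ∀ {i j : Fin (n + 1) ⊕ Fin (n + 1)}, i ≠ j.swap → j ≠ i.swap := fun h e => h (by simp [e])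
  have wb : ∀ i : Fin (n + 1) ⊕ Fin (n + 1), (frE (n + 1) true).wt i.swap = -(frE (n + 1) true).wt i :=
    (frE (n + 1) true).wt_bar
  have ad : ∀ {i j}, i ≠ j → Ad (xs ω B i j) := by
    intro i j h
    by_cases e : i = j.swap
    · obtain rfl : j = i.swap := by simp [e]
      exact xs_long (ω := ω) i ▸ ((ad_U2 i).map (el _)).map ω
    · exact xs_short (ω := ω) e ▸ (S.add _ _ (ix_ne h e)).smul _
  have mL : ∀ {v w} (i : Fin (n + 1) ⊕ Fin (n + 1)) (a b : ℤ), 0 < a → 0 < b →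
      (2 : ℤ) • (frE (n + 1) true).wt i = a • v + b • w → LS ω (ix i) (bs F i) ≤ Btw (frE (n + 1) true) (xs ω B) v w := by
    rintro v w i a b ha hb e _ ⟨g, hg, rfl⟩
    obtain ⟨t, rfl⟩ := stab_bs hg
    have := mem_Btw (x := xs ω B) (e := i) (f := i.swap) (adm_C.2 (frE_sing (b := true) i).symm)
      a b ha hb (by rw [← e, wb]; module) t
    rw [xs_long] at this; exact this
  have mS : ∀ {v w} {i j : Fin (n + 1) ⊕ Fin (n + 1)}, i ≠ j → i ≠ j.swap →
      (frE (n + 1) true).wt i - (frE (n + 1) true).wt j = v + w → ∀ t : F,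
      B (ix i, t • bs F i) (ix j, bs F j.swap) ∈ Btw (frE (n + 1) true) (xs ω B) v w := fun {v w i j} h h' e t => by
    simpa only [xs_short h', dl_sq] using mem_Btw (x := xs ω B) (adm_C.2 h) 1 1 one_pos one_pos (by simpa using e)
      (dl F j * t)
  have ls : ∀ {i j l : Fin (n + 1) ⊕ Fin (n + 1)}, j ≠ l → j ≠ l.swap → i = j ∨ ix j ≠ ix i ∧ ix l ≠ ix i →
      ∀ s t, Commute (xs ω B i i.swap s) (xs ω B j l t) := by
    intro i j l h h' e s t
    rw [xs_long, xs_short h']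
    rcases e with rfl | e
    · exact (S.act_left (c := 1) (ix_ne h h') (by simpa using U2_bs i s)).comm _
    · exact (S.act_none (ix_ne h h') e.1 e.2 _).comm _
  have fl : ∀ {i j : Fin (n + 1) ⊕ Fin (n + 1)}, i ≠ j → i ≠ j.swap → ∀ s,
      xs ω B i j s = B (ix j, (dl F j * s) • bs F j.swap) (ix i, bs F i) := fun h h' s => by
    rw [xs_short h']; exact S.flip (ix_ne h h') _
  refine (exists_rg_fr (baseC n) (genC hn) (x := xs ω B) (fun h => ad h.1) (fun {i j} h t => ?_)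
    (fun {i j l} h h' e s t => ?_) (fun {i j k l} h h' e1 e2 e3 e4 e5 e6 e7 e8 s t => ?_) (fun {i j l} h h' e => ?_)
    hG θ hθ).elim fun X ⟨hX, _, H⟩ => ?_
  rotate_right
  · refine (injective_iff_map_eq_one _).2 fun g hg => ?_
    obtain ⟨c, hc, rfl⟩ := (H g hg).2
    have k : ∀ v, H39.chi (baseC n).euc v c = 1 := fun v => by
      rw [H39.chi_eq_pow _ (d := 1) (fun j => hc (.inl j)), _root_.one_zpow]
    have k0 : c none = 1 := by
      have := k fun _ => 1
      rw [H39.chi_apply, Fintype.prod_option] at this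
      change _ ^ (Fr.cov (spC n none) ⬝ᵥ _) * ∏ i, _ ^ (Fr.cov (chainE true i) ⬝ᵥ _) = _ at this
      simpa [H39.cov_spC_none, H39.cov_chainE] using this
    rw [show c = 1 from funext fun i => ?_, map_one]
    rcases i with _ | i
    · exact k0
    have := k fun l => if l ≤ i.castSucc then 1 else 0
    rw [H39.chi_apply, Fintype.prod_option, k0, _root_.one_zpow, one_mul, Finset.prod_eq_single i] at this
    · simpa [Fr.Base.euc, baseC, spC, H39.cov_chainE] using this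
    · intro j _ hj
      change _ ^ (Fr.cov (chainE true j) ⬝ᵥ _) = _
      rw [H39.cov_chainE]
      simp only [sub_dotProduct, single_dotProduct, one_mul, Fin.castSucc_le_castSucc_iff, Fin.succ_le_castSucc_iff]
      rw [show ((if j ≤ i then 1 else 0) - if j < i then 1 else 0 : ℤ) = 0 by grind, zpow_zero]
    · simp
  · rw [Fr.κs_eq _ (frE_sing i) (frE_sing j), dl_eq, dl_eq, frE_bar]
    by_cases e : i = j.swap
    · subst e; simp [dl_swap, mul_assoc, dl_sq]
    · rw [fl h.1 e, xs_short (by simpa using Ne.symm e), ix_swap, ix_swap, Sum.swap_swap, dl_swap]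
      exact congrArg (fun c : F => B (ix j, c • _) _) (by linear_combination dl_sq j (dl F i * t))
  · rw [frE_bar] at e
    by_cases e0 : j = l
    · subst e0; exact (ad h.1).comm _ _
    by_cases e1 : i = j.swap
    · obtain rfl : j = i.swap := by simp [e1]
      exact ls h'.1 (fun e => e0 (by simp [e])) (Or.inl rfl) _ _
    by_cases e2 : i = l.swap
    · obtain rfl : l = i.swap := by simp [e2]
      exact (ls h.1 e1 (Or.inl rfl) _ _).symm
    rw [xs_short e1, xs_short e2]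
    exact Cm.left (S.add _ _ (ix_ne h.1 e1)) (S.add _ _ (ix_ne h'.1 e2)) (fun s => R2 (ix_ne h.1 e1) (ix_ne h'.1 e2)
      (ix_ne e0 (sw e)) (bs_ne _) (bs_ne _) (bs_det j) s 1) _ _
  · rw [frE_bar] at e3 e4 e7 e8
    by_cases k1 : i = j.swap
    · obtain rfl : j = i.swap := by simp [k1]
      by_cases k2 : k = l.swap
      · obtain rfl : l = k.swap := by simp [k2]
        rw [xs_long, xs_long]; exact (el_comm (ix_ne e1 e3).symm _ _).map ω
      · exact ls h'.1 k2 (Or.inr ⟨ix_ne e1 e3, ix_ne e5 e7⟩) _ _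
    by_cases k2 : k = l.swap
    · obtain rfl : l = k.swap := by simp [k2]
      exact (ls h.1 k1 (Or.inr ⟨(ix_ne e1 e3).symm, (ix_ne e2 e4).symm⟩) _ _).symm
    rw [xs_short k1, xs_short k2]
    exact R1 (inj4 (ix_ne h.1 k1) (ix_ne e1 e3).symm (ix_ne e2 e4).symm (ix_ne e5 e7).symm (ix_ne e6 e8).symm
      (ix_ne h'.1 k2)) _ _ _ _
  by_cases k1 : i = j.swap
  · subst k1
    have k2 : j ≠ l.swap := sw e.symm
    refine ((((R3 (ix_ne h'.1 k2) (bs_ne l.swap) (v := bs F j) (v' := dl F j.swap • bs F j.swap)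
      (by simpa using bs_det j.swap)).2 (U2 j.swap)
      fun t => by rw [smul_comm, U2_bs]).symm.of_sub (fun s => ⟨s, ?_⟩) fun s => ⟨_, by rw [xs_short k2]⟩)).mono ?_
    · simpa [ix_swap] using congrFun (xs_long (ω := ω) (B := B) j.swap) s
    · refine (Subgroup.closure_le _).2 (Set.union_subset ?_ ?_)
      · rintro _ ⟨t, rfl⟩
        simpa only [ix_swap, smul_smul, SetLike.mem_coe] using
          mS e (fun e' => h'.1 (Sum.swap_leftInverse.injective e')) (by abel) _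
      · rw [← ix_swap l]; exact mL _ 1 2 one_pos two_pos (by rw [wb, wb]; module)
  by_cases k2 : j = l.swap
  · subst k2
    refine ((((R3 (ix_ne h.1 k1).symm (bs_ne i) (bs_det l.swap)).2 (U2 l.swap)
      fun t => by rw [smul_comm, U2_bs]).of_sub (fun s => ⟨_, fl h.1 k1 s⟩) fun s => ⟨s, ?_⟩)).mono ?_
    · simpa using congrFun (xs_long (ω := ω) (B := B) l.swap) s
    · refine (Subgroup.closure_le _).2 (Set.union_subset ?_ ?_)
      · rintro _ ⟨t, rfl⟩
        simpa only [ix_swap, smul_smul, S.flip (ix_ne e h.1), SetLike.mem_coe] using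
          mS e h.1 (by abel) (t * dl F l.swap)
      · exact mL _ 2 1 two_pos one_pos (by rw [wb]; module)
  by_cases k3 : i = l.swap
  · subst k3
    refine ((R3 (ix_ne h.1 k1).symm (bs_ne l.swap) (bs_det j)).1.of_sub (fun s => ⟨_, fl h.1 k1 s⟩)
      fun s => ⟨dl F j * (dl F l * s), ?_⟩).mono (mL _ 1 1 one_pos one_pos (by rw [wb]; module))
    rw [xs_short k2, smul_smul, mul_comm _ (dl F j), dl_sq, ix_swap]
  · intro s t
    have := R2 (ix_ne h.1 k1) (ix_ne e k3) (ix_ne h'.1 k2) (bs_ne i) (bs_ne l.swap) (bs_det j) (dl F j * s)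
      (dl F j * (dl F l * t))
    simp only [Cm, smul_smul, mul_comm _ (dl F j), dl_sq] at this
    simp only [xs_short k1, xs_short k2, this]
    exact mS e k3 (by abel) _

end root

end Cfsg.Agent.H3
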