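import Cfsg.Agent.H3.PresSp2
import Cfsg.Agent.H3.PresSLn
import Cfsg.Agent.H3.PresAlt4
import Cfsg.Agent.S0246

/-! The matrix model for the symplectic presentation. -/

set_option autoImplicit false

namespace Cfsg.Agent.H3

open Function Equiv Matrix SemidirectProduct Wr H38

variable {F : Type*} [Field F] {m : ℕ}

/-- The coordinate of a basis vector inside its plane. -/
def cd (a : Fin m ⊕ Fin m) : Fin 2 := a.elim (fun _ => 0) fun _ => 1

theorem ix_inl (a : Fin m) : ix (.inl a) = a := (rfl)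

theorem ix_inr (a : Fin m) : ix (.inr a) = a := (rfl)

/-- The block monomial matrices. -/
def rhoM (F : Type*) [Field F] (m : ℕ) : Wr (S2 F) (Fin m) →* Matrix (Fin m ⊕ Fin m) (Fin m ⊕ Fin m) F where
  toFun g := of fun a b => if ix a = g.right (ix b) then (g.left (ix a)).1 (cd a) (cd b) else 0
  map_one' := by ext (a | a) (b | b) <;> simp [ix_inl, ix_inr, cd, one_apply]
  map_mul' g h := by
    ext a b
    obtain ⟨k, hk⟩ := g.right.surjective (ix a)
    simp only [mul_apply, of_apply, Fintype.sum_sum_type, mul_right, mul_left', ← hk, Perm.mul_apply,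
      EmbeddingLike.apply_eq_iff_eq, Matrix.SpecialLinearGroup.coe_mul, Fin.sum_univ_two, ix_inl, ix_inr]
    simp [cd]
    split_ifs with e
    · rw [← e]
    · simp

/-- The block monomial matrices as units. -/
def rhoS (F : Type*) [Field F] (m : ℕ) : Wr (S2 F) (Fin m) →* GL (Fin m ⊕ Fin m) F := (rhoM F m).toHomUnits

/-- A vector in one of the planes. -/
def vc (p : Fin m × (Fin 2 → F)) : Fin m ⊕ Fin m → F := fun a => if ix a = p.1 then p.2 (cd a) else 0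

theorem ap_vc (g : Wr (S2 F) (Fin m)) (p : Fin m × (Fin 2 → F)) : ap (rhoS F m g) (vc p) = vc (g • p) := by
  ext a
  obtain ⟨i, v⟩ := p
  show ∑ b, (if ix a = g.right (ix b) then (g.left (ix a)).1 (cd a) (cd b) else 0) * vc (i, v) b = _
  rw [smul_mk]
  simp only [Fintype.sum_sum_type, vc, s2_smul, ix_inl, ix_inr]
  simp [cd]
  split_ifs with h <;> simp [h]

theorem bv_eq (a : Fin m ⊕ Fin m) : bv F a = vc (ix a, bs F a) := by
  ext b; rcases a with a | a <;> rcases b with b | b <;> simp [bv_apply, vc, ix_inl, ix_inr, bs, cd, e0, e1]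

theorem vc_smul (i : Fin m) (c : F) (v : Fin 2 → F) : vc (i, c • v) = c • vc (i, v) := by ext a; simp [vc]

theorem β_vc (p q : Fin m × (Fin 2 → F)) :
    (frE m true).β (vc p) (vc q) = if p.1 = q.1 then p.2 1 * q.2 0 - p.2 0 * q.2 1 else 0 := by
  simp only [Fr.β, Fintype.sum_sum_type, dl_eq, frE_bar]
  simp [vc, ix_inl, ix_inr, cd, dl]
  grind

theorem rhoS_mem (g : Wr (S2 F) (Fin m)) : rhoS F m g ∈ (frE m true).K F := by
  refine Fr.mem_K_of_lng rfl fun x y => ?_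
  let b (k : GL (Fin m ⊕ Fin m) F) := LinearMap.mk₂ F (fun x y => (frE m true).β (ap k x) (ap k y))
    (by simp [ap_add, Fr.β_add_left]) (by simp [ap_smul, Fr.β_smul_left]) (by simp [ap_add, Fr.β_add_right])
    (by simp [ap_smul, Fr.β_smul_right])
  have : b (rhoS F m g) = b 1 := LinearMap.ext_basis (Pi.basisFun F _) (Pi.basisFun F _) fun i j => by
    have e : ∀ i, Pi.basisFun F (Fin m ⊕ Fin m) i = bv F i := fun i => by simp [bv]
    simp only [b, e, LinearMap.mk₂_apply, ap_one, bv_eq, ap_vc, β_vc, smul_mk, EmbeddingLike.apply_eq_iff_eq, s2_smul]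
    split_ifs with h
    · have := (g.left (g.right (ix j))).det_coe
      rw [det_fin_two] at this
      rw [h]; linear_combination (bs F i 1 * bs F j 0 - bs F i 0 * bs F j 1) * this
    · rfl
  simpa [b, ap_one] using LinearMap.congr_fun₂ this x y

/-- The short root elements as Eichler transformations. -/
noncomputable def B0 (p q : Fin m × (Fin 2 → F)) : GL (Fin m ⊕ Fin m) F := (frE m true).E (vc p) (vc q) 0

theorem β_vc_self (p : Fin m × (Fin 2 → F)) : (frE m true).β (vc p) (vc p) = 0 := Fr.β_self_of_lng _ rfl _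

theorem β_vc_ne {p q : Fin m × (Fin 2 → F)} (h : p.1 ≠ q.1) : (frE m true).β (vc q) (vc p) = 0 := by
  rw [β_vc, if_neg h.symm]

theorem spB_B0 : SpB (rhoS F m) B0 := by
  have sy : ∀ {p q : Fin m × (Fin 2 → F)}, p.1 ≠ q.1 → B0 p q = B0 q p := fun h => by
    rw [B0, Fr.E_swap (β_vc_self _) (β_vc_self _) (β_vc_ne h), Fr.ε_of_lng _ rfl, neg_neg, one_smul, B0]
  refine ⟨fun g p q h => ?_, sy, fun {i j} c v w h => ?_, fun {i j} v w h s t => ?_⟩
  · rw [B0, Fr.E_conj (rhoS_mem g) (β_vc_self _) (β_vc_ne h), ap_vc, ap_vc, B0]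
  · rw [B0, B0, vc_smul, vc_smul, Fr.E_smul (β_vc_self _) (β_vc_ne h), mul_zero]
  · have : ∀ v, B0 (i, v) (j, w) = B0 (j, w) (i, v) := fun v => sy h
    simp only [this]
    rw [B0, B0, B0, Fr.E_mul (β_vc_self _) (β_vc_ne (by exact h.symm)) (β_vc_ne (by exact h.symm))]
    simp only [vc_smul]
    simp [add_smul, Fr.β_smul_left, Fr.β_smul_right, β_vc_self]

theorem xs_B0 {i j : Fin m ⊕ Fin m} (h : i ≠ j) : xs (rhoS F m) B0 i j = (frE m true).y F i j := by
  ext1 t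
  by_cases e : i = j.swap
  · subst e
    refine ext_bv fun a => ?_
    rw [xs, if_pos rfl, ← frE_bar (b := true), Fr.ap_y_long (frE_sing j), bv_eq a, ap_vc, bv_eq, frE_bar, ix_swap]
    by_cases k : ix a = ix j
    · rw [k, el_smul]
      ext b
      rcases a with a | a <;> rcases j with j | j <;> rcases b with b | b <;>
        simp_all [vc, ix_inl, ix_inr, cd, bs, U2, s2_smul, X2_val, Y2_val, e0, e1]
    · rw [el_smul_ne k]; simp [vc, Ne.symm k]
  · rw [xs, if_neg e, spB_B0.symm (ix_ne h e), Fr.y_gen (frE_sing j) e, Fr.q_sing _ (frE_sing i), mul_zero, dl_eq,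
      bv_eq, bv_eq, B0, vc_smul, frE_bar, ix_swap]

theorem B0_comm {p q p' q' : Fin m × (Fin 2 → F)} (h : p.1 ≠ q.1) (h' : p'.1 ≠ q'.1) (h1 : p.1 ≠ p'.1)
    (h2 : q.1 ≠ p'.1) (h3 : p.1 ≠ q'.1) (h4 : q.1 ≠ q'.1) : Commute (B0 p q) (B0 p' q') := by
  have k : ∀ {r}, p.1 ≠ r.1 → q.1 ≠ r.1 → ap ((frE m true).E (vc p) (vc q) 0) (vc r) = vc r := fun e e' => by
    simp [Fr.ap_E (β_vc_self _) (β_vc_ne h), β_vc_ne e, β_vc_ne e']
  have := Fr.E_conj (Fr.E_mem_K (Fr.par_lng rfl _ _) (β_vc_ne h) (Fr.par_lng rfl _ 0)) (β_vc_self _) (β_vc_ne h') 0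
  rw [k h1 h2, k h3 h4] at this
  exact mul_inv_eq_iff_eq_mul.1 this

theorem ad_y {I κ : Type} [Fintype κ] {Φ : Fr I κ} [DecidableEq I] [Fintype I] {i j : I} (h : i ≠ j) :
    Ad (Φ.y F i j) := fun s t => Fr.y_add h s t

theorem comm_eq_of {G : Type*} [Group G] {x y : F → G} (hx : Ad x) (hy : Ad y) {s t : F} {c : G}
    (h : y (-t) * x (-s) = x (-s) * y (-t) * c) : x s * y t * (x s)⁻¹ * (y t)⁻¹ = c⁻¹ := by
  rw [hx.neg, hy.neg] at h
  rw [show c = ((x s)⁻¹ * (y t)⁻¹)⁻¹ * ((y t)⁻¹ * (x s)⁻¹) by rw [h]; group]; group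

theorem B0_rel {o o' : Fin m} (ho : o ≠ o') :
    (∀ k, o ≠ k → o' ≠ k → B0 (o, e0 F) (o', e0 F) * B0 (o', e1 F) (k, e0 F) * (B0 (o, e0 F) (o', e0 F))⁻¹ *
      (B0 (o', e1 F) (k, e0 F))⁻¹ = B0 (o, e0 F) (k, e0 F)) ∧
    B0 (o, e0 F) (o', e0 F) * B0 (o, e1 F) (o', e0 F) * (B0 (o, e0 F) (o', e0 F))⁻¹ * (B0 (o, e1 F) (o', e0 F))⁻¹ ∈
      LS (rhoS F m) o' (e0 F) ∧
    B0 (o, e0 F) (o', e0 F) * rhoS F m (el o (Y2 1)) * (B0 (o, e0 F) (o', e0 F))⁻¹ * (rhoS F m (el o (Y2 1)))⁻¹ ∈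
      N4 (rhoS F m) B0 o (e1 F) o' (e0 F) := by
  have sh : ∀ {i j : Fin m ⊕ Fin m}, i ≠ j → i ≠ j.swap → ∀ t : F, (frE m true).y F i j t =
      B0 (ix i, (dl F j * t) • bs F i) (ix j, bs F j.swap) := fun h h' t => by rw [← xs_B0 h, xs_short h']
  have lg : ∀ (i : Fin m ⊕ Fin m) (t : F), (frE m true).y F i i.swap t = rhoS F m (el (ix i) (U2 i t)) := fun i t => by
    rw [← xs_B0 (show i ≠ i.swap from (frE_sing (b := true) i).symm), xs_long]
  have l1 : ∀ t, (frE m true).y F (.inl o') (.inr o') t ∈ LS (rhoS F m) o' (e0 F) := fun t =>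
    ⟨X2 t, X2_e0 t, (lg (.inl o') t).symm⟩
  have s1 : ∀ t : F, (frE m true).y F (.inl o') (.inl o) t = B0 (o, -t • e1 F) (o', e0 F) := fun t => by
    rw [sh (by simp [ho.symm]) (by simp), spB_B0.flip (i := o) ho]; simp [dl, ix, bs]
  have s2 : ∀ {i j : Fin m}, i ≠ j → (frE m true).y F (.inl i) (.inr j) 1 = B0 (i, e0 F) (j, e0 F) := fun h => by
    rw [sh (by simp) (by simpa using h)]; simp [dl, ix, bs]
  refine ⟨fun k h1 h2 => ?_, ?_, ?_⟩
  · have := comm_eq_of (ad_y (by simp)) (ad_y (by simpa using h2)) (Fr.y_comm_gen (F := F) (Φ := frE m true)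
      (a := .inl o) (b := .inr o') (c := .inr k) (frE_sing _) (frE_sing _) (frE_sing _) (by simp) (by simp [h2])
      (by simp) (by simp [frE_bar, ho]) (by simp [frE_bar]) (by simp [frE_bar, h1]) (-1) (-1))
    rw [s2 ho, sh (i := .inr o') (by simpa using h2) (by simp), ← (ad_y Sum.inl_ne_inr).neg] at this
    simpa [ix, bs, dl, s2 h1] using this
  · have := comm_eq_of (ad_y (by simp [frE_bar, ho.symm])) (ad_y (by simp)) (Fr.y_comm_cc (F := F) (Φ := frE m true)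
      (b := .inl o) (c := .inr o') rfl (by simp) (by simp [frE_bar, ho]) (- -1) (-1))
    rw [frE_bar, Sum.swap_inr, s1, s2 ho] at this
    have k := inv_mem (this ▸ inv_mem (l1 _) :)
    simpa [mul_assoc] using k
  · have := comm_eq_of (ad_y (by simp [frE_bar])) (ad_y (frE_sing _)) ((Fr.y_comm_sl (F := F) (Φ := frE m true)
      (a := .inl o') (c := .inl o) rfl (by simp [frE_bar]) (by simp [ho.symm]) (-1) (-1)).trans (mul_assoc _ _ _))
    rw [frE_bar, Sum.swap_inl, s1, s2 ho.symm, spB_B0.symm (p := (o', _)) ho.symm,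
      show Fr.y _ F (Sum.inr o) (Sum.inl o) 1 = rhoS F m (el o (Y2 1)) from lg (.inr o) 1] at this
    exact this ▸ inv_mem (mul_mem (Subgroup.subset_closure (Or.inl ⟨_, rfl⟩)) (Subgroup.subset_closure (Or.inr (l1 _))))

section maps

variable {J G : Type*} [Group J] [Group G] (f : J →* G) {I : Type} [DecidableEq I] {ω : Wr (S2 F) I →* J}
  {B : I × (Fin 2 → F) → I × (Fin 2 → F) → J}

theorem map_LS (j : I) (w : Fin 2 → F) : (LS ω j w).map f = LS (f.comp ω) j w := Subgroup.map_map _ _ _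

theorem map_N4 (i j : I) (v w : Fin 2 → F) :
    (N4 ω B i v j w).map f = N4 (f.comp ω) (fun p q => f (B p q)) i v j w := by
  rw [N4, N4, MonoidHom.map_closure, Set.image_union, ← Set.range_comp, ← Subgroup.coe_map, map_LS]; rfl

theorem SpB.Bf_eq (S : SpB ω B) {o o' : I} (ho : o ≠ o') {p q : I × (Fin 2 → F)} (h : p.1 ≠ q.1) :
    Bf o o' ω (B (o, e0 F) (o', e0 F)) p q = B p q := by
  rw [Bf]
  split_ifs with e
  · rcases e with e | e
    · rw [← S.zero_left (w := q.2) h, ← e]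
    · rw [← S.zero_right (v := p.2) h, ← e]
  obtain ⟨g, e1, e2⟩ := trans_pair ho h (not_or.1 e).1 (not_or.1 e).2
  exact fam_val (Z := fun r : (I × (Fin 2 → F)) × I × (Fin 2 → F) => B r.1 r.2) (fun w => S.eqv w ho) (r := (p, q))
    ⟨g, Prod.ext (by simpa using e1 1) (by simpa using e2 1)⟩

/-- The subgroup generated by the root elements. -/
def XS (ω : Wr (S2 F) (Fin m) →* J) (B : Fin m × (Fin 2 → F) → Fin m × (Fin 2 → F) → J) : Subgroup J :=
  Subgroup.closure {g | ∃ i j t, (frE m true).Adm i j ∧ xs ω B i j t = g}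

theorem map_xs {ω : Wr (S2 F) (Fin m) →* J} {B : Fin m × (Fin 2 → F) → Fin m × (Fin 2 → F) → J} (i j) (t : F) :
    f (xs ω B i j t) = xs (f.comp ω) (fun p q => f (B p q)) i j t := by
  simp only [xs]; split_ifs <;> rfl

theorem map_XS {ω : Wr (S2 F) (Fin m) →* J} {B : Fin m × (Fin 2 → F) → Fin m × (Fin 2 → F) → J} :
    (XS ω B).map f = XS (f.comp ω) fun p q => f (B p q) := by
  rw [XS, XS, MonoidHom.map_closure]
  congr 1; ext g
  exact ⟨by rintro ⟨_, ⟨i, j, t, h, rfl⟩, rfl⟩; exact ⟨i, j, t, h, (map_xs f i j t).symm⟩,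
    by rintro ⟨i, j, t, h, rfl⟩; exact ⟨_, ⟨i, j, t, h, rfl⟩, map_xs f i j t⟩⟩

end maps

theorem sl2_XY {K : Subgroup (S2 F)} (h1 : ∀ s, X2 s ∈ K) (h2 : ∀ s, Y2 s ∈ K) : K = ⊤ := by
  have k : ∀ a (ha : a ≠ 0), D2 a ha * T2 F ∈ K := fun a ha => by
    convert mul_mem (mul_mem (h1 a) (h2 (-a⁻¹))) (h1 a) using 1
    exact Subtype.ext (by simp [X2_val, Y2_val, D2_val, T2_val, ha])
  have k1 : T2 F ∈ K := by
    convert k 1 one_ne_zero using 1
    exact Subtype.ext (by simp [D2_val, T2_val])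
  exact sl2_mem h1 (fun a ha => by simpa using mul_mem (k a ha) (inv_mem k1)) k1

universe v in
theorem Pk.ex {α G : Type*} {Γ : Type v} [Group G] [Group Γ] {ψ : Γ →* G} {r : ℕ}
    {P : α → ∀ (J : Type v) [Group J], (Γ →* J) → Prop} (p : α → Prop) (h : ∀ a, p a → Pk ψ r (P a)) :
    Pk ψ r fun J _ f => (∃ a, p a) → ∃ a, p a ∧ P a J f := by
  by_cases e : ∃ a, p a
  · obtain ⟨a, ha⟩ := e
    exact (h a ha).imp fun J _ f hf _ => ⟨a, ha, hf⟩
  · exact (Pk.triv fun J _ f h => absurd h e).mono (Nat.zero_le _)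

theorem pres_sp [Finite F] {n e s : ℕ} (hn : 1 ≤ n) (hP : Pr (Perm (Fin (n + 1))) e s) :
    Pr (symplecticGroup (Fin (n + 1)) F) (e + 4) (s + 32 + min 3 (n - 1) * 3 + min 3 (n - 2) + min 3 n) := by
  obtain ⟨ζ, h0, hζ⟩ := exists_prim F
  obtain ⟨α, hα⟩ := (pres_sl2 (F := F)).1.hp
  obtain ⟨γ, hγ⟩ := ((pres_sl2 (F := F)).1.wr hP (by simpa using hn)).hp
  obtain ⟨o, o', ho⟩ := Fintype.exists_pair_of_one_lt_card (α := Fin (n + 1)) (by simp; omega)
  obtain ⟨L, l1, l2, l3⟩ := exists_sym_gens ({o, o'}ᶜ : Finset (Fin (n + 1)))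
  obtain ⟨L', l1', l2', l3'⟩ := exists_sym_gens (Finset.univ : Finset (Fin (n + 1)))
  rw [Finset.card_compl, Finset.card_pair ho] at l2
  simp only [Finset.mem_compl, Finset.mem_insert, Finset.mem_singleton, not_not, forall_eq_or_imp, forall_eq] at l3
  let ψ : Monoid.Coprod (Wr (S2 F) (Fin (n + 1))) (FreeGroup Unit) →* _ :=
    Monoid.Coprod.lift (rhoS F _) (FreeGroup.lift fun _ => B0 (o, e0 F) (o', e0 F))
  let ι : Wr (S2 F) (Fin (n + 1)) →* Monoid.Coprod _ (FreeGroup Unit) := Monoid.Coprod.inl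
  let u : Monoid.Coprod (Wr (S2 F) (Fin (n + 1))) (FreeGroup Unit) := .inr (.of ())
  have hι : ψ.comp ι = rhoS F _ := rfl
  have hι' : ∀ g, ψ (ι g) = rhoS F _ g := fun _ => rfl
  have hu : ψ u = B0 (o, e0 F) (o', e0 F) := by simp [ψ, u]
  have S0 := spB_B0 (F := F) (m := n + 1)
  have hB : ∀ {i j} v w, i ≠ j → ψ (Bf o o' ι u (i, v) (j, w)) = B0 (i, v) (j, w) := fun v w h => by
    rw [map_Bf, hι, hu, S0.Bf_eq ho h]
  have hx : ∀ i j, i ≠ j → ∀ t, ψ (xs ι (Bf o o' ι u) i j t) = (frE (n + 1) true).y F i j t := fun i j h t => by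
    rw [← xs_B0 h, xs, xs]
    split_ifs with e
    exacts [rfl, hB _ _ (ix_ne h e)]
  have r1 : (spHom (n + 1) F).range ≤ (XS ι (Bf o o' ι u)).map ψ := by
    rw [← grpC_eq]
    exact ((baseC n).rg F).US_le.2 fun r _ t => ⟨_, Subgroup.subset_closure ⟨_, _, t, r.adm, rfl⟩, hx _ _ r.adm.1 t⟩
  have r2 : ∀ g ∈ (frE (n + 1) true).K F, g ∈ (spHom (n + 1) F).range := fun g hg =>
    ⟨⟨_, mem_sp_of_mem_K hg⟩, Units.ext rfl⟩
  have hr : (spHom (n + 1) F).range = ψ.range := by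
    refine le_antisymm (r1.trans (Subgroup.map_le_range _ _)) ?_
    rw [Monoid.Coprod.range_lift, FreeGroup.range_lift_eq_closure, sup_le_iff, Subgroup.closure_le]
    exact ⟨by rintro _ ⟨g, rfl⟩; exact r2 _ (rhoS_mem g), by
      rintro _ ⟨_, rfl⟩; exact r2 _ (Fr.E_mem_K (Fr.par_lng rfl _ _) (β_vc_ne ho) (Fr.par_lng rfl _ 0))⟩
  have cu : ∀ g : Wr (S2 F) (Fin (n + 1)), B0 (g • (o, e0 F)) (g • (o', e0 F)) = B0 (o, e0 F) (o', e0 F) →
      Pk ψ 1 fun _ _ f => Commute (f (ι g)) (f u) := fun g h => Pk.comm _ _ (by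
    rw [hu, hι', commute_iff_eq, ← mul_inv_eq_iff_eq_mul, S0.eqv _ ho, h])
  obtain ⟨R2, R3, R4⟩ := B0_rel (F := F) ho
  have P1 := (((cu (inr (swap o o')) (by
      rw [inr_smul, inr_smul, swap_apply_left, swap_apply_right]; exact (S0.symm ho).symm)).and
    (Pk.list L fun s hs => cu (inr s) (by
      have := (l3 s).2 (Subgroup.subset_closure hs)
      rw [inr_smul, inr_smul, this.1, this.2]))).and
    (cu (el o (X2 1)) (by rw [el_smul, el_smul_ne ho.symm, X2_e0]))).and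
    (cu (el o (D2 ζ h0) * (el o' (D2 ζ h0))⁻¹) (by
      rw [← map_inv, D2_inv, mul_smul, mul_smul, el_smul_ne ho, el_smul, el_smul, el_smul_ne ho.symm, D2_e0, D2_e0,
        S0.smul _ _ _ ho, smul_inv_smul₀ h0]))
  have P2 := Pk.ex (ψ := ψ) (fun k => o ≠ k ∧ o' ≠ k) fun k hk => (Pk.list (List.ofFn α) fun a _ => cu (el k a) (by
    rw [el_smul_ne hk.1, el_smul_ne hk.2])).and (Pk.eq (Bf o o' ι u (o, e0 F) (o', e0 F) *
      Bf o o' ι u (o', e1 F) (k, e0 F) * (Bf o o' ι u (o, e0 F) (o', e0 F))⁻¹ * (Bf o o' ι u (o', e1 F) (k, e0 F))⁻¹)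
      (Bf o o' ι u (o, e0 F) (k, e0 F)) (by
        simpa only [map_mul, map_inv, hB _ _ ho, hB _ _ hk.1, hB _ _ hk.2] using R2 k hk.1 hk.2))
  have P3 := Pk.ex (ψ := ψ) (fun k : Fin (n + 1) × Fin (n + 1) => Injective ![o, o', k.1, k.2]) fun k hk =>
    Pk.comm (Bf o o' ι u (o, e0 F) (o', e0 F)) (Bf o o' ι u (k.1, e0 F) (k.2, e0 F)) (by
      have k1 : k.1 ≠ k.2 := hk.ne (show (2 : Fin 4) ≠ 3 by decide)
      rw [hB _ _ ho, hB _ _ k1]
      exact B0_comm ho k1 (hk.ne (show (0 : Fin 4) ≠ 2 by decide)) (hk.ne (show (1 : Fin 4) ≠ 2 by decide))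
        (hk.ne (show (0 : Fin 4) ≠ 3 by decide)) (hk.ne (show (1 : Fin 4) ≠ 3 by decide)))
  have P4 := ((Pk.mod1 (ψ := ψ) (u := u) (d := ι (el o (D2 ζ h0))) (S0.add (e0 F) (e0 F) ho) (by simpa using hu)
    (S0.act_left ho (D2_e0 h0)) hζ).and
    (Pk.mem (Bf o o' ι u (o, e0 F) (o', e0 F) * Bf o o' ι u (o, e1 F) (o', e0 F) *
      (Bf o o' ι u (o, e0 F) (o', e0 F))⁻¹ * (Bf o o' ι u (o, e1 F) (o', e0 F))⁻¹) (LS ι o' (e0 F))
      (by simpa only [map_mul, map_inv, hB _ _ ho, map_LS, hι] using R3))).and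
    (Pk.mem (Bf o o' ι u (o, e0 F) (o', e0 F) * ι (el o (Y2 1)) *
      (Bf o o' ι u (o, e0 F) (o', e0 F))⁻¹ * (ι (el o (Y2 1)))⁻¹) (N4 ι (Bf o o' ι u) o (e1 F) o' (e0 F))
      (by rw [map_N4]; simpa only [map_mul, map_inv, hB _ _ ho, N4, hι, hι'] using R4))
  have P5 := Pk.list L' fun s _ => Pk.mem (ψ := ψ) (ι (inr s)) (XS ι (Bf o o' ι u)) (r1 (r2 _ (rhoS_mem _)))
  refine ((Pk.pr_range (hγ.coprod_free Unit) (((((P1.and P2).and P3).and P4).and P5).imp
    fun J _ f hf θ hf' hθ => ?_)).congr ((MonoidHom.ofInjective (spHom_inj _)).trans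
      (MulEquiv.subgroupCongr hr)).symm).mono ?_ |> fun h => by simpa [add_comm 3, add_assoc] using h
  · obtain ⟨⟨⟨⟨⟨⟨⟨c1, c2⟩, c4⟩, c5⟩, c3⟩, q1⟩, ⟨⟨y, hy, y1, yd⟩, q3⟩, q4⟩, q5⟩ := hf
    have c2' : ∀ s : Perm (Fin (n + 1)), s o = o → s o' = o' → Commute (f (ι (inr s))) (f u) := fun s h h' =>
      comm_of_gens (ω := (f.comp ι).comp inr) c2 ((l3 s).1 ⟨h, h'⟩)
    obtain ⟨S, b⟩ := spB_of h0 hζ ho (ω := f.comp ι) c1 c2' (fun k h1 h2 a => by
      obtain ⟨k', hk', c, -⟩ := c3 ⟨k, h1.symm, h2.symm⟩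
      have := Commute.cj (comm_of_gens (ω := (f.comp ι).comp (el k')) c (hα.mem_ofFn a)) (f (ι (inr (swap k' k))))
      rw [(c2' _ (swap_apply_of_ne_of_ne hk'.1 h1.symm) (swap_apply_of_ne_of_ne hk'.2 h2.symm)).eq,
        mul_inv_cancel_right] at this
      rwa [MonoidHom.comp_apply, MonoidHom.comp_apply, ← map_inv f, ← map_inv ι, ← map_mul, ← map_mul, ← map_mul,
        ← map_mul, inr_el, swap_apply_left] at this) c4 c5 hy y1 yd
    simp only [map_mul, map_inv, map_Bf, map_LS, map_N4, map_XS] at c3 q1 q3 q4 q5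
    refine sp_inj hn S (fun {i j i' j'} h => ?_) (fun {i j l _ _ _ _} h1 h2 h3 => ?_) (S.r34 h0 hζ ho q3 q4) ?_ θ
      fun i j h t => ?_
    · obtain ⟨s, hs⟩ := Perm.exists_extending_pair _ _ (inj2 (h.ne (show (0 : Fin 4) ≠ 1 by decide))) (inj2 ho)
      obtain ⟨k, hk, c⟩ := q1 ⟨(s i', s j'), by
        convert s.injective.comp h using 1
        ext1 x; fin_cases x
        exacts [(hs 0).symm, (hs 1).symm, rfl, rfl]⟩
      exact S.r1 hk c h
    · obtain ⟨s, hs⟩ := Perm.exists_extending_pair _ _ (inj2 h1) (inj2 ho)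
      obtain ⟨k, hk, -, c⟩ := c3 ⟨s l, (show s i = o from hs 0) ▸ s.injective.ne h2,
        (show s j = o' from hs 1) ▸ s.injective.ne h3⟩
      exact S.r2 h0 hζ ho hk.1 hk.2 c h1 h2 h3
    · show XS _ _ = ⊤
      rw [eq_top_iff, ← closure_coprod hf', Subgroup.closure_le]
      rintro _ (⟨g, rfl⟩ | ⟨_, rfl⟩)
      · refine mem_of (C := (XS _ _).comap (f.comp ι)) (fun i => ?_) ((Subgroup.closure_le
          ((XS _ _).comap ((f.comp ι).comp inr))).2 q5 ((l3' _).1 (by simp)))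
        exact (sl2_XY (K := (XS _ _).comap ((f.comp ι).comp (el i)))
          (fun s => Subgroup.subset_closure ⟨.inl i, .inr i, s, adm_C.2 (by simp), congrFun (xs_long (.inl i)) s⟩)
          fun s => Subgroup.subset_closure ⟨.inr i, .inl i, s, adm_C.2 (by simp), congrFun (xs_long (.inr i)) s⟩).ge
          trivial
      · refine Subgroup.subset_closure ⟨.inl o, .inr o', 1, adm_C.2 (by simp), ?_⟩
        rw [xs_short (by simpa using ho)]
        simpa [ix, bs, dl] using b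
    · rw [← hx i j h.1, ← hθ, MonoidHom.comp_apply, map_xs f]
      simp only [map_Bf]
  · simp at l2 l2' ⊢
    omega

theorem Pr.psp [Fintype F] {d r : ℕ} (hm : 1 ≤ m) (h : Pr (symplecticGroup (Fin m) F) d r) : Pr (PSp m F) d (r + 1) := by
  have : IsCyclic (Subgroup.center (symplecticGroup (Fin m) F)) :=
    isCyclic_of_card_dvd_prime (p := 2) (S0246.result (F := F) rfl m hm ▸ Nat.gcd_dvd_left _ _)
  exact h.quot_cyclic _

theorem pres_sp2 [Finite F] : Pr (symplecticGroup (Fin 2) F) 6 35 :=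
  pres_sp le_rfl (pr_of_sq (a := swap 0 1) (by decide) (by decide))

theorem pres_sp3 [Finite F] : Pr (symplecticGroup (Fin 3) F) 7 44 := pres_sp one_le_two (pres_sym 3 le_rfl).1

theorem pres_spn [Finite F] (hm : 3 ≤ m) : Pr (symplecticGroup (Fin m) F) 7 54 := by
  obtain ⟨n, rfl⟩ : ∃ n, m = n + 1 := ⟨m - 1, by omega⟩
  exact (pres_sp (by omega) (pres_sym _ hm).1).mono (by omega)

end Cfsg.Agent.H3
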