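import Cfsg.Agent.H3.PresFam
import Cfsg.Agent.H3.PresOrb

/-! Presentations of wreath products with the symmetric group. -/

set_option autoImplicit false

namespace Cfsg.Agent.H3

open Function Equiv

universe v

variable {J G A : Type*} [Group J] [Group G] [Group A]

theorem HP.coprod {X Y : Type} {H K : Type*} [Group H] [Group K] {h : X → H} {k : Y → K} {r s : ℕ} (hh : HP h r)
    (hk : HP k s) : HP (Sum.elim (fun x => (Monoid.Coprod.inl (h x) : Monoid.Coprod H K))
      fun y => Monoid.Coprod.inr (k y)) (r + s) := by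
  obtain ⟨R, hR, hR1, hR2⟩ := hk.elim
  refine (hh.ext Monoid.Coprod.inl (fun y => Monoid.Coprod.inr (k y)) (R.map Monoid.Coprod.inr) ?_ ?_ ?_).mono
    (by simpa using hR : _ ≤ r + s)
  · rw [← Monoid.Coprod.range_inl_sup_range_inr, Subgroup.closure_union, ← MonoidHom.coe_range,
      Subgroup.closure_eq, MonoidHom.range_eq_map (Monoid.Coprod.inr : K →* Monoid.Coprod H K), ← hk.closure,
      MonoidHom.map_closure, ← Set.range_comp]
    rfl
  · intro w hw
    obtain ⟨w, hw', rfl⟩ := List.mem_map.1 hw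
    rw [Monoid.Coprod.lift_apply_inr, lift_comp_apply, hR1 w hw', map_one]
  · intro J _ f j θ hj h1 h2 h3
    obtain ⟨g, hg⟩ := hR2 J j fun w hw => by simpa using h3 _ (List.mem_map_of_mem hw)
    have : (Monoid.Coprod.lift f g).comp θ = MonoidHom.id J := by
      apply MonoidHom.eq_of_eqOn_dense hj
      rintro _ (⟨a, rfl⟩ | ⟨a, rfl⟩) <;> simp [h1, h2, hg]
    exact LeftInverse.injective (g := Monoid.Coprod.lift f g) fun x => DFunLike.congr_fun this x

theorem Pk.comm_gens {Γ : Type v} [Group Γ] {ψ : Γ →* G} (L L' : List Γ)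
    (h : ∀ a ∈ L, ∀ b ∈ L', Commute (ψ a) (ψ b)) : Pk ψ (L.length * L'.length) fun _ _ f =>
      ∀ a ∈ Subgroup.closure {s | s ∈ L}, ∀ b ∈ Subgroup.closure {s | s ∈ L'}, Commute (f a) (f b) := by
  refine ((Pk.list L fun a ha => Pk.list L' fun b hb => Pk.comm a b (h a ha b hb)).imp
    fun J _ f hf a ha b hb => ?_).mono (by simp)
  exact comm_of_gens (fun a ha => (comm_of_gens (fun b hb => (hf a ha b hb).symm) hb).symm) ha

theorem Pk.pr_range {X : Type} [Fintype X] {Γ : Type v} [Group Γ] {ψ : Γ →* G} {γ : X → Γ} {r s : ℕ} (hγ : HP γ r)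
    (h : Pk ψ s fun J _ f => ∀ θ : J →* G, Surjective f → θ.comp f = ψ → Injective θ) :
    Pr ψ.range (Fintype.card X) (r + s) := by
  obtain ⟨W, h1, h2, h3⟩ := h
  refine (hγ.pk ψ.rangeRestrict_surjective ⟨W, h1, fun w hw => Subtype.ext (h2 w hw), fun J _ f hf θ hs hθ => ?_⟩).pr
    rfl
  exact Injective.of_comp (f := ψ.range.subtype) (h3 J f hf (ψ.range.subtype.comp θ) hs
    (by rw [MonoidHom.comp_assoc, hθ]; rfl))

theorem mem_closure_map {Γ : Type*} [Group Γ] (ι : A →* Γ) {L : List A} {a : A}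
    (h : a ∈ Subgroup.closure {s | s ∈ L}) : ι a ∈ Subgroup.closure {s | s ∈ L.map ι} := by
  have := Subgroup.mem_map_of_mem ι h
  rw [MonoidHom.map_closure] at this
  exact Subgroup.closure_mono (by rintro _ ⟨b, hb, rfl⟩; exact List.mem_map_of_mem hb) this

theorem HP.mem_ofFn {d r : ℕ} {α : Fin d → A} (h : HP α r) (a : A) :
    a ∈ Subgroup.closure {s | s ∈ List.ofFn α} := by
  have : {s | s ∈ List.ofFn α} = Set.range α := by ext; simp
  rw [this, h.closure]; trivial

variable {I : Type} [Fintype I] [DecidableEq I]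

theorem exists_sym_gens (Γ : Finset I) : ∃ L : List (Perm I), L.length ≤ 3 ∧ L.length ≤ Γ.card - 1 ∧
    ∀ s : Perm I, (∀ x, x ∉ Γ → s x = x) ↔ s ∈ Subgroup.closure {s | s ∈ L} := by
  obtain ⟨L, h1, h2, h3⟩ := exists_alt_gens Γ
  have key : ∀ L' : List (Perm I), (∀ g ∈ L', ∀ x, x ∉ Γ → g x = x) →
      ∀ s ∈ Subgroup.closure {s | s ∈ L'}, ∀ x, x ∉ Γ → s x = x := fun L' h s hs x hx =>
    (Subgroup.closure_le (MulAction.stabilizer (Perm I) x)).2 (fun g hg => h g hg x hx) hs
  by_cases h : Γ.card ≤ 1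
  · refine ⟨[], by simp, by simp, fun s => ⟨fun hs => ?_, key _ (by simp) s⟩⟩
    have : s = 1 := Equiv.ext fun x => by
      by_contra e
      have k : ∀ y, s y ≠ y → y ∈ Γ := fun y hy => not_not.1 fun h => hy (hs y h)
      exact e (Finset.card_le_one.1 h _ (k _ (s.injective.ne e)) _ (k x e))
    rw [this]; exact one_mem _
  obtain ⟨a, ha, b, hb, hab⟩ := Finset.one_lt_card.1 (not_le.1 h)
  have hs : ∀ x, x ∉ Γ → swap a b x = x := fun x hx =>
    swap_apply_of_ne_of_ne (by rintro rfl; exact hx ha) (by rintro rfl; exact hx hb)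
  refine ⟨swap a b :: L, by simp; omega, by simp; omega, fun s => ⟨fun h => ?_, key _ ?_ s⟩⟩
  · have k : Alt Γ ≤ Subgroup.closure {s | s ∈ swap a b :: L} :=
      h3 ▸ Subgroup.closure_mono fun _ h => List.mem_cons_of_mem _ h
    rcases Int.units_eq_one_or (Perm.sign s) with e | e
    · exact k ⟨h, e⟩
    · have := mul_mem (k (x := s * swap a b) ⟨fun x hx => by rw [Perm.mul_apply, hs x hx, h x hx],
        by simp [e, hab]⟩) (Subgroup.subset_closure (List.mem_cons_self (a := swap a b)))
      simpa [mul_assoc] using this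
  · intro g hg
    rcases List.mem_cons.1 hg with rfl | hg
    · exact hs
    · exact (h3.le (Subgroup.subset_closure hg)).1

/-- The wreath product with the symmetric group. -/
abbrev Wr (A : Type*) [Group A] (I : Type) := (I → A) ⋊[mulAutArrow] Perm I

namespace Wr

open SemidirectProduct

/-- The `i`-th factor of the base group. -/
def el (i : I) : A →* Wr A I := inl.comp (MonoidHom.mulSingle (fun _ => A) i)

omit [Fintype I] in
theorem el_left (i : I) (a : A) : (el i a).left = Pi.mulSingle i a := rfl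

omit [Fintype I] in
theorem el_right (i : I) (a : A) : (el i a).right = 1 := rfl

omit [Fintype I] [DecidableEq I] in
theorem mul_left' (m m' : Wr A I) (i : I) : (m * m').left i = m.left i * m'.left (m.right⁻¹ i) := rfl

omit [Fintype I] in
theorem conj_el (m : Wr A I) (i : I) (a : A) :
    m * el i a * m⁻¹ = el (m.right i) (m.left (m.right i) * a * (m.left (m.right i))⁻¹) := by
  rw [mul_inv_eq_iff_eq_mul]
  ext j
  · simp only [mul_left', el_left, el_right, inv_one, Perm.one_apply]
    obtain ⟨j, rfl⟩ := m.right.surjective j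
    by_cases h : j = i <;> simp [h]
  · simp [el_right]

omit [Fintype I] in
theorem inr_el (s : Perm I) (i : I) (a : A) : inr s * el i a * (inr s)⁻¹ = el (s i) a := by simp [conj_el]

omit [Fintype I] in
theorem el_comm {i j : I} (h : i ≠ j) (a b : A) : Commute (el i a) (el j b) :=
  (Pi.mulSingle_commute (f := fun _ => A) h a b).map inl

theorem mem_of {C : Subgroup (Wr A I)} {m : Wr A I} (h1 : ∀ i, el i (m.left i) ∈ C) (h2 : inr m.right ∈ C) :
    m ∈ C := by
  rw [← m.inl_left_mul_inr_right]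
  exact mul_mem (Submonoid.pi_mem_of_mulSingle_mem (H := C.comap inl) m.left h1) h2

instance {X : Type*} [MulAction A X] : MulAction (Wr A I) (I × X) where
  smul m p := (m.right p.1, m.left (m.right p.1) • p.2)
  one_smul p := Prod.ext rfl (one_smul A p.2)
  mul_smul m m' p := Prod.ext rfl (by
    show (m * m').left (m.right (m'.right p.1)) • p.2 = m.left (m.right (m'.right p.1)) • m'.left (m'.right p.1) • p.2
    rw [mul_left', mul_smul]; simp)

omit [Fintype I] [DecidableEq I] in
theorem smul_mk {X : Type*} [MulAction A X] (m : Wr A I) (i : I) (x : X) :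
    m • (i, x) = (m.right i, m.left (m.right i) • x) := rfl

theorem exists_hom (φ : A →* J) (ω : Perm I →* J) {o o' : I} (ho : o ≠ o')
    (h1 : ∀ s : Perm I, s o = o → ∀ a, Commute (ω s) (φ a))
    (h2 : ∀ a b, Commute (φ a) (ω (swap o o') * φ b * (ω (swap o o'))⁻¹)) :
    ∃ Φ : Wr A I →* J, (∀ a, Φ (el o a) = φ a) ∧ ∀ s, Φ (inr s) = ω s := by
  let ϕ : I → A →* J := fun i => (MulAut.conj (ω (sec (Perm I) o i))).toMonoidHom.comp φ
  have e : ∀ (s : Perm I) a, ϕ (s o) a = ω s * φ a * (ω s)⁻¹ := fun s a => fam_eq (fun s hs => h1 s hs a) s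
  have hc : Pairwise fun i j => ∀ a b, Commute (ϕ i a) (ϕ j b) := by
    intro i j h a b
    obtain ⟨s, hs⟩ := Perm.exists_extending_pair _ _ (inj2 ho) (inj2 h)
    have := Commute.cj (h2 a b) (ω s)
    rw [← show s o = i from hs 0, ← show (s * swap o o') o = j by simpa using hs 1, e, e, map_mul]
    convert this using 1; group
  refine ⟨lift (MonoidHom.noncommPiCoprod ϕ hc) ω fun s => MonoidHom.pi_ext fun i a => ?_, fun a => ?_,
    fun s => lift_inr _ _ _ s⟩
  · have := inr_el (A := A) s i a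
    rw [← map_inv, el, MonoidHom.comp_apply, ← inl_aut, el, MonoidHom.comp_apply, inl_inj] at this
    obtain ⟨w, rfl⟩ : ∃ w : Perm I, w o = i := ⟨swap o i, by simp⟩
    simp only [MonoidHom.comp_apply, MulEquiv.coe_toMonoidHom, MulAut.conj_apply]
    rw [show mulAutArrow s (Pi.mulSingle (w o) a) = _ from this, MonoidHom.mulSingle_apply,
      MonoidHom.noncommPiCoprod_mulSingle, MonoidHom.noncommPiCoprod_mulSingle, ← Perm.mul_apply, e, e, map_mul]
    group
  · rw [el, MonoidHom.comp_apply, lift_inl, MonoidHom.mulSingle_apply, MonoidHom.noncommPiCoprod_mulSingle]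
    simpa using e 1 a

end Wr

theorem Pr.wr {d r e s : ℕ} (hA : Pr A d r) (hP : Pr (Perm I) e s) (hI : 2 ≤ Fintype.card I) :
    Pr (Wr A I) (d + e) (r + s + (min 3 (Fintype.card I - 2) * d + d * d)) := by
  obtain ⟨α, hα⟩ := hA.hp
  obtain ⟨γ, hγ⟩ := hP.hp
  obtain ⟨o, o', ho⟩ := Fintype.exists_pair_of_one_lt_card hI
  obtain ⟨L, l1, l2, l3⟩ := exists_sym_gens ({o}ᶜ : Finset I)
  rw [Finset.card_compl, Finset.card_singleton] at l2
  simp only [Finset.mem_compl, Finset.mem_singleton, not_not, forall_eq] at l3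
  let ψ : Monoid.Coprod A (Perm I) →* Wr A I := Monoid.Coprod.lift (Wr.el o) SemidirectProduct.inr
  have hs : Surjective ψ := fun m => Wr.mem_of (C := ψ.range) (fun i => ⟨.inr (swap o i) * .inl (m.left i) *
    (Monoid.Coprod.inr (swap o i))⁻¹, by simpa [ψ] using Wr.inr_el (swap o i) o (m.left i)⟩) ⟨.inr m.right, rfl⟩
  let c := (MulAut.conj (Monoid.Coprod.inr (swap o o') : Monoid.Coprod A (Perm I))).toMonoidHom.comp
    (Monoid.Coprod.inl (M := A))
  have P := (Pk.comm_gens (ψ := ψ) (L.map Monoid.Coprod.inr) ((List.ofFn α).map Monoid.Coprod.inl) (by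
    simp only [List.forall_mem_map]
    intro s hs a _
    have := Wr.inr_el s o a
    rwa [(l3 s).2 (Subgroup.subset_closure hs), mul_inv_eq_iff_eq_mul] at this)).and
    (Pk.comm_gens (ψ := ψ) ((List.ofFn α).map Monoid.Coprod.inl) ((List.ofFn α).map c) (by
      simp only [List.forall_mem_map]
      intro a _ b _
      have := Wr.el_comm ho a b
      rw [← swap_apply_left o o', ← Wr.inr_el] at this
      simpa [ψ, c] using this))
  refine (((hα.coprod hγ).pk hs (P.imp fun J _ f hf θ hf' hθ => ?_)).mono ?_).pr (by simp)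
  · obtain ⟨Φ, h1, h2⟩ := Wr.exists_hom (f.comp Monoid.Coprod.inl) (f.comp Monoid.Coprod.inr) ho
      (fun s hs a => hf.1 _ (mem_closure_map _ ((l3 s).1 hs)) _ (mem_closure_map _ (hα.mem_ofFn a)))
      fun a b => by simpa [c] using hf.2 _ (mem_closure_map _ (hα.mem_ofFn a)) _ (mem_closure_map c (hα.mem_ofFn b))
    have : Φ.comp ψ = f := by ext a <;> simp [ψ, h1, h2]
    refine LeftInverse.injective (g := Φ) fun x => ?_
    obtain ⟨x, rfl⟩ := hf' x
    rw [← this, ← MonoidHom.comp_apply θ, this, hθ, ← this]; rfl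
  · simp only [List.length_map, List.length_ofFn]
    gcongr; omega

end Cfsg.Agent.H3
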