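import Cfsg.Agent.H37.Levi

/-! Restriction of a root group to a standard subsystem; Levi subgroups of type `A`. -/

set_option autoImplicit false

namespace Cfsg.Agent.H3

open H38 H39 Function
open scoped MatrixGroups

variable {ι R κ R' : Type} [Fintype ι] [DecidableEq ι] [Fintype κ] [DecidableEq κ] {P : RS ι R} {P' : RS κ R'}
  {F : Type*} [Field F] {G : Type*} [Group G] {e : κ → ι} {r s k : R'} {a b : R}

/-- Corresponding roots. -/
def RRel (P : RS ι R) (P' : RS κ R') (e : κ → ι) (r : R') (a : R) : Prop :=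
  (∀ i, P.cf a (e i) = P'.cf r i) ∧ P.InJ (Set.range e) a

theorem RRel.ext {v : ι → ℤ} (h : RRel P P' e r a) (h1 : ∀ i, v (e i) = P'.cf r i) (h2 : ∀ j, j ∉ Set.range e → v j = 0) :
    P.cf a = v := funext fun j => by
  by_cases hj : j ∈ Set.range e
  · obtain ⟨i, rfl⟩ := hj; rw [h.1, h1]
  · rw [h.2 j hj, h2 j hj]

theorem RRel.unique (h : RRel P P' e r a) (h' : RRel P P' e r b) : a = b := P.cf_inj (h.ext h'.1 h'.2)

theorem RRel.unique' (h : RRel P P' e r a) (h' : RRel P P' e s a) : r = s :=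
  P'.cf_inj (funext fun i => (h.1 i).symm.trans (h'.1 i))

theorem RRel.neg (h : RRel P P' e r a) : RRel P P' e (P'.neg r) (P.neg a) :=
  ⟨fun i => by simp [RS.cf_neg, h.1], P.inJ_neg.2 h.2⟩

theorem RRel.pos (h : RRel P P' e r a) : P.Pos a ↔ P'.Pos r :=
  ⟨fun H i => h.1 i ▸ H _, fun H j => by
    by_cases hj : j ∈ Set.range e
    · obtain ⟨i, rfl⟩ := hj; exact h.1 i ▸ H i
    · exact (h.2 j hj).ge⟩

variable (he : Injective e) (hC : ∀ i j, P'.C i j = P.C (e i) (e j))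
include he

theorem rrel_sp (i : κ) : RRel P P' e (P'.sp i) (P.sp (e i)) :=
  ⟨fun j => by simp [RS.cf_sp, Pi.single_apply, he.eq_iff], P.inJ_sp.2 ⟨i, rfl⟩⟩

include hC

theorem RRel.A (h : RRel P P' e r a) (i : κ) : P.A (e i) a = P'.A i r :=
  (Finset.sum_of_injOn e he.injOn (by simp) (fun j _ hj => by rw [h.2 j (by simpa using hj), mul_zero])
    fun j _ => by rw [hC, h.1]).symm

theorem RRel.σ (h : RRel P P' e r a) (i : κ) : RRel P P' e (P'.σ i r) (P.σ (e i) a) :=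
  ⟨fun j => by simp [RS.cf_σ, Pi.single_apply, he.eq_iff, h.1, h.A he hC],
    (P.inJ_WJ (P.σ_mem_WJ (Set.mem_range_self i))).2 h.2⟩

theorem exists_rrel (r : R') : ∃ a, RRel P P' e r a :=
  P'.root_induction (p := fun r => ∃ a, RRel P P' e r a) (fun i => ⟨_, rrel_sp he i⟩) (fun i _ ⟨_, h⟩ => ⟨_, h.σ he hC i⟩) r

theorem exists_rrel' (h : P.InJ (Set.range e) a) : ∃ r, RRel P P' e r a := by
  obtain ⟨w, hw, _, ⟨i, rfl⟩, rfl⟩ := exists_WJ_of_supp h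
  obtain ⟨l, hl, rfl⟩ := P.mem_WJ_iff.1 hw
  clear hw h
  induction l with
  | nil => exact ⟨_, rrel_sp he i⟩
  | cons j l ih =>
    obtain ⟨j, rfl⟩ := hl j (by simp)
    obtain ⟨r, hr⟩ := ih fun i hi => hl i (by simp [hi])
    exact ⟨_, hr.σ he hC j⟩

theorem exists_pull (X : RG P F G) (hX : X.Faithful) : ∃ Y : RG P' F G, Y.Faithful ∧
    ∀ r a, RRel P P' e r a → Y.x r = X.x a := by
  choose ρ hρ using exists_rrel he hC
  have h1 : ∀ r, ρ (P'.neg r) = P.neg (ρ r) := fun r => (hρ _).unique (hρ r).neg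
  have h2 : ∀ i, ρ (P'.sp i) = P.sp (e i) := fun i => (hρ _).unique (rrel_sp he i)
  have h3 : Injective ρ := fun r s h => (hρ r).unique' (h ▸ hρ s)
  let Y0 : RG0 P' F G := ⟨fun r => X.x (ρ r), fun r => X.add _, fun r s h h' t u => by
    obtain ⟨L, hL, E⟩ := X.comm (ρ r) (ρ s) (h3.ne h) (h1 r ▸ h3.ne h') t u
    have hk : ∀ p ∈ L, ∃ k, ρ k = p.1 := fun p hp =>
      (exists_rrel' he hC ((hL p hp).inJ (hρ r).2 (hρ s).2)).imp fun k hk => (hρ k).unique hk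
    haveI : Nonempty R' := ⟨r⟩
    refine ⟨L.map fun p => (invFun ρ p.1, p.2), fun p hq => ?_, ?_⟩
    · obtain ⟨p, hp, rfl⟩ := List.mem_map.1 hq
      obtain ⟨a, b, ha, hb, E⟩ := hL p hp
      refine ⟨a, b, ha, hb, funext fun i => ?_⟩
      rw [← (hρ _).1, invFun_eq (hk p hp), E]; simp [(hρ _).1]
    · rw [E, List.map_map]
      exact congrArg _ (congrArg _ (List.map_congr_left fun p hp => by simp [invFun_eq (hk p hp)]))⟩
  have h4 : ∀ r c, Y0.n r c = X.n (ρ r) c := fun r c => by simp [RG0.n, Y0, h1]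
  let Y : RG P' F G := ⟨Y0, fun i => by
    obtain ⟨η, hη, E⟩ := X.nconj (e i)
    refine ⟨fun s => η (ρ s), fun s => by beta_reduce; rw [h1, hη], fun s c hc u => ?_⟩
    rw [h4, h2, ← (hρ s).A he hC]
    exact (E _ c hc u).trans (congrFun (congrArg X.x (((hρ s).σ he hC i).unique (hρ _))) _)⟩
  have h5 : ∀ {S T}, (∀ r ∈ S, ρ r ∈ T) → Y.US S ≤ X.US T := fun h => Y.US_le.2 fun r hr t => X.x_mem (h r hr) t
  refine ⟨Y, ⟨fun f r t h h' => ?_, fun u hu h hh v hv => hX.uhv u (h5 (fun r => (hρ r).pos.2) hu) h ?_ v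
    (h5 (fun r => (hρ r).pos.not.2) hv)⟩, fun r a h => congrArg X.x ((hρ r).unique h)⟩
  · have : ∀ r, (f ∘ₗ LinearMap.funLeft ℤ ℤ e) (P.cf (ρ r)) = f (P'.cf r) := fun r => congrArg f (funext (hρ r).1)
    exact hX.sep (f ∘ₗ LinearMap.funLeft ℤ ℤ e) (ρ r) t (this r ▸ h)
      (h5 (by exact fun s hs => ⟨h3.ne hs.1, by rw [this, this]; exact hs.2⟩) h')
  · refine (Subgroup.closure_le _).2 ?_ hh
    rintro _ ⟨r, c, hc, rfl⟩
    exact (show Y0.h r c = X.h (ρ r) c by rw [RG0.h, h4, h4, RG0.h]) ▸ X.h_mem_H _ hc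

omit he hC in
theorem exists_levi [Finite F] {X : RG P F G} (hX : X.Faithful) {n : ℕ} (hn : 2 ≤ n) {e : Fin n → ι}
    (he : Injective e) (hC : ∀ i j, (ClA.rs n).C i j = P.C (e i) (e j)) : ∃ φ : SL(n + 1, F) →* G,
    (∀ i t, φ (ClA.x F ((ClA.rs n).sp i) t) = X.x (P.sp (e i)) t ∧
      φ (ClA.x F ((ClA.rs n).neg ((ClA.rs n).sp i)) t) = X.x (P.neg (P.sp (e i))) t) ∧
    (∀ u ∈ X.US {r | P.Pos r ∧ P.InJ (Set.range e) r}, ∃ a ∈ (ClA.rg n F).U, φ a = u) ∧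
    ∀ u ∈ X.US {r | ¬ P.Pos r ∧ P.InJ (Set.range e) r}, ∃ a ∈ (ClA.rg n F).V, φ a = u := by
  obtain ⟨Y, hY, h⟩ := exists_pull he hC X hX
  obtain ⟨φ, hφ⟩ := H37.exists_sl_of_diag hn (diagRG H37.clA_long hY)
  have h1 : ∀ r, ∃ c, c ≠ 0 ∧ ∀ t, φ ((ClA.rg n F).x r t) = Y.x r (c * t) := by
    refine (ClA.rs n).root_induction (fun i => ⟨1, one_ne_zero, fun t => by rw [one_mul]; exact (hφ i t).1⟩) ?_
    rintro i r ⟨c, hc, E⟩
    have : φ ((ClA.rg n F).ns i) = Y.ns i := by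
      simp only [RG.ns, RG0.n, map_mul]
      exact congrArg₂ _ (congrArg₂ _ (hφ i _).1 (hφ i _).2) (hφ i _).1
    obtain ⟨d, hd, E1⟩ := ((ClA.rg n F).acts_ns i).exists_conj r
    obtain ⟨d', hd', E2⟩ := (Y.acts_ns i).exists_conj r
    refine ⟨d' * c * d⁻¹, by simp [*], fun t => ?_⟩
    rw [← mul_inv_cancel_left₀ hd t, ← E1, map_mul, map_mul, map_inv, this, E, E2]
    congr 1; field_simp
  have h2 : ∀ (S : Set _) (T : Set R), (∀ a ∈ T, ∃ r ∈ S, RRel P (ClA.rs n) e r a) → ∀ u ∈ X.US T,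
      ∃ a ∈ (ClA.rg n F).US S, φ a = u := fun S T H u hu => (show X.US T ≤ ((ClA.rg n F).US S).map φ from
    X.US_le.2 fun a ha t => by
      obtain ⟨r, hr, h'⟩ := H a ha
      obtain ⟨c, hc, E⟩ := h1 r
      exact ⟨_, (ClA.rg n F).x_mem hr (c⁻¹ * t), by rw [E, h _ _ h', mul_inv_cancel_left₀ hc]⟩) hu
  exact ⟨φ, fun i t => ⟨(hφ i t).1.trans (congrFun (h _ _ (rrel_sp he i)) t),
    (hφ i t).2.trans (congrFun (h _ _ (rrel_sp he i).neg) t)⟩,
    h2 _ _ fun a ha => (exists_rrel' he hC ha.2).imp fun r hr => ⟨hr.pos.1 ha.1, hr⟩,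
    h2 _ _ fun a ha => (exists_rrel' he hC ha.2).imp fun r hr => ⟨hr.pos.not.1 ha.1, hr⟩⟩

end Cfsg.Agent.H3
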