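import Cfsg.Agent.H3.PresFam

/-! Two-element generation: Steinberg's lemmas and the closure of a set of roots under a signed cycle. -/

set_option autoImplicit false

namespace Cfsg.Agent.H3

variable {F G : Type*} [Field F] [Group G] {K : Subgroup G}

theorem Gn.all {l v : F} (hl : Gn l) {S : AddSubgroup F} (hS : ∀ t ∈ S, l * t ∈ S) (hv : v ≠ 0) (h1 : v ∈ S)
    (t : F) : t ∈ S := by
  have := hl (S.comap (AddMonoidHom.mulLeft v)) (by simpa using h1)
    (fun t ht => by simpa [mul_left_comm v] using hS _ ht) (v⁻¹ * t)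
  simpa [mul_inv_cancel_left₀ hv] using this

theorem Gn.mem' {l v : F} {x : F → G} {h : G} (hl : Gn l) (hx : Ad x) (H : Act h x l) (hK : h ∈ K) (hv : v ≠ 0)
    (h1 : x v ∈ K) (t : F) : x t ∈ K :=
  hl.all (S := hx.pre K) (fun t ht => by
    show x _ ∈ K
    rw [← H]; exact mul_mem (mul_mem hK ht) (inv_mem hK)) hv h1 t

theorem prim_inv {l : F} (h : ∀ t : F, t ≠ 0 → ∃ k : ℕ, l ^ k = t) (t : F) (ht : t ≠ 0) : ∃ k : ℕ, l⁻¹ ^ k = t :=
  (h _ (inv_ne_zero ht)).imp fun k e => by rw [inv_pow, e, inv_inv]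

theorem stein2 {x z : F → G} (hx : Ad x) (hz : Ad z) (hc : ∀ t u, Commute (x t) (z u)) {h n : G} {a a' b' b'' : F}
    (e1 : Act h x a) (e2 : Act h z 1) (e3 : Act (n * h * n⁻¹) x a') (e4 : Act (n * h * n⁻¹) z b')
    (e5 : Act (n⁻¹ * h * n) z b'') (c1 : Commute h (n * h * n⁻¹)) (c2 : Commute (n⁻¹ * h * n) (n * h * n⁻¹))
    (ha : a ≠ 1) (ga : Gn a) (ha' : a' ≠ 1) (hb' : b' ≠ 1) (hb'' : b'' ≠ 1) (gb : Gn b'')
    (hK : h ∈ K) (hg : x 1 * z 1 * n ∈ K) : (∀ t, x t ∈ K) ∧ (∀ t, z t ∈ K) ∧ n ∈ K := by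
  set h' := n * h * n⁻¹ with hh'
  set h'' := n⁻¹ * h * n with hh''
  have hxK : ∀ t, x t ∈ K := by
    have e : x 1 * z 1 * n * h * (x 1 * z 1 * n)⁻¹ = x (1 - a') * z (1 - b') * h' := by
      calc _ = x 1 * (z 1 * (h' * z (-1) * h'⁻¹)) * (h' * x (-1) * h'⁻¹) * h' := by
            rw [hx.neg, hz.neg, hh']; group
        _ = _ := by
            rw [e3, e4, ← hz, mul_assoc (x 1), ← (hc _ _).eq, ← mul_assoc (x 1), ← hx]
            simp [sub_eq_add_neg]
    have h1 : x (1 - a') * z (1 - b') * h' ∈ K := e ▸ mul_mem (mul_mem hg hK) (inv_mem hg)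
    have h2 := mul_mem (mul_mem (mul_mem hK h1) (inv_mem hK)) (inv_mem h1)
    have e' : h * (x (1 - a') * z (1 - b') * h') * h⁻¹ * (x (1 - a') * z (1 - b') * h')⁻¹ =
        x ((a - 1) * (1 - a')) := by
      calc _ = (h * x (1 - a') * h⁻¹) * (h * z (1 - b') * h⁻¹) * (h * h') * (h' * h)⁻¹ * (z (1 - b'))⁻¹ *
              (x (1 - a'))⁻¹ := by group
        _ = _ := by
            rw [e1, e2, one_mul, c1.eq, mul_inv_cancel_right, mul_inv_cancel_right, ← hx.neg, ← hx]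
            congr 1; ring
    exact ga.mem' hx e1 hK (mul_ne_zero (sub_ne_zero.2 ha) (sub_ne_zero.2 ha'.symm)) (e' ▸ h2)
  have hg' : z 1 * n ∈ K := by simpa [mul_assoc] using mul_mem (inv_mem (hxK 1)) hg
  have hK'' : h'' ∈ K := by
    convert mul_mem (mul_mem (inv_mem hg') hK) hg' using 1
    rw [hh'', mul_inv_rev, mul_assoc, mul_assoc, mul_assoc, ← mul_assoc h, (e2.comm 1).eq]
    simp [mul_assoc]
  have hzK : ∀ t, z t ∈ K := by
    have e : z 1 * n * h * (z 1 * n)⁻¹ = z (1 - b') * h' := by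
      calc _ = z 1 * (h' * z (-1) * h'⁻¹) * h' := by rw [hz.neg, hh']; group
        _ = _ := by rw [e4, ← hz]; simp [sub_eq_add_neg]
    have h1 : z (1 - b') * h' ∈ K := e ▸ mul_mem (mul_mem hg' hK) (inv_mem hg')
    have h2 := mul_mem (mul_mem (mul_mem hK'' h1) (inv_mem hK'')) (inv_mem h1)
    have e' : h'' * (z (1 - b') * h') * h''⁻¹ * (z (1 - b') * h')⁻¹ = z ((b'' - 1) * (1 - b')) := by
      calc _ = (h'' * z (1 - b') * h''⁻¹) * (h'' * h') * (h' * h'')⁻¹ * (z (1 - b'))⁻¹ := by group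
        _ = _ := by
            rw [e5, c2.eq, mul_inv_cancel_right, ← hz.neg, ← hz]
            congr 1; ring
    exact gb.mem' hz e5 hK'' (mul_ne_zero (sub_ne_zero.2 hb'') (sub_ne_zero.2 hb'.symm)) (e' ▸ h2)
  exact ⟨hxK, hzK, by simpa using mul_mem (inv_mem (hzK 1)) hg'⟩

/-- One root group, possibly not abelian: `T g t` says that `g` lies in it and has leading term `t`. -/
theorem stein1 {T : G → F → Prop} (T1 : T 1 0) (Tm : ∀ {g g' s t}, T g s → T g' t → T (g * g') (s + t))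
    (Ti : ∀ {g s}, T g s → T g⁻¹ (-s)) {h n x : G} {a a' s : F} (e1 : ∀ {g t}, T g t → T (h * g * h⁻¹) (a * t))
    (e2 : ∀ {g t}, T g t → T (n * h * n⁻¹ * g * (n * h * n⁻¹)⁻¹) (a' * t)) (c : Commute h (n * h * n⁻¹))
    (ha : a ≠ 1) (ga : Gn a) (ha' : a' ≠ 1) (hx : T x s) (hs : s ≠ 0) (hK : h ∈ K) (hg : x * n ∈ K) (t : F) :
    ∃ g ∈ K, T g t := by
  set h' := n * h * n⁻¹ with hh'
  have h1 := Tm hx (e2 (Ti hx))
  set u := x * (h' * x⁻¹ * h'⁻¹) with hu
  have h2 : u * h' ∈ K := by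
    convert mul_mem (mul_mem hg hK) (inv_mem hg) using 1
    rw [hu, hh']; group
  have h3 : h * u * h⁻¹ * u⁻¹ ∈ K := by
    convert mul_mem (mul_mem (mul_mem hK h2) (inv_mem hK)) (inv_mem h2) using 1
    calc _ = h * u * (h' * h⁻¹ * h'⁻¹) * u⁻¹ := by rw [← c.inv_left.eq]; group
      _ = _ := by group
  let S : AddSubgroup F :=
    { carrier := {t | ∃ g ∈ K, T g t}
      zero_mem' := ⟨1, one_mem _, T1⟩
      add_mem' := fun ⟨_, a, b⟩ ⟨_, c, d⟩ => ⟨_, mul_mem a c, Tm b d⟩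
      neg_mem' := fun ⟨_, a, b⟩ => ⟨_, inv_mem a, Ti b⟩ }
  refine ga.all (S := S) (fun t ⟨g, a, b⟩ => ⟨_, mul_mem (mul_mem hK a) (inv_mem hK), e1 b⟩) ?_
    ⟨_, h3, Tm (e1 h1) (Ti h1)⟩ t
  convert mul_ne_zero (mul_ne_zero (sub_ne_zero.2 ha) (sub_ne_zero.2 ha'.symm)) hs using 1
  ring

theorem stein1' {x : F → G} (hx : Ad x) {h n : G} {a a' : F} (e1 : Act h x a) (e2 : Act (n * h * n⁻¹) x a')
    (c : Commute h (n * h * n⁻¹)) (ha : a ≠ 1) (ga : Gn a) (ha' : a' ≠ 1) (hK : h ∈ K) (hg : x 1 * n ∈ K) :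
    (∀ t, x t ∈ K) ∧ n ∈ K := by
  have : ∀ t, x t ∈ K := fun t => by
    obtain ⟨_, h1, rfl⟩ := stein1 (T := fun g t => g = x t) hx.zero.symm (fun a b => by rw [a, b, hx])
      (fun a => by rw [a, hx.neg]) (fun a => by rw [a, e1]) (fun a => by rw [a, e2]) c ha ga ha' rfl one_ne_zero
      hK hg t
    exact h1
  exact ⟨this, by simpa using mul_mem (inv_mem (this 1)) hg⟩

/-- An involution times a commuting element of order three. -/
theorem mem_of_two_three {x s : G} (hc : Commute x s) (hx : x * x = 1) (hs : s ^ 3 = 1) (h : x * s ∈ K) :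
    x ∈ K ∧ s ∈ K := by
  have : x ∈ K := by
    have := pow_mem h 3
    rwa [hc.mul_pow, hs, mul_one, pow_three, hx, mul_one] at this
  exact ⟨this, by simpa using mul_mem (inv_mem this) h⟩

section Cyc

variable {I : Type*} {bar : I → I} (bb : ∀ a, bar (bar a) = a)

/-- `a` and `b` are independent. -/
def Ind (bar : I → I) (a b : I) : Prop := a ≠ b ∧ a ≠ bar b

/-- A signed cycle of length `k` along `e`. -/
structure Cyc (bar : I → I) (k : ℕ) (e : ℕ → I) (ρ : Equiv.Perm I) : Prop where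
  bar_ρ : ∀ a, ρ (bar a) = bar (ρ a)
  step : ∀ i, i + 1 < k → ρ (e i) = e (i + 1)
  last : ρ (e (k - 1)) = bar (e 0)

/-- `a` is one of the `e i` or opposite to one. -/
def InE (bar : I → I) (k : ℕ) (e : ℕ → I) (a : I) : Prop := ∃ i < k, a = e i ∨ a = bar (e i)

variable {k : ℕ} {e : ℕ → I} {ρ : Equiv.Perm I}

theorem Ind.map {a b : I} (h : Ind bar a b) (hρ : ∀ a, ρ (bar a) = bar (ρ a)) : Ind bar (ρ a) (ρ b) :=
  ⟨ρ.injective.ne h.1, hρ b ▸ ρ.injective.ne h.2⟩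

theorem Cyc.pow_bar (C : Cyc bar k e ρ) (x : ℕ) (a : I) : (ρ ^ x) (bar a) = bar ((ρ ^ x) a) := by
  induction x with
  | zero => rfl
  | succ x ih => simp [pow_succ', ih, C.bar_ρ]

theorem Cyc.pow_lt (C : Cyc bar k e ρ) {i : ℕ} (hi : i < k) : (ρ ^ i) (e 0) = e i := by
  induction i with
  | zero => rfl
  | succ i ih => simp [pow_succ', ih (by omega), C.step i hi]

theorem Cyc.pow_add (C : Cyc bar k e ρ) (hk : 0 < k) (x : ℕ) : (ρ ^ (x + k)) (e 0) = bar ((ρ ^ x) (e 0)) := by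
  have : (ρ ^ k) (e 0) = bar (e 0) := by
    rw [← C.last, ← C.pow_lt (i := k - 1) (by omega), ← Equiv.Perm.mul_apply, ← pow_succ']
    congr 2; omega
  rw [_root_.pow_add, Equiv.Perm.mul_apply, this, C.pow_bar]

theorem Cyc.exists_pow (C : Cyc bar k e ρ) {a : I} (h : InE bar k e a) : ∃ x < 2 * k, a = (ρ ^ x) (e 0) := by
  obtain ⟨i, hi, rfl | rfl⟩ := h
  · exact ⟨i, by omega, (C.pow_lt hi).symm⟩
  · exact ⟨i + k, by omega, by rw [C.pow_add (by omega), C.pow_lt hi]⟩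

theorem Cyc.all (C : Cyc bar k e ρ) {P : I → Prop} (hP : ∀ a, P a → P (ρ a)) (h0 : P (e 0)) {a : I}
    (h : InE bar k e a) : P a := by
  obtain ⟨x, -, rfl⟩ := C.exists_pow h
  clear h
  induction x with
  | zero => exact h0
  | succ x ih => rw [pow_succ']; exact hP _ ih

theorem Cyc.inE (C : Cyc bar k e ρ) (hk : 0 < k) (bb : ∀ a, bar (bar a) = a) {a : I} (h : InE bar k e a) :
    InE bar k e (ρ a) := by
  obtain ⟨i, hi, h⟩ := h
  by_cases h1 : i + 1 < k
  · exact ⟨i + 1, h1, h.imp (fun h => by rw [h, C.step i h1]) fun h => by rw [h, C.bar_ρ, C.step i h1]⟩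
  · obtain rfl : i = k - 1 := by omega
    exact ⟨0, hk, h.symm.imp (fun h => by rw [h, C.bar_ρ, C.last, bb]) fun h => by rw [h, C.last]⟩

include bb

theorem Ind.symm {a b : I} (h : Ind bar a b) : Ind bar b a := ⟨h.1.symm, fun e => h.2 (by rw [e, bb])⟩

theorem Ind.br {a b : I} (h : Ind bar a b) : Ind bar a (bar b) := ⟨h.2, by rw [bb]; exact h.1⟩

theorem Ind.bl {a b : I} (h : Ind bar a b) : Ind bar (bar a) b := ((h.symm bb).br bb).symm bb

theorem InE.op {a : I} (h : InE bar k e a) : InE bar k e (bar a) :=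
  h.imp fun _ h => ⟨h.1, h.2.symm.imp (fun h => by rw [h, bb]) fun h => by rw [h]⟩

theorem Cyc.closure (C : Cyc bar k e ρ) (hk : 2 ≤ k) (hi : ∀ j, 0 < j → j < k → Ind bar (e 0) (e j))
    {R : I → I → Prop} (hρ : ∀ a b, InE bar k e a → InE bar k e b → Ind bar a b → R a b → R (ρ a) (ρ b))
    (fl : ∀ a b, InE bar k e a → InE bar k e b → Ind bar a b → R a b → R (bar b) (bar a))
    (ch : ∀ a b c, InE bar k e a → InE bar k e b → InE bar k e c → Ind bar a b → Ind bar b c → Ind bar a c →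
      R a b → R b c → R a c) (h01 : R (e 0) (e 1)) {a b : I} (ha : InE bar k e a) (hb : InE bar k e b)
    (h : Ind bar a b) : R a b := by
  set E : ℕ → I := fun x => (ρ ^ x) (e 0) with hE
  have hs : ∀ x, E (x + 1) = ρ (E x) := fun x => by simp [hE, pow_succ']
  have hb' : ∀ x, E (x + k) = bar (E x) := C.pow_add (by omega)
  have hin : ∀ x, InE bar k e (E x) := fun x => by
    induction x with
    | zero => exact ⟨0, by omega, .inl rfl⟩
    | succ x ih => rw [hs]; exact C.inE (by omega) bb ih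
  have ind : ∀ x j, 0 < j → j < k → Ind bar (E x) (E (x + j)) := fun x j h1 h2 => by
    have := (hi j h1 h2).map (C.pow_bar x)
    rwa [← C.pow_lt h2, ← Equiv.Perm.mul_apply, ← _root_.pow_add] at this
  have h1 : ∀ x, R (E x) (E (x + 1)) := fun x => by
    induction x with
    | zero => simpa [hE, C.step 0 hk] using h01
    | succ x ih => rw [hs (x + 1), hs x]; exact hρ _ _ (hin _) (hs x ▸ hin _) (hs x ▸ ind x 1 one_pos hk) (hs x ▸ ih)
  have h2 : ∀ x j, 0 < j → j < k → R (E x) (E (x + j)) := fun x j h3 h4 => by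
    induction j with
    | zero => omega
    | succ j ih =>
      rcases Nat.eq_zero_or_pos j with rfl | hj
      · exact h1 x
      · exact ch _ _ _ (hin _) (hin _) (hin _) (ind x j hj (by omega)) (ind (x + j) 1 one_pos hk) (ind x _ h3 h4)
          (ih hj (by omega)) (h1 (x + j))
  have h3 : ∀ x j, 0 < j → j < 2 * k → Ind bar (E x) (E (x + j)) → R (E x) (E (x + j)) := fun x j h3 h4 h5 => by
    rcases lt_trichotomy j k with h6 | rfl | h6
    · exact h2 x j h3 h6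
    · exact absurd (by rw [hb', bb]) h5.2
    · have e1 : E (x + j + k + (2 * k - j)) = bar (E x) := by
        rw [show x + j + k + (2 * k - j) = x + k + k + k by omega, hb', hb', hb', bb]
      have := fl _ _ (hin _) (hin _) (ind _ _ (by omega) (by omega)) (h2 (x + j + k) (2 * k - j) (by omega) (by omega))
      rwa [e1, hb', bb, bb] at this
  obtain ⟨x, hx, rfl⟩ := C.exists_pow ha
  obtain ⟨y, hy, rfl⟩ := C.exists_pow hb
  change R (E x) (E y)
  change Ind bar (E x) (E y) at h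
  rcases lt_trichotomy x y with h4 | rfl | h4
  · obtain ⟨j, rfl⟩ := Nat.exists_eq_add_of_le h4.le
    exact h3 x j (by omega) (by omega) h
  · exact absurd rfl h.1
  · have e1 : E (x + (y + 2 * k - x)) = E y := by
      rw [show x + (y + 2 * k - x) = y + k + k by omega, hb', hb', bb]
    rw [← e1] at h ⊢
    exact h3 x _ (by omega) (by omega) h

omit bb in
/-- The signed cycle is a product of transpositions and one sign change. -/
theorem exists_scyc (hk : 0 < k) (hi : ∀ i < k, ∀ j < k, i ≠ j → Ind bar (e i) (e j)) {M : Submonoid (Equiv.Perm I)}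
    (hM : ∀ π ∈ M, ∀ a, π (bar a) = bar (π a))
    (h1 : ∀ i, i + 1 < k → ∃ π ∈ M, π (e i) = e (i + 1) ∧ π (e (i + 1)) = e i ∧
      ∀ a, Ind bar a (e i) → Ind bar a (e (i + 1)) → π a = a)
    {τ : Equiv.Perm I} (hτ : τ ∈ M) (h2 : τ (e 0) = bar (e 0)) (h3 : ∀ i < k, 0 < i → τ (e i) = e i) :
    ∃ ρ ∈ M, Cyc bar k e ρ ∧ ∀ a, ¬ InE bar k e a → ρ a = τ a := by
  have : ∀ j < k, ∃ ρ ∈ M, (∀ i < j, ρ (e i) = e (i + 1)) ∧ ρ (e j) = bar (e 0) ∧
      (∀ i < k, j < i → ρ (e i) = e i) ∧ ∀ a, ¬ InE bar k e a → ρ a = τ a := by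
    intro j hj
    induction j with
    | zero => exact ⟨τ, hτ, by simp, h2, h3, fun _ _ => rfl⟩
    | succ j ih =>
      obtain ⟨ρ, m, a1, a2, a3, a4⟩ := ih (by omega)
      obtain ⟨π, m', b1, b2, b3⟩ := h1 j hj
      refine ⟨ρ * π, mul_mem m m', fun i h => ?_, by simp [b2, a2], fun i h h' => ?_, fun a h => ?_⟩
      · rcases Nat.lt_succ_iff_lt_or_eq.1 h with h | rfl
        · simp [b3 _ (hi i (by omega) j (by omega) h.ne) (hi i (by omega) _ hj (by omega)), a1 i h]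
        · simp [b1, a3 _ hj (by omega)]
      · simp [b3 _ (hi i h j (by omega) (by omega)) (hi i h _ hj (by omega)), a3 i h (by omega)]
      · have : ∀ i < k, Ind bar a (e i) := fun i h' => ⟨fun e => h ⟨i, h', .inl e⟩, fun e => h ⟨i, h', .inr e⟩⟩
        simp [b3 a (this _ (by omega)) (this _ hj), a4 a h]
  obtain ⟨ρ, m, a1, a2, -, a4⟩ := this (k - 1) (by omega)
  exact ⟨ρ, m, ⟨hM ρ m, fun i h => a1 i (by omega), a2⟩, a4⟩

end Cyc

end Cfsg.Agent.H3
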