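import Cfsg.Agent.H3.TG1
import Cfsg.Agent.H38.ClBCD
import Cfsg.Agent.H38.Gen2

/-! Two-element generation of the split classical groups. -/

set_option autoImplicit false

namespace Cfsg.Agent.H3

open H38 Matrix Equiv

section Mon

variable {I : Type} [Fintype I] [DecidableEq I] {F : Type*} [Field F] {g h n : GL I F} {π ρ : Perm I} {l l' : I → F}

/-- Monomial matrices. -/
def Mn (g : GL I F) (π : Perm I) : Prop := ∃ l : I → F, (∀ a, l a ≠ 0) ∧ ∀ a, ap g (bv F a) = l a • bv F (π a)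

/-- Diagonal matrices. -/
def Dg (g : GL I F) (l : I → F) : Prop := ∀ a, ap g (bv F a) = l a • bv F a

theorem Mn.of (e : ∀ a, ap g (bv F a) = l a • bv F (π a)) : Mn g π :=
  ⟨l, fun a h => Fr.ap_bv_ne_zero g a (by rw [e, h, zero_smul]), e⟩

theorem Mn.mul (a : Mn g π) (b : Mn h ρ) : Mn (g * h) (π * ρ) := by
  obtain ⟨l, -, a⟩ := a
  obtain ⟨l', -, b⟩ := b
  exact .of (l := fun c => l' c * l (ρ c)) fun c => by rw [ap_mul, b, ap_smul, a, smul_smul]; rfl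

theorem Mn.inv (a : Mn g π) : Mn g⁻¹ π⁻¹ := by
  obtain ⟨l, h0, a⟩ := a
  refine .of (l := fun c => (l (π⁻¹ c))⁻¹) fun c => ?_
  rw [eq_inv_smul_iff₀ (h0 _), ← ap_smul, ← ap_inv_ap g (bv F (π⁻¹ c)), a]; simp

theorem Dg.conj (d : Dg h l) (a : Mn n π) : Dg (n * h * n⁻¹) fun c => l (π⁻¹ c) := fun c => by
  obtain ⟨m, h0, a⟩ := a
  have : bv F c = (m (π⁻¹ c))⁻¹ • ap n (bv F (π⁻¹ c)) := by rw [eq_inv_smul_iff₀ (h0 _), a]; simp
  rw [this, ap_smul, ap_mul, ap_mul, ap_inv_ap, d, ap_smul, smul_comm]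

theorem Dg.conj' (d : Dg h l) (a : Mn n π) : Dg (n⁻¹ * h * n) fun c => l (π c) := by simpa using d.conj a.inv

theorem Dg.comm (d : Dg g l) (d' : Dg h l') : Commute g h := ext_bv fun a => by
  rw [ap_mul, ap_mul, d, d', ap_smul, ap_smul, d, d', smul_comm]

end Mon

variable {I κ : Type} [Fintype κ] {Φ : Fr I κ} [DecidableEq I] [Fintype I] {F : Type*} [Field F]
  {g h n : GL I F} {π ρ : Perm I} {l : I → F} {a b c d i j : I} {K : Subgroup (GL I F)}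

theorem Dg.act (D : Dg h l) (hh : h ∈ Φ.K F) (e : i ≠ j) : Act h (Φ.y F i j) (l i * (l j)⁻¹) :=
  Fr.y_conj hh (π := 1) (fun _ => rfl) D e

theorem ad_y' (e : i ≠ j) : Ad (Φ.y F i j) := fun s t => Fr.y_add e s t

/-- The root subgroup lies in `K`. -/
def RK (Φ : Fr I κ) (K : Subgroup (GL I F)) (i j : I) : Prop := ∀ t, Φ.y F i j t ∈ K

theorem RK.conj (H : RK Φ K i j) (e : i ≠ j) (hn : n ∈ Φ.K F) (hπ : ∀ a, π (Φ.bar a) = Φ.bar (π a)) (M : Mn n π)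
    (hK : n ∈ K) : RK Φ K (π i) (π j) := fun t => by
  obtain ⟨l, h0, M⟩ := M
  have := mul_mem (mul_mem hK (H ((l i * (l j)⁻¹)⁻¹ * t))) (inv_mem hK)
  rwa [Fr.y_conj hn hπ M e, mul_inv_cancel_left₀ (mul_ne_zero (h0 _) (inv_ne_zero (h0 _)))] at this

theorem RK.flip (H : RK Φ K i j) (e : Φ.Adm i j) : RK Φ K (Φ.bar j) (Φ.bar i) := fun t => by
  rw [Fr.y_flip e]; exact H _

theorem mem_of_comm {G : Type*} [Group G] {K : Subgroup G} {x y z : G} (e : y * x = x * y * z) (hx : x ∈ K)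
    (hy : y⁻¹ * x * y ∈ K) : z ∈ K := by
  convert mul_mem (inv_mem hy) hx using 1
  rw [show z = (x * y)⁻¹ * (y * x) by rw [e]; group]; group

theorem mem_of_comm' {G : Type*} [Group G] {K : Subgroup G} {x y z : G} (e : y * x = x * y * z) (hx : x ∈ K)
    (hy : y ∈ K) : z ∈ K := mem_of_comm e hx (mul_mem (mul_mem (inv_mem hy) hx) hy)

theorem RK.of_comm {e : F} (he : e ≠ 0) (H : RK Φ K a b) (H' : RK Φ K c d)
    (E : ∀ t u, Φ.y F c d u * Φ.y F a b t = Φ.y F a b t * Φ.y F c d u * Φ.y F i j (e * t * u)) : RK Φ K i j :=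
  fun t => by
    have := mem_of_comm' (E (e⁻¹ * t) 1) (H _) (H' _)
    rwa [mul_one, mul_inv_cancel_left₀ he] at this

theorem RK.chain (H : RK Φ K a b) (H' : RK Φ K b c) (ha : Φ.bar a ≠ a) (hb : Φ.bar b ≠ b) (hc : Φ.bar c ≠ c)
    (h1 : Ind Φ.bar a b) (h2 : Ind Φ.bar b c) (h3 : Ind Φ.bar a c) : RK Φ K a c :=
  H.of_comm (by simp) H' (Fr.y_comm_gen ha hb hc h1.1 h2.1 h3.1 h1.2 h2.2 h3.2)

omit [DecidableEq I] [Fintype I] in
theorem Ind.adm (h : Ind Φ.bar a b) : Φ.Adm a b := ⟨h.1, fun e => absurd e h.2⟩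

theorem y_commute (h : Φ.Adm a b) (h' : Φ.Adm c d) (hc : Φ.bar c ≠ c) (h1 : b ≠ c) (h2 : Φ.bar a ≠ c)
    (h3 : b ≠ Φ.bar d) (h4 : a ≠ d) (t u : F) : Commute (Φ.y F a b t) (Φ.y F c d u) := by
  obtain ⟨s, σ, e, -⟩ := Fr.y_shape' h' hc u
  have := Fr.E_conj (Fr.y_mem_K h t) (Fr.β_bv_self hc) (Fr.β_smul_bv (Φ.bar_inj.ne h'.1.symm) s) σ
  rw [Fr.ap_y_fix h.1 t (bv_ne h1) (bv_ne h2), Fr.ap_y_fix h.1 t (by simp [bv_ne h3])
    (by simp [bv_ne (Φ.bar_inj.ne h4)]), ← e] at this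
  exact mul_inv_eq_iff_eq_mul.1 this

theorem st2 (hh : h ∈ Φ.K F) (hn : n ∈ Φ.K F) (D : Dg h l) (M : Mn n π) (hab : a ≠ b) (hcd : c ≠ d)
    (hc : ∀ t u, Commute (Φ.y F a b t) (Φ.y F c d u)) (e : l c * (l d)⁻¹ = 1) (ha : l a * (l b)⁻¹ ≠ 1)
    (ga : Gn (l a * (l b)⁻¹)) (ha' : l (π⁻¹ a) * (l (π⁻¹ b))⁻¹ ≠ 1) (hb' : l (π⁻¹ c) * (l (π⁻¹ d))⁻¹ ≠ 1)
    (hb'' : l (π c) * (l (π d))⁻¹ ≠ 1) (gb : Gn (l (π c) * (l (π d))⁻¹)) (hK : h ∈ K)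
    (hg : Φ.y F a b 1 * Φ.y F c d 1 * n ∈ K) : RK Φ K a b ∧ RK Φ K c d ∧ n ∈ K :=
  have m1 := mul_mem (mul_mem hn hh) (inv_mem hn)
  stein2 (ad_y' hab) (ad_y' hcd) hc (D.act hh hab) ((D.act hh hcd).cast e) ((D.conj M).act m1 hab)
    ((D.conj M).act m1 hcd) ((D.conj' M).act (mul_mem (mul_mem (inv_mem hn) hh) hn) hcd) (D.comm (D.conj M))
    ((D.conj' M).comm (D.conj M)) ha ga ha' hb' hb'' gb hK hg

theorem st1 (hh : h ∈ Φ.K F) (hn : n ∈ Φ.K F) (D : Dg h l) (M : Mn n π) (hab : a ≠ b) (ha : l a * (l b)⁻¹ ≠ 1)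
    (ga : Gn (l a * (l b)⁻¹)) (ha' : l (π⁻¹ a) * (l (π⁻¹ b))⁻¹ ≠ 1) (hK : h ∈ K) (hg : Φ.y F a b 1 * n ∈ K) :
    RK Φ K a b ∧ n ∈ K :=
  stein1' (ad_y' hab) (D.act hh hab) ((D.conj M).act (mul_mem (mul_mem hn hh) (inv_mem hn)) hab) (D.comm (D.conj M))
    ha ga ha' hK hg

theorem RK.of_one {ζ : F} (hζ : ∀ t : F, t ≠ 0 → ∃ k : ℕ, ζ ^ k = t) (h2 : ζ ^ 2 = 1) (e : i ≠ j) {v : F} (hv : v ≠ 0)
    (H : Φ.y F i j v ∈ K) : RK Φ K i j :=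
  (gn_of_prim hζ).all (S := (ad_y' e).pre K) (fun t ht => by
    rcases sq_eq_one_iff.1 h2 with rfl | rfl
    · rwa [one_mul]
    · rw [neg_one_mul]; exact neg_mem ht) hv H

theorem mn_n (e : i ≠ j) : Mn (Φ.y F i j 1 * Φ.y F j i (-1⁻¹) * Φ.y F i j 1) (Φ.pm i j) :=
  .of (Fr.ap_n e one_ne_zero)

theorem pm_self (hi : Φ.bar i ≠ i) (hj : Φ.bar j ≠ j) (e : i ≠ j) : Φ.pm i j i = j ∧ Φ.pm i j j = i := by
  by_cases h : i = Φ.bar j
  · simp [Fr.pm, if_pos h]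
  · have h' : j ≠ Φ.bar i := fun e => h (by rw [e, Φ.bar_bar])
    simp [Fr.pm, if_neg h, if_neg hi, if_neg hj, swap_apply_of_ne_of_ne hi.symm h, swap_apply_of_ne_of_ne h' hj.symm]

theorem pm_other (h1 : Ind Φ.bar a i) (h2 : Ind Φ.bar a j) : Φ.pm i j a = a := by
  unfold Fr.pm
  split_ifs <;> simp [swap_apply_of_ne_of_ne, h1.1, h1.2, h2.1, h2.2]

theorem two_facts (hF : ∀ t : F, t ≠ 0 → t = 1) (e : Φ.Adm i j) (hi : Φ.bar i ≠ i) (hj : Φ.bar j ≠ j) :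
    Φ.y F i j 1 * Φ.y F i j 1 = 1 ∧ (Φ.y F j i 1 * Φ.y F i j 1) ^ 3 = 1 := by
  have h1 : (-1 : F) = 1 := hF _ (by simp)
  have hsq : ∀ {i j}, i ≠ j → Φ.y F i j 1 * Φ.y F i j 1 = 1 := fun e => by
    rw [← ad_y' e, ← (ad_y' (Φ := Φ) e).zero]; congr 1; linear_combination -h1
  obtain ⟨l, h0, M⟩ := mn_n (Φ := Φ) (F := F) e.1
  have e1 := Fr.y_conj (mul_mem (mul_mem (Fr.y_mem_K e _) (Fr.y_mem_K e.symm _)) (Fr.y_mem_K e _)) (Φ.pm_bar e.1) M e.1 1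
  rw [(pm_self hi hj e.1).1, (pm_self hi hj e.1).2, hF _ (h0 i), hF _ (h0 j), inv_one, h1, mul_one, mul_one,
    mul_inv_eq_iff_eq_mul, mul_assoc _ (Φ.y F i j 1), hsq e.1, mul_one] at e1
  refine ⟨hsq e.1, ?_⟩
  have a := hsq e.1
  have b := hsq e.1.symm
  set x := Φ.y F i j 1
  set y := Φ.y F j i 1
  calc (y * x) ^ 3 = y * (x * y * x) * (y * x) := by simp only [pow_succ, pow_zero, one_mul, mul_assoc]
    _ = x * (y * y) * x := by rw [← e1]; simp only [mul_assoc]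
    _ = 1 := by rw [b, mul_one, a]

theorem conj_mem_of {G : Type*} [Group G] {K : Subgroup G} {x y z : G} (h : y * z ∈ K) (hx : x ∈ K)
    (hc : Commute x y) : z⁻¹ * x * z ∈ K := by
  convert mul_mem (mul_mem (inv_mem h) hx) h using 1
  rw [mul_assoc (y * z)⁻¹ x, ← mul_assoc x, hc.eq]; group

variable {ι : Type} [Fintype ι] [DecidableEq ι] (Δ : Φ.Base ι)

theorem grp_le (H : ∀ i j, Φ.Adm i j → RK Φ K i j) : (Δ.rg F).grp ≤ K :=
  (RG0.US_le _).2 fun r _ t => H _ _ r.adm t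

theorem exists_dg (e : Φ.Adm i j) (hi : Φ.bar i ≠ i) (hj : Φ.bar j ≠ j) {c : F} (hc : c ≠ 0) :
    ∃ h ∈ (Δ.rg F).grp, ∃ l, Dg h l ∧ l i = c ∧ l j = c⁻¹ ∧ l (Φ.bar i) = c⁻¹ ∧ l (Φ.bar j) = c ∧
      ∀ a, Ind Φ.bar a i → Ind Φ.bar a j → l a = 1 := by
  refine ⟨_, RG.H_le_grp _ (RG.h_mem_H _ (Fr.rt i j e) hc), _, Δ.ap_h _ hc, ?_⟩
  have h0 := e.1
  rw [Fr.cov_rt, Fr.cv]
  split_ifs with h h'
  · subst h
    simp +contextual [Φ.dot_eq, Φ.bar_bar, hj, hj.symm, Ind]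
  · exact absurd h' (by simp [hi, hj])
  · have h' : j ≠ Φ.bar i := fun e => h (by rw [e, Φ.bar_bar])
    simp +contextual [Φ.dot_eq, Φ.bar_eq_bar, hi, hj, hi.symm, hj.symm, Ind, h, h', h0, h0.symm, h'.symm, Ne.symm h]

variable (F) in
/-- The permutations induced by monomial elements of the group. -/
def monP : Submonoid (Perm I) where
  carrier := {π | (∀ a, π (Φ.bar a) = Φ.bar (π a)) ∧ ∃ g ∈ (Δ.rg F).grp, Mn g π}
  one_mem' := ⟨fun _ => rfl, 1, one_mem _, .of (l := fun _ => 1) fun a => by simp [ap_one]⟩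
  mul_mem' := fun ⟨a, _, b, c⟩ ⟨a', _, b', c'⟩ => ⟨fun x => by simp [a, a'], _, mul_mem b b', c.mul c'⟩

theorem pm_mem (e : Φ.Adm i j) : Φ.pm i j ∈ monP F Δ :=
  ⟨Φ.pm_bar e.1, _, mul_mem (mul_mem (Δ.y_mem_grp e _) (Δ.y_mem_grp e.symm _)) (Δ.y_mem_grp e _), mn_n e.1⟩

variable {k : ℕ} {e : ℕ → I}

theorem exists_n (hk : 0 < k) (hs : ∀ i, Φ.bar (e i) ≠ e i) (hi : ∀ i < k, ∀ j < k, i ≠ j → Ind Φ.bar (e i) (e j))
    {τ : Perm I} (hτ : τ ∈ monP F Δ) (h2 : τ (e 0) = Φ.bar (e 0)) (h3 : ∀ i < k, 0 < i → τ (e i) = e i) :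
    ∃ n ∈ (Δ.rg F).grp, ∃ ρ, Mn n ρ ∧ Cyc Φ.bar k e ρ ∧ ∀ a, ¬ InE Φ.bar k e a → ρ a = τ a := by
  obtain ⟨ρ, ⟨-, n, h1, M⟩, C⟩ := exists_scyc hk hi (M := monP F Δ) (fun _ h => h.1) (fun i h =>
    have := hi i (by omega) _ h (by omega)
    ⟨_, pm_mem Δ this.adm, (pm_self (hs _) (hs _) this.1).1, (pm_self (hs _) (hs _) this.1).2, fun _ => pm_other⟩)
    hτ h2 h3
  exact ⟨n, h1, ρ, M, C⟩

omit [DecidableEq I] [Fintype I] in
theorem InE.sing (hs : ∀ i, Φ.bar (e i) ≠ e i) (h : InE Φ.bar k e a) : Φ.bar a ≠ a := by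
  obtain ⟨i, -, rfl | rfl⟩ := h
  · exact hs i
  · exact Fr.bar_sing (hs i)

theorem rk_closure (C : Cyc Φ.bar k e ρ) (hk : 2 ≤ k) (hs : ∀ i, Φ.bar (e i) ≠ e i)
    (hi : ∀ i < k, ∀ j < k, i ≠ j → Ind Φ.bar (e i) (e j)) (hn : n ∈ Φ.K F) (M : Mn n ρ) (hK : n ∈ K)
    (h01 : RK Φ K (e 0) (e 1)) (ha : InE Φ.bar k e a) (hb : InE Φ.bar k e b) (h : Ind Φ.bar a b) : RK Φ K a b :=
  C.closure Φ.bar_bar hk (fun j h1 h2 => hi 0 (by omega) j h2 h1.ne) (fun _ _ _ _ h H => H.conj h.1 hn C.bar_ρ M hK)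
    (fun _ _ _ _ h H => H.flip h.adm) (fun _ _ _ a b c h1 h2 h3 H H' => H.chain H' (a.sing hs) (b.sing hs) (c.sing hs)
      h1 h2 h3) h01 ha hb h

theorem Cyc.inv_zero {I : Type*} {bar : I → I} {e : ℕ → I} {ρ : Perm I} (C : Cyc bar k e ρ) (bb : ∀ a, bar (bar a) = a) :
    ρ⁻¹ (e 0) = bar (e (k - 1)) := by
  rw [Perm.inv_eq_iff_eq, C.bar_ρ, C.last, bb]

theorem Cyc.inv_bar {I : Type*} {bar : I → I} {e : ℕ → I} {ρ : Perm I} (C : Cyc bar k e ρ) (a : I) :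
    ρ⁻¹ (bar a) = bar (ρ⁻¹ a) := by
  rw [Perm.inv_eq_iff_eq, C.bar_ρ]; simp

theorem Cyc.inv_one {I : Type*} {bar : I → I} {e : ℕ → I} {ρ : Perm I} (C : Cyc bar k e ρ) (hk : 2 ≤ k) :
    ρ⁻¹ (e 1) = e 0 := by
  rw [Perm.inv_eq_iff_eq, C.step 0 hk]

/-- Two elements of `L` that generate `L`. -/
def TwoG {G : Type*} [Group G] (L : Subgroup G) : Prop := ∃ a ∈ L, ∃ b ∈ L, ∀ K : Subgroup G, a ∈ K → b ∈ K → L ≤ K

theorem TwoG.range {G H : Type*} [Group G] [Group H] {f : H →* G} (hf : Function.Injective f) (h : TwoG f.range) :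
    ∃ a b : H ⧸ Subgroup.center H, Subgroup.closure {a, b} = ⊤ := by
  obtain ⟨_, ⟨a, rfl⟩, _, ⟨b, rfl⟩, h⟩ := h
  have h1 : Subgroup.closure {a, b} = ⊤ := top_le_iff.1 fun g _ => by
    obtain ⟨k, hk, e⟩ := h ((Subgroup.closure {a, b}).map f) ⟨a, Subgroup.subset_closure (by simp), rfl⟩
      ⟨b, Subgroup.subset_closure (by simp), rfl⟩ ⟨g, rfl⟩
    exact hf e ▸ hk
  have h' := congrArg (Subgroup.map (QuotientGroup.mk' (Subgroup.center _))) h1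
  rw [MonoidHom.map_closure, Set.image_pair, Subgroup.map_top_of_surjective _ (QuotientGroup.mk'_surjective _)] at h'
  exact ⟨_, _, h'⟩

theorem twoG_C [Finite F] (hl : Φ.lng) (hk : 2 ≤ k) (hF : k = 2 → ∃ t : F, t ≠ 0 ∧ t ≠ 1)
    (hi : ∀ i < k, ∀ j < k, i ≠ j → Ind Φ.bar (e i) (e j)) (hall : ∀ a, InE Φ.bar k e a) : TwoG (Δ.rg F).grp := by
  have hs := Φ.lng_bar hl
  have bb := Φ.bar_bar
  have adm : ∀ {a b}, a ≠ b → Φ.Adm a b := fun h => ⟨h, fun _ => hl⟩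
  have i01 := hi 0 (by omega) 1 hk (by omega)
  obtain ⟨n, hn, ρ, M, C, -⟩ := exists_n Δ (by omega) (fun _ => hs _) hi (pm_mem (F := F) Δ (adm (hs (e 0)).symm))
    (pm_self (hs _) (hs _) (hs _).symm).1 fun i h h' => pm_other (hi i h 0 (by omega) h'.ne')
      ((hi i h 0 (by omega) h'.ne').br bb)
  have hn' := Δ.grp_le_K hn
  have sh : ∀ {K}, n ∈ K → RK Φ K (e 0) (e 1) → ∀ {a b}, Ind Φ.bar a b → RK Φ K a b := fun hK H _ _ h =>
    rk_closure C hk (fun _ => hs _) hi hn' M hK H (hall _) (hall _) h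
  have fin : ∀ {K}, n ∈ K → RK Φ K (e 0) (e 1) → RK Φ K (e 0) (Φ.bar (e 0)) → (Δ.rg F).grp ≤ K := fun hK H H' =>
    grp_le Δ fun i j h => by
      by_cases h1 : i = Φ.bar j
      · have := C.all (P := fun a => RK Φ _ a (Φ.bar a))
          (fun a H => C.bar_ρ a ▸ H.conj (hs a).symm hn' C.bar_ρ M hK) H' (hall i)
        rwa [h1, bb, ← h1] at this
      · exact sh hK H ⟨h.1, h1⟩
  obtain ⟨ζ, h0, hζ⟩ := exists_prim F
  by_cases h2 : ζ ^ 2 = 1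
  · by_cases h1 : ζ = 1
    · have hF' : ∀ t : F, t ≠ 0 → t = 1 := fun t ht => by obtain ⟨k, rfl⟩ := hζ t ht; simp [h1]
      have hk3 : 2 < k := by
        refine lt_of_le_of_ne hk fun h => ?_
        obtain ⟨t, a, b⟩ := hF h.symm
        exact b (hF' t a)
      have i02 := hi 0 (by omega) 2 hk3 (by omega)
      have i12 := hi 1 (by omega) 2 hk3 (by omega)
      have A := adm (hs (e 2))
      refine ⟨Φ.y F (e 0) (e 1) 1 * (Φ.y F (e 2) (Φ.bar (e 2)) 1 * Φ.y F (Φ.bar (e 2)) (e 2) 1),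
        mul_mem (Δ.y_mem_grp i01.adm _) (mul_mem (Δ.y_mem_grp A.symm _) (Δ.y_mem_grp A _)), n, hn, fun K h1 hK => ?_⟩
      obtain ⟨a1, a2⟩ := mem_of_two_three (.mul_right
        (y_commute i01.adm A.symm (hs _) i12.1 (i02.bl bb).1 (by rw [bb]; exact i12.1) i02.2 _ _)
        (y_commute i01.adm A (hs _) i12.2 (i02.bl bb).2 i12.2 i02.1 _ _)) (two_facts hF' i01.adm (hs _) (hs _)).1
        (two_facts hF' A (hs _) (hs _)).2 h1
      have H := RK.of_one hζ h2 i01.1 one_ne_zero a1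
      have a3 := mem_of_comm (Fr.y_comm_sl hl i02.2 i02.1 1 1 |>.trans (mul_assoc _ _ _)) (sh hK H (i02.br bb) _)
        (conj_mem_of a2 (sh hK H (i02.br bb) _) (y_commute (i02.br bb).adm A.symm (hs _) (hs _) (i02.bl bb).1
          (hs _).symm i02.2 _ _))
      refine fin hK H (RK.of_one hζ h2 (hs _).symm ?_ ((K.mul_mem_cancel_left (sh hK H i02 _)).1 a3))
      exact fun h => by simpa [show Φ.κs F _ _ = 0 by simpa using h] using Φ.κs_mul_self (F := F) (e 0) (Φ.bar (e 2))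
    · refine ⟨_, Δ.y_mem_grp i01.adm 1, n, hn, fun K h3 hK => ?_⟩
      have H := RK.of_one hζ h2 i01.1 one_ne_zero h3
      have h4 : (-2 : F) ≠ 0 := fun h => h1 ((sq_eq_one_iff.1 h2).elim id fun h' => by linear_combination h' + h)
      have := (sh hK H (a := Φ.bar (Φ.bar (e 0))) (by rw [bb]; exact i01)).of_comm h4 (sh hK H ((i01.symm bb).br bb))
        (Fr.y_comm_cc hl (i01.symm bb).2 ((i01.symm bb).br bb).2)
      exact fin hK H (by rwa [bb] at this)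
  · have h1 : ζ ≠ 1 := fun h => h2 (by simp [h])
    have A : Φ.Adm (e 1) (Φ.bar (e (k - 1))) := adm <| by
      rcases eq_or_ne (k - 1) 1 with h | h
      · rw [h]; exact (hs _).symm
      · exact (hi 1 hk _ (by omega) h.symm).2
    obtain ⟨h, hh, l, D, l1, l2, l3, l4, l5⟩ := exists_dg Δ A (hs _) (hs _) h0
    have i0 := (hi 0 (by omega) (k - 1) (by omega) (by omega)).br bb
    have l0 := l5 _ i01 i0
    have l0' := l5 _ (i01.bl bb) (i0.bl bb)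
    refine ⟨h, hh, Φ.y F (e 0) (e 1) 1 * Φ.y F (e 0) (Φ.bar (e 0)) 1 * n,
      mul_mem (mul_mem (Δ.y_mem_grp i01.adm _) (Δ.y_mem_grp (adm (hs _).symm) _)) hn, fun K h3 h4 => ?_⟩
    obtain ⟨a1, a2, a3⟩ := st2 (Δ.grp_le_K hh) hn' D M i01.1 (hs _).symm (y_commute i01.adm (adm (hs _).symm) (hs _)
      i01.1.symm (hs _) (by rw [bb]; exact i01.1.symm) (hs _).symm) (by simp [l0, l0']) (by simpa [l0, l1] using h1)
      (by simpa [l0, l1] using gn_of_prim (prim_inv hζ)) (by simpa [C.inv_zero bb, C.inv_one hk, l0, l2] using h1)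
      (by rw [C.inv_bar, C.inv_zero bb, l2, l4, ← mul_inv, ← sq, ne_eq, inv_eq_one]; exact h2)
      (by simpa [C.bar_ρ, C.step 0 hk, l1, l3, sq] using h2)
      (by simpa [C.bar_ρ, C.step 0 hk, l1, l3, sq] using gn_sq hζ) h3 h4
    exact fin a3 a1 a2

end Cfsg.Agent.H3
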