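import Cfsg.Agent.H3.TG2

/-! Two-element generation of the split classical groups: types `B` and `D`, and the concrete groups. -/

set_option autoImplicit false

namespace Cfsg.Agent.H3

open H38 Matrix Equiv

variable {I κ : Type} [Fintype κ] {Φ : Fr I κ} [DecidableEq I] [Fintype I] {F : Type*} [Field F]
  {ι : Type} [Fintype ι] [DecidableEq ι] (Δ : Φ.Base ι) {k : ℕ} {e : ℕ → I}

theorem twoG_B [Finite F] (h2 : (2 : F) ≠ 0) {o : I} (ho : Φ.bar o = o) (hk : 2 ≤ k) (hs : ∀ i, Φ.bar (e i) ≠ e i)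
    (hi : ∀ i < k, ∀ j < k, i ≠ j → Ind Φ.bar (e i) (e j)) (hall : ∀ a, a ≠ o → InE Φ.bar k e a) :
    TwoG (Δ.rg F).grp := by
  have bb := Φ.bar_bar
  have io : ∀ {a}, Φ.bar a ≠ a → Ind Φ.bar a o := fun h => ⟨by rintro rfl; exact h ho, by rintro rfl; simp [ho] at h⟩
  have e0 : Φ.pm (e 0) o = swap (e 0) (Φ.bar (e 0)) := by rw [Fr.pm, if_neg (io (hs 0)).2, if_pos ho]
  obtain ⟨n, hn, ρ, M, C, hρ⟩ := exists_n Δ (by omega) hs hi (pm_mem (F := F) Δ (io (hs 0)).adm) (by simp [e0])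
    fun i h h' => pm_other (hi i h 0 (by omega) h'.ne') (io (hs i))
  have ρo : ρ o = o := by
    rw [hρ o fun h => h.sing hs ho, e0, swap_apply_of_ne_of_ne ((io (hs 0)).symm bb).1 ((io (hs 0)).symm bb).2]
  have hn' := Δ.grp_le_K hn
  obtain ⟨ζ, h0, hζ⟩ := exists_prim F
  have h1 : ζ ≠ 1 := fun h => by
    obtain ⟨k, hk⟩ := hζ (-1) (by simp)
    exact h2 (by rw [h, one_pow] at hk; linear_combination hk)
  have i0 := (hi 0 (by omega) (k - 1) (by omega) (by omega)).br bb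
  obtain ⟨h, hh, l, D, l1, l2, -, -, l5⟩ := exists_dg Δ i0.adm (hs _) (Fr.bar_sing (hs _)) h0
  have l0 := l5 o ((io (hs _)).symm bb) ((io (Fr.bar_sing (hs _))).symm bb)
  refine ⟨h, hh, Φ.y F (e 0) o 1 * n, mul_mem (Δ.y_mem_grp (io (hs 0)).adm _) hn, fun K h3 h4 => ?_⟩
  obtain ⟨a1, hK⟩ := st1 (Δ.grp_le_K hh) hn' D M (io (hs 0)).1 (by simpa [l0, l1] using h1)
    (by simpa [l0, l1] using gn_of_prim hζ)
    (by rw [C.inv_zero bb, Perm.inv_eq_iff_eq.2 ρo.symm, l0, l2]; simpa using h1) h3 h4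
  have a2 : ∀ a, a ≠ o → RK Φ K a o := fun a h => (C.all (P := fun a => Φ.bar a ≠ a ∧ RK Φ K a o) (fun a H =>
    ⟨by rw [← C.bar_ρ]; exact ρ.injective.ne H.1, ρo ▸ H.2.conj (io H.1).1 hn' C.bar_ρ M hK⟩) ⟨hs 0, a1⟩ (hall a h)).2
  have a3 : ∀ a, a ≠ o → RK Φ K o a := fun a h => by
    have h' := Fr.bar_sing ((hall a h).sing hs)
    simpa [ho, bb] using (a2 _ (io h').1).flip (io h').adm
  refine grp_le Δ fun i j h => ?_
  rcases eq_or_ne i o with rfl | hi
  · exact a3 j h.1.symm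
  rcases eq_or_ne j o with rfl | hj
  · exact a2 i hi
  exact (a2 i hi).of_comm (neg_ne_zero.2 h2) (a3 j hj) (Fr.y_comm_ss ho hi hj.symm h.1
    fun e => by simpa [Φ.lng_of_mid ho] using h.2 e)

theorem twoG_D [Finite F] (hl : Φ.lng = false) {z : I} (hz : Φ.bar z ≠ z) (hk : 3 ≤ k) (hs : ∀ i, Φ.bar (e i) ≠ e i)
    (hi : ∀ i < k, ∀ j < k, i ≠ j → Ind Φ.bar (e i) (e j)) (hiz : ∀ i < k, Ind Φ.bar (e i) z)
    (hall : ∀ a, Ind Φ.bar a z → InE Φ.bar k e a) : TwoG (Δ.rg F).grp := by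
  have bb := Φ.bar_bar
  have hz' := Fr.bar_sing hz
  have iz : ∀ {a}, InE Φ.bar k e a → Ind Φ.bar a z := fun ⟨i, h, h'⟩ => by
    rcases h' with rfl | rfl
    exacts [hiz i h, (hiz i h).bl bb]
  have E : ∀ {i}, i < k → InE Φ.bar k e (e i) := fun h => ⟨_, h, .inl rfl⟩
  have i0 := hiz 0 (by omega)
  have p1 := pm_self (hs _) hz i0.1
  have p2 := pm_self (hs _) hz' i0.2
  obtain ⟨n, hn, ρ, M, C, hρ⟩ := exists_n Δ (by omega) hs hi
    (mul_mem (pm_mem (F := F) Δ i0.adm) (pm_mem Δ (i0.br bb).adm)) (by simp [p2.1, Φ.pm_bar i0.1, p1.2])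
    fun i h h' => by simp [pm_other (hi i h 0 (by omega) h'.ne') (hiz i h),
      pm_other (hi i h 0 (by omega) h'.ne') ((hiz i h).br bb)]
  have ρz : ρ z = Φ.bar z := by
    have := Φ.pm_bar i0.2 (Φ.bar z)
    rw [bb, p2.2] at this
    rw [hρ z fun h => (iz h).1 rfl, Perm.mul_apply, this, Φ.pm_bar i0.1, p1.1]
  have hn' := Δ.grp_le_K hn
  have i01 := hi 0 (by omega) 1 (by omega) (by omega)
  have i02 := hi 0 (by omega) 2 hk (by omega)
  have i12 := hi 1 (by omega) 2 hk (by omega)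
  have sh : ∀ {K}, n ∈ K → RK Φ K (e 0) (e 1) → ∀ {a b}, InE Φ.bar k e a → InE Φ.bar k e b → Ind Φ.bar a b →
      RK Φ K a b := fun hK H _ _ => rk_closure C (by omega) hs hi hn' M hK H
  have fin : ∀ {K}, n ∈ K → RK Φ K (e 0) (e 1) → RK Φ K (e 0) z → (Δ.rg F).grp ≤ K := fun {K} hK H H' => by
    have a1 : ∀ {a b w}, (w = z ∨ w = Φ.bar z) → InE Φ.bar k e a → InE Φ.bar k e b → Ind Φ.bar a b → RK Φ K b w →
        RK Φ K a w := fun {a b w} hw ha hb h G => by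
      rcases hw with rfl | rfl
      · exact (sh hK H ha hb h).chain G (ha.sing hs) (hb.sing hs) hz h (iz hb) (iz ha)
      · exact (sh hK H ha hb h).chain G (ha.sing hs) (hb.sing hs) hz' h ((iz hb).br bb) ((iz ha).br bb)
    have a2 : ∀ {a w}, (w = z ∨ w = Φ.bar z) → InE Φ.bar k e a → RK Φ K a w := fun {a w} hw ha => by
      have b : RK Φ K (e 0) w ∧ RK Φ K (e 1) w := by
        rcases hw with rfl | rfl
        · exact ⟨H', a1 (.inl rfl) (E (by omega)) (E (by omega)) (i01.symm bb) H'⟩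
        · have := H'.conj i0.1 hn' C.bar_ρ M hK
          rw [C.step 0 (by omega), ρz] at this
          exact ⟨a1 (.inr rfl) (E (by omega)) (E (by omega)) i01 this, this⟩
      by_cases h : Ind Φ.bar a (e 0)
      · exact a1 hw ha (E (by omega)) h b.1
      · refine a1 hw ha (E (by omega)) ?_ b.2
        rcases not_and_or.1 h with h | h <;> rw [not_not.1 h]
        exacts [i01, i01.bl bb]
    have a3 : ∀ {a}, ¬ Ind Φ.bar a z → a = z ∨ a = Φ.bar z := fun h => by simpa only [Ind, not_and_or, not_not] using h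
    refine grp_le Δ fun i j h => ?_
    have h' : Ind Φ.bar i j := ⟨h.1, fun e => by simpa [hl] using h.2 e⟩
    by_cases h1 : Ind Φ.bar i z <;> by_cases h2 : Ind Φ.bar j z
    · exact sh hK H (hall _ h1) (hall _ h2) h'
    · exact a2 (a3 h2) (hall _ h1)
    · have := (a2 (w := Φ.bar i) ((a3 h1).symm.imp (fun e => by rw [e, bb]) (congrArg _)) ((hall _ h2).op bb)).flip
        h.flip
      rwa [bb, bb] at this
    · rcases a3 h1 with rfl | rfl <;> rcases a3 h2 with rfl | rfl <;> simp [Ind, bb] at h'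
  obtain ⟨ζ, h0, hζ⟩ := exists_prim F
  by_cases h1 : ζ = 1
  · have hF' : ∀ t : F, t ≠ 0 → t = 1 := fun t ht => by obtain ⟨k, rfl⟩ := hζ t ht; simp [h1]
    have h2 : ζ ^ 2 = 1 := by simp [h1]
    have i1 := hiz 1 (by omega)
    have i2 := hiz 2 hk
    refine ⟨Φ.y F (e 0) (e 1) 1 * (Φ.y F z (e 2) 1 * Φ.y F (e 2) z 1),
      mul_mem (Δ.y_mem_grp i01.adm _) (mul_mem (Δ.y_mem_grp i2.adm.symm _) (Δ.y_mem_grp i2.adm _)), n, hn,
      fun K h1 hK => ?_⟩
    obtain ⟨a1, a2⟩ := mem_of_two_three (.mul_right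
      (y_commute i01.adm i2.adm.symm hz i1.1 (i0.bl bb).1 i12.2 i02.1 _ _)
      (y_commute i01.adm i2.adm (hs _) i12.1 (i02.bl bb).1 i1.2 i0.1 _ _)) (two_facts hF' i01.adm (hs _) (hs _)).1
      (two_facts hF' i2.adm (hs _) hz).2 h1
    have H := RK.of_one hζ h2 i01.1 one_ne_zero a1
    have H' := sh hK H (E (by omega)) (E hk) i02
    exact fin hK H (RK.of_one hζ h2 i0.1 (by simp) (mem_of_comm
      (Fr.y_comm_gen (hs _) (hs _) hz i02.1 i2.1 i0.1 i02.2 i2.2 i0.2 1 1) (H' _)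
      (conj_mem_of a2 (H' _) (y_commute i02.adm i2.adm.symm hz i2.1 (i0.bl bb).1 (hs _).symm i02.1 _ _))))
  · have A := (hi 1 (by omega) (k - 1) (by omega) (by omega)).br bb
    obtain ⟨h, hh, l, D, l1, l2, -, -, l5⟩ := exists_dg Δ A.adm (hs _) (Fr.bar_sing (hs _)) h0
    have l0 := l5 _ i01 ((hi 0 (by omega) (k - 1) (by omega) (by omega)).br bb)
    have j1 := (hiz 1 (by omega)).symm bb
    have j2 := ((hiz (k - 1) (by omega)).symm bb).br bb
    have lz := l5 _ j1 j2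
    have lz' := l5 _ (j1.bl bb) (j2.bl bb)
    have ρz' : ρ⁻¹ z = Φ.bar z := by rw [Perm.inv_eq_iff_eq, C.bar_ρ, ρz, bb]
    refine ⟨h, hh, Φ.y F (e 0) (e 1) 1 * Φ.y F (e 0) z 1 * n,
      mul_mem (mul_mem (Δ.y_mem_grp i01.adm _) (Δ.y_mem_grp i0.adm _)) hn, fun K h3 h4 => ?_⟩
    obtain ⟨a1, a2, a3⟩ := st2 (Δ.grp_le_K hh) hn' D M i01.1 i0.1 (y_commute i01.adm i0.adm (hs _)
      i01.1.symm (hs _) (hiz 1 (by omega)).2 i0.1) (by simp [l0, lz]) (by simpa [l0, l1] using h1)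
      (by simpa [l0, l1] using gn_of_prim (prim_inv hζ))
      (by simpa [C.inv_zero bb, C.inv_one (by omega), l0, l2] using h1)
      (by rw [C.inv_zero bb, ρz', l2, lz']; simpa using h1)
      (by simpa [ρz, C.step 0 (by omega), l1, lz'] using h1)
      (by simpa [ρz, C.step 0 (by omega), l1, lz'] using gn_of_prim hζ) h3 h4
    exact fin a3 a1 a2

/-- The standard sequence of indices. -/
def eN (n i : ℕ) : Fin (n + 1) ⊕ Fin (n + 1) := .inl (Fin.ofNat _ i)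

theorem eN_ind {n : ℕ} (i : ℕ) (hi : i < n + 1) (j : ℕ) (hj : j < n + 1) (h : i ≠ j) :
    Ind Sum.swap (eN n i) (eN n j) := by
  simpa [Ind, eN, Fin.ext_iff, Nat.mod_eq_of_lt hi, Nat.mod_eq_of_lt hj] using h

theorem eN_in {n k : ℕ} {a : Fin (n + 1) ⊕ Fin (n + 1)} (h : a.elim Fin.val Fin.val < k) : InE Sum.swap k (eN n) a :=
  ⟨_, h, by rcases a with a | a <;> simp [eN]⟩

theorem two_psp [Finite F] {n : ℕ} (hn : 1 ≤ n) (hF : n = 1 → ∃ t : F, t ≠ 0 ∧ t ≠ 1) :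
    ∃ a b : PSp (n + 1) F, Subgroup.closure {a, b} = ⊤ :=
  TwoG.range (spHom_inj _) <| grpC_eq (F := F) n ▸ twoG_C (baseC n) rfl (k := n + 1) (by omega)
    (fun h => hF (by omega)) eN_ind fun a => eN_in (by rcases a with a | a <;> exact a.2)

theorem two_pomB [Finite F] (h2 : (2 : F) ≠ 0) {n : ℕ} (hn : 1 ≤ n) :
    ∃ a b : POmega F (quadFormOdd (n + 1) F), Subgroup.closure {a, b} = ⊤ :=
  TwoG.range (Fr.omegaHom_inj _) <|
    grpB_eq (F := F) hn (.inr ⟨-1, by simp, fun h => h2 (by linear_combination -h)⟩) ▸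
      twoG_B (baseB n) h2 (o := .inl ()) rfl (k := n + 1) (e := fun i => .inr (eN n i)) (by omega)
        (fun _ => frB_sing _) (fun i hi j hj h => by simpa [Ind, frB_bar] using eN_ind i hi j hj h) fun a h => by
          rcases a with a | a
          · exact absurd rfl h
          · obtain ⟨i, h1, h2⟩ := eN_in (k := n + 1) (a := a) (by rcases a with a | a <;> exact a.2)
            exact ⟨i, h1, by simpa [frB_bar] using h2⟩

theorem two_pomD [Finite F] {n : ℕ} (hn : 2 ≤ n) :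
    ∃ a b : POmega F (quadFormPlus (n + 2) F), Subgroup.closure {a, b} = ⊤ :=
  TwoG.range (Fr.omegaHom_inj _) <| grpD_eq (F := F) (n := n) (.inl (by omega)) ▸
    twoG_D (baseD n) rfl (frE_sing (eN (n + 1) (n + 1))) (k := n + 1) (e := eN (n + 1)) (by omega) (fun _ => frE_sing _)
      (fun i hi j hj => eN_ind i (by omega) j (by omega)) (fun i hi => eN_ind i (by omega) _ (by omega) hi.ne)
      fun a h => eN_in (by
        rcases a with a | a <;> simp [Ind, eN, frE_bar, Fin.ext_iff] at h ⊢ <;> omega)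

end Cfsg.Agent.H3
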