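import Cfsg.Agent.H3.TG2

/-! Eichler transformations of unitary and orthogonal groups, and hyperbolic frames. -/

set_option autoImplicit false

namespace Cfsg.Agent.H3

open Equiv

/-- A Hermitian or quadratic form together with the group generated by the Eichler transformations. -/
structure EC {F : Type*} [Field F] (σ : F →+* F) (V : Type*) [AddCommGroup V] [Module F V] where
  /-- the form -/
  B : V →ₛₗ[σ] V →ₗ[F] F
  /-- the group -/
  L : Subgroup (V ≃ₗ[F] V)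
  /-- the admissible parameters -/
  Par : V → F → Prop
  σσ : ∀ a, σ (σ a) = a
  sym : ∀ x y, B y x = σ (B x y)
  iso : ∀ g ∈ L, ∀ x y, B (g x) (g y) = B x y
  map : ∀ g ∈ L, ∀ {v t}, Par v t → Par (g v) t
  self : ∀ {v t}, Par v t → B v v = t + σ t
  add : ∀ {v t w s}, Par v t → Par w s → Par (v + w) (t + s + B v w)
  smul : ∀ {v t} c, Par v t → Par (c • v) (σ c * c * t)
  sub : ∀ {v t s}, Par v t → Par v s → Par 0 (t - s)
  tr : ∀ c, Par 0 (σ c - c)
  ex : ∀ v, ∃ t, Par v t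
  exE : ∀ {u v t}, Par u 0 → B u v = 0 → Par v t →
    ∃ g ∈ L, ∀ z, g z = z + B u z • v - (B v z + t * B u z) • u
  gen : ∀ K : Subgroup (V ≃ₗ[F] V), (∀ u v t, Par u 0 → B u v = 0 → Par v t →
    ∃ g ∈ K, ∀ z, g z = z + B u z • v - (B v z + t * B u z) • u) → L ≤ K

namespace EC

variable {F : Type*} [Field F] {σ : F →+* F} {V : Type*} [AddCommGroup V] [Module F V] (C : EC σ V)
  {u v w e f e' f' : V} {s t c : F} {g : V ≃ₗ[F] V} {K : Subgroup (V ≃ₗ[F] V)}

/-- Admissible data. -/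
def Ok (u v : V) (t : F) : Prop := C.Par u 0 ∧ C.B u v = 0 ∧ C.Par v t

open Classical in
/-- The Eichler transformation. -/
noncomputable def E (u v : V) (t : F) : V ≃ₗ[F] V := if h : C.Ok u v t then (C.exE h.1 h.2.1 h.2.2).choose else 1

variable {C}

theorem zero_symm (h : C.B u v = 0) : C.B v u = 0 := by rw [C.sym, h, map_zero]

theorem one_symm (h : C.B u v = 1) : C.B v u = 1 := by rw [C.sym, h, map_one]

theorem self0 (h : C.Par u 0) : C.B u u = 0 := by simpa using C.self h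

theorem par0 : C.Par 0 0 := by simpa using C.tr 0

theorem smul0 (h : C.Par u 0) (c : F) : C.Par (c • u) 0 := by simpa using C.smul c h

theorem Ok.mem (h : C.Ok u v t) : C.E u v t ∈ C.L := by
  rw [E, dif_pos h]; exact (C.exE h.1 h.2.1 h.2.2).choose_spec.1

theorem Ok.ap (h : C.Ok u v t) (z : V) : C.E u v t z = z + C.B u z • v - (C.B v z + t * C.B u z) • u := by
  rw [E, dif_pos h]; exact (C.exE h.1 h.2.1 h.2.2).choose_spec.2 z

theorem Ok.map (h : C.Ok u v t) (hg : g ∈ C.L) : C.Ok (g u) (g v) t :=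
  ⟨C.map g hg h.1, (C.iso g hg u v).trans h.2.1, C.map g hg h.2.2⟩

theorem Ok.conj (h : C.Ok u v t) (hg : g ∈ C.L) : g * C.E u v t * g⁻¹ = C.E (g u) (g v) t :=
  mul_inv_eq_iff_eq_mul.2 <| LinearEquiv.ext fun z => by
    simp [h.ap, (h.map hg).ap, C.iso g hg]

theorem Ok.add (h : C.Ok u v t) (h' : C.Ok u w s) : C.Ok u (v + w) (t + s + C.B v w) :=
  ⟨h.1, by simp [h.2.1, h'.2.1], C.add h.2.2 h'.2.2⟩

theorem Ok.mul (h : C.Ok u v t) (h' : C.Ok u w s) : C.E u v t * C.E u w s = C.E u (v + w) (t + s + C.B v w) :=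
  LinearEquiv.ext fun z => by
    simp only [LinearEquiv.mul_apply, h.ap, h'.ap, (h.add h').ap, map_add, map_sub, map_smul, h'.2.1, self0 h.1,
      zero_symm h.2.1, LinearMap.add_apply, smul_eq_mul]
    module

theorem ok_zero (h : C.Par u 0) (h' : C.Par 0 t) : C.Ok u 0 t := ⟨h, map_zero _, h'⟩

theorem E_zero (h : C.Par u 0) : C.E u 0 0 = 1 := LinearEquiv.ext fun z => by simp [(ok_zero h par0).ap]

theorem Ok.neg (h : C.Ok u v t) : C.Ok u (-v) (σ t) :=
  ⟨h.1, by simp [h.2.1], by simpa using C.add (C.smul (-1) h.2.2) (C.tr t)⟩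

theorem Ok.inv (h : C.Ok u v t) : (C.E u v t)⁻¹ = C.E u (-v) (σ t) :=
  inv_eq_of_mul_eq_one_right <| by
    rw [h.mul h.neg, ← E_zero h.1]; simp [C.self h.2.2]

theorem Ok.smul (h : C.Ok u v t) (c : F) : C.Ok u (σ c • v) (σ c * c * t) :=
  ⟨h.1, by simp [h.2.1], by simpa [C.σσ, mul_comm c] using C.smul (σ c) h.2.2⟩

theorem Ok.smul' (h : C.Ok u v t) (c : F) : C.Ok (c • u) v t := ⟨smul0 h.1 c, by simp [h.2.1], h.2.2⟩

theorem Ok.E_smul (h : C.Ok u v t) (c : F) : C.E (c • u) v t = C.E u (σ c • v) (σ c * c * t) :=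
  LinearEquiv.ext fun z => by
    simp only [(h.smul c).ap, (h.smul' c).ap, LinearMap.map_smulₛₗ, LinearMap.smul_apply, smul_eq_mul, C.σσ]
    module

theorem Ok.swap (h : C.Ok u v 0) : C.Ok v (-u) 0 :=
  ⟨h.2.2, by simp [zero_symm h.2.1], by simpa using smul0 h.1 (-1)⟩

theorem Ok.E_swap (h : C.Ok u v 0) : C.E u v 0 = C.E v (-u) 0 :=
  LinearEquiv.ext fun z => by
    simp only [h.ap, h.swap.ap, map_neg, LinearMap.neg_apply]; module

theorem ok_self (h : C.Par u 0) (c : F) : C.Ok u (c • u) 0 := ⟨h, by simp [self0 h], smul0 h c⟩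

theorem E_self (h : C.Par u 0) (c : F) : C.E u (c • u) 0 = C.E u 0 (σ c - c) :=
  LinearEquiv.ext fun z => by
    simp only [(ok_self h c).ap, (ok_zero h (C.tr c)).ap, LinearMap.map_smulₛₗ, LinearMap.smul_apply, smul_eq_mul,
      map_zero, LinearMap.zero_apply]
    module

theorem exists_short (he : C.Par e 0) (hf : C.Par f 0) (h : C.B e f = 1) (h1 : C.B e v = 0) (h2 : C.B f v = 0)
    (hv : C.Par v s) (hs : s ≠ 0) : ∃ n ∈ C.L, n e = -(σ s)⁻¹ • f ∧ n f = -s • e ∧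
      ∀ w, C.B e w = 0 → C.B f w = 0 → n w = w - (s⁻¹ * C.B v w) • v := by
  have hs' : σ s ≠ 0 := by simpa using hs
  have o1 : C.Ok e v s := ⟨he, h1, hv⟩
  have o2 : C.Ok f ((σ s)⁻¹ • v) (σ s)⁻¹ := ⟨hf, by simp [h2], by
    convert C.smul (σ s)⁻¹ hv using 1
    rw [map_inv₀, C.σσ]; field_simp⟩
  have o3 : C.Ok e ((s * (σ s)⁻¹) • v) s := ⟨he, by simp [h1], by
    convert C.smul (s * (σ s)⁻¹) hv using 1
    rw [map_mul, map_inv₀, C.σσ]; field_simp⟩
  refine ⟨_, mul_mem (mul_mem o1.mem o2.mem) o3.mem, ?_, ?_, fun w h3 h4 => ?_⟩ <;>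
    simp only [LinearEquiv.mul_apply, o1.ap, o2.ap, o3.ap, map_add, map_sub, LinearMap.map_smulₛₗ, LinearMap.smul_apply,
      smul_eq_mul, RingHom.id_apply, self0 he, self0 hf, h, one_symm h, h1, h2, zero_symm h1, zero_symm h2, C.self hv,
      map_mul, map_inv₀, C.σσ, *] <;> match_scalars <;> field_simp <;> ring

theorem exists_long (he : C.Par e 0) (hf : C.Par f 0) (he' : C.Par e' 0) (hf' : C.Par f' 0) (h : C.B e f = 1)
    (h' : C.B e' f' = 1) (h1 : C.B e e' = 0) (h2 : C.B e f' = 0) (h3 : C.B f e' = 0) (h4 : C.B f f' = 0) (ht : t ≠ 0) :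
    ∃ n ∈ C.L, n e' = t • e ∧ n e = -t⁻¹ • e' ∧ n f = -σ t • f' ∧ n f' = (σ t)⁻¹ • f ∧
      ∀ w, C.B e w = 0 → C.B f w = 0 → C.B e' w = 0 → C.B f' w = 0 → n w = w := by
  have ht' : σ t ≠ 0 := by simpa using ht
  have o1 : C.Ok f' (t • e) 0 := ⟨hf', by simp [zero_symm h2], smul0 he _⟩
  have o2 : C.Ok f (-t⁻¹ • e') 0 := ⟨hf, by simp [h3], smul0 he' _⟩
  refine ⟨_, mul_mem (mul_mem o1.mem o2.mem) o1.mem, ?_, ?_, ?_, ?_, fun w a1 a2 a3 a4 => ?_⟩ <;>
    simp only [LinearEquiv.mul_apply, o1.ap, o2.ap, map_add, map_sub, LinearMap.map_smulₛₗ, LinearMap.smul_apply,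
      smul_eq_mul, RingHom.id_apply, self0 he, self0 hf, self0 he', self0 hf', one_symm h, one_symm h', zero_symm h1,
      zero_symm h2, zero_symm h3, zero_symm h4, map_neg, map_inv₀, *] <;> match_scalars <;> field_simp <;> ring

variable (C K) in
/-- The Eichler transformation lies in `K`. -/
def M (u v : V) (t : F) : Prop := C.Ok u v t ∧ C.E u v t ∈ K

theorem M.cast (h : C.M K u v t) (e : v = w) (e' : t = s) : C.M K u w s := e ▸ e' ▸ h

theorem M.mul (h : C.M K u v t) (h' : C.M K u w s) : C.M K u (v + w) (t + s + C.B v w) :=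
  ⟨h.1.add h'.1, h.1.mul h'.1 ▸ mul_mem h.2 h'.2⟩

theorem M.neg (h : C.M K u v t) : C.M K u (-v) (σ t) := ⟨h.1.neg, h.1.inv ▸ inv_mem h.2⟩

theorem M.conj (h : C.M K u v t) (hg : g ∈ C.L) (hK : g ∈ K) : C.M K (g u) (g v) t :=
  ⟨h.1.map hg, h.1.conj hg ▸ mul_mem (mul_mem hK h.2) (inv_mem hK)⟩

theorem M.move (h : C.M K u v t) {u' v' : V} (h' : C.M K u' v' s) (h1 : C.B u' u = 0) (h2 : C.B v' u = 0) :
    C.M K u (v + C.B u' v • v' - (C.B v' v + s * C.B u' v) • u') t := by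
  simpa [h'.1.ap, h1, h2] using h.conj h'.1.mem h'.2

theorem m_zero (h : C.Par u 0) : C.M K u 0 0 := ⟨ok_zero h par0, E_zero h ▸ one_mem _⟩

end EC

end Cfsg.Agent.H3
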