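import Cfsg.Agent.H3.TG4

/-! Two-element generation of the groups with a hyperbolic frame. -/

set_option autoImplicit false

namespace Cfsg.Agent.H3.EC

open Equiv

variable {F : Type*} [Field F] {σ : F →+* F} {V : Type*} [AddCommGroup V] [Module F V] (C : EC σ V)

/-- A hyperbolic frame with an anisotropic complement. -/
structure Frm (I : Type) [Fintype I] [DecidableEq I] (P : Type*) [Field P] where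
  /-- the opposite index -/
  bar : I → I
  /-- the frame -/
  b : I → V
  /-- the anisotropic part -/
  j : P →+ V
  /-- the conjugation -/
  φ : P →+* P
  /-- the scalars -/
  ι : F →+* P
  bb : ∀ a, bar (bar a) = a
  ne : ∀ a, bar a ≠ a
  b0 : ∀ a, C.Par (b a) 0
  Bb : ∀ a c, C.B (b a) (b c) = if c = bar a then 1 else 0
  Bj : ∀ a x, C.B (b a) (j x) = 0
  sj : ∀ c x, c • j x = j (ι c * x)
  φφ : ∀ x, φ (φ x) = x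
  span : ∀ v, ∃ (c : I → F) (x : P), v = ∑ a, c a • b a + j x
  aniso : ∀ x, C.Par (j x) 0 → j x = 0

namespace Frm

variable {C} {I : Type} [Fintype I] [DecidableEq I] {P : Type*} [Field P] (Ψ : C.Frm I P)
  {g h n : V ≃ₗ[F] V} {K : Subgroup (V ≃ₗ[F] V)} {π ρ : Perm I} {a c d : I} {s t : F} {u v : V} {l l' : I → F} {μ μ' : P}

theorem B1 (a : I) : C.B (Ψ.b a) (Ψ.b (Ψ.bar a)) = 1 := by simp [Ψ.Bb]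

theorem B1' (a : I) : C.B (Ψ.b (Ψ.bar a)) (Ψ.b a) = 1 := one_symm (Ψ.B1 a)

theorem B0 (h : a ≠ Ψ.bar c) : C.B (Ψ.b a) (Ψ.b c) = 0 := by
  rw [Ψ.Bb, if_neg fun e => h (by rw [e, Ψ.bb])]

theorem B0' (h : a ≠ c) : C.B (Ψ.b a) (Ψ.b (Ψ.bar c)) = 0 := Ψ.B0 (by rwa [Ψ.bb])

theorem jB (a : I) (x : P) : C.B (Ψ.j x) (Ψ.b a) = 0 := zero_symm (Ψ.Bj a x)

theorem B_span (a : I) (c : I → F) (x : P) : C.B (Ψ.b a) (∑ d, c d • Ψ.b d + Ψ.j x) = c (Ψ.bar a) := by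
  simp [Ψ.Bb, Ψ.Bj]

theorem ext (h1 : ∀ a, g (Ψ.b a) = h (Ψ.b a)) (h2 : ∀ x, g (Ψ.j x) = h (Ψ.j x)) : g = h :=
  LinearEquiv.ext fun v => by
    obtain ⟨c, x, rfl⟩ := Ψ.span v
    simp [h1, h2]

theorem gen_of (h0 : ∀ a s, C.Par 0 s → C.M K (Ψ.b a) 0 s)
    (h1 : ∀ a c, Ind Ψ.bar a c → ∀ t : F, ∃ s, C.M K (Ψ.b a) (t • Ψ.b c) s)
    (h2 : ∀ a x, ∃ s, C.M K (Ψ.b a) (Ψ.j x) s) : C.L ≤ K := by
  have a1 : ∀ {a v t}, C.Ok (Ψ.b a) v t → C.M K (Ψ.b a) v t := fun {a v t} h => by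
    let S : AddSubmonoid V := ⟨⟨{v | ∃ s, C.M K (Ψ.b a) v s}, fun ⟨_, a⟩ ⟨_, b⟩ => ⟨_, a.mul b⟩⟩, _, m_zero h.1⟩
    obtain ⟨c, x, rfl⟩ := Ψ.span v
    obtain ⟨s, hs⟩ : _ ∈ S := add_mem (sum_mem (t := Finset.univ) (f := fun d => c d • Ψ.b d) fun d _ => by
      rcases eq_or_ne a d with rfl | e
      · exact ⟨0, ok_self h.1 _, E_self h.1 _ ▸ (h0 a _ (C.tr _)).2⟩
      rcases eq_or_ne a (Ψ.bar d) with rfl | e'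
      · have := h.2.1
        rw [B_span, Ψ.bb] at this
        simp only [this, zero_smul, zero_mem]
      exact h1 a d ⟨e, e'⟩ _) (h2 a x)
    exact (hs.mul (h0 a _ (C.sub h.2.2 hs.1.2.2))).cast (add_zero _) (by simp)
  refine C.gen K fun u v t hu huv hv => ?_
  by_cases h : ∀ a, C.B (Ψ.b a) u = 0
  · obtain ⟨c, x, rfl⟩ := Ψ.span u
    have hc : ∀ a, c a = 0 := fun a => by simpa only [B_span, Ψ.bb] using h (Ψ.bar a)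
    simp only [hc, zero_smul, Finset.sum_const_zero, zero_add] at hu ⊢
    exact ⟨1, one_mem _, fun z => by simp [Ψ.aniso x hu]⟩
  obtain ⟨a, ha⟩ := not_forall.1 h
  set c := C.B (Ψ.b a) u with hc
  have o : C.Ok (Ψ.b a) (c⁻¹ • u + (-1 : F) • Ψ.b (Ψ.bar a)) _ :=
    ⟨Ψ.b0 a, by simp [Ψ.B1, ← hc, inv_mul_cancel₀ ha], C.add (smul0 hu _) (smul0 (Ψ.b0 _) _)⟩
  have e := (o.ap (c • Ψ.b (Ψ.bar a))).trans (c := u) <| by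
    simp only [map_add, LinearMap.map_smulₛₗ, LinearMap.add_apply, LinearMap.smul_apply, smul_eq_mul, RingHom.id_apply,
      Ψ.B1, self0 (Ψ.b0 _)]
    match_scalars <;> field_simp <;> ring
  have o' := Ok.map ⟨hu, huv, hv⟩ (inv_mem o.mem)
  rw [LinearEquiv.coe_inv, (LinearEquiv.symm_apply_eq _).2 e.symm] at o'
  have o2 : C.Ok (Ψ.b (Ψ.bar a)) _ t := ⟨Ψ.b0 _, by simpa [ha] using o'.2.1, o'.2.2⟩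
  have := M.conj ⟨o', o2.E_smul c ▸ (a1 (o2.smul c)).2⟩ o.mem (a1 o).2
  rw [e, LinearEquiv.apply_symm_apply] at this
  exact ⟨_, this.2, this.1.ap⟩

/-- Monomial elements. -/
def Mn (g : V ≃ₗ[F] V) (π : Perm I) : Prop :=
  g ∈ C.L ∧ (∀ a, π (Ψ.bar a) = Ψ.bar (π a)) ∧ (∀ a, ∃ l : F, g (Ψ.b a) = l • Ψ.b (π a)) ∧
    ∃ c ≠ 0, (∀ x, g (Ψ.j x) = Ψ.j (c * x)) ∨ ∀ x, g (Ψ.j x) = Ψ.j (c * Ψ.φ x)

/-- Diagonal elements. -/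
def Dg (g : V ≃ₗ[F] V) (l : I → F) (μ : P) : Prop :=
  g ∈ C.L ∧ (∀ a, g (Ψ.b a) = l a • Ψ.b a) ∧ ∀ x, g (Ψ.j x) = Ψ.j (μ * x)

variable {Ψ}

theorem scal (hg : g ∈ C.L) {a' : I} {x y : F} (h1 : g (Ψ.b a) = x • Ψ.b a')
    (h2 : g (Ψ.b (Ψ.bar a)) = y • Ψ.b (Ψ.bar a')) : y * σ x = 1 := by
  simpa [h1, h2, Ψ.B1] using C.iso g hg (Ψ.b a) (Ψ.b (Ψ.bar a))

theorem Mn.ex (M : Ψ.Mn g π) : ∃ l : I → F, (∀ a, l a ≠ 0) ∧ (∀ a, σ (l (Ψ.bar a)) = (l a)⁻¹) ∧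
    ∀ a, g (Ψ.b a) = l a • Ψ.b (π a) := by
  choose l hl using M.2.2.1
  have : ∀ a, l a * σ (l (Ψ.bar a)) = 1 := fun a =>
    scal M.1 (hl (Ψ.bar a)) (by rw [Ψ.bb, M.2.1, Ψ.bb]; exact hl a)
  exact ⟨l, fun a => left_ne_zero_of_mul_eq_one (this a), fun a => eq_inv_of_mul_eq_one_right (this a), hl⟩

theorem Mn.mul (M : Ψ.Mn g π) (M' : Ψ.Mn h ρ) : Ψ.Mn (g * h) (π * ρ) := by
  obtain ⟨a1, a2, a3, c, a4, a5⟩ := M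
  obtain ⟨b1, b2, b3, d, b4, b5⟩ := M'
  refine ⟨mul_mem a1 b1, fun a => by simp [a2, b2], fun a => ?_, ?_⟩
  · obtain ⟨l, e⟩ := b3 a
    obtain ⟨l', e'⟩ := a3 (ρ a)
    exact ⟨l * l', by simp [e, e', smul_smul]⟩
  rcases a5 with a5 | a5 <;> rcases b5 with b5 | b5
  · exact ⟨_, mul_ne_zero a4 b4, .inl fun x => by simp [a5, b5, mul_assoc]⟩
  · exact ⟨_, mul_ne_zero a4 b4, .inr fun x => by simp [a5, b5, mul_assoc]⟩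
  · exact ⟨c * Ψ.φ d, by simp [a4, b4], .inr fun x => by simp [a5, b5, mul_assoc]⟩
  · exact ⟨c * Ψ.φ d, by simp [a4, b4], .inl fun x => by simp [a5, b5, mul_assoc, Ψ.φφ]⟩

theorem Dg.mn (D : Ψ.Dg h l μ) (hμ : μ ≠ 0) : Ψ.Mn h 1 :=
  ⟨D.1, fun _ => rfl, fun a => ⟨_, D.2.1 a⟩, μ, hμ, .inl D.2.2⟩

theorem Dg.conj (D : Ψ.Dg h l μ) (M : Ψ.Mn n π) :
    ∃ μ', (μ' = μ ∨ μ' = Ψ.φ μ) ∧ Ψ.Dg (n * h * n⁻¹) (fun a => l (π⁻¹ a)) μ' := by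
  obtain ⟨m, h0, -, e⟩ := M.ex
  have e1 : ∀ a, (n * h * n⁻¹) (Ψ.b a) = l (π⁻¹ a) • Ψ.b a := fun a => by
    have : Ψ.b a = (m (π⁻¹ a))⁻¹ • n (Ψ.b (π⁻¹ a)) := by rw [eq_inv_smul_iff₀ (h0 _), e]; simp
    rw [this]; simp [D.2.1, smul_comm (l _)]
  have e2 : ∀ μ', (∀ y, ∃ x, n (Ψ.j x) = Ψ.j y ∧ n (Ψ.j (μ * x)) = Ψ.j (μ' * y)) →
      Ψ.Dg (n * h * n⁻¹) (fun a => l (π⁻¹ a)) μ' := fun μ' H =>
    ⟨mul_mem (mul_mem M.1 D.1) (inv_mem M.1), e1, fun y => by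
      obtain ⟨x, hx, hx'⟩ := H y
      rw [← hx', ← hx]; simp [D.2.2]⟩
  obtain ⟨-, -, -, c, hc, e | e⟩ := M
  · exact ⟨_, .inl rfl, e2 _ fun y => ⟨c⁻¹ * y, by rw [e, mul_inv_cancel_left₀ hc],
      by rw [e, mul_left_comm, mul_inv_cancel_left₀ hc]⟩⟩
  · exact ⟨_, .inr rfl, e2 _ fun y => ⟨Ψ.φ (c⁻¹ * y), by rw [e, Ψ.φφ, mul_inv_cancel_left₀ hc],
      by rw [e, map_mul Ψ.φ, Ψ.φφ, mul_left_comm, mul_inv_cancel_left₀ hc]⟩⟩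

theorem Dg.comm (D : Ψ.Dg g l μ) (D' : Ψ.Dg h l' μ') : Commute g h :=
  Ψ.ext (fun a => by simp [D.2.1, D'.2.1, smul_comm (l a)]) fun x => by simp [D.2.2, D'.2.2, mul_left_comm μ]

theorem exists_nl (h : Ind Ψ.bar a c) (ht : t ≠ 0) : ∃ n, Ψ.Mn n (swap a c * swap (Ψ.bar a) (Ψ.bar c)) ∧
    n (Ψ.b c) = t • Ψ.b a ∧ n (Ψ.b a) = -t⁻¹ • Ψ.b c ∧ n (Ψ.b (Ψ.bar a)) = -σ t • Ψ.b (Ψ.bar c) ∧
    n (Ψ.b (Ψ.bar c)) = (σ t)⁻¹ • Ψ.b (Ψ.bar a) ∧ (∀ d, Ind Ψ.bar d a → Ind Ψ.bar d c → n (Ψ.b d) = Ψ.b d) ∧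
    ∀ x, n (Ψ.j x) = Ψ.j x := by
  have bb := Ψ.bb
  obtain ⟨n, m, a1, a2, a3, a4, a5⟩ := exists_long (Ψ.b0 a) (Ψ.b0 _) (Ψ.b0 c) (Ψ.b0 _) (Ψ.B1 a) (Ψ.B1 c) (Ψ.B0 h.2)
    (Ψ.B0' h.1) (Ψ.B0 (h.bl bb).2) (Ψ.B0' (h.bl bb).1) ht
  have a6 : ∀ d, Ind Ψ.bar d a → Ind Ψ.bar d c → n (Ψ.b d) = Ψ.b d := fun d h1 h2 =>
    a5 _ (Ψ.B0 (h1.symm bb).2) (Ψ.B0 ((h1.symm bb).bl bb).2) (Ψ.B0 (h2.symm bb).2) (Ψ.B0 ((h2.symm bb).bl bb).2)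
  have a7 : ∀ x, n (Ψ.j x) = Ψ.j x := fun x => a5 _ (Ψ.Bj _ _) (Ψ.Bj _ _) (Ψ.Bj _ _) (Ψ.Bj _ _)
  have i1 := h.1
  have i2 := h.2
  have i3 := (h.bl bb).1
  have i4 := (h.bl bb).2
  have n1 := Ψ.ne a
  have n2 := Ψ.ne c
  have key : ∀ d, d = a ∨ d = c ∨ d = Ψ.bar a ∨ d = Ψ.bar c ∨ Ind Ψ.bar d a ∧ Ind Ψ.bar d c := fun d => by
    simp only [Ind]; tauto
  refine ⟨n, ⟨m, fun d => ?_, fun d => ?_, 1, one_ne_zero, .inl fun x => by simp [a7]⟩, a1, a2, a3, a4, a6, a7⟩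
  · rcases key d with rfl | rfl | rfl | rfl | ⟨h1, h2⟩
    any_goals simp [swap_apply_of_ne_of_ne, *, i2.symm, i3.symm, n1.symm, n2.symm]
    simp [swap_apply_of_ne_of_ne, h1.1, h1.2, h2.1, h2.2, (h1.bl bb).1, (h1.bl bb).2, (h2.bl bb).1, (h2.bl bb).2]
  · rcases key d with rfl | rfl | rfl | rfl | ⟨h1, h2⟩
    · exact ⟨-t⁻¹, by rw [a2]; simp [swap_apply_of_ne_of_ne, *, n1.symm]⟩
    · exact ⟨_, by rw [a1]; simp [swap_apply_of_ne_of_ne, *, n2.symm, i3.symm]; rfl⟩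
    · exact ⟨-σ t, by rw [a3]; simp [swap_apply_of_ne_of_ne, *, i2.symm]⟩
    · exact ⟨_, by rw [a4]; simp [swap_apply_of_ne_of_ne, *]; rfl⟩
    · exact ⟨1, by simp [swap_apply_of_ne_of_ne, h1.1, h1.2, h2.1, h2.2, a6 d h1 h2]⟩

theorem exists_dg (h : Ind Ψ.bar a c) (ht : t ≠ 0) : ∃ g l, Ψ.Dg g l 1 ∧ l a = t ∧ l c = t⁻¹ ∧
    l (Ψ.bar a) = (σ t)⁻¹ ∧ l (Ψ.bar c) = σ t ∧ ∀ d, Ind Ψ.bar d a → Ind Ψ.bar d c → l d = 1 := by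
  obtain ⟨n, m, a1, a2, a3, a4, a5, a6⟩ := exists_nl h ht
  obtain ⟨n', m', b1, b2, b3, b4, b5, b6⟩ := exists_nl h (neg_ne_zero.2 (one_ne_zero (α := F)))
  have i1 := h.1.symm
  have i2 := h.2.symm
  have i3 := (h.bl Ψ.bb).1
  have i4 := (h.bl Ψ.bb).2.symm
  have n1 := Ψ.ne a
  have n2 := Ψ.ne c
  refine ⟨n * n', fun d => if d = a then t else if d = c then t⁻¹ else if d = Ψ.bar a then (σ t)⁻¹ else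
    if d = Ψ.bar c then σ t else 1, ⟨mul_mem m.1 m'.1, fun d => ?_, fun x => by simp [a6, b6]⟩, by simp,
    by simp [*], by simp [*], by simp [*], fun d h1 h2 => by simp [h1.1, h1.2, h2.1, h2.2]⟩
  dsimp only
  split_ifs with h1 h2 h3 h4
  any_goals subst d; simp [*]
  simp [a5 d ⟨h1, h3⟩ ⟨h2, h4⟩, b5 d ⟨h1, h3⟩ ⟨h2, h4⟩]

theorem exists_ns {x c : P} (hx : C.Par (Ψ.j x) s) (hs : s ≠ 0) (hc : c ≠ 0)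
    (H : (∀ y, Ψ.j y - (s⁻¹ * C.B (Ψ.j x) (Ψ.j y)) • Ψ.j x = Ψ.j (c * y)) ∨
      ∀ y, Ψ.j y - (s⁻¹ * C.B (Ψ.j x) (Ψ.j y)) • Ψ.j x = Ψ.j (c * Ψ.φ y)) (a : I) :
    ∃ n, Ψ.Mn n (swap a (Ψ.bar a)) ∧ n (Ψ.b a) = -(σ s)⁻¹ • Ψ.b (Ψ.bar a) ∧ n (Ψ.b (Ψ.bar a)) = -s • Ψ.b a ∧
      (∀ d, Ind Ψ.bar d a → n (Ψ.b d) = Ψ.b d) ∧ ∀ y, n (Ψ.j y) = Ψ.j y - (s⁻¹ * C.B (Ψ.j x) (Ψ.j y)) • Ψ.j x := by
  have bb := Ψ.bb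
  obtain ⟨n, m, a1, a2, a3⟩ := exists_short (Ψ.b0 a) (Ψ.b0 _) (Ψ.B1 a) (Ψ.Bj _ _) (Ψ.Bj _ _) hx hs
  have a4 : ∀ d, Ind Ψ.bar d a → n (Ψ.b d) = Ψ.b d := fun d h => by
    simp [a3 _ (Ψ.B0 (h.symm bb).2) (Ψ.B0 ((h.symm bb).bl bb).2), Ψ.jB]
  have a5 := fun y => a3 _ (Ψ.Bj a y) (Ψ.Bj _ y)
  have key : ∀ d, d = a ∨ d = Ψ.bar a ∨ Ind Ψ.bar d a := fun d => by simp only [Ind]; tauto
  refine ⟨n, ⟨m, fun d => ?_, fun d => ?_, c, hc, by simpa only [a5] using H⟩, a1, a2, a4, a5⟩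
  · rcases key d with rfl | rfl | h1
    any_goals simp [bb]
    simp [swap_apply_of_ne_of_ne, h1.1, h1.2, (h1.bl bb).1, (h1.bl bb).2]
  · rcases key d with rfl | rfl | h1
    · exact ⟨_, by rw [a1, swap_apply_left]⟩
    · exact ⟨_, by rw [a2, swap_apply_right]⟩
    · exact ⟨1, by simp [swap_apply_of_ne_of_ne, h1.1, h1.2, a4 d h1]⟩

variable {k : ℕ} {e : ℕ → I}

theorem exists_n (hk : 0 < k) (hi : ∀ i < k, ∀ j < k, i ≠ j → Ind Ψ.bar (e i) (e j))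
    (hτ : Ψ.Mn g (swap (e 0) (Ψ.bar (e 0)))) : ∃ n ρ, Ψ.Mn n ρ ∧ Cyc Ψ.bar k e ρ := by
  let S : Submonoid (Perm I) := ⟨⟨{π | ∃ g, Ψ.Mn g π}, fun ⟨_, a⟩ ⟨_, b⟩ => ⟨_, a.mul b⟩⟩,
    1, one_mem _, fun _ => rfl, fun _ => ⟨1, by simp⟩, 1, one_ne_zero, .inl (by simp)⟩
  obtain ⟨ρ, ⟨n, M⟩, c, -⟩ := exists_scyc hk hi (M := S) (fun _ ⟨_, h⟩ => h.2.1) (fun i h => by
    have a := hi i (by omega) _ h (by omega)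
    obtain ⟨n, m, -⟩ := exists_nl a (one_ne_zero (α := F))
    refine ⟨_, ⟨n, m⟩, ?_, ?_, fun d h1 h2 => ?_⟩
    · simp [swap_apply_of_ne_of_ne (Ψ.ne _).symm a.2]
    · simp [swap_apply_of_ne_of_ne (a.symm Ψ.bb).2 (Ψ.ne _).symm]
    · simp [swap_apply_of_ne_of_ne, h1.1, h1.2, h2.1, h2.2]) ⟨g, hτ⟩ (by simp)
    fun i h h' => swap_apply_of_ne_of_ne (hi i h 0 hk h'.ne').1 (hi i h 0 hk h'.ne').2
  exact ⟨n, ρ, M, c⟩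

theorem twoG_BC [Finite P] (hk : 0 < k) (hi : ∀ i < k, ∀ j < k, i ≠ j → Ind Ψ.bar (e i) (e j))
    (hall : ∀ a, InE Ψ.bar k e a) (hτ : Ψ.Mn g (swap (e 0) (Ψ.bar (e 0))))
    (h0 : ∀ s, C.Par 0 s → ∃ x y, s = C.B (Ψ.j x) (Ψ.j y) - C.B (Ψ.j y) (Ψ.j x))
    (h1 : ∀ t, ∃ x y, C.B (Ψ.j x) (Ψ.j y) = t) (D : Ψ.Dg h l μ) (c1 : Ψ.ι (σ (l (e 0))) * μ ≠ 1)
    (c2 : Gn (Ψ.ι (σ (l (e 0))) * μ)) (c3 : Ψ.ι (σ (l (Ψ.bar (e (k - 1))))) * μ ≠ 1)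
    (c4 : Ψ.ι (σ (l (Ψ.bar (e (k - 1))))) * Ψ.φ μ ≠ 1) : TwoG C.L := by
  obtain ⟨n, ρ, M, c⟩ := exists_n hk hi hτ
  obtain ⟨μ', hμ, D'⟩ := D.conj M
  have o : ∀ a x, ∃ s, C.Ok (Ψ.b a) (Ψ.j x) s := fun a x => (C.ex _).imp fun s h => ⟨Ψ.b0 a, Ψ.Bj a x, h⟩
  have act : ∀ {h l μ}, Ψ.Dg h l μ → ∀ {g x}, (∃ s, C.Ok (Ψ.b (e 0)) (Ψ.j x) s ∧ g = C.E (Ψ.b (e 0)) (Ψ.j x) s) →
      ∃ s, C.Ok (Ψ.b (e 0)) (Ψ.j (Ψ.ι (σ (l (e 0))) * μ * x)) s ∧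
        h * g * h⁻¹ = C.E (Ψ.b (e 0)) (Ψ.j (Ψ.ι (σ (l (e 0))) * μ * x)) s := fun {h l μ} D {g x} ⟨s, a, b⟩ => by
    have o : C.Ok (Ψ.b (e 0)) (Ψ.j (μ * x)) s := ⟨Ψ.b0 _, Ψ.Bj _ _, D.2.2 x ▸ C.map h D.1 a.2.2⟩
    rw [mul_assoc (Ψ.ι _), ← Ψ.sj]
    exact ⟨_, o.smul _, by rw [b, a.conj D.1, D.2.1, D.2.2, o.E_smul]⟩
  obtain ⟨s0, o0⟩ := o (e 0) 1
  refine ⟨h, D.1, _, mul_mem o0.mem M.1, fun K hK hg => ?_⟩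
  have a1 : ∀ x, ∃ s, C.M K (Ψ.b (e 0)) (Ψ.j x) s := fun x => by
    obtain ⟨_, m, s, a, rfl⟩ := stein1 (T := fun g x => ∃ s, C.Ok (Ψ.b (e 0)) (Ψ.j x) s ∧ g = C.E (Ψ.b (e 0)) (Ψ.j x) s)
      ⟨0, by simpa using ok_zero (Ψ.b0 _) par0, by simp [E_zero (Ψ.b0 _)]⟩
      (fun ⟨_, a, b⟩ ⟨_, a', b'⟩ => ⟨_, map_add Ψ.j _ _ ▸ a.add a', by rw [b, b', a.mul a', map_add]⟩)
      (fun ⟨_, a, b⟩ => ⟨_, map_neg Ψ.j _ ▸ a.neg, by rw [b, a.inv, map_neg]⟩) (act D) (act D') (D.comm D') c1 c2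
      (by rw [c.inv_zero Ψ.bb]; rcases hμ with rfl | rfl; exacts [c3, c4]) ⟨s0, o0, rfl⟩ one_ne_zero hK hg x
    exact ⟨s, a, m⟩
  have cen : ∀ {a}, (∀ x, ∃ s, C.M K (Ψ.b a) (Ψ.j x) s) → ∀ s, C.Par 0 s → C.M K (Ψ.b a) 0 s := fun H s hs => by
    obtain ⟨x, y, rfl⟩ := h0 s hs
    obtain ⟨s, a⟩ := H x
    obtain ⟨t, b⟩ := H y
    refine ((a.mul b).mul (b.mul a).neg).cast (by abel) ?_
    simp only [map_add, map_neg, LinearMap.add_apply, C.self a.1.2.2, C.self b.1.2.2, ← C.sym]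
    ring
  have hn : n ∈ K := by
    obtain ⟨s, a⟩ := a1 1
    have := ((a.mul (cen a1 _ (C.sub o0.2.2 a.1.2.2))).cast (add_zero _) (s := s0) (by simp)).2
    simpa using mul_mem (inv_mem this) hg
  have a2 : ∀ a x, ∃ s, C.M K (Ψ.b a) (Ψ.j x) s := fun a => c.all (P := fun a => ∀ x, ∃ s, C.M K (Ψ.b a) (Ψ.j x) s)
    (fun a H x => by
      obtain ⟨l, h0, -, e⟩ := M.ex
      obtain ⟨y, hy⟩ : ∃ y, n (Ψ.j y) = Ψ.j ((Ψ.ι (σ (l a)))⁻¹ * x) := by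
        obtain ⟨-, -, -, c, h, e | e⟩ := M
        · exact ⟨c⁻¹ * _, by rw [e, mul_inv_cancel_left₀ h]⟩
        · exact ⟨Ψ.φ (c⁻¹ * _), by rw [e, Ψ.φφ, mul_inv_cancel_left₀ h]⟩
      obtain ⟨s, H⟩ := H y
      have := H.conj M.1 hn
      rw [e, hy] at this
      have o : C.Ok (Ψ.b (ρ a)) _ s := ⟨Ψ.b0 _, Ψ.Bj _ _, this.1.2.2⟩
      exact ⟨_, EC.M.cast ⟨o.smul _, o.E_smul _ ▸ this.2⟩
        (by rw [Ψ.sj, mul_inv_cancel_left₀ (by simpa using h0 a)]) rfl⟩) a1 (hall a)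
  refine Ψ.gen_of (fun a => cen (a2 a)) (fun a c h t => ?_) a2
  obtain ⟨x, y, e⟩ := h1 (-t)
  obtain ⟨s, a3⟩ := a2 a y
  obtain ⟨s', a4⟩ := a2 c x
  exact ⟨_, ((a3.move a4 (Ψ.B0 (h.symm Ψ.bb).2) (Ψ.jB _ _)).mul a3.neg).cast (by simp [Ψ.Bj, e]) rfl⟩

variable (Ψ) in
/-- The root elements of the long roots (in type `B`). -/
noncomputable def y (a c : I) (t : F) : V ≃ₗ[F] V := C.E (Ψ.b (Ψ.bar c)) (t • Ψ.b a) 0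

theorem ok_y (h : a ≠ c) (t : F) : C.Ok (Ψ.b (Ψ.bar c)) (t • Ψ.b a) 0 :=
  ⟨Ψ.b0 _, by simp [zero_symm (Ψ.B0' h)], smul0 (Ψ.b0 _) _⟩

theorem ad_y (h : a ≠ c) : Ad (Ψ.y a c) := fun s t => by
  rw [y, y, y, (ok_y h s).mul (ok_y h t), add_smul]; simp [self0 (Ψ.b0 a)]

theorem Mn.y_conj (M : Ψ.Mn n π) (h0 : ∀ a, σ (l (Ψ.bar a)) = (l a)⁻¹) (e : ∀ a, n (Ψ.b a) = l a • Ψ.b (π a))
    (h : a ≠ c) (t : F) : n * Ψ.y a c t * n⁻¹ = Ψ.y (π a) (π c) (l a * (l c)⁻¹ * t) := by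
  rw [y, (ok_y h t).conj M.1, map_smul, e, e, M.2.1, smul_smul, (ok_y (π.injective.ne h) _).E_smul, h0, smul_smul, y]
  congr 2 <;> ring

theorem Dg.act (D : Ψ.Dg h l 1) (e : a ≠ c) : Act h (Ψ.y a c) (l a * (l c)⁻¹) :=
  (D.mn one_ne_zero).y_conj (fun a => eq_inv_of_mul_eq_one_right
    (scal D.1 (D.2.1 (Ψ.bar a)) (by rw [Ψ.bb]; exact D.2.1 a))) D.2.1 e

theorem twoG_C [Finite F] (hk : 2 ≤ k) (hi : ∀ i < k, ∀ j < k, i ≠ j → Ind Ψ.bar (e i) (e j))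
    (hall : ∀ a, InE Ψ.bar k e a) (hj : ∀ x, Ψ.j x = 0) (h0 : ∀ s, C.Par 0 s → ∃ d, s = σ d - d)
    (hσ : ∃ a, σ a ≠ a) : TwoG C.L := by
  have bb := Ψ.bb
  obtain ⟨ζ, z0, hζ⟩ := exists_prim F
  have z1 : σ ζ ≠ ζ := fun h => by
    obtain ⟨a, ha⟩ := hσ
    obtain ⟨k, rfl⟩ := hζ a (by rintro rfl; simp at ha)
    exact ha (by rw [map_pow, h])
  have z2 : ζ ^ 2 ≠ 1 := fun h => z1 (by rcases sq_eq_one_iff.1 h with h | h <;> simp [h])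
  obtain ⟨g, hτ, -⟩ := exists_ns (Ψ := Ψ) (x := 0) (c := 1) (by simpa using C.tr ζ) (sub_ne_zero.2 z1) one_ne_zero
    (.inl (by simp)) (e 0)
  obtain ⟨n, ρ, M, c⟩ := exists_n (by omega) hi hτ
  have i01 := hi 0 (by omega) 1 hk (by omega)
  obtain ⟨h, l, D, l1, l2, -, l4, l5⟩ := exists_dg i01 z0
  obtain ⟨_, -, D'⟩ := D.conj M
  replace D' : Ψ.Dg _ _ 1 := ⟨D'.1, D'.2.1, fun x => by simp [hj]⟩
  refine ⟨h, D.1, Ψ.y (e 0) (e 1) 1 * n, mul_mem (ok_y i01.1 1).mem M.1, fun K hK hg => ?_⟩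
  obtain ⟨a1, hn⟩ := stein1' (ad_y i01.1) (D.act i01.1) (D'.act i01.1) (D.comm D')
    (by simpa [l1, l2, sq] using z2) (by simpa [l1, l2, sq] using gn_sq hζ) (by
      rw [c.inv_zero bb, c.inv_one hk, l1, ne_eq, mul_inv_eq_one₀ z0]
      rcases eq_or_ne (k - 1) 1 with h | h
      · rwa [h, l4]
      · rw [l5 _ ((hi _ (by omega) 0 (by omega) (by omega)).bl bb) ((hi _ (by omega) 1 hk h).bl bb)]
        exact fun h => z2 (by simp [← h])) hK hg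
  have m : ∀ {a c}, a ≠ c → (∀ t, Ψ.y a c t ∈ K) → ∀ t : F, C.M K (Ψ.b (Ψ.bar c)) (t • Ψ.b a) 0 :=
    fun h H t => ⟨ok_y h t, H t⟩
  have a2 : ∀ {a c}, Ind Ψ.bar a c → ∀ t : F, C.M K (Ψ.b a) (t • Ψ.b c) 0 := fun {a d} h => by
    simpa only [bb] using m ((h.symm bb).br bb).1 <| c.closure bb hk (fun j h1 h2 => hi 0 (by omega) j h2 h1.ne)
      (R := fun a c => ∀ t, Ψ.y a c t ∈ K) (fun a c _ _ h H t => by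
        obtain ⟨l, h0, h1, e⟩ := M.ex
        have := mul_mem (mul_mem hn (H ((l a * (l c)⁻¹)⁻¹ * t))) (inv_mem hn)
        rwa [M.y_conj h1 e h.1, mul_inv_cancel_left₀ (mul_ne_zero (h0 _) (inv_ne_zero (h0 _)))] at this)
      (fun a c _ _ h H t => by
        have o : C.Ok (Ψ.b a) (-Ψ.b (Ψ.bar c)) 0 := ⟨Ψ.b0 a, by simp [Ψ.B0' h.1], by simpa using smul0 (Ψ.b0 _) (-1)⟩
        have := H (-σ t)
        rw [y, (ok_y h.1 _).E_swap, o.E_smul] at this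
        simpa [y, bb, C.σσ] using this)
      (fun a b d _ _ _ h1 h2 h3 H H' t => by
        have := ((m h2.1 H' 1).neg.mul ((m h2.1 H' 1).move (m h1.1 H t) (Ψ.B0' ((h2.bl bb).1))
          (by simp [Ψ.B0' h3.1]))).cast (w := t • Ψ.b a) (s := 0)
          (by simp [Ψ.B1', Ψ.B0 h1.2]) (by simp [self0 (Ψ.b0 b), Ψ.B0 h1.2, Ψ.B0 (h1.symm bb).2])
        exact this.2) a1 (hall _) (hall _) ((h.symm bb).br bb)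
  refine Ψ.gen_of (fun a s hs => ?_) (fun a c h t => ⟨_, a2 h t⟩) fun a x => ⟨0, hj x ▸ m_zero (Ψ.b0 a)⟩
  obtain ⟨d, rfl⟩ := h0 s hs
  obtain ⟨c, h⟩ : ∃ c, Ind Ψ.bar a c := by
    by_cases h : Ind Ψ.bar a (e 0)
    · exact ⟨_, h⟩
    · refine ⟨e 1, ?_⟩
      rcases not_and_or.1 h with h | h <;> rw [not_not.1 h]
      exacts [i01, i01.bl bb]
  have := ((a2 h 1).neg.mul ((a2 h 1).move (a2 ((h.symm bb).bl bb) d) (Ψ.B0 ((h.symm bb).bl bb).2)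
    (by simp [self0 (Ψ.b0 a)]))).cast (w := d • Ψ.b a) (s := 0)
    (by simp [Ψ.B1', Ψ.B0 h.2]) (by simp [self0 (Ψ.b0 c), Ψ.B0 h.2, Ψ.B0 (h.symm bb).2])
  exact ⟨ok_zero (Ψ.b0 a) (C.tr d), E_self (Ψ.b0 a) d ▸ this.2⟩

end Frm

end Cfsg.Agent.H3.EC
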