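import Cfsg.Agent.H3.TG5
import Cfsg.Agent.H3.TG3
import Cfsg.Agent.H27.SkHInst
import Cfsg.Agent.H67.Unitary

/-! The projective special unitary groups are generated by two elements. -/

set_option autoImplicit false

namespace Cfsg.Agent.H3

open H10 H27 H67 Matrix

theorem gn_of_pow {F : Type*} [Field F] [Fintype F] {q : ℕ} (hF : Fintype.card F = q ^ 2) {l : F} (h0 : l ≠ 0)
    (h : ∀ k, 0 < k → k < q → l ^ k ≠ 1) : Gn l := fun S h1 hS t => by
  classical
  let R0 : Subring F :=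
    { carrier := {a | ∀ t ∈ S, a * t ∈ S}
      mul_mem' := fun ha hb t ht => mul_assoc _ _ t ▸ ha _ (hb t ht)
      one_mem' := fun t ht => by rwa [one_mul]
      add_mem' := fun ha hb t ht => add_mul _ _ t ▸ add_mem (ha t ht) (hb t ht)
      zero_mem' := fun t _ => by rw [zero_mul]; exact zero_mem _
      neg_mem' := fun ha t ht => neg_mul _ t ▸ neg_mem (ha t ht) }
  have h2 := Fintype.one_lt_card (α := F)
  let R : Subfield F := R0.toSubfield fun x hx => by
    rcases eq_or_ne x 0 with rfl | h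
    · simp
    have : x⁻¹ = x ^ (Fintype.card F - 2) := inv_eq_of_mul_eq_one_right (by
      rw [← pow_succ', ← FiniteField.pow_card_sub_one_eq_one x h]; congr 1; omega)
    exact this ▸ pow_mem hx _
  have h3 := Module.card_eq_pow_finrank (K := R) (V := F)
  have h4 := Fintype.one_lt_card (α := R)
  have h5 : l ^ (Fintype.card R - 1) = 1 :=
    congrArg Subtype.val (FiniteField.pow_card_sub_one_eq_one (⟨l, hS⟩ : R) fun e => h0 (congrArg Subtype.val e))
  have h6 : q < Fintype.card R := by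
    by_contra h6
    exact h _ (by omega) (by omega) h5
  have h7 : Module.finrank R F < 2 := (Nat.pow_lt_pow_iff_right h4).1 (by rw [← h3, hF]; gcongr)
  have h8 : Fintype.card F ≤ Fintype.card R := h3 ▸ (Nat.pow_le_pow_right (by omega) (by omega)).trans_eq (pow_one _)
  have h9 : R.toAddSubgroup = ⊤ := AddSubgroup.eq_top_of_le_card _ (by simpa using h8)
  simpa using (h9.ge (AddSubgroup.mem_top t) : t ∈ R0) 1 h1

theorem prim_le {F : Type*} [Field F] [Fintype F] {l : F} (h0 : l ≠ 0) (h : ∀ t : F, t ≠ 0 → ∃ k : ℕ, l ^ k = t)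
    {m : ℕ} (hm : 0 < m) (e : l ^ m = 1) : Fintype.card F - 1 ≤ m := by
  classical
  rw [← Fintype.card_units, ← Nat.card_eq_fintype_card, ← orderOf_eq_card_of_forall_mem_powers (g := Units.mk0 l h0)
    fun x => (h x x.ne_zero).imp fun _ e => Units.ext (by simpa using e)]
  exact orderOf_le_of_pow_eq_one hm (Units.ext (by simpa using e))

variable {F : Type*} [Field F] [Fintype F] {q : ℕ} [hF : Fact (Fintype.card F = q ^ 2)] {n : ℕ}

theorem suB_eq (ζ : F) (x y : Fin n → F) : suB n q ζ x y = ζ * suB n q 1 x y := by simp [suB_apply]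

theorem GG_suB {ζ : F} (h0 : ζ ≠ 0) : GG (suB n q ζ) = GG (suB n q (1 : F)) :=
  Subgroup.comap_injective (toLE (Fin n) F).surjective ((comap_GG_su h0).trans (comap_GG_su one_ne_zero).symm)

theorem exists_skew : ∃ ζ : F, ζ ≠ 0 ∧ cj F q ζ = -ζ := by
  obtain ⟨a, ha⟩ := exists_cj_ne F q
  exact ⟨cj F q a - a, sub_ne_zero.2 ha, by simp [cj_cj]⟩

variable (F) in
/-- The special unitary group. -/
noncomputable def ecSU (hn : ¬ (n = 3 ∧ q = 2)) : EC (cj F q) (Fin n → F) where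
  B := suB n q 1
  L := GG (suB n q 1)
  Par v t := suB n q 1 v v = t + cj F q t
  σσ := cj_cj
  sym x y := by simp [suB_apply, cj_herm]
  iso g hg := hg.1
  map g hg _ _ h := (hg.1 _ _).trans h
  self h := h
  add {v t w s} h h' := by
    simp only [map_add, LinearMap.add_apply, h, h', suB_apply _ w v, suB_apply _ v w, one_mul, cj_herm]; ring
  smul c h := by
    simp only [LinearMap.map_smulₛₗ, LinearMap.smul_apply, h, smul_eq_mul, map_mul, cj_cj, RingHom.id_apply]; ring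
  sub h h' := by simp only [map_zero, map_sub]; linear_combination h - h'
  tr c := by simp [cj_cj]
  ex v := (H10.exists_trace_eq (q := q) (t := suB n q 1 v v) (by simp [suB_apply, cj_herm])).imp fun _ => Eq.symm
  exE {u v t} h1 h2 h3 := by
    obtain ⟨ζ, h0, hζ⟩ := exists_skew (F := F) (q := q)
    obtain ⟨g, hg, e⟩ := (skH_su hn h0 hζ).exists_E (u := -ζ⁻¹ • u) (v := v) (t := ζ * t)
      (by simp [suB_eq ζ, h1]) (by simp [suB_eq ζ, h2]) (by rw [suB_eq ζ, h3, map_mul, hζ]; ring)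
    refine ⟨g, GG_suB (q := q) h0 ▸ hg, fun z => (e z).trans ?_⟩
    simp only [LinearMap.map_smulₛₗ, LinearMap.smul_apply, suB_eq ζ, smul_eq_mul, map_neg, map_inv₀, hζ]
    match_scalars <;> field_simp
  gen K hK := by
    obtain ⟨ζ, h0, hζ⟩ := exists_skew (F := F) (q := q)
    refine GG_suB (q := q) h0 ▸ (skH_su hn h0 hζ).gen K fun v hv c hc => ?_
    obtain ⟨g, hg, e⟩ := hK v 0 (-(c * ζ)) (by simpa [suB_eq ζ, h0] using hv) (map_zero _) (by simp [hc, hζ])
    exact ⟨g, hg, fun z => by simp [e, suB_eq ζ, mul_assoc]⟩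

theorem two_psu_of (hn : ¬ (n = 3 ∧ q = 2)) (h : TwoG (ecSU F hn).L) :
    ∃ a b : PSU n F q, Subgroup.closure {a, b} = ⊤ := by
  refine TwoG.range (f := (toLE (Fin n) F).toMonoidHom.comp ((GU n F q).subtype.comp (suToGU n F q)))
    (fun a b h => suToGU_injective (Subtype.ext ((toLE _ F).injective h))) ?_
  convert h
  ext g
  obtain ⟨g, rfl⟩ := (toLE (Fin n) F).surjective g
  refine Iff.trans ⟨?_, fun h => ?_⟩ (Subgroup.ext_iff.1 (comap_GG_su (q := q) one_ne_zero) g).symm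
  · rintro ⟨a, ha⟩
    obtain rfl : (suToGU n F q a).1 = g := (toLE _ F).injective ha
    exact ⟨(suToGU n F q a).2, Units.ext a.1.2⟩
  · obtain ⟨a, ha⟩ := (mem_range_suToGU ⟨g, h.1⟩).2 (congrArg Units.val h.2)
    exact ⟨a, congrArg (fun x : GU n F q => toLE (Fin n) F x.1) ha⟩

theorem exists_frame {T : Type} [Fintype T] [DecidableEq T] (hT : Fintype.card T = n) {bar : T → T}
    (bb : ∀ a, bar (bar a) = a) : ∃ b : T → Fin n → F, (∀ s t, suB n q 1 (b s) (b t) = if t = bar s then 1 else 0) ∧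
      ∀ v, ∃ w : T → F, v = ∑ t, w t • b t := by
  let κ := Fintype.equivFinOfCardEq hT
  let H : Matrix (Fin n) (Fin n) F := of fun i j => if κ.symm j = bar (κ.symm i) then 1 else 0
  have e : ∀ s t, t = bar s ↔ s = bar t := fun s t => ⟨fun h => by rw [h, bb], fun h => by rw [h, bb]⟩
  have h2 : H * H = 1 := by
    ext i j
    rw [mul_apply, ← κ.sum_comp, Finset.sum_eq_single (bar (κ.symm i)) (by simp +contextual [H]) (by simp)]
    simp [H, bb, one_apply, eq_comm]
  obtain ⟨c, -, hc⟩ := exists_cjT_mul_self (q := q) (H := H) (by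
    ext i j; simp [H, cjT_apply, apply_ite (cj F q), e (κ.symm j)]) (IsUnit.of_mul_eq_one _ h2)
  obtain ⟨u, rfl⟩ : IsUnit c := isUnit_of_mul_isUnit_right (hc ▸ IsUnit.of_mul_eq_one _ h2)
  refine ⟨fun t i => u.1 i (κ t), fun s t => ?_, fun v => ⟨fun t => (u⁻¹.1 *ᵥ v) (κ t), ?_⟩⟩
  · simpa [H, mul_apply, cjT_apply, suB_apply, herm_eq, mul_comm] using congrFun (congrFun hc (κ s)) (κ t)
  · ext i
    have : v = u.1 *ᵥ (u⁻¹.1 *ᵥ v) := by rw [mulVec_mulVec, Units.mul_inv, one_mulVec]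
    rw [congrFun this i, mulVec, dotProduct, ← κ.sum_comp]
    simp [mul_comm]

theorem two_psu (hn : 3 ≤ n) (h32 : ¬ (n = 3 ∧ q = 2)) : ∃ a b : PSU n F q, Subgroup.closure {a, b} = ⊤ := by
  refine two_psu_of h32 ?_
  have hall : ∀ {k} a, InE Sum.swap (k + 1) (eN k) a := fun a => eN_in (by rcases a with a | a <;> exact a.2)
  have p0 : ∀ {v}, suB n q (1 : F) v v = 0 → (ecSU F h32).Par v 0 := fun h => h.trans (by simp)
  have sw : ∀ {k} (a : Fin k ⊕ Fin k), a.swap ≠ a := fun a => by rcases a with a | a <;> simp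
  obtain ⟨k, rfl | rfl⟩ : ∃ k, n = 2 * (k + 1) ∨ n = 2 * (k + 1) + 1 := ⟨n / 2 - 1, by omega⟩
  · obtain ⟨b, h1, h2⟩ := exists_frame (F := F) (q := q) (T := Fin (k + 1) ⊕ Fin (k + 1)) (n := 2 * (k + 1))
      (by simp; ring) Sum.swap_swap
    let Ψ : (ecSU F h32).Frm (Fin (k + 1) ⊕ Fin (k + 1)) F :=
      ⟨Sum.swap, b, 0, .id F, .id F, Sum.swap_swap, sw, fun a => p0 (by simp [h1, (sw a).symm]), h1, by simp, by simp, by simp, by simpa using h2, by simp⟩
    exact Ψ.twoG_C (k := k + 1) (by omega) eN_ind hall (fun _ => rfl) (fun s hs =>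
      (exists_sub_cj_eq (q := q) (c := -s) (by simpa using neg_eq_of_add_eq_zero_left (hs.symm.trans (map_zero _)))).imp
        fun _ h => by linear_combination h) (exists_cj_ne F q)
  obtain ⟨b, h1, h2⟩ := exists_frame (F := F) (q := q) (T := (Fin (k + 1) ⊕ Fin (k + 1)) ⊕ Unit) (n := 2 * (k + 1) + 1)
    (bar := Sum.map Sum.swap id) (by simp; ring) (by simp)
  let Ψ : (ecSU F h32).Frm (Fin (k + 1) ⊕ Fin (k + 1)) F :=
    ⟨Sum.swap, fun a => b (.inl a), (LinearMap.toSpanSingleton F _ (b (.inr ()))).toAddMonoidHom, .id F, .id F,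
      Sum.swap_swap, sw, fun a => p0 (by simp [h1, (sw a).symm]),
      fun a c => (h1 _ _).trans (by simp), fun a x => by simp [ecSU, h1], by simp [mul_smul], by simp,
      fun v => by
        obtain ⟨w, rfl⟩ := h2 v
        exact ⟨fun a => w (.inl a), w (.inr ()), by simp⟩,
      fun x h => by
        obtain rfl : x = 0 := by simpa [ecSU, h1] using h
        simp⟩
  have jj : ∀ x y, (ecSU F h32).B (Ψ.j x) (Ψ.j y) = cj F q x * y := fun x y => by simp [Ψ, ecSU, h1, mul_comm]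
  have ns : ∀ {s : F}, s ≠ 0 → ∃ g, Ψ.Mn g (Equiv.swap (eN k 0) (Ψ.bar (eN k 0))) ∧
      g (Ψ.b (eN k 0)) = -(cj F q s)⁻¹ • Ψ.b (Ψ.bar (eN k 0)) ∧ g (Ψ.b (Ψ.bar (eN k 0))) = -s • Ψ.b (eN k 0) ∧
      ∀ y, g (Ψ.j y) = Ψ.j (-(cj F q s * s⁻¹) * y) := fun {s} hs => by
    obtain ⟨x, hx⟩ := exists_norm_eq (q := q) (t := s + cj F q s) (by simp [cj_cj, add_comm])
    have : ∀ y, Ψ.j y - (s⁻¹ * (ecSU F h32).B (Ψ.j x) (Ψ.j y)) • Ψ.j x = Ψ.j (-(cj F q s * s⁻¹) * y) := fun y => by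
      rw [jj, Ψ.sj, ← map_sub]; congr 1
      change y - s⁻¹ * (cj F q x * y) * x = _
      linear_combination (exp := 1) (-s⁻¹ * y) * hx - y * mul_inv_cancel₀ hs
    obtain ⟨g, a1, a2, a3, -, a4⟩ := Ψ.exists_ns (x := x) (s := s) ((jj x x).trans (by rw [mul_comm, hx])) hs
      (by simp [hs]) (.inl this) (eN k 0)
    exact ⟨g, a1, a2, a3, fun y => (a4 y).trans (this y)⟩
  obtain ⟨ζ, z0, hζ⟩ := exists_prim F
  obtain ⟨g, m, a1, a2, a3⟩ := ns z0
  have main := fun {h l μ} => Ψ.twoG_BC (h := h) (l := l) (μ := μ) (k := k + 1) (by omega) eN_ind hall m (fun s hs =>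
      (exists_sub_cj_eq (q := q) (c := s) (eq_neg_of_add_eq_zero_right (hs.symm.trans (map_zero _)))).elim
        fun a h => ⟨1, a, by simp [jj, h]⟩) fun t => ⟨1, t, by simp [jj]⟩
  have q2 : 2 ≤ q := by
    have := Fintype.one_lt_card (α := F)
    rw [hF.out] at this
    by_contra h
    interval_cases q <;> simp at this
  have z1 : ∀ m, 0 < m → ζ ^ m = 1 → q ^ 2 - 1 ≤ m := fun m h e => hF.out ▸ prim_le z0 hζ h e
  have z2 : cj F q ζ ≠ 0 := by simpa using z0
  rcases Nat.eq_zero_or_pos k with rfl | hk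
  · obtain ⟨g', m', b1, b2, b3⟩ := ns (one_ne_zero (α := F))
    have z3 : ∀ m, 0 < m → m < q → cj F q ζ ^ (2 * m) ≠ ζ ^ m := fun m h1 h2 e => by
      have e' := congrArg (cj F q) e
      rw [map_pow, map_pow, cj_cj] at e'
      have := z1 (3 * m) (by omega) (mul_left_cancel₀ (pow_ne_zero m z0) (by
        rw [mul_one, ← pow_add, ← e, pow_mul', ← e', ← pow_mul]; congr 1; ring))
      have : q ≠ 2 := fun h => h32 ⟨rfl, h⟩
      have : 3 * q ≤ q ^ 2 := by rw [sq]; gcongr; omega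
      omega
    refine main (h := g * g') (l := Sum.elim (fun _ => ζ) fun _ => (cj F q ζ)⁻¹) (μ := cj F q ζ * ζ⁻¹)
      ⟨mul_mem m.1 m'.1, fun a => ?_, fun x => by simp [a3, b3]⟩ (fun h => z3 1 one_pos q2 ?_)
      (gn_of_pow hF.out (by simp [eN, z0]) fun m h1 h2 h => z3 m h1 h2 ?_) (fun h => z3 1 one_pos q2 ?_)
      fun h => z3 1 one_pos q2 ?_
    · rcases a with a | a <;> rw [Subsingleton.elim (α := Fin 1) a 0]
      · simpa [eN, Ψ] using show (g * g') (Ψ.b (eN 0 0)) = ζ • Ψ.b (eN 0 0) by simp [b1, a2]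
      · simpa [eN, Ψ] using show (g * g') (Ψ.b (Ψ.bar (eN 0 0))) = (cj F q ζ)⁻¹ • Ψ.b (Ψ.bar (eN 0 0)) by
          simp [b2, a1]
    · simp [Ψ, eN] at h; field_simp at h; simpa using h
    · simp [Ψ, eN, mul_pow] at h; field_simp at h; rw [pow_mul']; exact h
    all_goals
      simp [Ψ, eN, cj_cj] at h; field_simp at h
      have := congrArg (cj F q) h
      simpa [cj_cj] using this.symm
  · obtain ⟨h, l, D, l1, l2, -⟩ := Ψ.exists_dg ((eN_ind 0 (by omega) k (by omega) hk.ne).br Ψ.bb) z2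
    have z3 : ζ ≠ 1 := fun h => by
      have := z1 1 one_pos (by simp [h])
      have : 2 * 2 ≤ q ^ 2 := by rw [sq]; gcongr
      omega
    exact main D (by simpa [Ψ, l1, cj_cj] using z3) (by simpa [Ψ, l1, cj_cj] using gn_of_prim hζ)
      (by rw [Nat.add_sub_cancel, l2]; simpa [Ψ, cj_cj] using z3)
      (by rw [Nat.add_sub_cancel, l2]; simpa [Ψ, cj_cj] using z3)

end Cfsg.Agent.H3
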