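import Cfsg.Agent.H3.Lev3
import Cfsg.Agent.H3.Gauss
import Cfsg.Agent.H3.Pull
import Cfsg.Agent.H38.Gen2

/-! Squares of conjugacy classes in root groups. -/

set_option autoImplicit false

namespace Cfsg.Agent.H3

open H38 H39 Lev
open scoped MatrixGroups

/-- Modulo the centre, the group is the square of a class. -/
def Sq (G : Type*) [Group G] : Prop :=
  ∃ c : G, ∀ g, ∃ x y, ∃ z ∈ Subgroup.center G, g = z * ((x * c * x⁻¹) * (y * c * y⁻¹))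

variable {G : Type*} [Group G]

theorem Sq.map {Q : Type*} [Group Q] (h : Sq G) (π : G →* Q) (hπ : Function.Surjective π)
    (hz : Subgroup.center G ≤ π.ker) : ∃ c : Q, ∀ g, ∃ x y, g = (x * c * x⁻¹) * (y * c * y⁻¹) := by
  obtain ⟨c, h⟩ := h
  refine ⟨π c, fun g => ?_⟩
  obtain ⟨g, rfl⟩ := hπ g
  obtain ⟨x, y, z, hz', rfl⟩ := h g
  exact ⟨π x, π y, by simp [show π z = 1 from hz hz']⟩

theorem lang [Finite G] {K : Subgroup G} {c : G} (h1 : ∀ v ∈ K, c * v * c⁻¹ ∈ K) (h2 : ∀ v ∈ K, c * v * c⁻¹ = v → v = 1)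
    {v : G} (hv : v ∈ K) : ∃ y, v * c = y * c * y⁻¹ := by
  obtain ⟨y, hy⟩ := (Finite.injective_iff_surjective (f := fun y : K =>
    (⟨y * (c * (y : G)⁻¹ * c⁻¹), mul_mem y.2 (h1 _ (inv_mem y.2))⟩ : K))).1 (fun ⟨a, ha⟩ ⟨b, hb⟩ e => Subtype.ext (by
      have e : a * (c * a⁻¹ * c⁻¹) = b * (c * b⁻¹ * c⁻¹) := congrArg Subtype.val e
      refine (inv_mul_eq_one.1 (h2 _ (mul_mem (inv_mem hb) ha) (mul_inv_eq_one.1 ?_).symm)).symm
      rw [show b⁻¹ * a * (c * (b⁻¹ * a) * c⁻¹)⁻¹ = b⁻¹ * (a * (c * a⁻¹ * c⁻¹)) * (c * b * c⁻¹) by group, e]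
      group)) ⟨v, hv⟩
  exact ⟨y, by rw [← show _ = v from congrArg Subtype.val hy]; simp [mul_assoc]⟩

theorem sq_of {c : G} (h1 : ∀ g ∉ Subgroup.center G, ∃ a x y, a * g * a⁻¹ = (x * c * x⁻¹) * (y * c * y⁻¹))
    (h2 : ∃ x y, (x * c * x⁻¹) * (y * c * y⁻¹) ∈ Subgroup.center G) : Sq G := by
  refine ⟨c, fun g => ?_⟩
  by_cases h : g ∈ Subgroup.center G
  · obtain ⟨x, y, h2⟩ := h2
    exact ⟨x, y, _, mul_mem h (inv_mem h2), by group⟩
  · obtain ⟨a, x, y, e⟩ := h1 g h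
    exact ⟨a⁻¹ * x, a⁻¹ * y, 1, one_mem _, by rw [show g = a⁻¹ * (a * g * a⁻¹) * a by group, e]; group⟩

section SL
variable {F : Type*} [Field F] [Finite F] {m : ℕ}

theorem ex_ppow (p : ℕ) [Fact p.Prime] [CharP F p] {f S} (h : (ClA.rs m).Cl f S) {u} (hu : u ∈ (ClA.rg m F).US S) :
    ∃ k, u ^ p ^ k = 1 := (H64.isPGroup_US p _ ClA.faithful.sep h ⟨u, hu⟩).imp fun _ e => congrArg Subtype.val e

/-- A product of root elements. -/
def pr (ρ : Fin m → ClA.Rt (m + 1)) (c : Fin m → F) : SL(m + 1 + 1, F) :=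
  ((List.finRange m).map fun j => ClA.x F (ρ j) (c j)).prod

omit [Finite F] in
theorem pr_mem {ρ : Fin m → ClA.Rt (m + 1)} (c : Fin m → F) {S} (h : ∀ j, ρ j ∈ S) : pr ρ c ∈ (ClA.rg (m + 1) F).US S :=
  list_prod_mem fun _ hx => by
    obtain ⟨j, -, rfl⟩ := List.mem_map.1 hx
    exact (ClA.rg (m + 1) F).x_mem (h j) _

omit [Finite F] in
theorem pr_eq (ρ : Fin m → ClA.Rt (m + 1)) (c : Fin m → F) :
    pr ρ c = (((List.finRange m).map fun j => (ρ j, c j)).map fun p => ClA.x F p.1 p.2).prod := by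
  rw [List.map_map]; rfl

theorem reg1 {c : Fin m → F} (hc : ∀ j, c j ≠ 0) : Reg (pr (fun j => (ClA.rs (m + 1)).sp j.castSucc) c) := by
  obtain ⟨p, _⟩ := CharP.exists F
  haveI := Fact.mk (CharP.char_is_prime F p)
  obtain ⟨k, hk⟩ := ex_ppow p (ClA.rs _).cl_pos (pr_mem c fun j => (ClA.rs (m + 1)).pos_sp j.castSucc)
  rw [pr_eq] at hk ⊢
  refine reg_prod p _ ?_ ?_ (i0 := 0) (fun i a b => ?_) hk
  · rw [List.map_map]
    exact (List.nodup_finRange m).map fun i j h => by simpa [ClA.sp_eq] using h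
  · simp [hc, ClA.sp_eq]
  · obtain ⟨i, rfl⟩ := Fin.exists_succ_eq.2 a
    obtain ⟨i, rfl⟩ := Fin.exists_castSucc_eq.2 (show i ≠ Fin.last m by rintro rfl; exact b rfl)
    simp [ClA.sp_eq]

theorem reg2 {c : Fin m → F} (hc : ∀ j, c j ≠ 0) :
    Reg (pr (fun j => (ClA.rs (m + 1)).neg ((ClA.rs (m + 1)).sp j.castSucc)) c) := by
  obtain ⟨p, _⟩ := CharP.exists F
  haveI := Fact.mk (CharP.char_is_prime F p)
  obtain ⟨k, hk⟩ := ex_ppow p (ClA.rs _).cl_neg (pr_mem c fun j => (ClA.rs (m + 1)).not_pos_neg_sp j.castSucc)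
  rw [pr_eq] at hk ⊢
  refine reg_prod p _ ?_ ?_ (i0 := (Fin.last m).castSucc) (fun i a b => ?_) hk
  · rw [List.map_map]
    exact (List.nodup_finRange m).map fun i j h => by simpa [ClA.sp_eq, ClA.neg_rt] using h
  · simp [hc, ClA.sp_eq, ClA.neg_rt, ← Fin.castSucc_succ]
  · obtain ⟨i, rfl⟩ := Fin.exists_castSucc_eq.2 b
    obtain ⟨i, rfl⟩ := Fin.exists_castSucc_eq.2 (show i ≠ Fin.last m by rintro rfl; exact a rfl)
    simp [ClA.sp_eq, ClA.neg_rt]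

end SL

variable {ι R : Type} [Fintype ι] [DecidableEq ι] {P : RS ι R} {F : Type*} [Field F] {X : RG P F G} [Fintype R]
  (hX : X.Faithful) {t : G} {χ : R → F} (ht : X.Chr t χ)
include ht

omit [Fintype R] in
theorem chr_pow (k : ℕ) : X.Chr (t ^ k) fun r => χ r ^ k := fun r u => by
  induction k with
  | zero => simp
  | succ k ih => beta_reduce; rw [pow_succ', pow_succ', mul_assoc (χ r), ← ht, ← ih]; group

include hX

theorem eq_one_of_fix {f : (ι → ℤ) →ₗ[ℤ] ℤ} {S : Set R} (hS : P.Cl f S) (h : ∀ r ∈ S, χ r ≠ 1) {y : G}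
    (hy : y ∈ X.US S) (e : t * y * t⁻¹ = y) : y = 1 := by
  classical
  have hL : ∀ r, r ∈ S.toFinset.toList ↔ r ∈ S := by simp
  obtain ⟨a, rfl⟩ := X.exists_prodL hS hL (Finset.nodup_toList _) hy
  have : ∀ L, t * X.prodL L a * t⁻¹ = X.prodL L fun r => χ r * a r := fun L => by
    induction L with
    | nil => simp [X.prodL_nil]
    | cons r L ih => rw [X.prodL_cons, X.prodL_cons, ← ih, ← ht]; group
  rw [this] at e
  rw [← X.prodL_zero S.toFinset.toList]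
  exact X.prodL_congr fun r hr => (mul_left_eq_self₀.1 (X.prodL_inj hX.sep hS (fun r => (hL r).1)
    (Finset.nodup_toList _) e r hr)).resolve_left (h r ((hL r).1 hr))

theorem lang_US [Finite G] (p : ℕ) [Fact p.Prime] [CharP F p] {f : (ι → ℤ) →ₗ[ℤ] ℤ} {S : Set R} (hS : P.Cl f S)
    (h : ∀ r ∈ S, χ r ≠ 1) {u : G} (hc : Commute t u) {k : ℕ} (hk : u ^ p ^ k = 1)
    (hu : t * u ∈ Subgroup.normalizer (X.US S : Set G)) {y v : G} (hy : y ∈ Subgroup.normalizer (X.US S : Set G))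
    (hv : v ∈ X.US S) : (∃ x, v * (y * (t * u) * y⁻¹) = x * (t * u) * x⁻¹) ∧
      ∃ x, y * (t * u) * y⁻¹ * v = x * (t * u) * x⁻¹ := by
  have key : ∀ v ∈ X.US S, ∃ x, v * (t * u) = x * (t * u) * x⁻¹ := fun v =>
    lang (fun v => (Subgroup.mem_normalizer_iff.1 hu v).1) fun v hv e =>
      eq_one_of_fix hX (chr_pow ht (p ^ k)) hS (fun r hr e => h r hr (sub_eq_zero.1 (pow_eq_zero_iff
        (pow_ne_zero k (Fact.out : p.Prime).ne_zero) |>.1 (by rw [sub_pow_char_pow, e]; simp)))) hv (by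
          have := (show Commute (t * u) v from mul_inv_eq_iff_eq_mul.1 e).pow_left (p ^ k)
          rw [hc.mul_pow, hk, mul_one] at this
          exact mul_inv_eq_iff_eq_mul.2 this)
  have h1 := (Subgroup.mem_normalizer_iff''.1 hy v).1 hv
  obtain ⟨x, e⟩ := key _ h1
  obtain ⟨x', e'⟩ := key _ ((Subgroup.mem_normalizer_iff.1 hu _).1 h1)
  exact ⟨⟨y * x, by rw [show y * x * (t * u) * (y * x)⁻¹ = y * (x * (t * u) * x⁻¹) * y⁻¹ by group, ← e]; group⟩,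
    y * x', by rw [show y * x' * (t * u) * (y * x')⁻¹ = y * (x' * (t * u) * x'⁻¹) * y⁻¹ by group, ← e']; group⟩

omit [Fintype R] in
theorem chr_neg (hH : t ∈ X.H) (r : R) : χ (P.neg r) * χ r = 1 := by
  obtain ⟨c, h1, h2⟩ := X.acts_of_mem_H hH
  have : ∀ r, χ r = c r := fun r => by simpa using hX.x_inj r ((ht r 1).symm.trans (h2 r 1))
  rw [this, this, h1]

omit hX [Fintype R] in
theorem real_center (hG : X.grp = ⊤) {n : G} {w : Equiv.Perm R} (hn : X.Rep n w) (h : ∀ r, χ (w r) * χ r = 1) :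
    n * t * n⁻¹ * t ∈ Subgroup.center G := mem_center_of_comm hG fun r u => by
  have := h (w⁻¹ r)
  rw [Equiv.Perm.coe_inv, Equiv.apply_symm_apply, ← Equiv.Perm.coe_inv] at this
  rw [mul_inv_rev, ← mul_assoc, mul_assoc _ t, mul_assoc _ (t * _), ht, ht.conj hn.acts, ← mul_assoc, mul_comm (χ _), this,
    one_mul]

variable [Finite F] [Finite G] (hG : X.grp = ⊤) (hP : P.Conn) (hH : t ∈ X.H) {w : Equiv.Perm R} (hw : w ∈ P.W)
  (hr : ∀ r, χ (w r) * χ r = 1)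
include hG hP hH hw hr

theorem sq_reg (h : ∀ r, χ r ≠ 1) : Sq G := by
  obtain ⟨p, _⟩ := CharP.exists F
  haveI := Fact.mk (CharP.char_is_prime F p)
  refine sq_of (c := t) (fun g hg => ?_) ?_
  · obtain ⟨a, v, hv, u, hu, e⟩ := gauss hX hG (h_mul_fin X hX) hP hg (mul_mem hH hH)
    obtain ⟨x, e1⟩ := (lang_US hX ht p P.cl_neg (fun r _ => h r) (.one_right t) (k := 0) (one_pow _)
      (by simpa using X.H_le_normalizer _ hH) (one_mem _) hv).1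
    obtain ⟨y, e2⟩ := (lang_US hX ht p P.cl_pos (fun r _ => h r) (.one_right t) (k := 0) (one_pow _)
      (by simpa using X.H_le_normalizer _ hH) (one_mem _) hu).2
    simp only [mul_one, one_mul, inv_one] at e1 e2
    exact ⟨a, x, y, by rw [e, ← e1, ← e2]; group⟩
  · obtain ⟨n, hn⟩ := X.exists_rep hw
    exact ⟨n, 1, by simpa using real_center ht hG hn hr⟩

theorem sq_levi {m : ℕ} (hm : 1 ≤ m) {e : Fin (m + 1) → ι} (he : Function.Injective e)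
    (hC : ∀ i j, (ClA.rs (m + 1)).C i j = P.C (e i) (e j)) (h1 : ∀ j : Fin m, χ (P.sp (e j.castSucc)) = 1)
    (h2 : χ (P.sp (e (Fin.last m))) ^ 2 ≠ 1) (h3 : ∀ r, ¬ P.InJ (Set.range e) r → χ r ≠ 1)
    (h4 : (∀ j : Fin m, w (P.sp (e j.castSucc)) = P.sp (e j.castSucc)) ∨
      ∀ j : Fin m, w (P.sp (e j.castSucc)) = P.neg (P.sp (e j.castSucc))) : Sq G := by
  obtain ⟨p, _⟩ := CharP.exists F
  haveI := Fact.mk (CharP.char_is_prime F p)
  obtain ⟨φ, f1, f2, f3⟩ := exists_levi hX (by omega) he hC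
  have c0 : ∀ r, χ r ≠ 0 := fun r => right_ne_zero_of_mul_eq_one (chr_neg hX ht hH r)
  have c1 : ∀ r, χ (P.neg r) = (χ r)⁻¹ := fun r => eq_inv_of_mul_eq_one_left (chr_neg hX ht hH r)
  set s := (χ (P.sp (e (Fin.last m))))⁻¹ with hs
  have s0 : s ≠ 0 := inv_ne_zero (c0 _)
  have s2 : s ^ 2 ≠ 1 := by simpa [hs] using h2
  have s1 : s ≠ 1 := fun h => s2 (by simp [h])
  have k1 : ∀ A, φ A * t = t * φ (ep m s0 A) := fun A => by
    refine (mul_inv_eq_iff_eq_mul.1 (H37.sl_le (K := ((MulAut.conj t).toMonoidHom.comp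
      (φ.comp (ep m s0))).eqLocus φ) (fun i u => ?_) A)).symm
    change t * φ (ep m s0 _) * t⁻¹ = _ ∧ t * φ (ep m s0 _) * t⁻¹ = _
    rw [ep_x, ep_x, (f1 _ _).1, (f1 _ _).1, (f1 _ _).2, (f1 _ _).2, ht, ht, c1, ClA.sp_eq, ClA.neg_rt]
    refine i.lastCases ?_ (fun j => ?_) <;> constructor <;> congr 1
    · simp [Fin.castSucc_ne_last, hs, c0, mul_comm u]
    · simp [Fin.castSucc_ne_last, hs, c0]
    all_goals simp [Fin.castSucc_ne_last, h1, ← Fin.castSucc_succ]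
  have k2 : ∀ A, φ A ∈ X.US {r | P.InJ (Set.range e) r} := fun A => H37.sl_le (K := .comap φ (X.US _)) (fun i u =>
    ⟨by rw [Subgroup.mem_comap, (f1 i u).1]; exact X.x_mem (by exact P.inJ_sp.2 ⟨i, rfl⟩) _,
      by rw [Subgroup.mem_comap, (f1 i u).2]; exact X.x_mem (by exact P.inJ_neg.2 (P.inJ_sp.2 ⟨i, rfl⟩)) _⟩) A
  have n1 : ∀ A, φ A ∈ Subgroup.normalizer (X.US {r | P.Pos r ∧ ¬ P.InJ (Set.range e) r} : Set G) := fun A =>
    X.US_le_normalizer (fun r hr s hs => ⟨fun e => hs.2 (e ▸ P.inJ_neg.2 hr), fun k hk =>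
      hk.pos_not_inJ (.inr hr) hs.1 hs.2⟩) (k2 A)
  have n0 : ∀ {r s k}, P.Comb r s k → ¬ P.Pos r ∨ P.InJ (Set.range e) r → ¬ P.Pos s ∧ ¬ P.InJ (Set.range e) s →
      ¬ P.Pos k ∧ ¬ P.InJ (Set.range e) k := fun {r s k} ⟨a, b, ha, hb, hk⟩ hr hs => by
    have := RS.Comb.pos_not_inJ (r := P.neg r) (s := P.neg s) (k := P.neg k) ⟨a, b, ha, hb, by
      simp [P.cf_neg, hk, add_comm]⟩ (hr.imp P.pos_neg_iff.2 P.inJ_neg.2) (P.pos_neg_iff.2 hs.1) (P.inJ_neg.not.2 hs.2)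
    exact ⟨P.pos_neg_iff.1 this.1, P.inJ_neg.not.1 this.2⟩
  have n2 : ∀ A, φ A ∈ Subgroup.normalizer (X.US {r | ¬ P.Pos r ∧ ¬ P.InJ (Set.range e) r} : Set G) := fun A =>
    X.US_le_normalizer (fun r hr s hs => ⟨fun e => hs.2 (e ▸ P.inJ_neg.2 hr), fun k hk => n0 hk (.inr hr) hs⟩) (k2 A)
  have p1 : ∀ ρ c, φ (pr ρ c) = ((List.finRange m).map fun j => φ (ClA.x F (ρ j) (c j))).prod := fun ρ c => by
    rw [pr, map_list_prod, List.map_map]; rfl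
  let ρ1 : Fin m → ClA.Rt (m + 1) := fun j => (ClA.rs (m + 1)).sp j.castSucc
  let ρ2 : Fin m → ClA.Rt (m + 1) := fun j => (ClA.rs (m + 1)).neg ((ClA.rs (m + 1)).sp j.castSucc)
  have m1 : ∀ c, Commute t (φ (pr ρ1 c)) := fun c => p1 _ _ ▸ Commute.list_prod_right _ _ fun _ hx => by
    obtain ⟨j, -, rfl⟩ := List.mem_map.1 hx
    exact mul_inv_eq_iff_eq_mul.1 (by rw [(f1 _ _).1, ht, h1, one_mul])
  have m2 : ∀ c, Commute t (φ (pr ρ2 c)) := fun c => p1 _ _ ▸ Commute.list_prod_right _ _ fun _ hx => by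
    obtain ⟨j, -, rfl⟩ := List.mem_map.1 hx
    exact mul_inv_eq_iff_eq_mul.1 (by rw [(f1 _ _).2, ht, c1, h1, inv_one, one_mul])
  have t0 : TyM s (pr ρ1 1) := (reg1 (c := 1) (by simp)).ty
  have k3 : ∀ A, TyM s A → ∃ y, t * φ A = φ y * (t * φ (pr ρ1 1)) * (φ y)⁻¹ := fun A hA => by
    obtain ⟨y, rfl⟩ := t0.conj s0 s1 hA
    exact ⟨y, by rw [← mul_assoc, k1, map_mul, map_mul, map_inv]; group⟩
  refine sq_of (c := t * φ (pr ρ1 1)) (fun g hg => ?_) ?_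
  · obtain ⟨a, v, hv, u, hu, E⟩ := gauss hX hG (h_mul_fin X hX) hP hg (mul_mem hH hH)
    obtain ⟨v1, hv1, v2, hv2, rfl⟩ := X.exists_mul_of_mem_US P.cl_neg (S₁ := {r | ¬ P.Pos r ∧ ¬ P.InJ (Set.range e) r})
      (S₂ := {r | ¬ P.Pos r ∧ P.InJ (Set.range e) r}) (Set.ext fun r => (and_iff_left (em' _)).symm.trans and_or_left) hv
    obtain ⟨u2, hu2, u1, hu1, rfl⟩ := X.exists_mul_of_mem_US P.cl_pos (S₁ := {r | P.Pos r ∧ P.InJ (Set.range e) r})
      (S₂ := {r | P.Pos r ∧ ¬ P.InJ (Set.range e) r}) (Set.ext fun r => (and_iff_left (em _)).symm.trans and_or_left) hu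
    obtain ⟨v3, hv3, e3⟩ := f3 _ (X.H_conj_mem_US (inv_mem (mul_mem hH hH)) hv2)
    obtain ⟨u3, hu3, rfl⟩ := f2 _ hu2
    obtain ⟨A, B, hA, hB, e4⟩ := twoM s0 s2 hv3 hu3
    obtain ⟨y1, e5⟩ := k3 A hA
    obtain ⟨y2, e6⟩ := k3 B hB
    obtain ⟨k, hk⟩ := ex_ppow p (ClA.rs _).cl_pos (pr_mem (ρ := ρ1) (1 : Fin m → F) fun j => (ClA.rs _).pos_sp _)
    have hk' : φ (pr ρ1 1) ^ p ^ k = 1 := by rw [← map_pow, hk, map_one]
    obtain ⟨x, e1⟩ := (lang_US hX ht p (f := -htL ι) ⟨fun r hr s hs k hk => n0 hk (.inl hr.1) hs,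
      fun r hr => P.cl_neg.pos r hr.1⟩ (fun r hr => h3 r hr.2) (m1 1) hk'
      (mul_mem (X.H_le_normalizer _ hH) (n2 _)) (n2 y1) hv1).1
    obtain ⟨y, e2⟩ := (lang_US hX ht p (P.cl_UJ _) (fun r hr => h3 r hr.2) (m1 1) hk'
      (mul_mem (X.H_le_normalizer _ hH) (n1 _)) (n1 y2) hu1).2
    refine ⟨a, x, y, ?_⟩
    rw [E, ← e1, ← e2, ← e5, ← e6, show v1 * (t * φ A) * (t * φ B * u1) = v1 * t * (φ A * t) * φ B * u1 by group, k1,
      mul_assoc _ _ (φ B), mul_assoc t _ (φ B), ← map_mul, ← e4, map_mul, e3]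
    simp [mul_assoc]
  · obtain ⟨n, hn⟩ := X.exists_rep hw
    choose c hc hc' using fun j : Fin m => hn.acts.exists_conj (P.sp (e j.castSucc))
    obtain ⟨u, hu, u1, u2⟩ : ∃ u, Reg u ∧ Commute t (φ u) ∧ n * φ (pr ρ1 1) * n⁻¹ = φ u := by
      have : n * φ (pr ρ1 1) * n⁻¹ = ((List.finRange m).map fun j => X.x (w (P.sp (e j.castSucc))) (c j)).prod := by
        rw [p1, ← MulAut.conj_apply, map_list_prod, List.map_map]
        exact congrArg _ (List.map_congr_left fun j _ => by simp [ρ1, (f1 _ _).1, hc'])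
      rcases h4 with h | h
      · exact ⟨_, reg1 hc, m1 c, by rw [this, p1]; simp only [h, (f1 _ _).1]⟩
      · exact ⟨_, reg2 hc, m2 c, by rw [this, p1]; simp only [h, (f1 _ _).2]⟩
    obtain ⟨y, hy⟩ := k3 _ hu.inv.ty
    refine ⟨n, φ y, ?_⟩
    rw [← hy, show n * (t * φ (pr ρ1 1)) * n⁻¹ = n * t * n⁻¹ * (n * φ (pr ρ1 1) * n⁻¹) by group, u2, map_inv,
      u1.inv_right.eq, mul_assoc, mul_inv_cancel_left]
    exact real_center ht hG hn hr

end Cfsg.Agent.H3
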