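import Cfsg.Agent.H3.Thom1
import Cfsg.Agent.H38.StMat
import Cfsg.Agent.H38.CoxW
import Cfsg.Agent.H38.ClBCD
import Cfsg.Agent.H39.ClassA

/-! Thompson's class square for the split groups over fields with at least nine elements. -/

set_option autoImplicit false

namespace Cfsg.Agent.H3

open H38 H39 Matrix Finset
open scoped MatrixGroups

variable {G : Type*} [Group G] [Finite G] {F : Type*} [Field F] [Finite F] (hF : 9 ≤ Nat.card F)
include hF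

theorem exists_ord : ∃ a : F, a ≠ 0 ∧ ∀ k : ℤ, k ≠ 0 → |k| ≤ 7 → a ^ k ≠ 1 := by
  obtain ⟨a, ha⟩ := IsCyclic.exists_ofOrder_eq_natCard (α := Fˣ)
  refine ⟨a, a.ne_zero, fun k h0 h e => ?_⟩
  have := Int.le_of_dvd (abs_pos.2 h0) ((dvd_abs _ _).2 (orderOf_dvd_iff_zpow_eq_one.2
    (Units.ext (by simpa using e) : a ^ k = 1)))
  rw [ha, Nat.card_units] at this
  omega

/-- The data of a Levi subgroup of type `A`. -/
def LvD {ι R : Type} [Fintype ι] [DecidableEq ι] (P : RS ι R) (c : ι → ℤ) (Q : (m : ℕ) → (Fin (m + 1) → ι) → Prop) : Prop :=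
  (∀ i, c i ≠ 0) ∨ ∃ m, 1 ≤ m ∧ ∃ e : Fin (m + 1) → ι, Function.Injective e ∧
    (∀ i j, (ClA.rs (m + 1)).C i j = P.C (e i) (e j)) ∧ (∀ j : Fin m, c (e j.castSucc) = 0) ∧
    (c (e (Fin.last m)) = 1 ∨ c (e (Fin.last m)) = 2) ∧ (∀ i, (∀ j, e j ≠ i) → c i ≠ 0) ∧ Q m e

section
variable {ι R : Type} [Fintype ι] [DecidableEq ι] [Finite R]

theorem sq_dom {P : RS ι R} {X : RG P F G} (hX : X.Faithful) (hG : X.grp = ⊤) (hP : P.Conn) {c : ι → ℤ} {f : R → ℤ}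
    (hf : ∀ r, f r = ∑ i, c i * P.cf r i) (ht : ∀ a : F, a ≠ 0 → ∃ t ∈ X.H, X.Chr t fun r => a ^ f r)
    (hb : ∀ r, |f r| ≤ 7) (hc : ∀ i, 0 ≤ c i) {w : Equiv.Perm R} (hw : w ∈ P.W) (hr : ∀ i, f (w (P.sp i)) = - c i)
    (h : LvD P c fun m e => (∀ j : Fin m, w (P.sp (e j.castSucc)) = P.sp (e j.castSucc)) ∨
      ∀ j : Fin m, w (P.sp (e j.castSucc)) = P.neg (P.sp (e j.castSucc))) : Sq G := by
  haveI := Fintype.ofFinite R
  obtain ⟨a, a0, ha⟩ := exists_ord hF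
  obtain ⟨t, hH, ht⟩ := ht a a0
  have f1 : ∀ i, f (P.sp i) = c i := fun i => by simp [hf, P.cf_sp, Pi.single_apply]
  have f2 : ∀ r, a ^ f (w r) * a ^ f r = 1 := fun r => by
    have : f (w r) = ∑ j, P.cf r j * f (w (P.sp j)) := by
      simp only [hf, P.W_cf_sum hw r, Finset.sum_apply, Pi.smul_apply, smul_eq_mul, mul_sum]
      rw [sum_comm]; simp only [mul_left_comm]
    rw [← zpow_add₀ a0, this, hf r, ← sum_add_distrib]
    simp [hr, mul_comm]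
  have f3 : ∀ r i, P.cf r i ≠ 0 → c i ≠ 0 → a ^ f r ≠ 1 := fun r i h1 h2 => ha _ (fun e => by
    rw [hf] at e
    rcases P.sign r with s | s
    · exact mul_ne_zero h2 h1 ((sum_eq_zero_iff_of_nonneg fun j _ => mul_nonneg (hc j) (s j)).1 e i (mem_univ _))
    · exact mul_ne_zero h2 h1 ((sum_eq_zero_iff_of_nonpos fun j _ =>
        mul_nonpos_of_nonneg_of_nonpos (hc j) (s j)).1 e i (mem_univ _))) (hb r)
  rcases h with h | ⟨m, hm, e, he, hC, h1, h2, h3, h4⟩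
  · refine sq_reg hX ht hG hP hH hw f2 fun r => ?_
    obtain ⟨i, hi⟩ := Function.ne_iff.1 (P.cf_ne r)
    exact f3 r i hi (h i)
  · refine sq_levi hX ht hG hP hH hw f2 hm he hC (fun j => by simp [f1, h1]) ?_ (fun r hr => ?_) h4
    · rw [f1, ← zpow_natCast, ← _root_.zpow_mul]
      rcases h2 with h | h <;> exact ha _ (by simp [h]) (by simp [h])
    · simp only [RS.InJ, not_forall] at hr
      obtain ⟨i, hi, hr⟩ := hr
      exact f3 r i hr (h3 i fun j e => hi ⟨j, e⟩)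

variable {κ : Type} [Fintype κ] [DecidableEq κ] {E : Euc ι R κ} {X : RG E.rs F G}

omit hF [Finite G] [Finite F] [Finite R] [DecidableEq κ] in
theorem refl_vec (X : RG E.rs F G) (q : R) :
    ∃ w ∈ E.rs.W, ∀ s, E.vec (w s) = E.vec s - (E.cov q ⬝ᵥ E.vec s) • E.vec q := by
  obtain ⟨w, hw, h, -⟩ := E.pairing.exists_refl X q
  exact ⟨w, hw, fun s => by rw [← E.L_cf, ← E.rs_cf, h, map_sub, map_smul, E.rs_cf, E.L_cf, E.L_cf]; rfl⟩

omit [DecidableEq κ] in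
theorem sq_euc (hX : X.Faithful) (hG : X.grp = ⊤) (hP : E.rs.Conn) {l : κ → ℤ}
    (hl : l ∈ AddSubgroup.closure (Set.range E.cov)) (hb : ∀ r, |l ⬝ᵥ E.vec r| ≤ 7) (hc : ∀ i, 0 ≤ l ⬝ᵥ E.vec (E.sp i))
    {w : Equiv.Perm R} (hw : w ∈ E.rs.W) (hr : ∀ r, l ⬝ᵥ E.vec (w r) = - l ⬝ᵥ E.vec r)
    (h : LvD E.rs (fun i => l ⬝ᵥ E.vec (E.sp i)) fun m e =>
      (∀ j : Fin m, E.vec (w (E.sp (e j.castSucc))) = E.vec (E.sp (e j.castSucc))) ∨
      ∀ j : Fin m, E.vec (w (E.sp (e j.castSucc))) = - E.vec (E.sp (e j.castSucc))) : Sq G := by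
  refine sq_dom hF hX hG hP (f := fun r => l ⬝ᵥ E.vec r) (fun r => by rw [← E.dot_L, E.rs_cf, E.L_cf]) (fun a a0 => ?_) hb hc hw
    (fun i => by simp [hr, E.rs_sp]) (h.imp_right fun ⟨m, hm, e, h1, h2, h3, h4, h5, h6⟩ => ⟨m, hm, e, h1, h2, h3, h4, h5,
      h6.imp (fun h j => E.vec_inj (h j)) fun h j => E.vec_inj ((h j).trans (E.vec_neg _).symm)⟩)
  clear hb hc hr h
  induction hl using AddSubgroup.closure_induction generalizing a with
  | mem _ h => obtain ⟨q, rfl⟩ := h; exact (toral_fin E.pairing hX).act q a a0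
  | zero => exact ⟨1, one_mem _, fun r u => by simp⟩
  | add x y _ _ hx hy =>
    obtain ⟨s, hs, h1⟩ := hx a a0
    obtain ⟨t, ht, h2⟩ := hy a a0
    exact ⟨s * t, mul_mem hs ht, fun r u => by
      beta_reduce; rw [add_dotProduct, zpow_add₀ a0, mul_assoc (a ^ _), ← h1, ← h2]; group⟩
  | neg x _ hx =>
    obtain ⟨s, hs, h1⟩ := hx a⁻¹ (inv_ne_zero a0)
    exact ⟨s, hs, by simpa using h1⟩

/-- Sign changes in the Weyl group. -/
def Sg (E : Euc ι R κ) (ε : κ → ℤ) : Prop := ∃ w ∈ E.rs.W, ∀ r, E.vec (w r) = ε * E.vec r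

theorem sq_sg (hX : X.Faithful) (hG : X.grp = ⊤) (hP : E.rs.Conn) {l : κ → ℤ}
    (hl : l ∈ AddSubgroup.closure (Set.range E.cov)) (hb : ∀ r, |l ⬝ᵥ E.vec r| ≤ 7) (hc : ∀ i, 0 ≤ l ⬝ᵥ E.vec (E.sp i))
    (T : Finset κ) (hT : ∀ i ∈ T, ∃ ε, Sg E ε ∧ ε i = -1 ∧ ∀ j ∈ T, j ≠ i → ε j = 1) (hl' : ∀ j ∉ T, l j = 0)
    (h : LvD E.rs (fun i => l ⬝ᵥ E.vec (E.sp i)) fun m e => ∀ j : Fin m, ∀ k ∉ T, E.vec (E.sp (e j.castSucc)) k = 0) :
    Sq G := by
  choose! ε h1 h2 h3 using hT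
  obtain ⟨w, hw, e⟩ : Sg E (∏ i ∈ T, ε i) := prod_induction _ _ (fun a b ⟨v, hv, e⟩ ⟨w, hw, e'⟩ =>
    ⟨v * w, mul_mem hv hw, fun r => by rw [Equiv.Perm.mul_apply, e, e', mul_assoc]⟩) ⟨1, one_mem _, by simp⟩ h1
  have k : ∀ v : κ → ℤ, (∀ j ∉ T, v j = 0) → (∏ i ∈ T, ε i) * v = -v := fun v hv => funext fun j => by
    by_cases hj : j ∈ T
    · rw [Pi.mul_apply, Finset.prod_apply, prod_eq_single_of_mem j hj fun i hi h => h3 i hi j hj h.symm, h2 j hj]; simp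
    · simp [hv j hj]
  refine sq_euc hF hX hG hP hl hb hc hw (fun r => ?_) (h.imp_right fun ⟨m, hm, e', h1, h2, h3, h4, h5, h6⟩ =>
    ⟨m, hm, e', h1, h2, h3, h4, h5, .inr fun j => by rw [e, k _ (h6 j)]⟩)
  rw [e, ← k l hl']
  simp only [dotProduct, Pi.mul_apply, mul_left_comm, mul_assoc]

omit hF [Finite G] [Finite F] [Finite R] in
theorem sg_one (X : RG E.rs F G) (q : R) (i : κ) {a b : ℤ} (h : a * b = 2) (h1 : E.vec q = a • Pi.single i 1)
    (h2 : E.cov q = b • Pi.single i 1) : Sg E fun j => if j = i then -1 else 1 := by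
  obtain ⟨w, hw, e⟩ := refl_vec X q
  refine ⟨w, hw, fun r => funext fun j => ?_⟩
  rw [e, h1, h2]
  by_cases hj : j = i
  · rw [smul_dotProduct]; simp [hj]; linear_combination -E.vec r i * h
  · simp [hj]

end

/-- The certificate for an exceptional group. -/
def Cert (D : Lie.ChevalleyDatum) (c : ℕ → ℤ) (w : ℕ → ℕ) {m : ℕ} (e : Fin (m + 1) → Fin D.rank) : Prop :=
  (∀ r < D.nroots, |c r| ≤ 7) ∧ (∀ i : Fin D.rank, 0 ≤ c (D.simple i) ∧ c (w (D.simple i)) = - c (D.simple i)) ∧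
    ((∀ i : Fin D.rank, c (D.simple i) ≠ 0) ∨ 1 ≤ m ∧ (∀ i j, e i = e j → i = j) ∧
      (∀ i j : Fin (m + 1), (if i = j then 2 else if (i : ℕ) = j + 1 ∨ (j : ℕ) = i + 1 then -1 else 0) =
        D.cartan (e i) (D.simple (e j))) ∧ (∀ j : Fin m, c (D.simple (e j.castSucc)) = 0) ∧
      c (D.simple (e (Fin.last m))) = 1 ∧ (∀ i, (∀ j, e j ≠ i) → c (D.simple i) ≠ 0) ∧
      ∀ j : Fin m, w (D.simple (e j.castSucc)) = D.neg (D.simple (e j.castSucc)))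

set_option synthInstance.maxSize 1000 in
instance decCert (D : Lie.ChevalleyDatum) (c : ℕ → ℤ) (w : ℕ → ℕ) {m : ℕ} (e : Fin (m + 1) → Fin D.rank) :
    Decidable (Cert D c w e) := by unfold Cert; infer_instance

theorem sq_exc {D : Lie.ChevalleyDatum} (hD : H37.IsChev D) (ks : List (Fin D.rank × ℤ)) (l : List ℕ) (k : ℕ) {m : ℕ}
    (e : Fin (m + 1) → Fin D.rank) (hl : ∀ i ∈ l, i < D.rank)
    (h : decide (Cert D (fun r => (ks.map fun k => k.2 * D.cartan k.1 r).sum) (wdN D l)^[k] e) = true) : Sq (D.group F) := by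
  obtain ⟨inst⟩ := H37.nonempty_chev hD
  obtain ⟨hb, h1, h2⟩ := of_decide_eq_true h
  refine sq_dom hF ((mg_faithful hD F).sub (mg_grp hD F)) (RG.sub_grp _ _) (rs_conn hD)
    (c := fun i => (ks.map fun k => k.2 * D.cartan k.1 (D.simple i)).sum)
    (f := fun r => (ks.map fun k => k.2 * D.cartan k.1 r).sum) (fun r => ?_)
    (fun a a0 => ⟨_, RG.hw_mem_H _ a0 ks, by simpa only [rs_A] using RG.chr_hw (mgs hD F) a0 ks⟩) (fun r => hb r r.2) (fun i => (h1 i).1)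
    (pow_mem ((rs D).wd_mem_W (finW D l)) k) (fun i => by rw [wdN_iter hl]; exact (h1 i).2)
    (h2.imp_right fun ⟨a, b, c, d, f, g, h⟩ => ⟨m, a, e, b, fun i j => (H37.clA_C i j).trans (c i j), d, .inl f, g,
      .inr fun j => Fin.ext ((wdN_iter hl _ _).trans (h j))⟩)
  clear hb h1 h2 h
  induction ks with
  | nil => simp
  | cons a ks ih =>
    simp only [List.map_cons, List.sum_cons, ih, add_mul, sum_add_distrib]
    simp only [← rs_A, ← rs_C, RS.A, mul_sum, mul_assoc]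

theorem sqG2 : Sq (Lie.chevG2.group F) := sq_exc hF memG2 [(⟨0, by decide⟩, 3), (⟨1, by decide⟩, 5)] (List.range 2) 3
  (m := 0) (fun _ => ⟨0, by decide⟩) (by decide +kernel) (by decide +kernel)

theorem sqF4 : Sq (Lie.chevF4.group F) := sq_exc hF memF4 (show List (Fin 4 × ℤ) from [(0, 5), (1, 9), (2, 13), (3, 7)])
  (List.range 4) 6 (show Fin 2 → Fin 4 from ![1, 0]) (by decide +kernel) (by decide +kernel)

theorem sqE6 : Sq (Lie.chevE6.group F) := sq_exc hF memE6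
  (show List (Fin 6 × ℤ) from [(0, 5), (1, 6), (2, 9), (3, 12), (4, 9), (5, 5)])
  [0, 1, 2, 0, 3, 1, 2, 0, 3, 2, 4, 3, 1, 2, 0, 3, 2, 4, 3, 1, 5, 4, 3, 1, 2, 0, 3, 2, 4, 3, 1, 5, 4, 3, 2, 0] 1
  (show Fin 3 → Fin 6 from ![1, 3, 4]) (by decide +kernel) (by decide +kernel)

theorem sqE7 : Sq (Lie.chevE7.group F) := sq_exc hF memE7
  (show List (Fin 7 × ℤ) from [(0, 3), (1, 5), (2, 6), (3, 9), (4, 7), (5, 5), (6, 3)]) (List.range 7) 9
  (show Fin 6 → Fin 7 from ![0, 2, 3, 4, 5, 6]) (by decide +kernel) (by decide +kernel)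

theorem sqE8 : Sq (Lie.chevE8.group F) := sq_exc hF memE8
  (show List (Fin 8 × ℤ) from [(0, 7), (1, 11), (2, 14), (3, 21), (4, 17), (5, 13), (6, 9), (7, 5)]) (List.range 8) 15
  (show Fin 7 → Fin 8 from ![0, 2, 3, 4, 5, 6, 7]) (by decide +kernel) (by decide +kernel)

end Cfsg.Agent.H3
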