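import Cfsg.Agent.H3.Thom2

/-! Thompson's class square for the classical groups over fields with at least nine elements. -/

set_option autoImplicit false

namespace Cfsg.Agent.H3

open H38 H39 Matrix Finset
open scoped MatrixGroups

variable {F : Type*} [Field F] [Finite F] (hF : 9 ≤ Nat.card F)

theorem clA_rev {n : ℕ} (i j : Fin n) : (ClA.rs n).C i j = (ClA.rs n).C i.rev j.rev := by
  simp only [H37.clA_C, Fin.ext_iff, Fin.val_rev]
  split_ifs <;> omega

theorem mem_cl {κ : Type} [Fintype κ] [DecidableEq κ] {S : AddSubgroup (κ → ℤ)} {a : ℤ} (h : ∀ i, a • Pi.single i 1 ∈ S)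
    (l : κ → ℤ) : a • l ∈ S := by
  rw [pi_eq_sum_univ' l, smul_sum]
  exact sum_mem fun i _ => by rw [smul_comm]; exact zsmul_mem (h i) _

/-- The vector `(2, 1, …, 1)`. -/
def l0 (n : ℕ) : Fin (n + 1) → ℤ := fun i => if i = 0 then 2 else 1

theorem l0_chain {n : ℕ} (k : Fin n) : l0 n ⬝ᵥ (Pi.single k.castSucc 1 - Pi.single k.succ 1) = if (k : ℕ) = 0 then 1 else 0 := by
  simp [l0, Fin.ext_iff]; split_ifs <;> simp

include hF

theorem sqA (n : ℕ) (hn : 1 ≤ n) : Sq SL(n + 1, F) := by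
  let q : ClA.Rt n := ClA.rt 0 (Fin.last n) (by simp [Fin.ext_iff]; omega)
  obtain ⟨w, hw, e⟩ := refl_vec (ClA.rg n F) q
  have k : ∀ i, ClA.vec q ⬝ᵥ (ClA.euc n).vec ((ClA.euc n).sp i) =
      (if (i : ℕ) = 0 then 1 else 0) + if (i : ℕ) + 1 = n then 1 else 0 := fun i => by
    change ClA.vec (ClA.rt _ _ _) ⬝ᵥ ClA.vec (ClA.rt _ _ _) = _
    simp [ClA.vec_rt, Pi.single_apply, Fin.ext_iff, eq_comm, i.2.ne']
  refine sq_euc hF ClA.faithful ClA.grp_eq_top ClA.conn (l := ClA.vec q) (AddSubgroup.subset_closure ⟨q, rfl⟩)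
    (fun r => ?_) (fun i => by rw [k]; split_ifs <;> omega) hw (fun r => ?_) ?_
  · simp only [ClA.euc_vec, ClA.vec, sub_dotProduct, single_dotProduct, Pi.sub_apply, Pi.single_apply, abs_le]
    split_ifs <;> omega
  · rw [e, dotProduct_sub, dotProduct_smul, ClA.euc_vec, ClA.euc_cov, ClA.vec_dot_self, neg_dotProduct, smul_eq_mul]; ring
  · rcases le_or_gt n 2 with h | h
    · exact .inl fun i => by have := i.2; beta_reduce; rw [k]; split_ifs <;> omega
    · obtain ⟨m, rfl⟩ : ∃ m, n = m + 2 := ⟨n - 2, by omega⟩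
      have k0 : ∀ j : Fin m, ClA.vec q ⬝ᵥ (ClA.euc _).vec ((ClA.euc _).sp j.castSucc.succ) = 0 := fun j => by
        have := j.2; rw [k]; simp; omega
      refine .inr ⟨m, by omega, Fin.succ, Fin.succ_injective _, fun i j => by simp [H37.clA_C], k0, .inl (by simp [k]),
        fun i hi => ?_, .inl fun j => by rw [e, ClA.euc_cov, k0]; simp⟩
      obtain rfl : i = 0 := by_contra fun h => by obtain ⟨j, rfl⟩ := Fin.exists_succ_eq.2 h; exact hi j rfl
      simp [k]

theorem sqC (n : ℕ) (hn : 1 ≤ n) : Sq (symplecticGroup (Fin (n + 1)) F) := by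
  let q : Fin (n + 1) → (frE (n + 1) true).Rt := fun i => Fr.rt (.inl i) (.inr i) ⟨by simp, fun _ => rfl⟩
  have q1 : ∀ i, Fr.cov (q i) = (1 : ℤ) • Pi.single i 1 := fun i => (Fr.cov_rt _).trans (by simp [Fr.cv, frE_bar, frE_wt, wt0])
  have k1 : l0 n ⬝ᵥ (baseC n).euc.vec ((baseC n).euc.sp none) = 2 := by
    change _ ⬝ᵥ Fr.vec (spC n none) = _
    simp [vec_spC_none, l0, Fin.ext_iff]; omega
  have k2 : ∀ k, l0 n ⬝ᵥ (baseC n).euc.vec ((baseC n).euc.sp (some k)) = _ := l0_chain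
  refine sq_sg hF (rgC_faithful n) (rgC_grp n) (connC n) (l := l0 n)
    (one_smul ℤ (l0 n) ▸ mem_cl (fun i => AddSubgroup.subset_closure (by exact ⟨q i, q1 i⟩)) _) ?_ ?_ univ
    (fun i _ => ⟨_, sg_one (rgC F n) (q i) i (a := 2) (b := 1) rfl ?_ (q1 i), by simp, by simp⟩) (by simp) ?_
  · rintro ⟨a | a, b | b, -, -⟩ <;> simp [Fr.Base.euc_vec, Fr.vec, frE_wt, wt0, l0, abs_le] <;> split_ifs <;> omega
  · rintro (_ | k)
    · simp [k1]
    · rw [k2]; split_ifs <;> simp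
  · exact (Fr.vec_rt _).trans (by simp [frE_wt, wt0, two_smul])
  · obtain ⟨m, rfl⟩ : ∃ m, n = m + 1 := ⟨n - 1, by omega⟩
    rcases m.eq_zero_or_pos with rfl | h
    · exact .inl (by rintro (_ | k) <;> simp [k1, k2])
    · refine .inr ⟨m, h, fun j => some j.rev, fun i j h => by simpa using h, fun i j => (clA_rev i j).trans ?_,
        fun j => by have := j.2; simp [k2]; omega, .inl (by simp [k2]), ?_, by simp⟩
      · exact congrArg (· ⬝ᵥ Fr.vec (spC _ (some _))) (show _ = Fr.cov (spC _ (some _)) by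
          simp [ClA.euc, spC, chainE, Fr.cov, Fr.cv, frE_bar, frE_wt, wt0, ClA.vec])
      · rintro (_ | k) h
        · simp [k1]
        · exact absurd (by simp) (h k.rev)

theorem ex01 : ∃ a : F, a ≠ 0 ∧ a ≠ 1 := (exists_ord hF).imp fun _ h => ⟨h.1, by simpa using h.2 1⟩

theorem sqB (m : ℕ) (hm : 1 ≤ m) : Sq (Omega F (quadFormOdd (m + 2) F)) := by
  let X := rgB (F := F) (n := m + 1) (by omega) (.inr (ex01 hF))
  let q : Fin (m + 2) → (frB (m + 2)).Rt := fun i => Fr.rt (.inr (.inl i)) (.inl ()) ⟨by simp, by simp [frB_bar]⟩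
  have q1 : ∀ i, Fr.cov (q i) = (2 : ℤ) • Pi.single i 1 := fun i => (Fr.cov_rt _).trans (by simp [Fr.cv, frB_bar, frB_wt, wt0])
  have k1 : (2 : ℤ) • l0 (m + 1) ⬝ᵥ (baseB _).euc.vec ((baseB _).euc.sp none) = 2 := by
    change _ ⬝ᵥ Fr.vec (spB _ none) = _
    simp [vec_spB_none, l0, Fin.ext_iff]
  have k2 : ∀ k, (2 : ℤ) • l0 (m + 1) ⬝ᵥ (baseB _).euc.vec ((baseB _).euc.sp (some k)) =
      if (k : ℕ) = 0 then 2 else 0 := fun k => by
    rw [smul_dotProduct]; exact (congrArg _ (l0_chain k)).trans (by simp)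
  refine sq_sg hF (X := X) (Fr.Base.rgΩ_faithful _ _) (Fr.Base.rgΩ_grp _ _) (connB _) (l := (2 : ℤ) • l0 (m + 1))
    (mem_cl (fun i => AddSubgroup.subset_closure (by exact ⟨q i, q1 i⟩)) _) ?_ ?_ univ
    (fun i _ => ⟨_, sg_one X (q i) i (a := 1) (b := 2) rfl ?_ (q1 i), by simp, by simp⟩) (by simp) ?_
  · rintro ⟨a | a | a, b | b | b, ⟨-, h⟩, -⟩ <;> simp [frB_bar, frB_lng] at h <;>
      simp [Fr.Base.euc_vec, Fr.vec, frB_wt, wt0, l0, abs_le] <;> split_ifs <;> omega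
  · rintro (_ | k)
    · simp only [k1]; simp
    · rw [k2]; split_ifs <;> simp
  · exact (Fr.vec_rt _).trans (by simp [frB_wt, wt0])
  · refine .inr ⟨m, hm, fun j => some j.rev, fun i j h => by simpa using h, fun i j => (clA_rev i j).trans ?_,
      fun j => by have := j.2; simp only [k2]; simp; omega, .inr (by simp only [k2]; simp), ?_, by simp⟩
    · exact congrArg (· ⬝ᵥ Fr.vec (spB _ (some _))) (show _ = Fr.cov (spB _ (some _)) by
        simp [ClA.euc, spB, Fr.cov, Fr.cv, frB_bar, frB_wt, wt0, ClA.vec])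
    · rintro (_ | k) h
      · simp only [k1]; simp
      · exact absurd (by simp) (h k.rev)

theorem sqD (m : ℕ) (hm : 1 ≤ m) : Sq (Omega F (quadFormPlus (m + 3) F)) := by
  let X := rgD (F := F) (n := m + 1) (.inr (ex01 hF))
  have hq : ∀ i j : Fin (m + 3), i ≠ j → (∃ q : (frE _ false).Rt, Fr.vec q = Pi.single i 1 - Pi.single j 1 ∧ Fr.cov q = Fr.vec q) ∧
      ∃ q : (frE _ false).Rt, Fr.vec q = Pi.single i 1 + Pi.single j 1 ∧ Fr.cov q = Fr.vec q := fun i j h =>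
    have h1 : (frE _ false).Adm (.inl i) (.inl j) := ⟨by simpa, by simp [frE_bar]⟩
    have h2 : (frE _ false).Adm (.inl i) (.inr j) := ⟨by simp, by simp [frE_bar, h]⟩
    ⟨⟨Fr.rt _ _ h1, by rw [Fr.vec_rt, Fr.cov_rt]; simp [Fr.cv, frE_bar, frE_wt, wt0]⟩,
      ⟨Fr.rt _ _ h2, by rw [Fr.vec_rt, Fr.cov_rt]; simp [Fr.cv, frE_bar, frE_wt, wt0, h]⟩⟩
  let l : Fin (m + 1 + 2) → ℤ := fun i => if i = 0 then 2 else if i = Fin.last _ then 0 else 1
  have k1 : (2 : ℤ) • l ⬝ᵥ (baseD _).euc.vec ((baseD _).euc.sp none) = 2 := by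
    change _ ⬝ᵥ Fr.vec (spD _ none) = _
    rw [vec_spD_none, smul_dotProduct, dotProduct_add, dotProduct_single, dotProduct_single]
    simp only [l, Fin.ext_iff, Fin.val_castSucc, Fin.val_last, Fin.val_zero]; simp
  have k2 : ∀ k, (2 : ℤ) • l ⬝ᵥ (baseD _).euc.vec ((baseD _).euc.sp (some k)) =
      if (k : ℕ) = 0 ∨ (k : ℕ) = m + 1 then 2 else 0 := fun k => by
    change _ ⬝ᵥ Fr.vec (spD _ (some k)) = _
    have := k.2
    rw [vec_spD_some, smul_dotProduct, dotProduct_sub, dotProduct_single, dotProduct_single]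
    simp only [l, Fin.ext_iff, Fin.val_castSucc, Fin.val_last, Fin.val_zero, Fin.val_succ, smul_eq_mul, Nat.add_one_ne_zero,
      if_false]
    split_ifs <;> omega
  refine sq_sg hF (X := X) (Fr.Base.rgΩ_faithful _ _) (Fr.Base.rgΩ_grp _ _) (connD _) (l := (2 : ℤ) • l)
    (mem_cl (fun i => ?_) _) ?_ ?_ (univ.erase (Fin.last _)) (fun i hi => ?_) (by simp [l]) ?_
  · obtain ⟨j, h⟩ := exists_ne i
    obtain ⟨⟨q, a1, a2⟩, r, b1, b2⟩ := hq i j h.symm
    rw [show (2 : ℤ) • Pi.single i 1 = Fr.cov q + Fr.cov r by simp [a2, a1, b2, b1, two_smul]]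
    exact add_mem (AddSubgroup.subset_closure ⟨q, rfl⟩) (AddSubgroup.subset_closure ⟨r, rfl⟩)
  · rintro ⟨a | a, b | b, ⟨-, h⟩, -⟩ <;> simp [frE_bar, frE_lng] at h <;>
      simp [Fr.Base.euc_vec, Fr.vec, frE_wt, wt0, l, abs_le] <;> split_ifs <;> omega
  · rintro (_ | k)
    · simp only [k1]; simp
    · rw [k2]; split_ifs <;> simp
  · have hi := (mem_erase.1 hi).1
    obtain ⟨⟨q, a1, a2⟩, r, b1, b2⟩ := hq i _ hi
    obtain ⟨v, hv, e⟩ := refl_vec X q
    obtain ⟨w, hw, e'⟩ := refl_vec X r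
    refine ⟨fun j => if j = i ∨ j = Fin.last _ then -1 else 1, ⟨w * v, mul_mem hw hv, fun s => funext fun j => ?_⟩,
      by simp, by simp +contextual⟩
    rw [Equiv.Perm.mul_apply, e', e, Fr.Base.euc_cov, Fr.Base.euc_vec, a2, b2, a1, b1]
    simp [Pi.single_apply, hi, hi.symm]
    split_ifs <;> simp_all
  · refine .inr ⟨m, hm, fun j => some j.rev.castSucc, fun i j h => by simpa using h, fun i j => (clA_rev i j).trans ?_,
      fun j => by have := j.2; simp only [k2]; simp; omega, .inr (by simp only [k2]; simp), ?_, fun j k hk => ?_⟩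
    · change _ = Fr.cov (spD _ (some _)) ⬝ᵥ Fr.vec (spD _ (some _))
      rw [vec_spD_some]
      simp [H37.clA_C, spD, chainE, Fr.cov, Fr.cv, frE_bar, frE_wt, wt0, Pi.single_apply, Fin.ext_iff]
      split_ifs <;> omega
    · rintro (_ | k) h
      · simp only [k1]; simp
      · obtain rfl : k = Fin.last _ := by_contra fun e => by
          obtain ⟨j, rfl⟩ := Fin.exists_castSucc_eq.2 e
          exact h j.rev (by simp)
        simp only [k2]; simp
    · obtain rfl : k = Fin.last _ := by simpa using hk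
      change Fr.vec (spD _ (some _)) _ = _
      simp [vec_spD_some, Pi.single_apply, Fin.ext_iff]
      split_ifs <;> omega

end Cfsg.Agent.H3
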